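import Cfsg.Agent.Lib.Grp.TwoCover
import Cfsg.Agent.Lib.Grp.DStar
import Cfsg.Agent.Lib.Char.Invol
import Cfsg.Agent.Lib.Block.CentralDef

/-!
# Extensions of `A₅` with an element with centralizer of order four
-/

set_option autoImplicit false
set_option linter.unusedSectionVars false

namespace GT

open Cfsg CT Subgroup

variable {G : Type*} [Group G] [Finite G]

theorem exists_invol_centralizing {S : Subgroup G} (hS : IsPGroup 2 S) (h : S ≠ ⊥) :
    ∃ c ∈ S, c * c = 1 ∧ c ≠ 1 ∧ S ≤ centralizer {c} := by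
  have := (nontrivial_iff_ne_bot S).2 h
  have := hS.center_nontrivial
  obtain ⟨⟨c, hc⟩, h1⟩ := exists_ne (1 : Subgroup.center S)
  obtain ⟨s, hs, h2, h3⟩ := exists_mul_self_mem_zpowers (g := c)
    (by obtain ⟨k, hk⟩ := hS c; exact isPElt_of_pow_eq_one hk) fun h => h1 (Subtype.ext h)
  exact ⟨s, s.2, congrArg Subtype.val h2, fun h => h3 (Subtype.ext h), fun g hg =>
    mem_centralizer_singleton_iff.2 (congrArg Subtype.val
      (mem_center_iff.1 (zpowers_le.2 hc hs) ⟨g, hg⟩))⟩

theorem eq_mul_self_of_card_centralizer {x c : G}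
    (h : Nat.card (centralizer ({x} : Set G)) = 4) (hx : x * x ≠ 1)
    (hc : c ∈ centralizer ({x} : Set G)) (h2 : c * c = 1) : c = 1 ∨ c = x * x := by
  have hxx : x ∈ centralizer ({x} : Set G) := mem_centralizer_singleton_iff.2 rfl
  have h3 : orderOf x ∣ 2 ^ 2 := (orderOf_dvd_natCard _ hxx).trans h.dvd
  have h4 : x * x * (x * x) = 1 := by
    rw [← orderOf_dvd_iff_pow_eq_one.1 h3]; simp [pow_succ, mul_assoc]
  have h5 : zpowers x = centralizer {x} := eq_of_le_of_card_ge (zpowers_le.2 hxx) (by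
    rw [h, Nat.card_zpowers, orderOf_eq_prime_pow (p := 2) (n := 1) (by rwa [pow_one, pow_two])
      (orderOf_dvd_iff_pow_eq_one.1 h3)]; rfl)
  exact eq_of_mul_self_of_mem_zpowers (mul_mem (mem_zpowers x) (mem_zpowers x)) (h5 ▸ hc) h4 hx h2

theorem structure_of_card_centralizer_four {Q : Type*} [Group Q] [IsSimpleGroup Q]
    (hQ : Nat.card Q = 60) {π : G →* Q} (hπ : Function.Surjective π) {u : G} (hu : π u ≠ 1)
    (hV : Nat.card (centralizer ({π u} : Set Q)) = 4)
    (hV2 : ∀ v ∈ centralizer ({π u} : Set Q), v * v = 1)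
    (hc : ∀ x, π x * π x = 1 → π x ≠ 1 → IsConj u x)
    (hC : Nat.card (centralizer ({u} : Set G)) = 4) :
    IsMulCommutative (pPrimeCore 2 G) ∧
      ((Nonempty (G ⧸ pPrimeCore 2 G ≃* Matrix.ProjectiveSpecialLinearGroup (Fin 2) (ZMod 5)) ∧
        orderOf u = 2) ∨
      (Nonempty (G ⧸ pPrimeCore 2 G ≃* Matrix.SpecialLinearGroup (Fin 2) (ZMod 5)) ∧
        orderOf u = 4)) := by
  have := Finite.of_surjective π hπ
  set V := centralizer ({π u} : Set Q)
  have huV : π u ∈ V := mem_centralizer_singleton_iff.2 rfl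
  have hVi : V.index = 15 := by
    have := V.card_mul_index
    rw [hV, hQ] at this
    omega
  have hu4 : u ^ 2 ^ 2 = 1 := orderOf_dvd_iff_pow_eq_one.1
    ((orderOf_dvd_natCard _ (mem_centralizer_singleton_iff.2 rfl)).trans hC.dvd)
  have hzz : u * u * (u * u) = 1 := by rw [← hu4]; simp [pow_succ, mul_assoc]
  have hO : pPrimeCore 2 G ≤ π.ker := (Subgroup.map_eq_bot_iff _).1
    (((inferInstance : (pPrimeCore 2 G).Normal).map π hπ).eq_bot_or_eq_top.resolve_right
      fun h => not_dvd_card_pPrimeCore 2 G ((show 2 ∣ Nat.card ((pPrimeCore 2 G).map π) by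
        rw [h, card_top, hQ]; norm_num).trans (card_map_dvd _ π)))
  have hK : ∀ x ∈ centralizer ({u * u} : Set G), π x ∈ V → π x ≠ 1 → x * x = u * u := by
    intro x hx h1 h2
    have h3 := hc x (hV2 _ h1) h2
    have h4 : x * x = 1 ↔ u * u = 1 := by
      obtain ⟨g, rfl⟩ := isConj_iff.1 h3
      rw [conj_mul, conj_eq_one_iff]
    by_cases h5 : u * u = 1
    · rw [h5, h4.2 h5]
    · exact ((eq_mul_self_of_card_centralizer ((BT.card_centralizer_eq_of_isConj h3).symm.trans hC)
        (mt h4.1 h5) (mem_centralizer_singleton_iff.2 (mem_centralizer_singleton_iff.1 hx).symm)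
        hzz).resolve_left h5).symm
  obtain ⟨S, hS, huS⟩ := exists_isSylowIn_ge (H := V.comap π)
    (isPElt_of_pow_eq_one hu4).isPGroup_zpowers (zpowers_le.2 huV)
  have hSz : S ≤ centralizer {u * u} := by
    by_cases h5 : u * u = 1
    · exact fun s _ => mem_centralizer_singleton_iff.2 (by simp [h5])
    obtain ⟨c, -, h1, h2, h3⟩ := exists_invol_centralizing hS.isPGroup fun h =>
      h5 (mem_bot.1 (h ▸ huS (mul_mem (mem_zpowers u) (mem_zpowers u))))
    rwa [← (eq_mul_self_of_card_centralizer hC h5 (mem_centralizer_singleton_iff.2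
      (mem_centralizer_singleton_iff.1 (h3 (huS (mem_zpowers u)))).symm) h1).resolve_left h2]
  have hSV : S.map π = V := by
    have := hS.map π
    rw [map_comap_eq_self_of_surjective hπ] at this
    exact this.eq_self_of_isPGroup (IsPGroup.of_card (n := 2) hV)
  obtain ⟨y, hyS, hy⟩ : ∃ y ∈ S, π y ∉ zpowers (π u) := by
    by_contra! h
    have h1 := card_le_of_le (hSV ▸ map_le_iff_le_comap.2 h : V ≤ zpowers (π u))
    rw [hV, Nat.card_zpowers, orderOf_eq_prime (p := 2) (by rw [pow_two, hV2 _ huV]) hu] at h1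
    omega
  have hyV : π y ∈ V := hS.le hyS
  have huz : u ∈ centralizer ({u * u} : Set G) := mem_centralizer_singleton_iff.2 (mul_assoc ..).symm
  have hD : ∀ w ∈ centralizer ({u * u} : Set G), π w = 1 → w * w = 1 ∧ w * u = u * w := by
    intro w hw h1
    have h2 : ∀ x ∈ centralizer ({u * u} : Set G), π x ∈ V → π x ≠ 1 → w * x * w = x :=
      fun x hx h2 h3 => mul_left_cancel (a := x) (by
        rw [hK x hx h2 h3, ← hK (x * w) (mul_mem hx hw) (by rwa [map_mul, h1, mul_one])
          (by rwa [map_mul, h1, mul_one])]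
        simp only [mul_assoc])
    have h3 := h2 u huz huV hu
    have h4 := h2 y (hSz hyS) hyV fun h => hy (h ▸ one_mem _)
    have h5 := h2 (u * y) (mul_mem huz (hSz hyS)) (map_mul π u y ▸ mul_mem huV hyV) fun h => hy (by
      rw [eq_inv_of_mul_eq_one_right ((map_mul π u y).symm.trans h)]
      exact inv_mem (mem_zpowers _))
    have h6 : w * w = 1 := by
      have : w * u * (w * w) * (y * w) = w * u * 1 * (y * w) := by
        calc _ = w * u * w * (w * y * w) := by simp only [mul_assoc]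
          _ = w * (u * y) * w := by rw [h3, h4, h5]
          _ = _ := by simp only [mul_assoc, mul_one]
      exact mul_left_cancel (mul_right_cancel this)
    exact ⟨h6, by nth_rw 2 [← h3]; rw [mul_assoc, h6, mul_one]⟩
  set f : G ⧸ pPrimeCore 2 G →* Q := QuotientGroup.lift _ π hO
  have hf : Function.Surjective f := fun q => by
    obtain ⟨g, rfl⟩ := hπ q
    exact ⟨g, rfl⟩
  by_cases hz : u * u = 1
  · have h1 : V.comap π ≤ centralizer {u} := fun g hg => mem_centralizer_singleton_iff.2 (by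
      have h0 : ∀ x, x ∈ centralizer ({u * u} : Set G) := fun x =>
        mem_centralizer_singleton_iff.2 (by simp [hz])
      by_cases h1 : π g = 1
      · exact (hD g (h0 _) h1).2
      by_cases h2 : π (u * g) = 1
      · exact mul_left_cancel (a := u) (by rw [← mul_assoc, (hD _ (h0 _) h2).2])
      have h3 := hK g (h0 _) hg h1
      have h4 := hK (u * g) (h0 _) (map_mul π u g ▸ mul_mem huV hg) h2
      rw [hz] at h3 h4
      rw [← inv_eq_of_mul_eq_one_right h4, mul_inv_rev, inv_eq_of_mul_eq_one_right h3,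
        inv_eq_of_mul_eq_one_right hz])
    have h2 := Nat.le_of_dvd (Nat.pos_of_ne_zero index_ne_zero_of_finite) (index_dvd_of_le h1)
    have h3 := (centralizer ({u} : Set G)).card_mul_index
    rw [index_comap_of_surjective _ hπ] at h2
    rw [hC] at h3
    have h4 := (hπ.bijective_of_nat_card_le (by omega)).1
    have h5 : pPrimeCore 2 G = ⊥ := eq_bot_iff.2 (hO.trans ((MonoidHom.ker_eq_bot_iff π).2 h4).le)
    obtain ⟨e⟩ := nonempty_mulEquiv_PSL2_five hQ
    refine ⟨by rw [h5]; infer_instance, Or.inl ⟨⟨(MulEquiv.ofBijective f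
      ⟨(injective_iff_map_eq_one f).2 fun x hx => ?_, hf⟩).trans e⟩,
      orderOf_eq_prime (by rwa [pow_two]) fun h => hu (h ▸ map_one π)⟩⟩
    obtain ⟨g, rfl⟩ := QuotientGroup.mk_surjective x
    rw [(injective_iff_map_eq_one π).1 h4 g hx]; rfl
  have hzN : π (u * u) = 1 := (map_mul π u u).trans (hV2 _ huV)
  have hD2 : ∀ w ∈ centralizer ({u * u} : Set G), π w = 1 → w = 1 ∨ w = u * u := fun w hw h1 =>
    eq_mul_self_of_card_centralizer hC hz (mem_centralizer_singleton_iff.2 (hD w hw h1).2)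
      (hD w hw h1).1
  have hodd : ∀ x ∈ pPrimeCore 2 G, x * x = 1 → x = 1 := fun x hx h1 => by_contra fun h2 =>
    not_dvd_card_pPrimeCore 2 G ((orderOf_eq_prime (by rwa [pow_two]) h2).symm.dvd.trans
      (orderOf_dvd_natCard _ hx))
  have h1 : π.ker ⊓ normalizer (zpowers (u * u) : Set G) ≤ centralizer {u * u} := fun g hg =>
    mem_centralizer_singleton_iff.2 (mul_inv_eq_iff_eq_mul.1 (((mem_zpowers_of_mul_self hzz).1
      (conj_mem_of_mem_normalizer hg.2 (mem_zpowers _))).resolve_left (mt conj_eq_one_iff.1 hz)))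
  have hP : IsSylowIn 2 (zpowers (u * u)) π.ker := by
    refine IsSylowIn.of_inf_normalizer ?_
    rw [le_antisymm (fun g hg => (mem_zpowers_of_mul_self hzz).2 (hD2 g (h1 hg) hg.1))
      (le_inf (zpowers_le.2 hzN) le_normalizer)]
    exact isSylowIn_self (isPElt_of_pow_eq_one (k := 1) (by rwa [pow_one, pow_two])).isPGroup_zpowers
  have h2 := congrArg (map π.ker.subtype) ((hasNormalPComplement_iff_sup_eq_top hP.toSylow).1
    (hP.hasNormalPComplement_of_le_centralizer (h1.trans (by rw [centralizer_zpowers]))))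
  rw [Subgroup.map_sup, hP.map_toSylow, map_subtype_pPrimeCore, inf_of_le_left hO, ← MonoidHom.range_eq_map,
    range_subtype] at h2
  have hker : ∀ e, f e = 1 ↔ e = 1 ∨ e = (u * u : G) := fun e => by
    obtain ⟨g, rfl⟩ := QuotientGroup.mk_surjective e
    refine ⟨fun h => ?_, by rintro (h | h) <;> rw [h]; exacts [map_one f, hzN]⟩
    obtain ⟨o, ho, p, hp, rfl⟩ := mem_sup_of_normal_left.1 (h2.ge h)
    rw [QuotientGroup.mk_mul, (QuotientGroup.eq_one_iff o).2 ho, one_mul]
    exact ((mem_zpowers_of_mul_self hzz).1 hp).imp (by rintro rfl; rfl) (by rintro rfl; rfl)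
  have hne : ((u * u : G) : G ⧸ pPrimeCore 2 G) ≠ 1 := fun h =>
    hz (hodd _ ((QuotientGroup.eq_one_iff _).1 h) hzz)
  refine ⟨⟨⟨fun a b => Subtype.ext (mul_comm_of_inverted (conj_eq_inv_of_fixedPointFree hzz
    (le_normalizer_of_normal (mem_top _)) fun s hs h => ?_) a.2 b.2)⟩⟩,
    Or.inr ⟨TwoCover.nonempty_mulEquiv_SL2_five hQ (V := V) ⟨hf, hker, hne, congrArg _ hzz,
      mem_center_iff.2 fun g => mul_inv_eq_iff_eq_mul.1 (((hker _).1 ?_).resolve_left
        (mt conj_eq_one_iff.1 hne)), fun e he h3 => ((hker _).1 ?_).resolve_left fun h4 => ?_⟩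
      (by rw [hVi]; decide) hV2,
      orderOf_eq_prime_pow (p := 2) (n := 1) (by rwa [pow_one, pow_two]) hu4⟩⟩
  · exact (hD2 s (mem_centralizer_singleton_iff.2 (mul_inv_eq_iff_eq_mul.1 h).symm)
      (hO hs)).elim id fun h' => absurd (hodd s hs (h' ▸ hzz)) (h' ▸ hz)
  · rw [map_mul, map_mul, show f (u * u : G) = 1 from hzN, mul_one, ← map_mul, mul_inv_cancel,
      map_one]
  · rw [map_mul, hV2 _ he]
  · obtain ⟨x, rfl⟩ := QuotientGroup.mk_surjective e
    obtain ⟨g, rfl⟩ := isConj_iff.1 (hc x (hV2 _ he) h3)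
    rw [← QuotientGroup.mk_mul, conj_mul, QuotientGroup.mk_mul, QuotientGroup.mk_mul,
      QuotientGroup.mk_inv, conj_eq_one_iff] at h4
    exact hne h4

end GT
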