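import Cfsg.Agent.Lib.Grp.OddAut
import Cfsg.Agent.Lib.Grp.NineOnSixteen

/-!
# Coprime automorphism groups of `C_{3^a} × C₃ × C₃`
-/

set_option autoImplicit false
set_option linter.unusedSectionVars false

namespace GT

open Cfsg Subgroup

variable {A : Type*} [CommGroup A] [Finite A] {E : Subgroup (MulAut A)}

/-- The action of a group of automorphisms on the quotient by an invariant subgroup. -/
def quotAut (E : Subgroup (MulAut A)) (N : Subgroup A) (h : ∀ σ ∈ E, ∀ x ∈ N, σ x ∈ N) :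
    E →* MulAut (A ⧸ N) :=
  MonoidHom.mk' (fun σ => QuotientGroup.congr N N σ.1 (le_antisymm (map_le_iff_le_comap.2 (h σ σ.2))
    fun x hx => ⟨σ.1⁻¹ x, h _ (inv_mem σ.2) x hx, σ.1.apply_symm_apply x⟩)) fun _ _ =>
      MulEquiv.ext fun x => by obtain ⟨x, rfl⟩ := QuotientGroup.mk_surjective x; rfl

theorem quotAut_mk {N : Subgroup A} (h : ∀ σ ∈ E, ∀ x ∈ N, σ x ∈ N) (σ : E) (x : A) :
    quotAut E N h σ (x : A ⧸ N) = (σ.1 x : A) := rfl

theorem not_dvd_card_quotAut {p : ℕ} (hE : ¬ p ∣ Nat.card E) {N : Subgroup A}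
    (h : ∀ σ ∈ E, ∀ x ∈ N, σ x ∈ N) : ¬ p ∣ Nat.card (quotAut E N h).range :=
  fun h1 => hE (h1.trans (card_range_dvd _))

theorem eq_top_of_sup_pow {p : ℕ} [Fact p.Prime] (hA : IsPGroup p A) {H : Subgroup A}
    (h : H ⊔ (powMonoidHom p).range = ⊤) : H = ⊤ := by
  have h1 : Function.Surjective (powMonoidHom p : A ⧸ H →* A ⧸ H) := fun x => by
    obtain ⟨x, rfl⟩ := QuotientGroup.mk_surjective x
    obtain ⟨a, ha, _, ⟨y, rfl⟩, rfl⟩ := mem_sup.1 (h.ge (mem_top x))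
    exact ⟨y, by simp [(QuotientGroup.eq_one_iff a).2 ha]⟩
  have h2 := Finite.injective_iff_surjective.2 h1
  refine eq_top_iff.2 fun x _ => (QuotientGroup.eq_one_iff x).1 ?_
  obtain ⟨n, hn⟩ := hA.to_quotient H x
  induction n with
  | zero => simpa using hn
  | succ n ih => exact ih (h2 (by rw [powMonoidHom_apply, ← pow_mul, ← pow_succ, hn, map_one]))

instance : Fact (Nat.Prime 3) := ⟨Nat.prime_three⟩

theorem three_mul_card_le (hA : IsPGroup 3 A) {H K : Subgroup A} (h : H < K) :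
    3 * Nat.card H ≤ Nat.card K := by
  obtain ⟨n, hn⟩ := (hA.to_subgroup H).exists_card_eq
  obtain ⟨k, hk⟩ := (hA.to_subgroup K).exists_card_eq
  have := card_lt_of_lt h
  rw [hn, hk] at this ⊢
  rw [← pow_succ']
  exact Nat.pow_le_pow_right (by omega) ((Nat.pow_lt_pow_iff_right (by omega)).1 this)

section Nine

variable (h9 : Nat.card A = 9)
include h9

theorem eq_or_of_ne_top {H : Subgroup A} (hH : H ≠ ⊤) {x y : A} (hx : x ∈ H) (hx1 : x ≠ 1)
    (hy : y ∈ H) : y = 1 ∨ y = x ∨ y = x⁻¹ := by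
  classical
  have hA : IsPGroup 3 A := IsPGroup.of_card (n := 2) h9
  have h1 := three_mul_card_le hA (lt_top_iff_ne_top.2 hH)
  have h2 := three_mul_card_le hA (bot_lt_iff_ne_bot.2 (mt zpowers_eq_bot.1 hx1))
  have h3 := card_le_of_le (zpowers_le.2 hx)
  rw [card_top] at h1
  rw [card_bot] at h2
  obtain ⟨i, hi, rfl⟩ := Finset.mem_image.1 (mem_zpowers_iff_mem_range_orderOf.1
    ((eq_of_le_of_card_ge (zpowers_le.2 hx) (by omega)).ge hy))
  rw [Nat.card_zpowers] at h2 h3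
  have h4 : orderOf x = 3 := by omega
  rw [h4, Finset.mem_range] at hi
  have h5 := pow_orderOf_eq_one x
  rw [h4, pow_succ] at h5
  interval_cases i <;> simp [eq_inv_of_mul_eq_one_left h5]

theorem exists_inv_of_foc (hE : ¬ 3 ∣ Nat.card E) (hF : Foc E ⊤) : ∃ σ ∈ E, ∀ x, σ x = x⁻¹ := by
  have hA : IsPGroup 3 A := IsPGroup.of_card (n := 2) h9
  have h2 : IsPGroup 2 E := IsPGroup.of_card (Nat.eq_prime_pow_of_unique_prime_dvd
    Nat.card_pos.ne' fun {q} hq h1 => by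
      have := Fact.mk hq
      obtain ⟨σ, hσ⟩ := exists_prime_orderOf_dvd_card' q h1
      have h3 : Nat.card A ≡ Nat.card (fixAut (zpowers σ.1)) [MOD q] := (IsPGroup.of_card (n := 1)
        (by rw [Nat.card_zpowers, orderOf_coe, hσ, pow_one])).card_modEq_card_fixedPoints A
      have h4 := three_mul_card_le hA (lt_top_iff_ne_top.2 fun h4 : fixAut (zpowers σ.1) = ⊤ =>
        hq.one_lt.ne' (by rw [← hσ, orderOf_eq_one_iff]; exact Subtype.ext (MulEquiv.ext fun x =>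
          mem_fixAut.1 (h4.ge (mem_top x)) (mem_zpowers _))))
      obtain ⟨k, hk⟩ := (hA.to_subgroup (fixAut (zpowers σ.1))).exists_card_eq
      rw [card_top, h9, hk] at h4
      rw [h9, hk] at h3
      have h5 : q ≠ 3 := fun h5 => hE (h5 ▸ h1)
      have h6 : k < 2 := (Nat.pow_lt_pow_iff_right (a := 3) (by omega)).1 (by omega)
      have h7 := (Nat.modEq_iff_dvd' (by omega)).1 h3.symm
      have h8 : q ∣ 2 ^ 3 * 3 := h7.trans (by interval_cases k <;> norm_num)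
      exact ((Nat.Prime.dvd_mul hq).1 h8).elim (fun h => (Nat.prime_dvd_prime_iff_eq hq
        Nat.prime_two).1 (hq.dvd_of_dvd_pow h)) fun h =>
          absurd ((Nat.prime_dvd_prime_iff_eq hq Nat.prime_three).1 h) h5)
  have : Nontrivial A := Finite.one_lt_card_iff_nontrivial.1 (by omega)
  obtain ⟨a, ha⟩ := exists_ne (1 : A)
  have : Nontrivial E := E.nontrivial_iff_ne_bot.2 fun h => ha (hF.fix a trivial fun σ hσ => by
    rw [mem_bot.1 (h.le hσ), MulAut.one_apply])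
  have := h2.center_nontrivial
  obtain ⟨ζ, hζ⟩ := exists_ne (1 : center E)
  obtain ⟨τ, h3, h4, h5⟩ := exists_mul_self_mem_zpowers (isPElt_of_isPGroup h2 ζ.1)
    fun h => hζ (Subtype.ext h)
  have h6 : ∀ σ ∈ E, ∀ x, τ.1 (σ x) = σ (τ.1 x) := fun σ hσ x => congrArg (fun ρ : E => ρ.1 x)
    (mem_center_iff.1 (zpowers_le.2 ζ.2 h3) ⟨σ, hσ⟩).symm
  have h7 : ∀ x, τ.1 (τ.1 x) = x := fun x => congrArg (fun ρ : E => ρ.1 x) h4
  by_cases h8 : ∀ x, τ.1 x = x → x = 1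
  · exact ⟨τ, τ.2, fun x => eq_inv_of_mul_eq_one_left (h8 _ (by rw [map_mul, h7, mul_comm]))⟩
  push Not at h8
  obtain ⟨x, hx, hx1⟩ := h8
  obtain ⟨y₀, hy₀⟩ : ∃ y, τ.1 y ≠ y := by
    by_contra h8
    push Not at h8
    exact h5 (Subtype.ext (MulEquiv.ext h8))
  obtain ⟨y, hy, hy1⟩ : ∃ y, τ.1 y = y⁻¹ ∧ y ≠ 1 :=
    ⟨y₀⁻¹ * τ.1 y₀, by simp [h7], fun h => hy₀ (inv_mul_eq_one.1 h).symm⟩
  have hsq : ∀ {w : A}, w = w⁻¹ → w = 1 := fun {w} hw => (isPElt_of_isPGroup hA w).eq_one_of_isPRegular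
    (isPRegular_of_pow_eq_one (n := 2) (by norm_num) (by rw [pow_two]; nth_rw 1 [hw]; simp))
  obtain ⟨σ, hσ, h8⟩ : ∃ σ ∈ E, σ x ≠ x := by
    by_contra h8
    push Not at h8
    exact hx1 (hF.fix x trivial h8)
  have h10 := ((eq_or_of_ne_top h9 (H := τ.1.toMonoidHom.eqLocus (.id A)) (fun h => hy₀
    (h.ge (mem_top y₀))) hx hx1 (y := σ x) ((h6 σ hσ x).trans (congrArg σ hx))).resolve_left
      (by simpa using hx1)).resolve_left h8
  have key : ∀ ρ ∈ E, ρ x = x⁻¹ → ρ y = y⁻¹ → ∃ σ ∈ E, ∀ x, σ x = x⁻¹ := fun ρ hρ h11 h12 =>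
    ⟨ρ, hρ, fun w => by
      by_contra h13
      rcases eq_or_of_ne_top h9 (H := ρ.toMonoidHom.eqLocus invMonoidHom)
        (fun h => h13 (h.ge (mem_top w))) h11 hx1 h12 with h | rfl | rfl
      exacts [hy1 h, hx1 (hsq (hx.symm.trans hy)), hy1 (hsq (by rwa [map_inv, hx] at hy))]⟩
  rcases (eq_or_of_ne_top h9 (H := τ.1.toMonoidHom.eqLocus invMonoidHom) (fun h => hx1 (hsq
    (hx.symm.trans (h.ge (mem_top x))))) hy hy1 (y := σ y) ((h6 σ hσ y).trans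
      ((congrArg σ hy).trans (map_inv σ y)))).resolve_left (by simpa using hy1) with h11 | h11
  · exact key _ (mul_mem hσ τ.2) (by rw [MulAut.mul_apply, hx, h10])
      (by rw [MulAut.mul_apply, hy, map_inv, h11])
  · exact key σ hσ h10 h11

end Nine

section Exp

variable (h3 : ∀ x : A, x ^ 3 = 1) (hE : ¬ 3 ∣ Nat.card E)
include h3

theorem zpow_eq_of_three_dvd (x : A) {i j : ℤ} (h : (i : ZMod 3) = j) : x ^ i = x ^ j := by
  obtain ⟨k, hk⟩ := (ZMod.intCast_eq_intCast_iff_dvd_sub i j 3).1 h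
  rw [eq_add_of_sub_eq hk, zpow_add, zpow_mul, zpow_natCast, h3, one_zpow, one_mul]

theorem cast_eq_of_zpow_eq {x : A} (hx : x ≠ 1) {i j : ℤ} (h : x ^ i = x ^ j) :
    (i : ZMod 3) = j := by
  rw [zpow_eq_zpow_iff_modEq, orderOf_eq_prime (h3 x) hx] at h
  exact (ZMod.intCast_eq_intCast_iff i j 3).2 h

theorem cast_eq_zero_of_mem {z w : A} (h : w ∉ zpowers z) {r : ℤ} (h1 : w ^ r ∈ zpowers z) :
    (r : ZMod 3) = 0 := by
  by_contra h2
  refine h ?_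
  rw [← zpow_one w, zpow_eq_of_three_dvd h3 w (j := r * r) (by
    push_cast; revert h2; generalize (r : ZMod 3) = s; revert s; decide), zpow_mul]
  exact zpow_mem h1 r

include hE

theorem cast_eq_zero_of_unip {z w : A} (h : w ∉ zpowers z) {σ : MulAut A} (hσ : σ ∈ E)
    {p q r s : ℤ} (h1 : σ z = z ^ p * w ^ r) (h2 : σ w = z ^ q * w ^ s)
    (c1 : (p * (p - 1) + q * r : ZMod 3) = p - 1) (c2 : (r * (p - 1) + s * r : ZMod 3) = r) :
    (r : ZMod 3) = 0 := by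
  have h4 : z⁻¹ * σ z = z ^ (p - 1) * w ^ r := by rw [h1]; group
  have h5 := apply_eq_of_fix (p := 3) (fun x => ⟨1, h3 x⟩) hE hσ (a := z) (by
    rw [h4, map_mul, map_zpow, map_zpow, h1, h2, mul_zpow, mul_zpow, ← zpow_mul, ← zpow_mul,
      ← zpow_mul, ← zpow_mul, mul_mul_mul_comm, ← zpow_add, ← zpow_add,
      zpow_eq_of_three_dvd h3 z (j := p - 1) (by exact_mod_cast c1),
      zpow_eq_of_three_dvd h3 w (j := r) (by exact_mod_cast c2)])
  rw [h5, inv_mul_cancel] at h4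
  exact cast_eq_zero_of_mem h3 h
    (eq_inv_of_mul_eq_one_right h4.symm ▸ inv_mem (zpow_mem_zpowers z _))

theorem refl_pair {z w : A} (h : w ∉ zpowers z) {J K : MulAut A} (hJ : J ∈ E) (hK : K ∈ E)
    {a b : ℤ} (h1 : J z = z) (h2 : J w * w = z ^ a) (h4 : K w = w) (h5 : K z * z = w ^ b) :
    (b : ZMod 3) = 0 ∨ (a * b : ZMod 3) = 2 := by
  have h6 : ∀ i j : ℤ, (J * K) (z ^ i * w ^ j) = z ^ ((a * b - 1) * i + a * j) * w ^ (-b * i - j) :=
    fun i j => by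
      have e1 : K (z ^ i * w ^ j) = z ^ (-i) * w ^ (b * i + j) := by
        rw [map_mul, map_zpow, map_zpow, h4, eq_mul_inv_of_mul_eq h5, mul_zpow, ← zpow_mul,
          zpow_add, mul_comm (w ^ _), inv_zpow', mul_assoc]
      rw [MulAut.mul_apply, e1, map_mul, map_zpow, map_zpow, h1, eq_mul_inv_of_mul_eq h2, mul_zpow,
        ← zpow_mul, inv_zpow', ← mul_assoc, ← zpow_add]
      congr 2 <;> ring
  have h7 := h6 1 0
  have h8 := h6 0 1
  simp only [zpow_zero, zpow_one, mul_one, one_mul] at h7 h8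
  have h9 := cast_eq_zero_of_unip h3 hE h (mul_mem hJ hK) h7 h8
  have h10 := cast_eq_zero_of_unip h3 hE h (mul_mem (mul_mem hJ hK) (mul_mem hJ hK))
    ((congrArg (J * K) h7).trans (h6 _ _)) ((congrArg (J * K) h8).trans (h6 _ _))
  push_cast at h9 h10
  revert h9 h10
  generalize (a : ZMod 3) = x, (b : ZMod 3) = y
  revert x y
  decide

theorem not_four_refl {z : Fin 4 → A} (hz : z 3 * z 2 = z 1 * z 0)
    (h : ∀ i j, i ≠ j → z j ∉ zpowers (z i))
    (hJ : ∀ i, ∃ J ∈ E, J (z i) = z i ∧ ∀ x, J x * x ∈ zpowers (z i)) : False := by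
  choose J h1 h2 h4 using hJ
  choose a ha using fun i j => mem_zpowers_iff.1 (h4 i (z j))
  have h5 : ∀ i, z i ≠ 1 := fun i h5 => h (i + 1) i (by simp) (h5 ▸ one_mem _)
  have h6 : ∀ i, (a i i : ZMod 3) = (2 : ℤ) := fun i => cast_eq_of_zpow_eq h3 (h5 i) (by
    rw [ha, h2, zpow_two])
  have h7 : ∀ i, ((a i 3 + a i 2 : ℤ) : ZMod 3) = (a i 1 + a i 0 : ℤ) := fun i =>
    cast_eq_of_zpow_eq h3 (h5 i) (by
      rw [zpow_add, zpow_add, ha, ha, ha, ha, mul_mul_mul_comm, ← map_mul, hz, map_mul,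
        mul_mul_mul_comm])
  have h8 := fun i j hij => refl_pair h3 hE (h i j hij) (h1 i) (h1 j) (h2 i) (ha i j).symm (h2 j)
    (ha j i).symm
  push_cast at h6 h7
  have key : ∀ a₁ a₂ b₀ b₂ c₀ c₁ d₀ d₁ : ZMod 3, ¬ ∀ i j : Fin 4, i ≠ j →
      let m := !![2, a₁, a₂, a₁ + 2 - a₂; b₀, 2, b₂, 2 + b₀ - b₂; c₀, c₁, 2, c₁ + c₀ - 2;
        d₀, d₁, d₁ + d₀ - 2, 2]
      m j i = 0 ∨ m i j * m j i = 2 := by decide +kernel
  refine key (a 0 1) (a 0 2) (a 1 0) (a 1 2) (a 2 0) (a 2 1) (a 3 0) (a 3 1) fun i j hij => ?_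
  intro m
  have h9 : ∀ i j, m i j = a i j := fun i j => by
    have e0 := h7 0
    have e1 := h7 1
    have e2 := h7 2
    have e3 := h7 3
    rw [h6] at e0 e1 e2 e3
    fin_cases i <;> fin_cases j <;> simp [m, h6, ← e0, ← e1, ← e2, ← e3]
  rw [h9, h9]
  exact h8 i j hij

end Exp

variable (hA : IsPGroup 3 A) (h2 : ∀ a b : A, zpowers a ⊔ zpowers b ≠ ⊤)
include hA h2

theorem three_dvd_of_eq_pow {a b c y x : A} (h : zpowers b ⊔ zpowers c ⊔ zpowers a = ⊤) {i : ℤ}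
    (hy : y ∈ zpowers b ⊔ zpowers c) (hx : a ^ i * y = x ^ 3) : 3 ∣ i := by
  by_contra h1
  refine h2 b c (eq_top_of_sup_pow hA (eq_top_iff.2 (h.ge.trans (sup_le le_sup_left
    (zpowers_le.2 ?_)))))
  obtain ⟨k, hk⟩ : ∃ k, 1 = i * i + 3 * k := by
    obtain ⟨j, rfl | rfl⟩ : ∃ j, i = 3 * j + 1 ∨ i = 3 * j + 2 := ⟨i / 3, by omega⟩
    exacts [⟨-(3 * j * j + 2 * j), by ring⟩, ⟨-(3 * j * j + 4 * j + 1), by ring⟩]
  rw [← zpow_one a, hk, zpow_add, zpow_mul, eq_mul_inv_of_mul_eq hx, mul_comm 3 k, zpow_mul]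
  exact mul_mem (zpow_mem (mul_mem (mem_sup_right (MonoidHom.mem_range.2 ⟨x, rfl⟩)) (inv_mem (mem_sup_left hy))) i)
    (mem_sup_right (MonoidHom.mem_range.2 ⟨a ^ k, (zpow_natCast _ 3).symm⟩))

variable {u : A} (h9 : (zpowers u).index ≤ 9)
include h9

omit h2 in
theorem sup_eq_top_of_not_mem {v k : A} (hv : v ∉ zpowers u) (hk : k ∉ zpowers u ⊔ zpowers v) :
    zpowers u ⊔ zpowers v ⊔ zpowers k = ⊤ := by
  have h1 := three_mul_card_le hA (left_lt_sup.2 (mt zpowers_le.1 hv))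
  have h3 := three_mul_card_le hA (left_lt_sup.2 (mt zpowers_le.1 hk))
  have h4 := Nat.mul_le_mul_left (Nat.card (zpowers u)) h9
  rw [card_mul_index] at h4
  exact eq_top_of_le_card _ (by omega)

theorem exists_cube {H : Subgroup A} (hu : u ∈ H) (hH : H ≠ ⊤) : ∃ v ∉ H, v ^ 3 = 1 := by
  obtain ⟨v, -, hv⟩ := SetLike.exists_of_lt (lt_top_iff_ne_top.2 hH)
  have hv' : v ∉ zpowers u := fun h => hv (zpowers_le.2 hu h)
  obtain ⟨k, -, hk⟩ := SetLike.exists_of_lt (lt_top_iff_ne_top.2 (h2 u v))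
  have h1 := sup_eq_top_of_not_mem hA h9 hv' hk
  obtain ⟨i, hi⟩ : v ^ 3 ∈ zpowers u := by
    by_contra h3
    refine hk ((sup_eq_top_of_not_mem hA h9 h3 (k := v) fun h4 => ?_).ge.trans (sup_le (sup_le
      le_sup_left (zpowers_le.2 (mem_sup_right (npow_mem_zpowers v 3)))) le_sup_right) (mem_top k))
    obtain ⟨a, ha, _, ⟨j, rfl⟩, h5⟩ := mem_sup.1 h4
    have := three_dvd_of_eq_pow hA h2 (a := v) (b := u) (c := k) (i := 1) (x := v ^ j)
      (by rw [← h1, sup_right_comm]) (mem_sup_left (inv_mem ha)) (by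
        rw [zpow_one, mul_inv_eq_iff_eq_mul, ← zpow_natCast, ← zpow_mul, mul_comm j, zpow_mul,
          zpow_natCast, mul_comm, h5])
    omega
  obtain ⟨j, rfl⟩ := three_dvd_of_eq_pow hA h2 (a := u) (b := v) (c := k) (i := i) (x := v)
    (by rw [← h1]; ac_rfl) (one_mem _) (by rw [mul_one]; exact hi)
  refine ⟨v * (u ^ j)⁻¹, fun h => hv ((H.mul_mem_cancel_right (inv_mem (zpow_mem hu j))).1 h), ?_⟩
  rw [mul_pow, ← hi, inv_pow, ← zpow_natCast, ← zpow_mul, mul_comm j]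
  exact mul_inv_cancel _

theorem exists_fixed_pair (hE : ¬ 3 ∣ Nat.card E) :
    ∃ z v : A, (zpowers v ⊔ zpowers z).index ≤ 3 ∧ ∀ σ ∈ stab E z, σ v = v := by
  obtain ⟨v, hv, hv3⟩ := exists_cube hA h2 h9 (mem_zpowers u) fun h => h2 u u (by simp [h])
  obtain ⟨k, hk, hk3⟩ := exists_cube hA h2 h9 (mem_sup_left (mem_zpowers u)) (h2 u v)
  have h1 := sup_eq_top_of_not_mem hA h9 hv hk
  have hind : ∀ (i j l : ℤ) (x : A), u ^ i * v ^ j * k ^ l = x ^ 3 → 3 ∣ i ∧ 3 ∣ j ∧ 3 ∣ l :=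
    fun i j l x hx => ⟨three_dvd_of_eq_pow hA h2 (a := u) (by rw [← h1]; ac_rfl)
      (mul_mem_sup (zpow_mem_zpowers v j) (zpow_mem_zpowers k l)) (by rw [← hx, mul_assoc]),
      three_dvd_of_eq_pow hA h2 (a := v) (by rw [← h1, sup_right_comm]) (mul_mem_sup (zpow_mem_zpowers u i)
        (zpow_mem_zpowers k l)) (by rw [← hx, mul_left_comm, mul_assoc]),
      three_dvd_of_eq_pow hA h2 h1 (mul_mem_sup (zpow_mem_zpowers u i) (zpow_mem_zpowers v j))
        (by rw [← hx, mul_comm])⟩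
  let c : Fin 4 → ℤ × ℤ := ![(1, 0), (0, -1), (0, 0), (1, -1)]
  have hc : ∀ i j, i ≠ j → ∀ n : ℤ,
      ¬ (3 ∣ 1 - n ∧ 3 ∣ (c j).1 - (c i).1 * n ∧ 3 ∣ (c j).2 - (c i).2 * n) := fun i j hij n => by
    clear * - hij
    fin_cases i <;> fin_cases j <;> simp [c] at hij ⊢ <;> omega
  let z : Fin 4 → A := fun i => u * v ^ (c i).1 * k ^ (c i).2
  have hN : ∀ σ ∈ E, ∀ x ∈ (powMonoidHom 3 : A →* A).range, σ x ∈ (powMonoidHom 3).range := by
    rintro σ - _ ⟨x, rfl⟩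
    exact ⟨σ x, (map_pow σ x 3).symm⟩
  obtain ⟨i, hi⟩ : ∃ i, ∀ J ∈ E, J (z i) = z i → ¬ ∀ x, J x * x ∈ zpowers (z i) := by
    by_contra h3
    push Not at h3
    refine not_four_refl (fun x => ?_) (not_dvd_card_quotAut hE hN) (z := fun i => z i) ?_
      (fun i j hij ⟨n, hn⟩ => ?_) fun i => ?_
    · obtain ⟨x, rfl⟩ := QuotientGroup.mk_surjective x
      exact (QuotientGroup.eq_one_iff _).2 ⟨x, rfl⟩
    · rw [← QuotientGroup.mk_mul, ← QuotientGroup.mk_mul]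
      refine congrArg _ ?_
      simp [z, c, mul_comm, mul_left_comm]
    · obtain ⟨x, hx⟩ := QuotientGroup.eq.1 ((QuotientGroup.mk_zpow _ (z i) n).trans hn)
      have := hind (1 - n) ((c j).1 - (c i).1 * n) ((c j).2 - (c i).2 * n) x (by
        rw [← powMonoidHom_apply, hx]
        simp only [z, mul_zpow, ← zpow_mul, zpow_sub, zpow_one, mul_inv]
        ac_rfl)
      exact hc i j hij n this
    · obtain ⟨J, hJ, h4, h5⟩ := h3 i
      refine ⟨quotAut E _ hN ⟨J, hJ⟩, ⟨_, rfl⟩, by rw [quotAut_mk, h4], fun x => ?_⟩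
      obtain ⟨x, rfl⟩ := QuotientGroup.mk_surjective x
      obtain ⟨n, hn⟩ := h5 x
      rw [quotAut_mk, ← QuotientGroup.mk_mul, ← hn]
      exact ⟨n, (QuotientGroup.mk_zpow _ _ n).symm⟩
  have hz : ∀ σ ∈ stab E (z i), ∀ x ∈ zpowers (z i), σ x = x := by
    rintro σ hσ _ ⟨n, rfl⟩
    rw [map_zpow, show σ (z i) = z i from hσ.2]
  have hz' : ∀ σ ∈ stab E (z i), ∀ x ∈ zpowers (z i), σ x ∈ zpowers (z i) :=
    fun σ hσ x hx => (hz σ hσ x hx).symm ▸ hx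
  have h4 : Nat.card (zpowers u) ≤ Nat.card (zpowers (z i)) := by
    rw [Nat.card_zpowers, Nat.card_zpowers]
    refine Nat.le_of_dvd (orderOf_pos _) (orderOf_dvd_of_pow_eq_one ?_)
    obtain ⟨n, hn⟩ := hA.dvd_orderOf (g := z i) fun h => by
      have := (hind 1 _ _ 1 (by rw [zpow_one, one_pow]; exact h)).1
      omega
    have := pow_orderOf_eq_one (z i)
    rw [hn] at this ⊢
    rwa [mul_pow, mul_pow, ← zpow_natCast (v ^ _), ← zpow_natCast (k ^ _), zpow_comm v, zpow_comm k,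
      zpow_natCast, zpow_natCast, pow_mul v, pow_mul k, hv3, hk3, one_pow, one_zpow, one_zpow,
      mul_one, mul_one] at this
  have h5 := Nat.mul_le_mul h4 h9
  rw [card_mul_index] at h5
  obtain ⟨w, hw, hw'⟩ : ∃ w : A ⧸ zpowers (z i), w ≠ 1 ∧
      ∀ σ ∈ (quotAut _ _ hz').range, σ w = w := by
    by_contra h6
    obtain ⟨a, -, ha⟩ := SetLike.exists_of_lt (lt_top_iff_ne_top.2 (h2 (z i) (z i)))
    rw [sup_idem] at ha
    have h7 := three_mul_card_le hA (left_lt_sup.2 (mt zpowers_le.1 ha))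
    have h8 := three_mul_card_le hA (lt_top_iff_ne_top.2 (h2 (z i) a))
    obtain ⟨_, ⟨σ, rfl⟩, h10⟩ := exists_inv_of_foc (A := A ⧸ zpowers (z i))
      (Nat.eq_of_mul_eq_mul_right Nat.card_pos ((card_eq_card_quotient_mul_card_subgroup _).symm.trans
        (by rw [card_top] at h8; omega))) (not_dvd_card_quotAut (not_dvd_card_stab hE _) hz')
      ⟨fun _ _ _ => trivial, fun w _ hw => by_contra fun h => h6 ⟨w, h, hw⟩⟩
    exact hi σ σ.2.1 σ.2.2 fun x => (QuotientGroup.eq_one_iff _).1 (by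
      rw [QuotientGroup.mk_mul, ← quotAut_mk hz', h10, inv_mul_cancel])
  obtain ⟨w, rfl⟩ := QuotientGroup.mk_surjective w
  refine ⟨z i, w, ?_, fun σ hσ => apply_eq_of_fix hA hE hσ.1 (hz σ hσ _ (QuotientGroup.eq.1
    (hw' _ ⟨⟨σ, hσ⟩, rfl⟩).symm))⟩
  have h6 := three_mul_card_le hA (right_lt_sup.2 (mt zpowers_le.1 (mt (QuotientGroup.eq_one_iff
    w).2 hw)))
  refine Nat.le_of_mul_le_mul_left ?_ (Nat.card_pos (α := ↥(zpowers w ⊔ zpowers (z i))))
  rw [card_mul_index]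
  omega

end GT
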