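import Cfsg.Agent.Lib.Grp.Ord32B

/-!
# The nonabelian groups of order at most sixteen
-/

set_option autoImplicit false
set_option linter.unusedSectionVars false

namespace GT

open Cfsg Subgroup

theorem exists_eight_le_orderOf {P : Type*} [Group P] [Finite P] (hP : IsPGroup 2 P)
    (h16 : Nat.card P ≤ 16) (h4 : 4 ≤ Nat.card (commutator P)) : ∃ a : P, 8 ≤ orderOf a := by
  obtain ⟨A, hA⟩ := exists_abMax_of_le hP h16 h4
  have h3 := hA.card
  rw [hA.card_eq h4] at h3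
  have h5 := Nat.mul_le_mul_left (Nat.card (center P)) h4
  obtain ⟨t, ht⟩ := hA.exists_not_mem
  obtain ⟨a, ha, hc, -⟩ := hA.exists_gen h4 (by omega) hP
    (fun e => by have := card_le_of_le e; omega) ht
  obtain ⟨n, hn⟩ := hA.goodB h4 (by omega) hP ht ha hc
    (hA.mem_zpowers_of_card_center h4 hP ht ha hc (by omega))
  exact ⟨a, hn.ord ▸ Nat.pow_le_pow_right (n := 2) two_pos (show 3 ≤ n + 1 by
    have := hn.two_le; omega)⟩

variable {G : Type*} [Group G] [Finite G]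

/-- The derived group of `D` is contained in the central subgroup `⟨z⟩` of order two. -/
structure ZTwo (D : Subgroup G) (z : G) : Prop where
  zm : z ∈ D
  zz : z * z = 1
  z_ne : z ≠ 1
  zc : ∀ x ∈ D, Commute z x
  comm : ∀ g ∈ D, ∀ h ∈ D, g * h = h * g ∨ g * h = h * g * z

namespace ZTwo

variable {D : Subgroup G} {z : G} (h : ZTwo D z) {g k : G}
include h

theorem idx (hg : g ∈ D) (hk : k ∈ D) (hgk : ¬ Commute g k) : Idx D (D ⊓ centralizer {g}) k :=
  fun a ha => (h.comm g hg a ha).imp (fun h1 => ⟨ha, mem_centralizer_singleton_iff.2 h1.symm⟩)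
    fun h1 => ⟨D.mul_mem ha (D.inv_mem hk), mem_centralizer_singleton_iff.2 (by
      have h2 := (h.comm g hg k hk).resolve_left hgk
      rw [← mul_assoc, h1, eq_mul_inv_iff_mul_eq, mul_assoc, mul_assoc, h2]
      group)⟩

theorem card_eq (hg : g ∈ D) (hk : k ∈ D) (hgk : ¬ Commute g k) :
    Nat.card D = 2 * Nat.card ↥(D ⊓ centralizer {g}) :=
  (h.idx hg hk hgk).card_eq inf_le_left hk fun h1 => hgk (mem_centralizer_singleton_iff.1 h1.2).symm

theorem sq_comm (hg : g ∈ D) (hk : k ∈ D) : Commute (g * g) k := by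
  rcases h.comm g hg k hk with h1 | h1
  · exact (Commute.mul_left h1 h1)
  · change g * g * k = k * (g * g)
    rw [mul_assoc, h1, ← mul_assoc, ← mul_assoc, h1, mul_assoc (k * g), (h.zc g hg).eq,
      mul_assoc, mul_assoc g, h.zz, mul_one, mul_assoc]

theorem sq_mul (hg : g ∈ D) (hk : k ∈ D) (hgk : ¬ Commute g k) :
    g * k * (g * k) = g * g * (k * k) * z := by
  have h1 := (h.comm k hk g hg).resolve_left fun h1 => hgk h1.symm
  rw [mul_assoc, ← mul_assoc k, h1, mul_assoc (g * k), (h.zc k hk).eq]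
  group

theorem conj_z (hg : g ∈ D) (hk : k ∈ D) (hgk : ¬ Commute g k) {t : G}
    (ht : t ∈ normalizer (D : Set G)) : t * z * t⁻¹ = z := by
  have h1 := (h.comm g hg k hk).resolve_left hgk
  have h2 := (h.comm _ ((mem_normalizer_iff.1 ht _).1 hg) _
    ((mem_normalizer_iff.1 ht _).1 hk)).resolve_left fun h2 => hgk (by
      rwa [conj_mul, conj_mul, mul_left_inj, mul_right_inj] at h2)
  rwa [conj_mul, conj_mul, h1, ← conj_mul, mul_right_inj] at h2

end ZTwo

/-- A group of order sixteen with derived group `⟨z⟩` and centre `⟨z, c⟩` of order four. -/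
structure ZFour (D : Subgroup G) (z c : G) : Prop extends ZTwo D z where
  pgrp : IsPGroup 2 D
  card : Nat.card D = 16
  cm : c ∈ D
  c_ne : c ≠ 1
  cz : c ≠ z
  cen : ∀ g ∈ D, (∀ x ∈ D, Commute g x) ↔ g = 1 ∨ g = z ∨ g = c ∨ g = c * z

theorem ZTwo.exists_zFour {D : Subgroup G} {z : G} (h : ZTwo D z) (hD : IsPGroup 2 D)
    (h16 : Nat.card D = 16) {a b : G} (ha : a ∈ D) (hb : b ∈ D) (hab : ¬ Commute a b) :
    ∃ c, ZFour D z c := by
  set W := D ⊓ centralizer {a} ⊓ (D ⊓ centralizer {b}) with hW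
  have h1 : Idx (D ⊓ centralizer {a}) W a := fun g hg =>
    (h.idx hb ha (fun h => hab h.symm) g hg.1).imp (fun h1 => ⟨hg, h1⟩) fun h1 => ⟨Subgroup.mul_mem _ hg
      (Subgroup.inv_mem _ ⟨ha, mem_centralizer_singleton_iff.2 rfl⟩), h1⟩
  have h2 := h1.card_eq inf_le_left ⟨ha, mem_centralizer_singleton_iff.2 rfl⟩
    fun h2 => hab (mem_centralizer_singleton_iff.1 h2.2.2)
  have h3 := h.card_eq ha hb hab
  have hz : zpowers z ≤ W := zpowers_le.2 ⟨⟨h.zm, mem_centralizer_singleton_iff.2 (h.zc a ha)⟩,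
    h.zm, mem_centralizer_singleton_iff.2 (h.zc b hb)⟩
  have h4 : Nat.card (zpowers z) = 2 := by
    rw [Nat.card_zpowers, orderOf_eq_two_of_mul_self h.zz h.z_ne]
  obtain ⟨c, hc, h5⟩ := exists_idx_of_card_le hz (by omega)
  have h6 : c ∉ zpowers z := fun h6 => by
    have := card_le_of_le (h5.le_sup.trans (sup_le le_rfl (zpowers_le.2 h6)))
    omega
  have h7 := comm_of_card_le_two_mul hz (fun x hx g hg => by
    obtain ⟨i, rfl⟩ := hx
    exact ((h.zc g hg.1.1).zpow_left i).symm) (by omega)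
  have h8 : ∀ w ∈ W, ∀ x ∈ D, Commute w x := fun w hw x hx => by
    have h8 : ∀ y ∈ D ⊓ centralizer {a}, Commute w y := fun y hy => by
      rcases h1 y hy with h9 | h9
      · exact h7 w hw y h9
      · simpa using (show Commute w _ from h7 w hw _ h9).mul_right
          (mem_centralizer_singleton_iff.1 hw.1.2)
    rcases h.idx ha hb hab x hx with h9 | h9
    · exact h8 x h9
    · simpa using (h8 _ h9).mul_right (mem_centralizer_singleton_iff.1 hw.2.2)
  rw [mem_zpowers_of_mul_self h.zz, not_or] at h6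
  refine ⟨c, h, hD, h16, hc.1.1, h6.1, h6.2, fun g hg => ⟨fun h9 => ?_, fun h9 => h8 g ?_⟩⟩
  · rcases h5 g ⟨⟨hg, mem_centralizer_singleton_iff.2 (h9 a ha)⟩, hg,
      mem_centralizer_singleton_iff.2 (h9 b hb)⟩ with h10 | h10 <;>
      rw [mem_zpowers_of_mul_self h.zz] at h10
    · tauto
    · rw [mul_inv_eq_one, mul_inv_eq_iff_eq_mul, (h.zc c hc.1.1).eq] at h10
      tauto
  · have := hz (mem_zpowers z)
    rcases h9 with rfl | rfl | rfl | rfl
    exacts [one_mem _, this, hc, mul_mem hc this]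

namespace ZFour

variable {D : Subgroup G} {z c : G} (h : ZFour D z c) {g k w : G}
include h

theorem cc : ∀ x ∈ D, Commute c x := (h.cen c h.cm).2 (by simp)

theorem cz_ne : c * z ≠ 1 := fun h1 => h.cz (mul_right_cancel (h1.trans h.zz.symm))

theorem change : ZFour D z (c * z) :=
  ⟨h.toZTwo, h.pgrp, h.card, mul_mem h.cm h.zm, h.cz_ne, by simpa using h.c_ne, fun g hg => by
    rw [h.cen g hg, mul_assoc, h.zz, mul_one]; tauto⟩

theorem card_cen : Nat.card ↥(D ⊓ centralizer (D : Set G)) = 4 := by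
  have h1 := h.z_ne
  have h2 := h.c_ne
  have h3 := h.cz
  have h4 := h.cz_ne
  rw [← Set.ncard_eq_four.2 ⟨1, z, c, c * z, h1.symm, h2.symm, h4.symm, h3.symm, by simpa using h2,
    by simpa using h1, rfl⟩]
  refine congrArg Set.ncard (Set.ext fun g => ⟨fun hg => (h.cen g hg.1).1 fun x hx =>
    (hg.2 x hx).symm, fun hg => ?_⟩)
  have hg' : g ∈ D := by
    rcases hg with rfl | rfl | rfl | rfl
    exacts [one_mem _, h.zm, h.cm, mul_mem h.cm h.zm]
  exact ⟨hg', fun x hx => ((h.cen g hg').2 hg x hx).symm⟩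

theorem exists_not_cen : ∃ g ∈ D, ¬ ∀ x ∈ D, Commute g x := by
  by_contra h1
  push Not at h1
  have := card_le_of_le (le_inf le_rfl fun g hg x hx => (h1 g hg x hx).symm :
    D ≤ D ⊓ centralizer (D : Set G))
  rw [h.card, h.card_cen] at this
  omega

theorem card_inf (hg : g ∈ D) (hg' : ¬ ∀ x ∈ D, Commute g x) :
    Nat.card ↥(D ⊓ centralizer {g}) = 8 := by
  push Not at hg'
  obtain ⟨k, hk, h1⟩ := hg'
  have := h.card_eq hg hk h1
  rw [h.card] at this
  omega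

theorem idx_inf (hg : g ∈ D) (hg' : ¬ ∀ x ∈ D, Commute g x) :
    Idx (D ⊓ centralizer {g}) (D ⊓ centralizer (D : Set G)) g := by
  obtain ⟨y, -, h1⟩ := exists_idx_of_card_le (inf_le_inf_left D (centralizer_le
    (Set.singleton_subset_iff.2 hg))) (by rw [h.card_inf hg hg', h.card_cen])
  exact h1.change ⟨hg, mem_centralizer_singleton_iff.2 rfl⟩ fun h2 => hg' fun x hx =>
    (h2.2 x hx).symm

theorem comm_inf (hg : g ∈ D) (hg' : ¬ ∀ x ∈ D, Commute g x) :
    ∀ a ∈ D ⊓ centralizer {g}, ∀ b ∈ D ⊓ centralizer {g}, a * b = b * a :=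
  comm_of_card_le_two_mul (inf_le_inf_left D (centralizer_le (Set.singleton_subset_iff.2 hg)))
    (fun b hb g hg => hb.2 g hg.1) (by rw [h.card_inf hg hg', h.card_cen])

theorem centric {Q : Subgroup G} (hQ : Q ≤ D) (hQ' : D ⊓ centralizer (Q : Set G) ≤ Q) :
    Q = D ∨ ∃ g ∈ D, (¬ ∀ x ∈ D, Commute g x) ∧ Q = D ⊓ centralizer {g} := by
  have h1 : D ⊓ centralizer (D : Set G) ≤ Q := (inf_le_inf_left D (centralizer_le hQ)).trans hQ'
  obtain ⟨g, hg, hg'⟩ : ∃ g ∈ Q, ¬ ∀ x ∈ D, Commute g x := by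
    by_contra h2
    push Not at h2
    obtain ⟨g, hg, hg'⟩ := h.exists_not_cen
    exact hg' (h2 g (hQ' ⟨hg, fun q hq => h2 q hq g hg⟩))
  have h2 := (h.idx_inf (hQ hg) hg').le_sup.trans (sup_le h1 (zpowers_le.2 hg))
  rcases h2.eq_or_lt with h3 | h3
  · exact .inr ⟨g, hQ hg, hg', h3.symm⟩
  · have := two_mul_card_le_of_lt h3
    rw [h.card_inf (hQ hg) hg'] at this
    exact .inl (eq_of_le_of_card_ge hQ (by rw [h.card]; omega))

theorem conj_z' {t : G} (ht : t ∈ normalizer (D : Set G)) : t * z * t⁻¹ = z := by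
  obtain ⟨g, hg, hg'⟩ := h.exists_not_cen
  push Not at hg'
  obtain ⟨k, hk, h1⟩ := hg'
  exact h.conj_z hg hk h1 ht

theorem conj_c {t : G} (ht : t ∈ normalizer (D : Set G)) :
    t * c * t⁻¹ = c ∨ t * c * t⁻¹ = c * z := by
  have h1 := (h.cen _ ((mem_normalizer_iff.1 ht _).1 h.cm)).1 fun x hx => by
    have := (h.cc _ ((mem_normalizer_iff.1 (inv_mem ht) _).1 hx)).map (MulAut.conj t)
    simpa [mul_assoc] using this
  rw [conj_eq_one_iff] at h1
  refine (h1.resolve_left h.c_ne).resolve_left fun h2 => h.cz ?_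
  rwa [← h.conj_z' ht, mul_left_inj, mul_right_inj] at h2

theorem conj_cen {t : G} (hr : IsPRegular 2 t) (ht : t ∈ normalizer (D : Set G)) (hw : w ∈ D)
    (hw' : ∀ x ∈ D, Commute w x) : t * w * t⁻¹ = w := by
  have h1 := conj_eq_of_pair hr (h.conj_c ht) ((h.change.conj_c ht).symm.imp_left fun h1 => by
    rwa [mul_assoc c, h.zz, mul_one] at h1)
  rcases (h.cen w hw).1 hw' with rfl | rfl | rfl | rfl
  exacts [by simp, h.conj_z' ht, h1, by rw [← conj_mul, h1, h.conj_z' ht]]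

theorem dStar (hc : c * c = 1) (hg : g ∈ D) (hk : k ∈ D) (hgk : ¬ Commute g k) (h1 : g * g ≠ 1)
    (h2 : k * k ≠ g * g) (h3 : k * k ≠ z) : ∃ d, DStar D 0 g d k := by
  have hg' : ¬ ∀ x ∈ D, Commute g x := fun h4 => hgk (h4 k hk)
  have hΩ : ∀ w ∈ D ⊓ centralizer (D : Set G), w * w = 1 := fun w hw => by
    rcases (h.cen w hw.1).1 (fun x hx => (hw.2 x hx).symm) with rfl | rfl | rfl | rfl
    exacts [one_mul 1, h.zz, hc, by rw [(h.zc c h.cm).mul_mul_mul_comm, hc, h.zz, one_mul]]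
  have hgg : g * g ∈ D ⊓ centralizer (D : Set G) :=
    ⟨mul_mem hg hg, fun x hx => (h.sq_comm hg hx).symm⟩
  have ho : orderOf g = 2 ^ (0 + 2) := orderOf_eq_prime_pow (n := 1) (by rwa [pow_one, pow_two])
    (by simpa [pow_succ, mul_assoc] using hΩ _ hgg)
  obtain ⟨d, hd, hd1, hd2⟩ : ∃ d ∈ D ⊓ centralizer (D : Set G), d ≠ 1 ∧ d ≠ g * g := by
    by_cases h4 : z = g * g
    · exact ⟨c, ⟨h.cm, fun x hx => (h.cc x hx).symm⟩, h.c_ne, h4 ▸ h.cz⟩
    · exact ⟨z, ⟨h.zm, fun x hx => (h.zc x hx).symm⟩, h.z_ne, h4⟩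
  have hdg : d ∉ zpowers g := fun h4 => (eq_of_mul_self_of_mem_zpowers (mul_mem (mem_zpowers g)
    (mem_zpowers g)) h4 (hΩ _ hgg) h1 (hΩ d hd)).elim hd1 hd2
  have hA : zpowers g ⊔ zpowers d = D ⊓ centralizer {g} := eq_of_le_of_card_ge
    (sup_le (zpowers_le.2 ⟨hg, mem_centralizer_singleton_iff.2 rfl⟩)
      (zpowers_le.2 ⟨hd.1, mem_centralizer_singleton_iff.2 (hd.2 g hg).symm⟩)) (by
    have := two_mul_card_le_of_lt (left_lt_sup.2 (mt zpowers_le.1 hdg) :
      zpowers g < zpowers g ⊔ zpowers d)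
    rwa [Nat.card_zpowers, ho, show 2 * 2 ^ (0 + 2) = 8 from rfl, ← h.card_inf hg hg'] at this)
  have hkg : k * g * k⁻¹ = g * z := by
    rw [(h.comm k hk g hg).resolve_left fun h4 => hgk h4.symm, mul_assoc g, ← (h.zc k hk).eq]
    group
  refine ⟨d, ⟨ho, hΩ d hd, hdg, hd.2 g hg⟩, h.pgrp, hg, hd.1, hk, hd.2 k hk, hA ▸ h.idx hg hk hgk,
    ?_, by simpa [hkg] using h.z_ne, fun v hv hv' => ?_⟩
  · rw [hkg, mul_assoc g z g, (h.zc g hg).eq, ← mul_assoc g g z]
    exact hΩ _ (mul_mem hgg ⟨h.zm, fun x hx => (h.zc x hx).symm⟩)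
  · rw [hA] at hv'
    have h4 := (h.idx hg hk hgk v hv).resolve_left hv'
    have h5 : ∀ w ∈ D ⊓ centralizer (D : Set G), ∀ u ∈ D, w * u * (w * u) = u * u :=
      fun w hw u hu => by
        rw [(show Commute u w from hw.2 u hu).mul_mul_mul_comm, hΩ w hw, one_mul]
    rw [show (2 : ℕ) ^ (0 + 1) = 2 from rfl, pow_two]
    rcases h.idx_inf hg hg' _ h4 with h6 | h6
    · rwa [← inv_mul_cancel_right v k, h5 _ h6 k hk]
    · rw [show v = v * k⁻¹ * g⁻¹ * (g * k) by group, h5 _ h6 _ (mul_mem hg hk), h.sq_mul hg hk hgk,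
        mul_assoc, Ne, mul_eq_left]
      exact fun h7 => h3 (mul_right_cancel (h7.trans h.zz.symm))

end ZFour

/-- The groups `Q₈ × C₂` and `Q₈ ∘ C₄`. -/
structure QStar (D : Subgroup G) (z c : G) : Prop extends ZFour D z c where
  sq : ∀ g ∈ D, (¬ ∀ x ∈ D, Commute g x) → g * g = z ∨ g * c * (g * c) = z

theorem ZFour.qStar_or {D : Subgroup G} {z c : G} (h : ZFour D z c)
    (h4 : ∀ g ∈ D, g * g * (g * g) = 1) : QStar D z c ∨ ∃ g d k, DStar D 0 g d k := by
  by_cases hc : c * c = 1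
  · refine or_iff_not_imp_left.2 fun h1 => ?_
    obtain ⟨k, hk, hk', h2⟩ : ∃ k ∈ D, (¬ ∀ x ∈ D, Commute k x) ∧ k * k ≠ z := by
      by_contra h2
      exact h1 ⟨h, fun g hg hg' => .inl (by_contra fun h3 => h2 ⟨g, hg, hg', h3⟩)⟩
    push Not at hk'
    obtain ⟨g, hg, hkg⟩ := hk'
    by_cases h3 : g * g ≠ 1 ∧ k * k ≠ g * g
    · obtain ⟨d, hd⟩ := h.dStar hc hg hk (fun h => hkg h.symm) h3.1 h3.2 h2
      exact ⟨_, _, _, hd⟩
    have h5 := h.sq_mul hk hg hkg
    refine ⟨k * g, (h.dStar hc (mul_mem hk hg) hk (fun h => hkg (by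
      simpa using ((Commute.refl k).inv_left.mul_left h).symm)) (fun h6 => ?_) (fun h6 => ?_)
        h2).imp fun d hd => ⟨k, hd⟩⟩
    · rw [h5] at h6
      rcases not_and_or.1 h3 with h7 | h7 <;> rw [not_not] at h7
      · exact h2 (mul_right_cancel ((by simpa [h7] using h6 : k * k * z = 1).trans h.zz.symm))
      · exact h.z_ne (by rwa [h7, h4 g hg, one_mul] at h6)
    · rw [h5, mul_assoc, left_eq_mul] at h6
      rcases not_and_or.1 h3 with h7 | h7 <;> rw [not_not] at h7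
      · exact h.z_ne (by rwa [h7, one_mul] at h6)
      · exact h2 (h7.trans (mul_right_cancel (h6.trans h.zz.symm)))
  · have h1 : c * c = z := by
      have := (h.cen _ (mul_mem h.cm h.cm)).1 fun x hx => h.sq_comm h.cm hx
      simpa [hc, h.c_ne, h.cz] using this
    refine .inl ⟨h, fun g hg _ => ?_⟩
    rw [(h.cc g hg).mul_mul_mul_comm, h1]
    have h2 := h4 g hg
    rcases (h.cen _ (mul_mem hg hg)).1 (fun x hx => h.sq_comm hg hx) with h3 | h3 | h3 | h3
    · exact .inr (by rw [h3, one_mul])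
    · exact .inl h3
    · exact absurd (h3 ▸ h2) hc
    · rw [h3, (h.zc c h.cm).mul_mul_mul_comm, h.zz, mul_one] at h2
      exact absurd h2 hc

theorem smallThree_or_qStar {D : Subgroup G} (hD : IsPGroup 2 D) (h16 : Nat.card D ≤ 16) {a b : G}
    (ha : a ∈ D) (hb : b ∈ D) (hab : ¬ Commute a b) : SmallThree D ∨ ∃ z c, QStar D z c := by
  by_cases h1 : ∃ g ∈ D, Nat.card D ≤ 2 * orderOf g
  · obtain ⟨g, hg, h1⟩ := h1
    exact .inl (.inl ⟨g, hg, exists_idx_of_card_le (zpowers_le.2 hg) (by rwa [Nat.card_zpowers])⟩)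
  push Not at h1
  have hna : commutator D ≠ ⊥ := fun h2 => hab (congrArg Subtype.val
    (commutatorElement_eq_one_iff_mul_comm.1 (mem_bot.1 (h2.le (commutator_mem_commutator
      (mem_top (⟨a, ha⟩ : D)) (mem_top (⟨b, hb⟩ : D)))))))
  obtain ⟨u, hu⟩ := exists_sq_ne_one hna
  have h2 := four_le_orderOf hD hu
  have h3 := h1 u u.2
  rw [orderOf_coe] at h3
  replace h16 : Nat.card D = 16 := by
    obtain ⟨n, hn⟩ := hD.exists_card_eq
    have h4 : n < 5 := (Nat.pow_lt_pow_iff_right one_lt_two).1 (by omega)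
    interval_cases n <;> omega
  have h4 : Nat.card (commutator D) = 2 := by
    by_contra h4
    obtain ⟨g, hg⟩ := exists_eight_le_orderOf hD h16.le (four_le_card_of_two_lt hD (by
      have := (one_lt_card_iff_ne_bot _).2 hna
      omega))
    have := h1 g g.2
    rw [orderOf_coe] at this
    omega
  obtain ⟨z, hz1, hz⟩ := (Nat.card_eq_two_iff' (1 : commutator D)).1 h4
  have h5 : ∀ g ∈ commutator D, g = 1 ∨ g = z := fun g hg => or_iff_not_imp_left.2 fun h5 =>
    congrArg Subtype.val (hz ⟨g, hg⟩ fun h6 => h5 (congrArg Subtype.val h6))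
  have h6 : (z : D) ≠ 1 := fun h6 => hz1 (Subtype.ext h6)
  refine (ZTwo.exists_zFour (D := D) (z := (z.1 : G)) ⟨z.1.2, congrArg Subtype.val
    ((h5 _ (mul_mem z.2 z.2)).resolve_right (by simpa using h6)), fun h => h6 (Subtype.ext h),
    fun x hx => (congrArg Subtype.val (mul_inv_eq_iff_eq_mul.1 ((h5 _ ((inferInstance :
      (commutator D).Normal).conj_mem _ z.2 ⟨x, hx⟩)).resolve_left (by simpa using h6)))).symm,
    fun g hg k hk => (h5 _ (commutator_mem_commutator (mem_top (⟨g, hg⟩⁻¹ : D))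
      (mem_top (⟨k, hk⟩⁻¹ : D)))).imp (fun h7 => ?_) fun h7 => ?_⟩ hD h16 ha hb hab).elim
        fun c hc => ?_
  rotate_right
  · refine (hc.qStar_or fun g hg => ?_).symm.imp (fun h7 => .inr (.inr ⟨0, h7⟩)) fun h7 => ⟨_, _, h7⟩
    obtain ⟨n, hn⟩ := isPElt_of_mem hD hg
    have h7 := h1 g hg
    have h8 : n < 3 := (Nat.pow_lt_pow_iff_right one_lt_two).1 (by omega)
    rw [← pow_two, ← pow_two, ← pow_mul]
    exact orderOf_dvd_iff_pow_eq_one.1 (by rw [hn]; exact pow_dvd_pow 2 (show n ≤ 2 by omega))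
  · replace h7 : g⁻¹ * k⁻¹ * g⁻¹⁻¹ * k⁻¹⁻¹ = 1 := congrArg Subtype.val h7
    rw [← mul_one (k * g), ← h7]
    group
  · replace h7 : g⁻¹ * k⁻¹ * g⁻¹⁻¹ * k⁻¹⁻¹ = z.1 := congrArg Subtype.val h7
    rw [← h7]
    group

namespace QStar

variable {D : Subgroup G} {z c : G} (h : QStar D z c) {g : G}
include h

theorem exists_four (hg : g ∈ D) (hg' : ¬ ∀ x ∈ D, Commute g x) :
    ∃ a ∈ D ⊓ centralizer {g}, (¬ ∀ x ∈ D, Commute a x) ∧ a * a = z ∧ orderOf a = 4 := by
  have key : ∀ a : G, a * a = z → orderOf a = 2 ^ (1 + 1) := fun a ha =>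
    orderOf_eq_prime_pow (by simpa [pow_two, ha] using h.z_ne)
      (by simpa [pow_succ, mul_assoc, ← ha] using h.zz)
  rcases h.sq g hg hg' with h1 | h1
  · exact ⟨g, ⟨hg, mem_centralizer_singleton_iff.2 rfl⟩, hg', h1, key g h1⟩
  · exact ⟨g * c, ⟨mul_mem hg h.cm, mem_centralizer_singleton_iff.2
      ((Commute.refl g).mul_left (h.cc g hg))⟩, fun h2 => hg' fun x hx => by
        simpa using (h2 x hx).mul_left (h.cc x hx).inv_left, h1, key _ h1⟩

theorem mem_centralizer (hg : g ∈ D) (hg' : ¬ ∀ x ∈ D, Commute g x) {t : G} (ht : IsPRegular 2 t)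
    (hN : t ∈ normalizer ((D ⊓ centralizer {g} : Subgroup G) : Set G)) :
    t ∈ centralizer ((D ⊓ centralizer {g} : Subgroup G) : Set G) := by
  obtain ⟨a, ha, -, h1, h2⟩ := h.exists_four hg hg'
  obtain ⟨y, -, hy⟩ := exists_idx_of_card_le (zpowers_le.2 ha)
    (by rw [h.card_inf hg hg', Nat.card_zpowers, h2])
  exact mem_centralizer_of_abelian_idx (h.pgrp.to_le inf_le_left) (h.comm_inf hg hg')
    (fun u hu v hv => hy.inv_mul_mem hu hv) ha (h1 ▸ h.z_ne) ht hN

theorem change : QStar D z (c * z) :=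
  ⟨h.toZFour.change, fun g hg hg' => (h.sq g hg hg').imp_right fun h1 => by
    rw [← mul_assoc g c z, (h.zc _ (mul_mem hg h.cm)).mul_mul_mul_comm, h.zz, mul_one, h1]⟩

theorem exists_idx : ∃ a ∈ D, ∃ b ∈ D, Idx D (zpowers a ⊔ zpowers c) b := by
  obtain ⟨g, hg, hg'⟩ := h.exists_not_cen
  obtain ⟨a, ha, ha', h1, h2⟩ := h.exists_four hg hg'
  refine ⟨a, ha.1, exists_idx_of_card_le (sup_le (zpowers_le.2 ha.1) (zpowers_le.2 h.cm)) ?_⟩
  have := two_mul_card_le_of_lt (left_lt_sup.2 (mt zpowers_le.1 fun h3 => ?_) :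
      zpowers a < zpowers a ⊔ zpowers c)
  · rw [Nat.card_zpowers, h2] at this
    rw [h.card]; omega
  by_cases h4 : c * c = 1
  · exact (eq_of_mul_self_of_mem_zpowers (h1 ▸ mul_mem (mem_zpowers a) (mem_zpowers a)) h3 h.zz
      h.z_ne h4).elim h.c_ne h.cz
  · obtain ⟨i, rfl⟩ := mem_zpowers_of_mem_of_orderOf_dvd h3 (mem_zpowers a) (by
      obtain ⟨n, hn⟩ := isPElt_of_mem h.pgrp h.cm
      rw [h2, hn]
      refine pow_dvd_pow 2 (show 2 ≤ n from by_contra fun h5 => h4 ?_)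
      exact (pow_two c).symm.trans (orderOf_dvd_iff_pow_eq_one.1
        (by rw [hn]; exact pow_dvd_pow 2 (show n ≤ 1 by omega))))
    exact ha' fun x hx => (h.cc x hx).zpow_left i

end QStar

end GT
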