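import Cfsg.Agent.Lib.Grp.CentCover

/-!
# Perfect central extensions of alternating groups

The kernel lies in the derived subgroup of the preimage of the alternating group on any six points.
By transfer its Sylow `2`-subgroup is generated by the commutator of lifts of `(a b)(c d)` and
`(a c)(b d)`, and it has order at most two for degree at least eight.
-/

set_option autoImplicit false
set_option linter.unusedSectionVars false

namespace GT

open Finset Equiv Subgroup
open scoped commutatorElement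

section General

variable {H K : Type*} [Group H] [Group K] {π : H →* K} (hπ : π.ker ≤ center H)

include hπ in
theorem commutator_comap_le {Q : Subgroup K} {S : Subgroup H} (h : Q ≤ S.map π) :
    ⁅Q.comap π, Q.comap π⁆ ≤ ⁅S, S⁆ := by
  refine commutator_le.2 fun x hx y hy => ?_
  obtain ⟨s, hs, h1⟩ := h hx
  obtain ⟨t, ht, h2⟩ := h hy
  have h3 : s⁻¹ * x ∈ center H := hπ (by simp [MonoidHom.mem_ker, h1])
  have h4 : t⁻¹ * y ∈ center H := hπ (by simp [MonoidHom.mem_ker, h2])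
  obtain ⟨z, rfl⟩ : ∃ z, x = s * z := ⟨s⁻¹ * x, by simp⟩
  obtain ⟨w, rfl⟩ : ∃ w, y = t * w := ⟨t⁻¹ * y, by simp⟩
  rw [inv_mul_cancel_left] at h3 h4
  convert commutator_mem_commutator hs ht using 1
  calc ⁅s * z, t * w⁆ = s * (z * (t * w) * z⁻¹) * s⁻¹ * w⁻¹ * t⁻¹ := by
        rw [commutatorElement_def]; group
    _ = s * t * (w * s⁻¹ * w⁻¹) * t⁻¹ := by
        rw [← mem_center_iff.1 h3, mul_inv_cancel_right]; group
    _ = _ := by rw [← mem_center_iff.1 h4, mul_inv_cancel_right, commutatorElement_def]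

theorem commutator_closure_le {S : Set H} {N : Subgroup H} (h1 : S ⊆ normalizer (N : Set H))
    (h2 : ∀ a ∈ S, ∀ b ∈ S, ⁅a, b⁆ ∈ N) : ⁅closure S, closure S⁆ ≤ N := by
  have h3 : ∀ x ∈ closure S, ∀ y ∈ N, x * y * x⁻¹ ∈ N := fun x hx y hy =>
    (mem_normalizer_iff.1 ((closure_le _).2 h1 hx) y).1 hy
  have h4 : ∀ x ∈ closure S, (∀ b ∈ S, ⁅x, b⁆ ∈ N) → ∀ y ∈ closure S, ⁅x, y⁆ ∈ N := by
    intro x _ h y hy
    induction hy using closure_induction with
    | mem y hy => exact h y hy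
    | one => simp
    | mul y z hy _ h5 h6 =>
      convert mul_mem h5 (h3 y hy _ h6) using 1
      simp only [commutatorElement_def]; group
    | inv y hy h5 =>
      convert h3 _ (inv_mem hy) _ (inv_mem h5) using 1
      simp only [commutatorElement_def]; group
  refine commutator_le.2 fun x hx y hy => h4 x hx (fun b hb => ?_) y hy
  rw [← commutatorElement_inv, inv_mem_iff]
  exact h4 b (subset_closure hb) (h2 b hb) x hx

variable [Finite H] [Finite K]

theorem pow_relIndex_mem_commutator {Q L : Subgroup H} (hQ : Q ≤ L) {z : H} (hz : z ∈ center H)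
    (hzQ : z ∈ Q) (h : z ∈ ⁅L, L⁆) : z ^ Q.relIndex L ∈ ⁅Q, Q⁆ := by
  have h1 := MonoidHom.transfer_eq_pow
    (Abelianization.of : Q.subgroupOf L →* Abelianization (Q.subgroupOf L)) ⟨z, hQ hzQ⟩
    fun k g _ => Subtype.ext (by
      simp only [Subgroup.coe_mul, Subgroup.coe_inv, SubmonoidClass.mk_pow]
      rw [mul_assoc, ← mem_center_iff.1 (pow_mem hz k) g, inv_mul_cancel_left])
  rw [← map_subtype_commutator] at h
  obtain ⟨y, hy, rfl⟩ := h
  replace h1 := h1.symm.trans (Abelianization.commutator_subset_ker _ hy)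
  rw [← MonoidHom.mem_ker, Abelianization.ker_of] at h1
  have h2 : (y ^ Q.relIndex L) ∈ ⁅Q.subgroupOf L, Q.subgroupOf L⁆ := by
    rw [← map_subtype_commutator]
    exact ⟨_, h1, rfl⟩
  have h3 := mem_map_of_mem L.subtype h2
  rwa [map_commutator, map_subgroupOf_eq_of_le hQ] at h3

include hπ in
theorem mem_commutator_of_isPElt {p : ℕ} [hp : Fact p.Prime] {E L : Subgroup K} (hE : E ≤ L)
    (hL : L ≤ π.range) (hi : ¬ p ∣ E.relIndex L) {S : Subgroup H} (hS : E ≤ S.map π) {z : H}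
    (hz : z ∈ π.ker) (hzp : IsPElt p z) (h : z ∈ ⁅L.comap π, L.comap π⁆) : z ∈ ⁅S, S⁆ := by
  have h1 := pow_relIndex_mem_commutator (comap_mono hE) (hπ hz) (ker_le_comap _ _ hz) h
  rw [relIndex_comap, map_comap_eq_self hL] at h1
  obtain ⟨m, hm⟩ := exists_pow_eq_self_of_coprime
    (hzp.coprime_orderOf ((Nat.Prime.coprime_iff_not_dvd hp.out).2 hi)).symm
  rw [← hm]
  exact pow_mem (commutator_comap_le hπ hS h1) m

end General

variable {α : Type*} [Fintype α] [DecidableEq α]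

/-- The even permutations supported in `Ω`. -/
def altOn (Ω : Finset α) : Subgroup (Perm α) :=
  (alternatingGroup Ω).map (Perm.ofSubtype : Perm Ω →* Perm α)

variable {Ω Δ : Finset α}

theorem mem_altOn {σ : Perm α} : σ ∈ altOn Ω ↔ Perm.sign σ = 1 ∧ ∀ x ∉ Ω, σ x = x := by
  rw [altOn, alternatingGroup.map_ofSubtype, Subgroup.mem_inf, Perm.mem_range_ofSubtype_iff, and_comm,
    Perm.mem_alternatingGroup]
  refine and_congr_right fun _ => forall_congr' fun x => ?_
  simp [not_imp_comm]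

theorem altOn_le : altOn Ω ≤ alternatingGroup α := fun _ h => (mem_altOn.1 h).1

theorem altOn_mono (h : Ω ⊆ Δ) : altOn Ω ≤ altOn Δ := fun _ hσ =>
  mem_altOn.2 ⟨(mem_altOn.1 hσ).1, fun x hx => (mem_altOn.1 hσ).2 x fun h1 => hx (h h1)⟩

theorem commutator_altOn (h : 5 ≤ Ω.card) : ⁅altOn Ω, altOn Ω⁆ = altOn Ω := by
  rw [altOn, ← map_commutator, commutator_alternatingGroup_eq_self (by simpa using h)]

theorem two_mul_card_altOn (h : 2 ≤ Ω.card) : 2 * Nat.card (altOn Ω) = Ω.card.factorial := by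
  have : Nontrivial Ω := Fintype.one_lt_card_iff_nontrivial.1 (by simp; omega)
  rw [altOn, card_map_of_injective Perm.ofSubtype_injective, two_mul_nat_card_alternatingGroup,
    Nat.card_perm, Nat.card_eq_finsetCard]

theorem apply_mem_of_mem_altOn {σ : Perm α} (h : σ ∈ altOn Ω) {x : α} (hx : x ∈ Ω) : σ x ∈ Ω := by
  by_contra h1
  exact h1 ((σ.injective ((mem_altOn.1 h).2 _ h1)).symm ▸ hx)

theorem swap_mul_swap_mem_altOn {a b c d : α} (h1 : a ≠ b) (h2 : c ≠ d) (ha : a ∈ Ω) (hb : b ∈ Ω)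
    (hc : c ∈ Ω) (hd : d ∈ Ω) : swap a b * swap c d ∈ altOn Ω :=
  mem_altOn.2 ⟨by simp [h1, h2], fun x hx => by
    rw [Perm.mul_apply, swap_apply_of_ne_of_ne (ne_of_mem_of_not_mem hc hx).symm
      (ne_of_mem_of_not_mem hd hx).symm, swap_apply_of_ne_of_ne (ne_of_mem_of_not_mem ha hx).symm
      (ne_of_mem_of_not_mem hb hx).symm]⟩

theorem exists_mem_notMem_list {l : List α} (h : l.length < Ω.card) : ∃ x ∈ Ω, x ∉ l := by
  simpa using Finset.exists_mem_notMem_of_card_lt_card (l.toFinset_card_le.trans_lt h)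

theorem exists_altOn_apply (h : 3 ≤ Ω.card) {a b : α} (ha : a ∈ Ω) (hb : b ∈ Ω) :
    ∃ σ ∈ altOn Ω, σ a = b := by
  rcases eq_or_ne a b with rfl | hab
  · exact ⟨1, one_mem _, rfl⟩
  obtain ⟨c, hc, h1⟩ := exists_mem_notMem_list (l := [a, b]) h
  simp only [List.mem_cons, List.not_mem_nil, or_false, not_or] at h1
  exact ⟨_, swap_mul_swap_mem_altOn h1.1 hab hc ha ha hb, by
    rw [Perm.mul_apply, swap_apply_left, swap_apply_of_ne_of_ne (Ne.symm h1.2) hab.symm]⟩

variable {H : Type*} [Group H] (π : H →* Perm α)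

/-- The derived subgroup of the preimage of the alternating group on `Ω`. -/
def core (Ω : Finset α) : Subgroup H := ⁅(altOn Ω).comap π, (altOn Ω).comap π⁆

variable {π}

theorem core_mono (h : Ω ⊆ Δ) : core π Ω ≤ core π Δ :=
  commutator_mono (comap_mono (altOn_mono h)) (comap_mono (altOn_mono h))

theorem map_mem_altOn {x : H} (h : x ∈ core π Ω) : π x ∈ altOn Ω :=
  (commutator_le_sup _ _).trans (sup_idem ((altOn Ω).comap π)).le h

theorem conj_mem_core {g x : H} (hg : ∀ a ∈ Ω, π g a ∈ Δ) (h : x ∈ core π Ω) :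
    g * x * g⁻¹ ∈ core π Δ := by
  have h1 : ((altOn Ω).comap π).map (MulAut.conj g).toMonoidHom ≤ (altOn Δ).comap π := by
    rintro _ ⟨y, hy, rfl⟩
    obtain ⟨h1, h2⟩ := mem_altOn.1 hy
    refine mem_altOn.2 ⟨by simp [h1], fun a ha => ?_⟩
    have h3 := h2 ((π g)⁻¹ a) fun h => ha (by simpa using hg _ h)
    simpa using congrArg (π g) h3
  have h2 := mem_map_of_mem (MulAut.conj g).toMonoidHom h
  rw [core, map_commutator] at h2
  exact commutator_mono h1 h1 h2

section

variable (hr : alternatingGroup α ≤ π.range) (hπ : π.ker ≤ center H)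
include hr

theorem exists_core (h : 5 ≤ Ω.card) {σ : Perm α} (hσ : σ ∈ altOn Ω) : ∃ x ∈ core π Ω, π x = σ := by
  rwa [← commutator_altOn h, ← map_comap_eq_self (altOn_le.trans hr), ← map_commutator] at hσ

include hπ

theorem mem_core_of_insert (h : 6 ≤ Ω.card) {n : α} (hn : n ∉ Ω) {z : H} (hz : z ∈ π.ker)
    (hzc : z ∈ core π (insert n Ω)) : z ∈ core π Ω := by
  obtain ⟨a, ha, -⟩ := exists_mem_notMem_list (Ω := Ω) (l := []) (by rw [List.length_nil]; omega)
  obtain ⟨b, hb, h1⟩ := exists_mem_notMem_list (Ω := Ω) (l := [a]) (by simp; omega)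
  obtain ⟨k, hk, h2⟩ := exists_mem_notMem_list (Ω := Ω) (l := [a, b]) (by simp; omega)
  obtain ⟨m, hm, h3⟩ := exists_mem_notMem_list (Ω := Ω) (l := [a, b, k]) (by simp; omega)
  obtain ⟨y, hy, h4⟩ := exists_mem_notMem_list (Ω := Ω) (l := [a, b, k, m]) (by simp; omega)
  simp only [List.mem_cons, List.not_mem_nil, or_false, not_or] at h1 h2 h3 h4
  have hne : ∀ {x}, x ∈ Ω → x ≠ n := fun hx => ne_of_mem_of_not_mem hx hn
  have hy5 : 5 ≤ (Ω.erase y).card := by rw [card_erase_of_mem hy]; omega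
  have hm5 : 5 ≤ (Ω.erase m).card := by rw [card_erase_of_mem hm]; omega
  have hsub := subset_insert n (Ω.erase y)
  have F0 : ∀ z ∈ core π (insert n (Ω.erase y)), π z = 1 → z ∈ core π Ω := by
    intro z hz hz1
    obtain ⟨g, hg⟩ := hr (altOn_le (swap_mul_swap_mem_altOn (hne hy) h1 (mem_univ _) (mem_univ _)
      (mem_univ _) (mem_univ _)))
    have h5 := conj_mem_core (g := g) (Δ := Ω) (fun x hx => ?_) hz
    · rwa [mem_center_iff.1 (hπ hz1), mul_inv_cancel_right] at h5
    rw [hg, Perm.mul_apply]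
    simp only [mem_insert, mem_erase, swap_apply_def] at hx ⊢
    grind
  have ha' : a ∈ Ω.erase y := mem_erase.2 ⟨Ne.symm h4.1, ha⟩
  have hb' : b ∈ Ω.erase y := mem_erase.2 ⟨Ne.symm h4.2.1, hb⟩
  have hm' : m ∈ Ω.erase y := mem_erase.2 ⟨Ne.symm h4.2.2.2, hm⟩
  obtain ⟨t, ht, ht1⟩ := exists_core hr (hy5.trans (card_le_card hsub))
    (swap_mul_swap_mem_altOn h1 (hne hm) (hsub hb') (hsub ha') (hsub hm') (mem_insert_self _ _))
  obtain ⟨s, hs, hs1⟩ := exists_core hr hy5 (swap_mul_swap_mem_altOn h1 h3.2.2 hb' ha' hm'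
    (mem_erase.2 ⟨Ne.symm h4.2.2.1, hk⟩))
  have hsA : s ∈ core π Ω := core_mono (erase_subset _ _) hs
  have hna := hne ha
  have hnb := hne hb
  have hnk := hne hk
  have hnm := hne hm
  have F2 : t * t ∈ core π Ω := F0 _ (mul_mem ht ht) (by
    rw [map_mul, ht1]
    ext x
    simp only [Perm.mul_apply, swap_apply_def, Perm.one_apply]
    grind)
  have F2' : t * s * (t * s) * (t * s) ∈ core π Ω := by
    have h5 := mul_mem ht (core_mono hsub hs)
    refine F0 _ (mul_mem (mul_mem h5 h5) h5) ?_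
    have h6 : π (t * s) = swap m n * swap m k := by
      rw [map_mul, ht1, hs1]
      ext x
      simp only [Perm.mul_apply, swap_apply_def]
      grind
    rw [map_mul, map_mul, h6, ← pow_three', ← (Perm.isThreeCycle_swap_mul_swap_same hnm h3.2.2
      hnk.symm).orderOf, pow_orderOf_eq_one]
  have F3 : ∀ x ∈ core π Ω, π x m = m → t * x * t⁻¹ ∈ core π Ω := by
    intro x hx hxm
    obtain ⟨h5, h6⟩ := mem_altOn.1 (map_mem_altOn hx)
    obtain ⟨x', hx', h7⟩ := exists_core hr hm5 (mem_altOn.2 ⟨h5, fun c hc => by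
      rcases eq_or_ne c m with rfl | h
      exacts [hxm, h6 c fun h' => hc (mem_erase.2 ⟨h, h'⟩)]⟩)
    have h8 : x * x'⁻¹ ∈ center H := hπ (by simp [MonoidHom.mem_ker, h7])
    have h9 := conj_mem_core (g := t) (Δ := Ω) (fun c hc => ?_) hx'
    · convert mul_mem (mul_mem hx (inv_mem (core_mono (erase_subset _ _) hx'))) h9 using 1
      rw [← mul_assoc, ← mul_assoc, ← mem_center_iff.1 h8]; group
    rw [ht1, Perm.mul_apply]
    simp only [mem_erase, swap_apply_def] at hc ⊢
    grind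
  have F4 : ∀ x ∈ core π Ω, t * x * t ∈ core π Ω ∨
      ∃ c ∈ core π Ω, ∃ d ∈ core π Ω, t * x * t = c * t * d := by
    intro x hx
    by_cases hxm : π x m = m
    · left
      convert mul_mem (F3 x hx hxm) F2 using 1
      group
    obtain ⟨σ, hσ, h5⟩ := exists_altOn_apply (Ω := Ω.erase m) (by omega)
      (mem_erase.2 ⟨Ne.symm h3.2.2, hk⟩)
      (mem_erase.2 ⟨hxm, apply_mem_of_mem_altOn (map_mem_altOn hx) hm⟩)
    obtain ⟨c, hc, rfl⟩ := exists_core hr hm5 hσ
    have hc' := core_mono (erase_subset _ _) hc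
    have h6 := F3 c hc' ((mem_altOn.1 hσ).2 m (notMem_erase _ _))
    have h7 := F3 _ (mul_mem (inv_mem (mul_mem hc' hsA)) hx) (by
      rw [map_mul, map_inv, Perm.mul_apply, Perm.inv_eq_iff_eq, map_mul, Perm.mul_apply, ← h5, hs1]
      simp only [Perm.mul_apply, swap_apply_def]
      grind)
    refine Or.inr ⟨_, mul_mem (mul_mem h6 F2') (inv_mem (mul_mem F2 hsA)), _,
      mul_mem (mul_mem (inv_mem (mul_mem F2 hsA)) h7) F2, ?_⟩
    group
  let S : Subgroup H :=
    { carrier := {x | x ∈ core π Ω ∨ ∃ c ∈ core π Ω, ∃ d ∈ core π Ω, x = c * t * d}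
      one_mem' := Or.inl (one_mem _)
      inv_mem' := by
        rintro x (hx | ⟨c, hc, d, hd, rfl⟩)
        · exact Or.inl (inv_mem hx)
        · exact Or.inr ⟨_, inv_mem hd, _, inv_mem (mul_mem hc F2), by group⟩
      mul_mem' := by
        rintro x x' (hx | ⟨c, hc, d, hd, rfl⟩) (hx' | ⟨c', hc', d', hd', rfl⟩)
        · exact Or.inl (mul_mem hx hx')
        · exact Or.inr ⟨_, mul_mem hx hc', _, hd', by group⟩
        · exact Or.inr ⟨_, hc, _, mul_mem hd hx', by group⟩
        · rcases F4 _ (mul_mem hd hc') with h5 | ⟨e, he, f, hf, h5⟩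
          · left
            convert mul_mem (mul_mem hc h5) hd' using 1
            group
          · refine Or.inr ⟨_, mul_mem hc he, _, mul_mem hf hd', ?_⟩
            calc _ = c * (t * (d * c') * t) * d' := by group
              _ = _ := by rw [h5]; group }
  have htn : π t n = m := by
    rw [ht1, Perm.mul_apply, swap_apply_right, swap_apply_of_ne_of_ne h3.2.1 h3.1]
  have F5 : altOn (insert n Ω) ≤ S.map π := by
    have h5 : ∀ σ ∈ altOn (insert n Ω), σ n = n → ∃ x ∈ core π Ω, π x = σ := fun σ hσ h5 =>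
      exists_core hr (by omega) (mem_altOn.2 ⟨(mem_altOn.1 hσ).1, fun c hc => by
        rcases eq_or_ne c n with rfl | h
        exacts [h5, (mem_altOn.1 hσ).2 c (by simp [h, hc])]⟩)
    intro σ hσ
    by_cases h6 : σ n = n
    · obtain ⟨x, hx, rfl⟩ := h5 σ hσ h6
      exact ⟨x, Or.inl hx, rfl⟩
    obtain ⟨τ, hτ, h7⟩ := exists_altOn_apply (by omega) hm ((mem_insert.1
      (apply_mem_of_mem_altOn hσ (mem_insert_self _ _))).resolve_left h6)
    obtain ⟨c, hc, rfl⟩ := exists_core hr (by omega) hτ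
    obtain ⟨d, hd, h8⟩ := h5 _ (mul_mem (inv_mem (mul_mem (altOn_mono (subset_insert _ _) hτ)
      (altOn_mono (insert_subset_insert _ (erase_subset _ _)) (map_mem_altOn ht)))) hσ) (by
        rw [Perm.mul_apply, Perm.inv_eq_iff_eq, Perm.mul_apply, htn, h7])
    exact ⟨_, Or.inr ⟨c, hc, d, hd, rfl⟩, by rw [map_mul, map_mul, h8, mul_inv_cancel_left]⟩
  rcases (commutator_le_sup _ _).trans (sup_idem _).le (commutator_comap_le hπ F5 hzc) with
    h5 | ⟨c, hc, d, hd, rfl⟩
  · exact h5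
  have h6 := apply_mem_of_mem_altOn (map_mem_altOn hc) hm
  rw [← htn, ← (mem_altOn.1 (map_mem_altOn hd)).2 n hn, ← Perm.mul_apply, ← Perm.mul_apply,
    ← map_mul, ← map_mul, MonoidHom.mem_ker.1 hz] at h6
  exact absurd h6 hn

theorem ker_le_core (hH : commutator H = ⊤) (hr' : π.range ≤ alternatingGroup α) (h : 6 ≤ Ω.card) :
    π.ker ≤ core π Ω := by
  intro z hz
  have h1 : ∀ S : Finset α, z ∈ core π (S ∪ Ω) → z ∈ core π Ω := by
    intro S
    induction S using Finset.induction_on with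
    | empty => simp
    | insert n S _ ih =>
      rw [insert_union]
      by_cases hn : n ∈ S ∪ Ω
      · rwa [insert_eq_of_mem hn]
      · exact fun h1 => ih (mem_core_of_insert hr hπ (h.trans (card_le_card subset_union_right))
          hn hz h1)
  refine h1 univ ?_
  have h2 : (altOn (univ ∪ Ω)).comap π = ⊤ :=
    eq_top_iff.2 fun x _ => mem_altOn.2 ⟨hr' ⟨x, rfl⟩, by simp⟩
  rw [core, h2, ← commutator_def, hH]
  trivial

end

theorem viaEmbedding_swap {β : Type*} [DecidableEq β] (ι : β ↪ α) (i j : β) :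
    Perm.viaEmbeddingHom ι (swap i j) = swap (ι i) (ι j) := by
  ext x
  by_cases hx : x ∈ Set.range ι
  · obtain ⟨y, rfl⟩ := hx
    rw [Perm.viaEmbeddingHom_apply, Perm.viaEmbedding_apply, ι.injective.swap_apply]
  · rw [Perm.viaEmbeddingHom_apply, Perm.viaEmbedding_apply_of_notMem _ _ _ hx,
      swap_apply_of_ne_of_ne (fun h => hx ⟨i, h.symm⟩) fun h => hx ⟨j, h.symm⟩]

theorem viaEmbedding_mem_altOn {β : Type*} [Fintype β] [DecidableEq β] (ι : β ↪ α) {σ : Perm β}
    (h : Perm.sign σ = 1) : Perm.viaEmbeddingHom ι σ ∈ altOn (univ.map ι) := by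
  classical
  refine mem_altOn.2 ⟨?_, fun x hx => Perm.viaEmbedding_apply_of_notMem _ _ _ (by simpa using hx)⟩
  rw [Perm.viaEmbeddingHom_apply, Perm.viaEmbedding, Perm.sign_extendDomain, h]

/-- The dihedral group of order eight in the alternating group of degree six. -/
def hom8 : DihedralGroup 4 →* Perm (Fin 6) where
  toFun g := match g with
    | .r i => (swap 0 2 * swap 1 3 * (swap 0 1 * swap 4 5)) ^ i.val
    | .sr i => swap 0 2 * swap 1 3 * (swap 0 2 * swap 1 3 * (swap 0 1 * swap 4 5)) ^ i.val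
  map_one' := by decide +kernel
  map_mul' := by decide +kernel

/-- The elementary abelian group of order nine in the alternating group of degree eight. -/
def hom9 : Multiplicative (ZMod 3) × Multiplicative (ZMod 3) →* Perm (Fin 8) where
  toFun g := (swap 0 1 * swap 6 7 * (swap 1 2 * swap 6 7)) ^ g.1.toAdd.val *
    (swap 3 4 * swap 3 5) ^ g.2.toAdd.val
  map_one' := by decide +kernel
  map_mul' := by decide +kernel

theorem hom8_spec : (∀ g, hom8 g = 1 → g = 1) ∧ ∀ g, Perm.sign (hom8 g) = 1 := by decide +kernel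

theorem hom9_spec : (∀ g, hom9 g = 1 → g = 1) ∧ ∀ g, Perm.sign (hom9 g) = 1 := by decide +kernel

theorem viaEmbedding_eq_one {β : Type*} (ι : β ↪ α) {σ : Perm β} (h : σ = 1) :
    Perm.viaEmbeddingHom ι σ = 1 := by rw [h, map_one]

variable [Finite H] (hr : π.range = alternatingGroup α) (hπ : π.ker ≤ center H)
  (hH : commutator H = ⊤)
include hr hπ hH

theorem mem_commutator_of_hom {β Γ : Type*} [Fintype β] [DecidableEq β] [Group Γ] (ι : β ↪ α)
    (h6 : 6 ≤ Fintype.card β) (φ : Γ →* Perm β) (h1 : ∀ g, φ g = 1 → g = 1)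
    (h2 : ∀ g, Perm.sign (φ g) = 1) {p : ℕ} [Fact p.Prime]
    (h3 : ¬ 2 * Nat.card Γ * p ∣ (Fintype.card β).factorial) {S : Subgroup H}
    (hS : ∀ g, Perm.viaEmbeddingHom ι (φ g) ∈ S.map π) {z : H} (hz : z ∈ π.ker)
    (hzp : IsPElt p z) : z ∈ ⁅S, S⁆ := by
  have h4 : ((Perm.viaEmbeddingHom ι).comp φ).range ≤ altOn (univ.map ι) := by
    rintro _ ⟨g, rfl⟩
    exact viaEmbedding_mem_altOn ι (h2 g)
  have h5 : (univ.map ι).card = Fintype.card β := by simp
  refine mem_commutator_of_isPElt hπ h4 (altOn_le.trans hr.ge) (fun h => h3 ?_)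
    (by rintro _ ⟨g, rfl⟩; exact hS g) hz hzp (ker_le_core hr.ge hπ hH hr.le (h5 ▸ h6) hz)
  rw [← h5, ← two_mul_card_altOn (by omega), ← card_mul_index (Subgroup.subgroupOf _ _),
    Nat.card_congr (subgroupOfEquivOfLe h4).toEquiv, ← Nat.card_congr (MonoidHom.ofInjective
      (f := (Perm.viaEmbeddingHom ι).comp φ)
      ((Perm.viaEmbeddingHom_injective ι).comp ((injective_iff_map_eq_one φ).2 h1))).toEquiv,
    mul_assoc]
  exact Nat.mul_dvd_mul_left _ (Nat.mul_dvd_mul_left _ h)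

theorem eq_one_of_five_le (h6 : 6 ≤ Fintype.card α) {p : ℕ} [hp : Fact p.Prime] (h5 : 5 ≤ p)
    {z : H} (hz : z ∈ π.ker) (hzp : IsPElt p z) : z = 1 := by
  obtain ⟨Ω, -, hΩ⟩ := Finset.exists_subset_card_eq (s := (univ : Finset α)) h6
  obtain ⟨E, hE⟩ := exists_isSylowIn p (altOn Ω)
  have h1 : Nat.card E ∣ p := by
    obtain ⟨k, hk⟩ := IsPGroup.iff_card.1 hE.isPGroup
    have h1 : p ^ k ∣ 720 := by
      rw [← hk, show 720 = Ω.card.factorial by rw [hΩ]; rfl, ← two_mul_card_altOn (by omega)]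
      exact (card_dvd_of_le hE.le).mul_left _
    rw [hk]
    refine (pow_dvd_pow p (not_lt.1 fun h => ?_)).trans (pow_one p).dvd
    have h2 := (pow_dvd_pow p h).trans h1
    have h3 : p < 27 := by nlinarith [Nat.le_of_dvd (by norm_num) h2]
    have h4 := hp.out
    interval_cases p <;> revert h2 h4 <;> norm_num
  obtain ⟨ε, rfl⟩ := E.isCyclic_iff_exists_zpowers_eq_top.1 (isCyclic_of_card_dvd_prime h1)
  obtain ⟨x, rfl⟩ := (altOn_le.trans hr.ge) (hE.le (mem_zpowers ε))
  have h2 := mem_commutator_of_isPElt hπ hE.le (altOn_le.trans hr.ge) hE.not_dvd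
    (MonoidHom.map_zpowers π x).ge hz hzp (ker_le_core hr.ge hπ hH hr.le hΩ.ge hz)
  rw [zpowers_eq_closure] at h2
  exact commutator_closure_le (N := ⊥) (by rw [normalizer_eq_top]; simp) (by simp) h2

theorem eq_one_of_three (h8 : 8 ≤ Fintype.card α) {z : H} (hz : z ∈ π.ker) (hzp : IsPElt 3 z) :
    z = 1 := by
  have : Fact (Nat.Prime 3) := ⟨Nat.prime_three⟩
  obtain ⟨ι⟩ : Nonempty (Fin 8 ↪ α) := Function.Embedding.nonempty_of_card_le (by simpa using h8)
  have h0 : ∀ σ, Perm.sign σ = 1 → ∃ x, π x = Perm.viaEmbeddingHom ι σ := fun σ h =>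
    (altOn_le.trans hr.ge) (viaEmbedding_mem_altOn ι h)
  obtain ⟨x, hx⟩ := h0 (swap 0 1 * swap 6 7) (by decide +kernel)
  obtain ⟨y, hy⟩ := h0 (swap 1 2 * swap 6 7) (by decide +kernel)
  obtain ⟨w, hw⟩ := h0 (swap 3 4 * swap 3 5) (by decide +kernel)
  have h1 : ∀ x σ, π x = Perm.viaEmbeddingHom ι σ → σ ^ 2 = 1 →
      σ * (swap 3 4 * swap 3 5) = swap 3 4 * swap 3 5 * σ → Commute x w := fun x σ h1 h2 h3 =>
    commute_of_coprime hπ (a := 2) (b := 3) (by rw [h1, hw]; exact Commute.map h3 _) (by decide)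
      (by rw [h1, ← map_pow, h2, map_one])
      (by rw [hw, ← map_pow]; exact viaEmbedding_eq_one ι (by decide +kernel))
  have h2 := (h1 x _ hx (by decide +kernel) (by decide +kernel)).mul_left
    (h1 y _ hy (by decide +kernel) (by decide +kernel))
  refine commutator_closure_le (S := {x * y, w}) (N := ⊥) (by rw [normalizer_eq_top]; simp) ?_
    (mem_commutator_of_hom hr hπ hH ι (by simp) hom9 hom9_spec.1 hom9_spec.2
      (by simp; decide) (fun g => ⟨(x * y) ^ g.1.toAdd.val * w ^ g.2.toAdd.val,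
        mul_mem (pow_mem (subset_closure (by simp)) _) (pow_mem (subset_closure (by simp)) _),
        ?_⟩) hz hzp)
  · simp [commutatorElement_eq_one_iff_commute, h2, h2.symm]
  · rw [map_mul, map_pow, map_pow, map_mul, hx, hy, hw, ← map_mul, ← map_pow, ← map_pow, ← map_mul]
    rfl

/-- The `2`-elements of the kernel are powers of the commutator of lifts of generators of a
four-group. -/
theorem mem_zpowers_comm (h6 : 6 ≤ Fintype.card α) {a b c d : α} (hab : a ≠ b) (hac : a ≠ c)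
    (had : a ≠ d) (hbc : b ≠ c) (hbd : b ≠ d) (hcd : c ≠ d) {x v : H}
    (hx : π x = swap a b * swap c d) (hv : π v = swap a c * swap b d) {z : H} (hz : z ∈ π.ker)
    (hzp : IsPElt 2 z) : z ∈ zpowers ⁅v, x⁆ := by
  obtain ⟨e, -, he⟩ := exists_mem_notMem_list (Ω := univ) (l := [a, b, c, d]) (by simp; omega)
  obtain ⟨f, -, hf⟩ := exists_mem_notMem_list (Ω := univ) (l := [a, b, c, d, e]) (by simp; omega)
  simp only [List.mem_cons, List.not_mem_nil, or_false, not_or] at he hf
  let ι : Fin 6 ↪ α := ⟨![a, b, c, d, e, f], by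
    intro i j h
    fin_cases i <;> fin_cases j <;> simp_all⟩
  obtain ⟨w, hw⟩ := (altOn_le.trans hr.ge) (viaEmbedding_mem_altOn ι
    (σ := swap 0 1 * swap 4 5) (by decide +kernel))
  replace hx : π x = Perm.viaEmbeddingHom ι (swap 0 1 * swap 2 3) := by
    rw [hx, map_mul, viaEmbedding_swap, viaEmbedding_swap]; rfl
  replace hv : π v = Perm.viaEmbeddingHom ι (swap 0 2 * swap 1 3) := by
    rw [hv, map_mul, viaEmbedding_swap, viaEmbedding_swap]; rfl
  have h1 : v * v ∈ center H := hπ (by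
    rw [MonoidHom.mem_ker, map_mul, hv, ← map_mul]
    exact viaEmbedding_eq_one ι (by decide +kernel))
  have h2 : w * w ∈ center H := hπ (by
    rw [MonoidHom.mem_ker, map_mul, hw, ← map_mul]
    exact viaEmbedding_eq_one ι (by decide +kernel))
  have h3 : π ⁅v, w⁆ = π x := by
    rw [map_commutatorElement, hx, hv, hw, ← map_commutatorElement]
    exact congrArg _ (by decide +kernel)
  have h4 : v * ⁅v, w⁆ * v⁻¹ = ⁅v, w⁆⁻¹ := by
    calc _ = v * v * (w * v⁻¹) * (w⁻¹ * v⁻¹) := by rw [commutatorElement_def]; group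
      _ = w * (v * v * v⁻¹) * (w⁻¹ * v⁻¹) := by rw [← mem_center_iff.1 h1]; group
      _ = _ := by rw [commutatorElement_def]; group
  have h5 : w * ⁅v, w⁆ * w⁻¹ = ⁅v, w⁆⁻¹ := by
    calc _ = w * v * w * (v⁻¹ * (w * w)⁻¹) := by rw [commutatorElement_def]; group
      _ = _ := by rw [mem_center_iff.1 (inv_mem h2), commutatorElement_def]; group
  have h6 : ∀ u, u * ⁅v, w⁆ * u⁻¹ = ⁅v, w⁆⁻¹ → u ∈ normalizer (zpowers ⁅v, w⁆ : Set H) :=
    fun u h => mem_normalizer_fintype fun n ⟨k, hk⟩ => ⟨-k, by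
      rw [← hk]; simp only [← conj_zpow, h, zpow_neg, inv_zpow]⟩
  obtain ⟨k, rfl⟩ := commutator_closure_le (S := {v, w}) (N := zpowers ⁅v, w⁆)
    (by simp [Set.insert_subset_iff, h6 v h4, h6 w h5])
    (by simpa using commutatorElement_inv v w ▸ inv_mem (mem_zpowers _))
    (mem_commutator_of_hom hr hπ hH ι (by simp) hom8 hom8_spec.1 hom8_spec.2
      (by rw [DihedralGroup.nat_card]; decide) (fun g => by
        have h7 : v ∈ closure {v, w} := subset_closure (by simp)
        have h8 : w ∈ closure {v, w} := subset_closure (by simp)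
        rcases g with i | i
        · exact ⟨_, pow_mem (mul_mem h7 h8) i.val, by
            rw [map_pow, map_mul, hv, hw, ← map_mul, ← map_pow]; rfl⟩
        · exact ⟨_, mul_mem h7 (pow_mem (mul_mem h7 h8) i.val), by
            rw [map_mul, map_pow, map_mul, hv, hw, ← map_mul, ← map_pow, ← map_mul]; rfl⟩) hz hzp)
  have h7 : ⁅v, w⁆⁻¹ * x ∈ center H := hπ (by rw [MonoidHom.mem_ker, map_mul, map_inv, h3]; simp)
  have h8 : ⁅v, x⁆ = ⁅v, w⁆ ^ (-2 : ℤ) := by
    calc _ = v * ⁅v, w⁆ * (⁅v, w⁆⁻¹ * x * v⁻¹) * x⁻¹ := by rw [commutatorElement_def v x]; group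
      _ = _ := by
        rw [← mem_center_iff.1 h7, ← mul_assoc, h4, zpow_neg, zpow_two, mul_inv_rev, ← mul_assoc,
          mul_inv_cancel_right]
  have h9 : orderOf (π x) = 2 := by
    rw [hx, orderOf_injective _ (Perm.viaEmbeddingHom_injective ι)]
    exact orderOf_eq_prime (by decide +kernel) (by decide +kernel)
  rw [MonoidHom.mem_ker, map_zpow, h3, ← orderOf_dvd_iff_zpow_eq_one, h9] at hz
  obtain ⟨j, rfl⟩ := hz
  exact ⟨-j, by simp only [h8, ← zpow_mul]; congr 1; simp⟩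

/-- The Schur multiplier of an alternating group of degree at least eight has order at most two. -/
theorem card_ker_le_two (h8 : 8 ≤ Fintype.card α) : Nat.card π.ker ≤ 2 := by
  obtain ⟨ι⟩ : Nonempty (Fin 4 ↪ α) :=
    Function.Embedding.nonempty_of_card_le (by simpa using le_trans (by norm_num) h8)
  have h0 : ∀ {i j}, i ≠ j → ι i ≠ ι j := fun h => ι.injective.ne h
  obtain ⟨x, hx⟩ : swap (ι 0) (ι 1) * swap (ι 2) (ι 3) ∈ π.range := by
    rw [hr, Perm.mem_alternatingGroup]
    simp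
  obtain ⟨v, hv⟩ : swap (ι 0) (ι 2) * swap (ι 1) (ι 3) ∈ π.range := by
    rw [hr, Perm.mem_alternatingGroup]
    simp
  have h1 : IsPGroup 2 π.ker := by
    refine IsPGroup.iff_card.2 ⟨_, Nat.eq_prime_pow_of_unique_prime_dvd Nat.card_pos.ne'
      fun {p} hp h => by_contra fun h2 => ?_⟩
    have : Fact p.Prime := ⟨hp⟩
    obtain ⟨z, hz⟩ := exists_prime_orderOf_dvd_card' p h
    have h3 : IsPElt p (z : H) := isPElt_coe.2 ⟨1, by rw [hz, pow_one]⟩
    have h4 : (z : H) = 1 := by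
      rcases eq_or_ne p 3 with rfl | h5
      · exact eq_one_of_three hr hπ hH h8 z.2 h3
      · exact eq_one_of_five_le hr hπ hH (by omega) (hp.five_le_of_ne_two_of_ne_three h2 h5) z.2 h3
    rw [← orderOf_coe, h4, orderOf_one] at hz
    exact hp.one_lt.ne hz
  refine (card_le_of_le (K := zpowers ⁅v, x⁆) fun z hz => mem_zpowers_comm hr hπ hH (by omega)
    (h0 (by decide)) (h0 (by decide)) (h0 (by decide)) (h0 (by decide)) (h0 (by decide))
    (h0 (by decide)) hx hv hz (isPElt_of_mem h1 hz)).trans ?_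
  rw [Nat.card_zpowers]
  refine orderOf_le_of_pow_eq_one two_pos (comm_pow_eq_one hπ ?_ ?_)
  · rw [hx, hv, ← viaEmbedding_swap, ← viaEmbedding_swap, ← viaEmbedding_swap, ← viaEmbedding_swap,
      ← map_mul, ← map_mul]
    exact Commute.map ((commute_iff_eq _ _).2 (by decide +kernel)) _
  · rw [hv, ← viaEmbedding_swap, ← viaEmbedding_swap, ← map_mul, ← map_pow]
    exact viaEmbedding_eq_one ι (by decide +kernel)

end GT
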