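import Cfsg.Agent.Lib.Grp.AltTwo
import Cfsg.Agent.Lib.Grp.AltCover

/-!
# Centres of radical subgroups in covers of alternating groups
-/

set_option autoImplicit false
set_option linter.unusedSectionVars false

namespace GT

open Finset Equiv Subgroup
open scoped commutatorElement

section General

variable {H K : Type*} [Group H] [Group K] [Finite H] {π : H →* K} {p : ℕ} [Fact p.Prime]
  (hk : ¬ p ∣ Nat.card π.ker) {D : Subgroup H} (hD : IsPGroup p D)
include hk hD

theorem eq_one_of_map_eq_one {x : H} (hx : x ∈ D) (h : π x = 1) : x = 1 :=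
  (isPElt_of_mem hD hx).eq_one_of_isPRegular (isPRegular_of_mem hk h)

theorem card_map_of_not_dvd : Nat.card (D.map π) = Nat.card D := by
  rw [← MonoidHom.domRestrict_range]
  exact (Nat.card_congr (MonoidHom.ofInjective ((injective_iff_map_eq_one _).2 fun x hx =>
    Subtype.ext (eq_one_of_map_eq_one hk hD x.2 hx))).toEquiv).symm

theorem commute_of_commute_map {x y : H} (hx : x ∈ D) (hy : y ∈ D) (h : Commute (π x) (π y)) :
    Commute x y :=
  commutatorElement_eq_one_iff_commute.1 (eq_one_of_map_eq_one hk hD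
    (mul_mem (mul_mem (mul_mem hx hy) (inv_mem hx)) (inv_mem hy))
    (by rw [map_commutatorElement, commutatorElement_eq_one_iff_commute.2 h]))

end General

variable {α : Type*} [Fintype α] [DecidableEq α]

theorem commute_swap {f : Perm α} {a b : α} (ha : f a = a) (hb : f b = b) : Commute f (swap a b) := by
  rw [Commute, SemiconjBy, mul_swap_eq_swap_mul, ha, hb]

/-- A permutation of even order commutes with an odd permutation. -/
theorem exists_odd_commute {g : Perm α} (h : 2 ∣ orderOf g) :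
    ∃ t ∉ alternatingGroup α, Commute t g := by
  rw [← Perm.lcm_cycleType] at h
  obtain ⟨n, hn, h1⟩ := Nat.prime_two.prime.exists_mem_multiset_dvd
    (h.trans (Multiset.lcm_dvd.2 fun _ => Multiset.dvd_prod))
  obtain ⟨c, τ, rfl, h2, h3, rfl⟩ := Perm.mem_cycleType_iff.1 hn
  refine ⟨c, ?_, (Commute.refl c).mul_right h2.commute⟩
  rw [Perm.mem_alternatingGroup, h3.sign, (even_iff_two_dvd.2 h1).neg_one_pow]
  decide

theorem mul_add_one_le_card_mov {p : ℕ} [hp : Fact p.Prime] (hp2 : p ≠ 2) {E : Subgroup (Perm α)}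
    (hE : IsPGroup p E) : p * (Nat.card E).factorization p ≤ (mov E).card ∨
      p * (Nat.card (orbC E)).factorization p + 1 ≤ (mov E).card := by
  by_cases h : ∀ a, (orbF E a).card ≤ p
  · exact Or.inl (mul_add_le_card_mov hE (le_orbC_of_card_orbF_le hE h) (Or.inl rfl))
  push Not at h
  obtain ⟨a, ha⟩ := h
  obtain ⟨k, hk⟩ := exists_card_orbF hE a
  have h3 : 3 ≤ p := lt_of_le_of_ne hp.out.two_le hp2.symm
  refine Or.inr (mul_add_le_card_mov hE le_rfl (Or.inr ⟨a, by_contra fun h => ?_, k,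
    hk ▸ Finset.card_le_card (orbF_subset_of_le_orbC le_rfl a), ?_⟩))
  · rw [orbF_eq_singleton h, card_singleton] at ha
    omega
  rw [hk] at ha ⊢
  rcases k with _ | _ | k
  · omega
  · simp at ha
  · have h4 : k + 1 < 2 ^ (k + 1) := Nat.lt_two_pow_self
    have h5 : 2 ^ (k + 1) < p ^ (k + 1) := Nat.pow_lt_pow_left h3 k.succ_ne_zero
    rw [pow_succ']
    nlinarith

variable {H : Type*} [Group H] [Finite H] {π : H →* Perm α}

theorem card_center_dvd {p : ℕ} [Fact p.Prime] (hr : π.range = alternatingGroup α)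
    (hk : ¬ p ∣ Nat.card π.ker) {D : Subgroup H} (hD : IsPGroup p D) :
    Nat.card (center D) ∣ Nat.card (orbC (D.map π) ⊓ alternatingGroup α :) := by
  rw [← card_map_of_injective (K := center D) D.subtype_injective,
    ← card_map_of_not_dvd hk (hD.to_le (map_subtype_le _))]
  refine card_dvd_of_le ?_
  rintro _ ⟨_, ⟨z, hz, rfl⟩, rfl⟩
  refine ⟨mem_orbC_of_mem ⟨z, z.2, rfl⟩ ?_, hr.le ⟨_, rfl⟩⟩
  rintro _ ⟨d, hd, rfl⟩
  rw [← map_mul, ← map_mul]
  exact congrArg (fun x : D => π x) (mem_center_iff.1 hz ⟨d, hd⟩).symm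

/-- If the kernel has even order, it contains the centre of every defect-like `2`-subgroup. -/
theorem mem_ker_of_forall_commute (hr : π.range = alternatingGroup α) (hπ : π.ker ≤ center H)
    (hH : commutator H = ⊤) (h6 : 6 ≤ Fintype.card α) (hk : 2 ∣ Nat.card π.ker) {D : Subgroup H}
    (hD : Radical 2 ⊤ D) {s : H} (hs : ¬ 2 ∣ orderOf s) (hDs : IsSylowIn 2 D (centralizer {s}))
    {z : H} (hz : z ∈ D) (hzc : ∀ d ∈ D, d * z = z * d) : z ∈ π.ker := by
  have key : ∀ z ∈ D, (∀ d ∈ D, d * z = z * d) → π z ^ 2 = 1 → π z = 1 := by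
    intro z hz hzc h2
    by_contra h1
    obtain ⟨a, c, ha, hc, h3, h4⟩ := exists_four_of_sq h1 h2 (hr.le ⟨z, rfl⟩)
    have h5 : ∀ x, π z (π z x) = x := fun x => by rw [← Perm.mul_apply, ← sq, h2, Perm.one_apply]
    have h6' : (π s) ^ orderOf s = 1 := by rw [← map_pow, pow_orderOf_eq_one, map_one]
    have h7 : ∀ x, π z x ≠ x → π s x = x := fun x hx => apply_eq_of_mem_mov
      (hr ▸ hDs.map_centralizer hπ hs) (hr ▸ hD.map hπ hDs.isPGroup) hs h6'
      (mem_mov.2 ⟨_, mem_map_of_mem π hz, hx⟩)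
    obtain ⟨b, hb⟩ : ∃ b, π z a = b := ⟨_, rfl⟩
    obtain ⟨d, hd⟩ : ∃ d, π z c = d := ⟨_, rfl⟩
    have hb' : π z b = a := by rw [← hb, h5]
    have hd' : π z d = c := by rw [← hd, h5]
    have hab : a ≠ b := by grind
    have hac : a ≠ c := by grind
    have had : a ≠ d := by grind
    have hbc : b ≠ c := by grind
    have hbd : b ≠ d := by grind
    have hcd : c ≠ d := by grind
    have h8 : ∀ {a b c d}, a ≠ b → c ≠ d → ∃ x, π x = swap a b * swap c d := fun h h' =>
      hr.ge (by simp [Perm.mem_alternatingGroup, h, h'])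
    obtain ⟨x, hx⟩ := h8 hab hcd
    obtain ⟨t, ht⟩ := h8 hac hab
    obtain ⟨t', ht'⟩ := h8 hab.symm hbd
    have h9 : ∀ y, π (x * z) y = if y = a ∨ y = b ∨ y = c ∨ y = d then y else π z y := fun y => by
      have := h5 y
      simp only [map_mul, hx, Perm.mul_apply, swap_apply_def]
      grind
    have h10 : π (x * z) ^ 2 = 1 := Equiv.ext fun y => by
      have := h5 y
      simp only [sq, Perm.mul_apply, h9, Perm.one_apply]
      grind
    have h11 : ∀ {t a' b' c'}, π t = swap a' b' * swap a' c' → a' ≠ b' → a' ≠ c' → b' ≠ c' →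
        π (x * z) a' = a' → π (x * z) b' = b' → π (x * z) c' = c' → Commute t (x * z) :=
      fun h h1 h2 h3 h4 h5 h6 => commute_of_coprime hπ (a := 3) (b := 2)
        (h ▸ ((commute_swap h4 h5).mul_right (commute_swap h4 h6)).symm) (by decide)
        (by rw [h, ← (Perm.isThreeCycle_swap_mul_swap_same h1 h2 h3).orderOf, pow_orderOf_eq_one])
        h10
    have h12 := commute_pPart_left 2 ((h11 ht hac hab hbc.symm (by rw [h9]; simp) (by rw [h9]; simp)
      (by rw [h9]; simp)).mul_left (h11 ht' hab.symm hbd had (by rw [h9]; simp) (by rw [h9]; simp)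
      (by rw [h9]; simp)))
    have h13 : π (t * t') = swap a c * swap b d := by
      rw [map_mul, ht, ht', swap_comm b a, mul_assoc, swap_mul_self_mul]
    have h14' : Commute (swap a c) (swap b d) := commute_swap
      (swap_apply_of_ne_of_ne hab.symm hbc) (swap_apply_of_ne_of_ne had.symm hcd.symm)
    have h14 : π (t * t') ^ 2 = 1 := by
      rw [h13, h14'.mul_pow, sq, sq, swap_mul_self, swap_mul_self, one_mul]
    have h15 : π (pPart 2 (t * t')) = π (t * t') := by
      rw [map_pPart, (isPElt_of_pow_eq_one (k := 1) h14).pPart_eq]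
    have h16 : Commute (pPart 2 (t * t')) s := commute_of_coprime hπ (by
      rw [h15, h13]
      exact ((commute_swap (h7 a ha) (h7 c hc)).mul_right
        (commute_swap (h7 b (hb' ▸ hab)) (h7 d (hd' ▸ hcd)))).symm)
      ((Nat.Prime.coprime_iff_not_dvd Nat.prime_two).2 hs) (h15 ▸ h14) h6'
    have h17 := hDs.commute_of_comm_mem_center hzc (isPElt_pPart 2 _)
      (mem_centralizer_singleton_iff.2 h16) (comm_mem_center hπ (by
        rw [h15, h13, Commute, SemiconjBy, ← mul_assoc, mul_swap_eq_swap_mul (π z),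
          mul_assoc _ (π z), mul_swap_eq_swap_mul (π z), hb, hd, hb', hd', h14'.eq, mul_assoc]))
    obtain ⟨w, hw⟩ := exists_prime_orderOf_dvd_card' 2 hk
    have h18 := mem_zpowers_comm hr hπ hH h6 hab hac had hbc hbd hcd hx (h15.trans h13) w.2
      (isPElt_coe.2 ⟨1, hw⟩)
    rw [commutatorElement_eq_one_iff_commute.2 (by simpa using h12.mul_right h17.inv_right),
      zpowers_one_eq_bot, mem_bot] at h18
    rw [← orderOf_coe, h18, orderOf_one] at hw
    exact absurd hw (by decide)
  obtain ⟨_ | k, hk⟩ := (isPElt_of_mem hDs.isPGroup hz).map π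
  · exact orderOf_eq_one_iff.1 hk
  have h1 := key _ (pow_mem hz (2 ^ k)) (fun d hd => (Commute.pow_right (hzc d hd) _).eq)
    (by rw [map_pow, ← pow_mul, ← pow_succ, ← hk, pow_orderOf_eq_one])
  rw [map_pow, ← orderOf_dvd_iff_pow_eq_one, hk, Nat.pow_dvd_pow_iff_le_right one_lt_two] at h1
  omega

end GT
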