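import Cfsg.Agent.Lib.Grp.Coprime
import Cfsg.Agent.Lib.Lin.AltBound

/-!
# Linear coordinates on elementary abelian sections; Camina-type `p`-groups have class at most three
-/

set_option autoImplicit false
set_option linter.unusedSectionVars false
set_option linter.style.haveILetI false

namespace GT

open Subgroup Module
open scoped commutatorElement

variable {G : Type*} [Group G]

/-- An identification of the section `A / A'` with the additive group `V`. -/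
structure Coord (A A' : Subgroup G) (V : Type*) [AddCommGroup V] where
  f : G → V
  le : A' ≤ A
  mul : ∀ {a b}, a ∈ A → b ∈ A → f (a * b) = f a + f b
  surj : ∀ v, ∃ a ∈ A, f a = v
  zero : ∀ {a}, a ∈ A → (f a = 0 ↔ a ∈ A')

namespace Coord

variable {A A' B B' D D' : Subgroup G} {U V W : Type*} [AddCommGroup U] [AddCommGroup V]
  [AddCommGroup W] (π : Coord A A' U)

theorem of_mem {a : G} (h : a ∈ A') : π.f a = 0 := (π.zero (π.le h)).2 h

theorem inv {a : G} (h : a ∈ A) : π.f a⁻¹ = -π.f a :=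
  eq_neg_of_add_eq_zero_left (by rw [← π.mul (inv_mem h) h, inv_mul_cancel, π.of_mem (one_mem _)])

theorem eq_iff {a b : G} (ha : a ∈ A) (hb : b ∈ A) : π.f a = π.f b ↔ a⁻¹ * b ∈ A' := by
  rw [← π.zero (mul_mem (inv_mem ha) hb), π.mul (inv_mem ha) hb, π.inv ha, neg_add_eq_zero]

theorem conj {a g : G} (ha : a ∈ A) (h : ⁅a, g⁆ ∈ A') : π.f (g * a * g⁻¹) = π.f a := by
  rw [show g * a * g⁻¹ = ⁅a, g⁆⁻¹ * a by group, π.mul (π.le (inv_mem h)) ha, π.of_mem (inv_mem h),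
    zero_add]

include π in
theorem card_eq : Nat.card U = A'.relIndex A := by
  let φ : A →* Multiplicative U := MonoidHom.mk' (fun a => .ofAdd (π.f a)) fun a b => π.mul a.2 b.2
  have h1 : φ.ker = A'.subgroupOf A := Subgroup.ext fun a => π.zero a.2
  have h2 : φ.range = ⊤ := MonoidHom.range_eq_top.2 fun v =>
    let ⟨a, ha, e⟩ := π.surj v.toAdd; ⟨⟨a, ha⟩, e⟩
  rw [relIndex, ← h1, index_ker, h2, card_top]
  rfl

/-- The preimage of a subgroup of the coordinate space. -/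
def pre (T : AddSubgroup U) : Subgroup G where
  carrier := {a | a ∈ A ∧ π.f a ∈ T}
  mul_mem' ha hb := ⟨mul_mem ha.1 hb.1, π.mul ha.1 hb.1 ▸ add_mem ha.2 hb.2⟩
  one_mem' := ⟨one_mem _, π.of_mem (one_mem _) ▸ zero_mem _⟩
  inv_mem' ha := ⟨inv_mem ha.1, π.inv ha.1 ▸ neg_mem ha.2⟩

theorem le_pre (T : AddSubgroup U) : A' ≤ π.pre T := fun _ h =>
  ⟨π.le h, π.of_mem h ▸ zero_mem _⟩

theorem relIndex_pre (T : AddSubgroup U) : A'.relIndex (π.pre T) = Nat.card T := by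
  classical
  refine (card_eq ⟨fun a => if h : π.f a ∈ T then ⟨_, h⟩ else 0, π.le_pre T, fun {a b} ha hb => ?_,
    fun v => ?_, fun {a} ha => ?_⟩).symm
  · rw [dif_pos (mul_mem ha hb).2, dif_pos ha.2, dif_pos hb.2]
    exact Subtype.ext (π.mul ha.1 hb.1)
  · obtain ⟨a, ha, e⟩ := π.surj v
    exact ⟨a, ⟨ha, e ▸ v.2⟩, by rw [dif_pos (e ▸ v.2)]; exact Subtype.ext e⟩
  · rw [dif_pos ha.2, ← π.zero ha.1, Subtype.ext_iff, ZeroMemClass.coe_zero]

variable {p : ℕ} [hp : Fact p.Prime] [Module (ZMod p) U] [Module (ZMod p) V] [Module (ZMod p) W]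

include π in
theorem pow_finrank [Finite U] : p ^ finrank (ZMod p) U = A'.relIndex A := by
  rw [← π.card_eq, natCard_eq_pow_finrank (K := ZMod p), Nat.card_zmod]

theorem exists_lin {φ : G → V} (h : ∀ a ∈ A, ∀ b ∈ A, φ (a * b) = φ a + φ b)
    (h0 : ∀ a ∈ A', φ a = 0) : ∃ l : U →ₗ[ZMod p] V, ∀ a ∈ A, l (π.f a) = φ a := by
  choose s hs e using π.surj
  have key : ∀ a ∈ A, φ (s (π.f a)) = φ a := fun a ha => by
    have h1 := (π.eq_iff ha (hs _)).1 (e _).symm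
    rw [← mul_inv_cancel_left a (s _), h a ha _ (π.le h1), h0 _ h1, add_zero]
  refine ⟨(AddMonoidHom.mk' (fun u => φ (s u)) fun u v => ?_).toZModLinearMap p, key⟩
  rw [← h _ (hs u) _ (hs v), ← key _ (mul_mem (hs u) (hs v)), π.mul (hs u) (hs v), e, e]

theorem exists_bilin (σ : Coord B B' V) (τ : Coord D D' W) (h : ⁅A, B⁆ ≤ D) (h1 : ⁅A', B⁆ ≤ D')
    (h2 : ⁅A, B'⁆ ≤ D') (h3 : ⁅D, A⁆ ≤ D') (h4 : ⁅D, B⁆ ≤ D') :
    ∃ β : U →ₗ[ZMod p] V →ₗ[ZMod p] W, ∀ a ∈ A, ∀ b ∈ B, β (π.f a) (σ.f b) = τ.f ⁅a, b⁆ := by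
  rw [commutator_le] at h h1 h2 h3 h4
  have e1 : ∀ a ∈ A, ∃ l : V →ₗ[ZMod p] W, ∀ b ∈ B, l (σ.f b) = τ.f ⁅a, b⁆ := fun a ha =>
    σ.exists_lin (fun b hb c hc => by
      rw [commutatorElement_mul_right_eq_mul_conj, mul_assoc, mul_assoc, ← mul_assoc b,
        τ.mul (h a ha b hb) ?_, τ.conj (h a ha c hc) (h4 _ (h a ha c hc) b hb)]
      rw [show b * ⁅a, c⁆ * b⁻¹ = ⁅⁅a, c⁆, b⁆⁻¹ * ⁅a, c⁆ by group]
      exact mul_mem (inv_mem (τ.le (h4 _ (h a ha c hc) b hb))) (h a ha c hc))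
      fun b hb => τ.of_mem (h2 a ha b hb)
  choose! l hl using e1
  have hext : ∀ {x y : V →ₗ[ZMod p] W}, (∀ b ∈ B, x (σ.f b) = y (σ.f b)) → x = y :=
    fun H => LinearMap.ext fun v => let ⟨b, hb, e⟩ := σ.surj v; e ▸ H b hb
  obtain ⟨β, hβ⟩ := π.exists_lin (p := p) (φ := l) (fun a ha c hc => hext fun b hb => by
      rw [LinearMap.add_apply, hl _ (mul_mem ha hc) b hb, hl a ha b hb, hl c hc b hb,
        commutatorElement_mul_left_eq_conj_mul, τ.mul ?_ (h a ha b hb),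
        τ.conj (h c hc b hb) (h3 _ (h c hc b hb) a ha), add_comm]
      rw [show a * ⁅c, b⁆ * a⁻¹ = ⁅⁅c, b⁆, a⁆⁻¹ * ⁅c, b⁆ by group]
      exact mul_mem (inv_mem (τ.le (h3 _ (h c hc b hb) a ha))) (h c hc b hb))
    fun a ha => hext fun b hb => by
      rw [hl a (π.le ha) b hb, τ.of_mem (h1 a ha b hb), LinearMap.zero_apply]
  exact ⟨β, fun a ha b hb => by rw [hβ a ha, hl a ha b hb]⟩

end Coord

variable [Finite G] {p : ℕ} [hp : Fact p.Prime]

open scoped IsMulCommutative in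
theorem exists_coord {A A' : Subgroup G} (hle : A' ≤ A) (h1 : ⁅A, A⁆ ≤ A')
    (h2 : ∀ a ∈ A, a ^ p ∈ A') : ∃ n, Nonempty (Coord A A' (Fin n → ZMod p)) := by
  classical
  rw [commutator_le] at h1
  haveI : (A'.subgroupOf A).Normal := ⟨fun a ha g => by
    rw [mem_subgroupOf, coe_mul, coe_mul, coe_inv, 
      show (g : G) * a * (g : G)⁻¹ = ⁅(g : G), (a : G)⁆ * a by group]
    exact mul_mem (h1 _ g.2 _ a.2) ha⟩
  haveI : IsMulCommutative (A ⧸ A'.subgroupOf A) := ⟨⟨fun x y => by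
    obtain ⟨x, rfl⟩ := QuotientGroup.mk_surjective x
    obtain ⟨y, rfl⟩ := QuotientGroup.mk_surjective y
    rw [← QuotientGroup.mk_mul, ← QuotientGroup.mk_mul, QuotientGroup.eq, mem_subgroupOf]
    convert h1 _ (inv_mem y.2) _ (inv_mem x.2) using 1
    push_cast
    group⟩⟩
  obtain ⟨inst⟩ : Nonempty (Module (ZMod p) (Additive (A ⧸ A'.subgroupOf A))) :=
    ⟨AddCommGroup.zmodModule fun x => by
      obtain ⟨a, ha⟩ := QuotientGroup.mk_surjective x.toMul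
      change x.toMul ^ p = 1
      rw [← ha, ← QuotientGroup.mk_pow, QuotientGroup.eq_one_iff]
      exact h2 _ a.2⟩
  let e := (finBasis (ZMod p) (Additive (A ⧸ A'.subgroupOf A))).equivFun
  refine ⟨_, ⟨⟨fun a => if h : a ∈ A then e (.ofMul ((⟨a, h⟩ : A) : A ⧸ A'.subgroupOf A)) else 0,
    hle, fun {a b} ha hb => ?_, fun v => ?_, fun {a} ha => ?_⟩⟩⟩
  · rw [dif_pos ha, dif_pos hb, dif_pos (mul_mem ha hb), ← map_add]
    rfl
  · obtain ⟨a, ha⟩ := QuotientGroup.mk_surjective (e.symm v).toMul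
    exact ⟨a, a.2, by rw [dif_pos a.2, Subtype.coe_eta, ha, ofMul_toMul, e.apply_symm_apply]⟩
  · rw [dif_pos ha, e.map_eq_zero_iff, ofMul_eq_zero, QuotientGroup.eq_one_iff, mem_subgroupOf]

theorem sq_relIndex_le {A A' D D' : Subgroup G} (hA : A' ≤ A) (hD : D' ≤ D) (hDA : D ≤ A')
    (hne : ¬ A ≤ A') (h1 : ⁅A, A⁆ ≤ D) (h2 : ⁅A', A⁆ ≤ D') (hAp : ∀ a ∈ A, a ^ p ∈ A')
    (hDp : ∀ a ∈ D, a ^ p ∈ D') (hs : ∀ a ∈ A, a ∉ A' → ∀ d ∈ D, ∃ y ∈ A, ⁅a, y⁆⁻¹ * d ∈ D') :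
    D'.relIndex D ^ 2 ≤ A'.relIndex A := by
  have h3 : ⁅D, A⁆ ≤ D' := (commutator_mono hDA le_rfl).trans h2
  obtain ⟨n, ⟨π⟩⟩ := exists_coord hA (h1.trans hDA) hAp
  obtain ⟨m, ⟨τ⟩⟩ := exists_coord hD ((commutator_mono le_rfl (hDA.trans hA)).trans h3) hDp
  obtain ⟨b, hb⟩ := π.exists_bilin (p := p) π τ h1 h2 (commutator_comm A A' ▸ h2) h3 h3
  obtain ⟨a, ha, ha'⟩ := SetLike.not_le_iff_exists.1 hne
  haveI : Nontrivial (Fin n → ZMod p) := ⟨_, _, mt (π.zero ha).1 ha'⟩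
  rw [← π.pow_finrank (p := p), ← τ.pow_finrank (p := p), ← pow_mul, mul_comm]
  refine Nat.pow_le_pow_right hp.out.pos (LG.two_mul_finrank_le_of_alt (b := b) (fun x => ?_)
    fun x hx w => ?_)
  · obtain ⟨a, ha, rfl⟩ := π.surj x
    rw [hb a ha a ha, commutatorElement_self, τ.of_mem (one_mem _)]
  · obtain ⟨a, ha, rfl⟩ := π.surj x
    obtain ⟨d, hd, rfl⟩ := τ.surj w
    obtain ⟨y, hy, e⟩ := hs a ha (mt (π.zero ha).2 hx) d hd
    exact ⟨π.f y, by rw [hb a ha y hy, τ.eq_iff (h1 (commutator_mem_commutator ha hy)) hd]; exact e⟩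

omit [Finite G] hp in
theorem commutatorElement_pow_right {a b : G} (h : Commute ⁅a, b⁆ b) (n : ℕ) :
    ⁅a, b ^ n⁆ = ⁅a, b⁆ ^ n := by
  induction n with
  | zero => simp
  | succ n ih =>
    rw [pow_succ', commutatorElement_mul_right_eq_mul_conj, ih, pow_succ', mul_assoc, mul_assoc,
      ← mul_assoc b, ← (h.pow_left n).eq, mul_inv_cancel_right]

omit [Finite G] hp in
theorem pow_mem_of_mem_commutator {A P M D : Subgroup G} [P.Normal] [D.Normal]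
    (hM : ∀ x ∈ P, x ^ p ∈ M) (h1 : ⁅A, M⁆ ≤ D) (h2 : ⁅⁅A, P⁆, P⁆ ≤ D) :
    ∀ d ∈ ⁅A, P⁆, d ^ p ∈ D := by
  have hc : ∀ d ∈ ⁅A, P⁆, ∀ y ∈ P, Commute (d : G ⧸ D) y := fun d hd y hy =>
    commutatorElement_eq_one_iff_commute.1
      ((QuotientGroup.eq_one_iff _).2 (h2 (commutator_mem_commutator hd hy)))
  intro d hd
  rw [← QuotientGroup.eq_one_iff, QuotientGroup.mk_pow]
  induction hd using closure_induction with
  | mem x hx =>
    obtain ⟨a, ha, b, hb, rfl⟩ := hx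
    exact (commutatorElement_pow_right (a := (a : G ⧸ D))
      (hc _ (commutator_mem_commutator ha hb) b hb) p).symm.trans
        ((QuotientGroup.eq_one_iff ⁅a, b ^ p⁆).2 (h1 (commutator_mem_commutator ha (hM b hb))))
  | one => simp
  | mul x y hx hy h3 h4 =>
    rw [QuotientGroup.mk_mul, (hc x hx y (commutator_le_right A P hy)).mul_pow, h3, h4, one_mul]
  | inv x _ h3 => rw [QuotientGroup.mk_inv, inv_pow, h3, inv_one]

/-- Terms of the lower central series of a subgroup. -/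
abbrev lc2 (P : Subgroup G) : Subgroup G := ⁅P, P⁆
@[inherit_doc lc2] abbrev lc3 (P : Subgroup G) : Subgroup G := ⁅lc2 P, P⁆
@[inherit_doc lc2] abbrev lc4 (P : Subgroup G) : Subgroup G := ⁅lc3 P, P⁆
@[inherit_doc lc2] abbrev lc5 (P : Subgroup G) : Subgroup G := ⁅lc4 P, P⁆

/-- Every element of `P \ M` is conjugate to all elements of its coset modulo `P'`. -/
structure Cam (p : ℕ) (P M : Subgroup G) : Prop where
  le : M ≤ P
  le2 : lc2 P ≤ M
  comm : ⁅M, P⁆ ≤ lc3 P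
  pow : ∀ x ∈ P, x ^ p ∈ M
  cam : ∀ x ∈ P, x ∉ M → ∀ z ∈ lc2 P, ∃ y ∈ P, ⁅x, y⁆ = z

namespace Cam

variable {P M : Subgroup G} [P.Normal] [M.Normal] (h : Cam p P M)
include h

theorem comm' : ⁅P, M⁆ ≤ lc3 P := commutator_comm M P ▸ h.comm

theorem comm2 : ⁅lc2 P, M⁆ ≤ lc4 P :=
  commutator_commutator_le_of_rotate (commutator_mono h.comm' le_rfl)
    (commutator_mono h.comm le_rfl)

theorem comm22 : ⁅lc2 P, lc2 P⁆ ≤ lc4 P := (commutator_mono le_rfl h.le2).trans h.comm2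

theorem comm3 : ⁅lc3 P, M⁆ ≤ lc5 P := by
  refine commutator_commutator_le_of_rotate ((commutator_mono h.comm' le_rfl).trans ?_)
    (commutator_mono (commutator_comm _ M ▸ h.comm2) le_rfl)
  rw [commutator_comm]
  exact commutator_commutator_le_of_rotate (commutator_mono (commutator_comm P _).le le_rfl) le_rfl

theorem pow2 : ∀ z ∈ lc2 P, z ^ p ∈ lc3 P := pow_mem_of_mem_commutator h.pow h.comm' le_rfl

theorem pow3 : ∀ z ∈ lc3 P, z ^ p ∈ lc4 P := pow_mem_of_mem_commutator h.pow h.comm2 le_rfl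

theorem pow4 : ∀ z ∈ lc4 P, z ^ p ∈ lc5 P := pow_mem_of_mem_commutator h.pow h.comm3 le_rfl

theorem sq_le (hne : ¬ P ≤ M) : (lc3 P).relIndex (lc2 P) ^ 2 ≤ M.relIndex P :=
  sq_relIndex_le h.le (commutator_le_left _ _) h.le2 hne le_rfl h.comm h.pow h.pow2
    fun a ha ha' d hd => let ⟨y, hy, e⟩ := h.cam a ha ha' d hd
      ⟨y, hy, by rw [e, inv_mul_cancel]; exact one_mem _⟩

theorem exists_commutator_mem (hne : ¬ P ≤ M) {K : Subgroup G} (h4 : lc4 P ≤ K) (hK : K ≤ lc3 P)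
    (hi : K.relIndex (lc3 P) ≤ p) : ∃ x ∈ P, x ∉ M ∧ ∀ z ∈ lc2 P, ⁅z, x⁆ ∈ K := by
  have l2 : lc2 P ≤ P := commutator_le_left _ _
  have l3 : lc3 P ≤ lc2 P := commutator_le_left _ _
  obtain ⟨n, ⟨π⟩⟩ := exists_coord h.le h.le2 h.pow
  obtain ⟨m, ⟨σ⟩⟩ := exists_coord l3 (commutator_mono le_rfl l2) h.pow2
  obtain ⟨l, ⟨τ⟩⟩ := exists_coord hK ((commutator_mono le_rfl (l3.trans l2)).trans h4)
    fun z hz => h4 (h.pow3 z hz)
  obtain ⟨c, hc⟩ := σ.exists_bilin (p := p) π τ le_rfl h4 (h.comm2.trans h4)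
    ((commutator_mono le_rfl l2).trans h4) h4
  have h1 := h.sq_le hne
  have h2 : M.relIndex P ≠ 1 := mt relIndex_eq_one.1 hne
  rw [← τ.pow_finrank (p := p)] at hi
  rw [← π.pow_finrank (p := p)] at h1 h2
  rw [← σ.pow_finrank (p := p), ← pow_mul, Nat.pow_le_pow_iff_right hp.out.one_lt] at h1
  have h3 := (Nat.pow_le_pow_iff_right hp.out.one_lt).1 (hi.trans_eq (pow_one p).symm)
  have h5 : finrank (ZMod p) (Fin n → ZMod p) ≠ 0 := fun e => h2 (by rw [e, pow_zero])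
  obtain ⟨x, hx, hx0⟩ := (LinearMap.ker c.flip).exists_mem_ne_zero_of_ne_bot
    (LinearMap.ker_ne_bot_of_finrank_lt (by
      have := Nat.mul_le_mul_left (finrank (ZMod p) (Fin m → ZMod p)) h3
      rw [finrank_linearMap]
      omega))
  obtain ⟨x, hxP, rfl⟩ := π.surj x
  refine ⟨x, hxP, mt (π.zero hxP).2 hx0, fun z hz => ?_⟩
  rw [← τ.zero (commutator_mem_commutator hz hxP), ← hc z hz x hxP]
  exact LinearMap.congr_fun hx _

theorem lc4_le (hW : ∀ m ∈ M, ∃ z ∈ lc2 P, ∀ y ∈ P, ⁅y, m * z⁻¹⁆ ∈ lc4 P)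
    (H2 : ∀ z ∈ lc2 P, z ∉ lc3 P → ∀ w ∈ lc3 P, ∃ y ∈ P, ⁅z, y⁆⁻¹ * w ∈ lc4 P)
    (H3 : ∀ z ∈ lc3 P, z ∉ lc4 P → ∀ w ∈ lc4 P, ∃ y ∈ P, ⁅z, y⁆⁻¹ * w ∈ lc5 P)
    (hp2 : ∀ z ∈ lc2 P, z ^ p ∈ lc4 P) : lc4 P ≤ lc5 P := by
  by_contra n4
  have n3 : ¬ lc3 P ≤ lc4 P := fun e => n4 (commutator_mono e le_rfl)
  have n2 : ¬ lc2 P ≤ lc3 P := fun e => n3 (commutator_mono e le_rfl)
  have n1 : ¬ P ≤ M := fun e => n2 ((commutator_mono e le_rfl).trans h.comm)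
  have l2 : lc2 P ≤ P := commutator_le_left _ _
  have l3 : lc3 P ≤ lc2 P := commutator_le_left _ _
  have l4 : lc4 P ≤ lc3 P := commutator_le_left _ _
  have l5 : lc5 P ≤ lc4 P := commutator_le_left _ _
  have c32 : ⁅lc3 P, lc2 P⁆ ≤ lc5 P := (commutator_mono le_rfl h.le2).trans h.comm3
  obtain ⟨n, ⟨π⟩⟩ := exists_coord h.le h.le2 h.pow
  obtain ⟨m, ⟨σ⟩⟩ := exists_coord l3 (commutator_mono le_rfl l2) h.pow2
  obtain ⟨l, ⟨τ⟩⟩ := exists_coord l4 (commutator_mono le_rfl (l3.trans l2)) h.pow3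
  obtain ⟨j, ⟨υ⟩⟩ := exists_coord l5 (commutator_mono le_rfl (l4.trans (l3.trans l2))) h.pow4
  obtain ⟨b, hb⟩ := π.exists_bilin (p := p) π σ le_rfl h.comm h.comm' le_rfl le_rfl
  obtain ⟨c, hc⟩ := σ.exists_bilin (p := p) π τ le_rfl le_rfl h.comm2
    (commutator_mono le_rfl l2) le_rfl
  obtain ⟨d, hd⟩ := τ.exists_bilin (p := p) π υ le_rfl le_rfl h.comm3
    (commutator_mono le_rfl (l3.trans l2)) le_rfl
  obtain ⟨e, he⟩ := σ.exists_bilin (p := p) σ υ h.comm22 c32 ((commutator_comm _ _).trans_le c32)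
    (commutator_mono le_rfl l2) (commutator_mono le_rfl l2)
  have cm := @commutator_mem_commutator G _
  have hN : P.Normal := inferInstance
  have hcj : ∀ {x y : G}, x ∈ P → y ∈ P → π.f (y * x * y⁻¹) = π.f x := fun hx hy =>
    π.conj hx (h.le2 (cm hx hy))
  have nt : ∀ {A A' : Subgroup G} {i : ℕ} (_ : Coord A A' (Fin i → ZMod p)), ¬ A ≤ A' →
      Nontrivial (Fin i → ZMod p) := fun φ hn =>
    let ⟨_, ha, ha'⟩ := SetLike.not_le_iff_exists.1 hn; ⟨_, _, mt (φ.zero ha).1 ha'⟩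
  haveI := nt π n1
  haveI := nt σ n2
  haveI := nt τ n3
  haveI := nt υ n4
  have halt : ∀ x, b x x = 0 := fun x => by
    obtain ⟨a, ha, rfl⟩ := π.surj x
    rw [hb a ha a ha, commutatorElement_self, σ.of_mem (one_mem _)]
  have hs1 : ∀ x, x ≠ 0 → Function.Surjective (b x) := fun x hx w => by
    obtain ⟨a, ha, rfl⟩ := π.surj x
    obtain ⟨z, hz, rfl⟩ := σ.surj w
    obtain ⟨y, hy, rfl⟩ := h.cam a ha (mt (π.zero ha).2 hx) z hz
    exact ⟨_, hb a ha y hy⟩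
  have L : LG.Lie3 b c := by
    refine ⟨halt, fun u v w => ?_, hs1, fun x hx w => ?_,
      LG.two_mul_finrank_le_of_alt halt hs1, finrank_pos⟩
    · obtain ⟨u, hu, rfl⟩ := π.surj u
      obtain ⟨v, hv, rfl⟩ := π.surj v
      obtain ⟨w, hw, rfl⟩ := π.surj w
      have h1 := cm (cm hu hv) (hN.conj_mem w hw v)
      have h2 := cm (cm hv hw) (hN.conj_mem u hu w)
      rw [hb u hu v hv, hb v hv w hw, hb w hw u hu, ← hcj hw hv, hc _ (cm hu hv) _ (hN.1 w hw v),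
        ← hcj hu hw, hc _ (cm hv hw) _ (hN.1 u hu w), ← hcj hv hu, hc _ (cm hw hu) _ (hN.1 v hv u),
        ← τ.mul h1 h2, ← τ.mul (mul_mem h1 h2) (cm (cm hw hu) (hN.1 v hv u)),
        ← τ.of_mem (one_mem _)]
      congr 1
      group
    · obtain ⟨a, ha, rfl⟩ := σ.surj x
      obtain ⟨z, hz, rfl⟩ := τ.surj w
      obtain ⟨y, hy, e⟩ := H2 a ha (mt (σ.zero ha).2 hx) z hz
      exact ⟨π.f y, by rw [hc a ha y hy, τ.eq_iff (cm ha hy) hz]; exact e⟩
  obtain ⟨ρ, hρ⟩ := exists_ne (0 : Dual (ZMod p) (Fin j → ZMod p))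
  refine L.false_of_four (d := d.compr₂ ρ) (e := e.compr₂ ρ) (fun z => ?_) (fun z u v => ?_)
    (LinearMap.ker_eq_bot'.2 fun x hx => ?_) (fun x hx => ?_) ?_
  · obtain ⟨a, ha, rfl⟩ := σ.surj z
    rw [LinearMap.compr₂_apply, he a ha a ha, commutatorElement_self, υ.of_mem (one_mem _), map_zero]
  · obtain ⟨z, hz, rfl⟩ := σ.surj z
    obtain ⟨u, hu, rfl⟩ := π.surj u
    obtain ⟨v, hv, rfl⟩ := π.surj v
    have h0 : v * z * v⁻¹ ∈ lc2 P := Normal.conj_mem inferInstance z hz v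
    have h1 := cm (cm hz hu) (hN.conj_mem v hv u)
    have h2 := h.comm22 (cm (cm hu hv) h0)
    have h3 : ⁅v, z⁆ ∈ lc3 P := commutatorElement_inv z v ▸ inv_mem (cm hz hv)
    have h4 : e (σ.f z) (σ.f ⁅u, v⁆) = -e (σ.f ⁅u, v⁆) (σ.f z) := by
      rw [he _ hz _ (cm hu hv), he _ (cm hu hv) _ hz, ← υ.inv (h.comm22 (cm (cm hu hv) hz)),
        commutatorElement_inv]
    simp only [LinearMap.compr₂_apply, ← map_sub]
    rw [hb u hu v hv, h4, eq_comm, ← σ.conj hz (cm hz hv), he _ (cm hu hv) _ h0, σ.conj hz (cm hz hv),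
      hc z hz u hu, hc z hz v hv, sub_eq_add_neg, ← LinearMap.neg_apply, ← map_neg,
      ← τ.inv (cm hz hv), commutatorElement_inv, ← hcj hv hu, hd _ (cm hz hu) _ (hN.1 v hv u),
      ← hcj hu (l2 hz), hd _ h3 _ (hN.1 u hu z)]
    congr 1
    rw [neg_eq_iff_add_eq_zero, add_left_comm, ← add_assoc, ← υ.mul h1 h2,
      ← υ.mul (mul_mem h1 h2) (cm h3 (hN.1 u hu z)), ← υ.of_mem (one_mem _)]
    congr 1
    group
  · by_contra h0
    obtain ⟨a, ha, rfl⟩ := τ.surj x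
    refine hρ (LinearMap.ext fun w => ?_)
    obtain ⟨z, hz, rfl⟩ := υ.surj w
    obtain ⟨y, hy, e⟩ := H3 a ha (mt (τ.zero ha).2 h0) z hz
    rw [← (υ.eq_iff (cm ha hy) hz).2 e, ← hd a ha y hy]
    exact LinearMap.congr_fun hx _
  · by_cases hr : LinearMap.range (c.flip x) = ⊤
    · rw [hr, finrank_top]
      omega
    set T := π.pre (LinearMap.ker (b x)).toAddSubgroup
    set D := τ.pre (LinearMap.range (c.flip x)).toAddSubgroup
    have h1 : ⁅T, T⁆ ≤ lc3 P := commutator_le.2 fun s hs t ht => by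
      rw [← σ.zero (cm hs.1 ht.1), ← hb s hs.1 t ht.1]
      exact L.isotropic_ker hx hr hs.2 ht.2
    have h2 : ⁅M, T⁆ ≤ D := commutator_comm T M ▸ commutator_le.2 fun t ht s hs => by
      obtain ⟨z, hz, h3⟩ := hW s hs
      have h4 : ⁅t, z⁆ ∈ lc3 P := commutatorElement_inv z t ▸ inv_mem (cm hz ht.1)
      have h5 : s * z⁻¹ ∈ P := mul_mem (h.le hs) (inv_mem (l2 hz))
      refine ⟨h.comm' (cm ht.1 hs), ?_⟩
      rw [← inv_mul_cancel_right s z, commutatorElement_mul_right_eq_mul_conj, mul_assoc, mul_assoc,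
        ← mul_assoc (s * z⁻¹), τ.mul (l4 (h3 t ht.1)) (Normal.conj_mem inferInstance _ h4 _),
        τ.of_mem (h3 t ht.1), zero_add, τ.conj h4 (cm h4 h5), ← commutatorElement_inv,
        τ.inv (cm hz ht.1), ← hc z hz t ht.1]
      exact neg_mem (L.range_le hx ht.2 ⟨_, rfl⟩)
    have h3 := sq_relIndex_le (p := p) (D' := D) (π.le_pre _) (fun _ hy => hy.1) (l3.trans h.le2)
      (fun e => by
        obtain ⟨a, ha, rfl⟩ := π.surj x
        exact hx (π.of_mem (e ⟨ha, halt _⟩))) h1 h2 (fun a ha => h.pow a ha.1)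
      (fun a ha => τ.le_pre _ (h.pow3 a ha)) fun a ha ha' w hw => by
        obtain ⟨y, hy, rfl⟩ := h.cam a ha.1 ha' w (l3 hw)
        refine ⟨y, ⟨hy, (L.ker_eq_ker hx hr ha.2 (mt (π.zero ha.1).1 ha')).le ?_⟩,
          by rw [inv_mul_cancel]; exact one_mem _⟩
        rw [LinearMap.mem_ker, hb a ha.1 y hy, σ.of_mem hw]
    have h4 := relIndex_mul_relIndex _ D _ (τ.le_pre _) (fun _ hy => hy.1)
    rw [π.relIndex_pre] at h3
    rw [τ.relIndex_pre, ← τ.pow_finrank (p := p)] at h4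
    have h5 := natCard_eq_pow_finrank (K := ZMod p) (V := LinearMap.ker (b x))
    have h6 := natCard_eq_pow_finrank (K := ZMod p) (V := LinearMap.range (c.flip x))
    rw [Nat.card_zmod] at h5 h6
    have h7 := Nat.mul_le_mul_left (Nat.card (LinearMap.range (c.flip x)) ^ 2) (h3.trans_eq h5)
    rw [← mul_pow, show Nat.card (LinearMap.range (c.flip x)) * _ = _ from h4, h6, ← pow_mul,
      ← pow_mul, ← pow_add, Nat.pow_le_pow_iff_right hp.out.one_lt] at h7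
    have := L.finrank_ker hx
    have := L.finrank_eq
    omega
  · by_cases h2 : p = 2
    swap
    · exact Or.inl fun e => h2 ((Nat.prime_dvd_prime_iff_eq hp.out Nat.prime_two).1
        ((ZMod.natCast_eq_zero_iff 2 p).1 e))
    subst h2
    refine Or.inr fun x => ?_
    by_cases hx : x = 0
    · exact Or.inr (by rw [hx, map_zero])
    obtain ⟨a, ha, rfl⟩ := π.surj x
    obtain ⟨z, hz, h3⟩ := hW _ (h.pow a ha)
    have h4 : ∀ y ∈ P, c (σ.f z) (π.f y) = c.flip (π.f a) (b (π.f y) (π.f a)) := fun y hy => by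
      have h4 : ⁅y, z⁆ ∈ lc3 P := commutatorElement_inv z y ▸ inv_mem (cm hz hy)
      have h5 : a ^ 2 * z⁻¹ ∈ P := mul_mem (pow_mem ha 2) (inv_mem (l2 hz))
      have h6 := cm (inv_mem (cm hy ha)) ha
      have h7 : τ.f ⁅y, a ^ 2⁆ = τ.f ⁅y, z⁆ := by
        rw [← inv_mul_cancel_right (a ^ 2) z, commutatorElement_mul_right_eq_mul_conj, mul_assoc,
          mul_assoc, ← mul_assoc (a ^ 2 * z⁻¹),
          τ.mul (l4 (h3 y hy)) (Normal.conj_mem inferInstance _ h4 _), τ.of_mem (h3 y hy), zero_add,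
          τ.conj h4 (cm h4 h5)]
      rw [show ⁅y, a ^ 2⁆ = ⁅y, a⁆ ^ 2 * ⁅⁅y, a⁆⁻¹, a⁆ by rw [sq, sq]; group,
        τ.mul (l4 (hp2 _ (cm hy ha))) h6, τ.of_mem (hp2 _ (cm hy ha)), zero_add,
        ← hc _ (inv_mem (cm hy ha)) a ha, σ.inv (cm hy ha), ← commutatorElement_inv z,
        τ.inv (cm hz hy), ← hc z hz y hy, map_neg, LinearMap.neg_apply, neg_inj] at h7
      rw [LinearMap.flip_apply, hb y hy a ha, h7]
    by_cases h5 : σ.f z = 0
    · refine Or.inr (LinearMap.ext fun w => ?_)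
      obtain ⟨y, rfl⟩ := hs1 _ hx w
      obtain ⟨y, hy, rfl⟩ := π.surj y
      rw [LG.neg_of_alt halt, map_neg, ← h4 y hy, h5]
      simp
    · refine Or.inl (LinearMap.range_eq_top.2 fun w => ?_)
      obtain ⟨y, rfl⟩ := L.surj₂ _ h5 w
      obtain ⟨y, hy, rfl⟩ := π.surj y
      exact ⟨_, (h4 y hy).symm⟩

end Cam

end GT
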