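import Cfsg.Agent.Lib.Grp.NdadAct

/-!
# Irreducible modules of a Frobenius-like group whose point stabilizers are incomparable
-/

set_option autoImplicit false
set_option linter.unusedSectionVars false
set_option linter.style.haveILetI false

namespace GT

open Subgroup MulAction
open scoped commutatorElement Pointwise

variable {H : Type*} [Group H] [Finite H]

/-- `E` is abelian normal with cyclic quotient, acting Frobeniusly modulo the central `Z`. -/
structure FrobMod (E Z : Subgroup H) [E.Normal] : Prop where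
  comm : IsMulCommutative E
  cyc : IsCyclic (H ⧸ E)
  lt : Z < E
  cent : Z ≤ center H
  frob : ∀ e ∈ E, ∀ h, h ∉ E → ⁅e, h⁆ ∈ Z → e ∈ Z

namespace FrobMod

variable {E Z : Subgroup H} [hE : E.Normal] (h : FrobMod E Z)
include h

theorem comm_of_inf_le {A : Subgroup H} (hA : A ⊓ E ≤ Z) : IsMulCommutative A :=
  haveI := h.cyc
  ((QuotientGroup.mk' E).comp A.subtype).isMulCommutative_of_isCyclic_of_ker_le_center
    fun x hx => mem_center_iff.2 fun g => Subtype.ext
      (mem_center_iff.1 (h.cent (hA ⟨x.2, (QuotientGroup.eq_one_iff x.1).1 hx⟩)) g)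

theorem centralizer_inf {c : H} (hc : c ∉ E) : centralizer {c} ⊓ E = Z :=
  le_antisymm (fun e he => h.frob e he.2 c hc (by
    rw [commutatorElement_eq_one_iff_mul_comm.2 (mem_centralizer_singleton_iff.1 he.1)]
    exact one_mem _)) (le_inf (h.cent.trans (center_le_centralizer _)) h.lt.le)

theorem centralizer_sup {c : H} (hc : c ∉ E) : centralizer {c} ⊔ E = ⊤ := by
  haveI : Z.Normal := ⟨fun n hn g => by rw [mem_center_iff.1 (h.cent hn) g]; simpa using hn⟩
  haveI := h.cyc
  refine eq_top_iff.2 fun g _ => ?_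
  have h1 : ⁅g, c⁆ ∈ E := (QuotientGroup.eq_one_iff _).1 (by
    change QuotientGroup.mk' E _ = 1
    rw [map_commutatorElement, commutatorElement_eq_one_iff_mul_comm]
    exact IsCyclic.isMulCommutative.is_comm.comm _ _)
  obtain ⟨x, hx, e⟩ := exists_commutator_mem_of_fpf (B := Z) (R := E) (c := c)
    (by rw [normalizer_eq_top]; trivial) (fun x hx => h.frob x hx c hc) h1
  let A := (centralizer {(c : H ⧸ Z)}).comap (QuotientGroup.mk' Z)
  have hA : ∀ y, y ∈ A ↔ ⁅y, c⁆ ∈ Z := fun y => by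
    rw [← QuotientGroup.eq_one_iff (N := Z), mem_comap, mem_centralizer_singleton_iff,
      ← commutatorElement_eq_one_iff_mul_comm]
    rfl
  haveI := h.comm_of_inf_le (A := A) fun y hy => h.frob y hy.2 c hc ((hA y).1 hy.1)
  have h2 : x⁻¹ * g ∈ A := (hA _).2 (by
    convert Normal.conj_mem' ‹_› _ e (c * x * c⁻¹) using 1
    group)
  rw [show g = x * (x⁻¹ * g) by group]
  exact mul_mem (mem_sup_right hx) (mem_sup_left (mem_centralizer_singleton_iff.2
    (setLike_mul_comm (s := A) h2 ((hA c).2 (by simp)))))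

theorem index_centralizer {c : H} (hc : c ∉ E) : (centralizer {c}).index = Z.relIndex E := by
  rw [← h.centralizer_inf hc, inf_relIndex_right,
    index_eq_relIndex_of_sup_eq_top' (h.centralizer_sup hc)]

end FrobMod

variable (V : Type*) [CommGroup V] [Finite V] [MulDistribMulAction H V]

/-- An irreducible module of a `FrobMod` pair with incomparable point stabilizers. -/
structure BCore (E Z : Subgroup H) [E.Normal] : Prop extends FrobMod E Z where
  irr : ∀ U : Subgroup V, InvS (⊤ : Subgroup H) U → U = ⊥ ∨ U = ⊤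
  fpf : ∀ e ∈ E, e ∉ Z → ∀ v : V, e • v = v → v = 1
  ndvd : ∀ v : V, v ≠ 1 → ¬ E.index ∣ (stabilizer H v).index
  anti : ∀ v w : V, w ≠ 1 → stabilizer H v ≤ stabilizer H w → stabilizer H w ≤ stabilizer H v

namespace BCore

variable {V} {E Z : Subgroup H} [hE : E.Normal] (h : BCore V E Z)
include h

theorem prod_conj {g : H} (hg : g ∉ E) (v : V) :
    haveI := Fintype.ofFinite E
    ∏ y : E, (y.1⁻¹ * g * y) • v = 1 := by
  letI := Fintype.ofFinite E
  haveI := h.comm
  obtain ⟨y, hy, hyZ⟩ := SetLike.exists_of_lt h.lt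
  have h1 : ⁅y⁻¹, g⁆ ∈ E := commutator_le_left E ⊤ (commutator_mem_commutator (inv_mem hy) trivial)
  refine h.fpf _ h1 (fun e => hyZ (inv_mem_iff.1 (h.frob _ (inv_mem hy) g hg e))) _ ?_
  rw [Finset.smul_prod']
  refine Fintype.prod_equiv (Equiv.mulLeft ⟨y, hy⟩) _ _ fun x => ?_
  rw [smul_smul, ← mul_assoc, ← mul_assoc, setLike_mul_comm (s := E) h1 (inv_mem x.2)]
  congr 1
  simp only [Equiv.coe_mulLeft, coe_mul]
  group

variable (hf : ∀ g : H, (∀ v : V, g • v = v) → g = 1)
include hf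

theorem free {e : H} (he : e ∈ E) {v : V} (hv : v ≠ 1) (e1 : e • v = v) : e = 1 := by
  by_cases hz : e ∈ Z
  · refine hf e fun w => ((h.irr (fixS V (zpowers e)) (invS_fixS fun g _ => ?_)).resolve_left
      fun e2 => hv (e2.le (zpowers_le.2 e1))).ge (mem_top w) (mem_zpowers e)
    exact centralizer_le_normalizer _ fun x hx => (mem_center_iff.1 (zpowers_le.2 (h.cent hz) hx) g).symm
  · exact (hv (h.fpf e he hz v e1)).elim

theorem card_dvd {U : Subgroup V} (hU : InvS E U) : Nat.card E ∣ Nat.card U - 1 := by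
  have := CT.card_dvd_ncard_of_free (H := E) ((U : Set V) \ {1})
    (fun g x hx => ⟨hU g g.2 x hx.1, fun e => hx.2 (smul_left_cancel g (e.trans (smul_one g).symm))⟩)
    fun x hx g e => Subtype.ext (h.free hf g.2 hx.2 e)
  rwa [Set.ncard_sdiff_singleton_of_mem U.one_mem] at this

theorem not_fix [Nontrivial V] {R : Subgroup H} (hR : Disjoint R E) {a : H}
    (ha : (∀ g ∈ R, a * g ∉ E) ∧ (∀ v ∈ fixS V R, a • v = v) ∨ fixS V R = ⊥) : False := by
  classical
  letI := Fintype.ofFinite E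
  letI := Fintype.ofFinite R
  obtain ⟨v, hv⟩ := exists_ne (1 : V)
  have h1 : ∀ w : V, ∏ g : R, g.1 • w ∈ fixS V R := fun w k hk => by
    rw [mem_stabilizer_iff, Finset.smul_prod']
    exact Fintype.prod_equiv (Equiv.mulLeft ⟨k, hk⟩) _ _ fun x => smul_smul _ _ _
  have h2 : ∀ b : H, ∏ y : E, y.1⁻¹ • b • ∏ g : R, g.1 • y.1 • v =
      ∏ g : R, ∏ y : E, (y.1⁻¹ * (b * g) * y) • v := fun b => by
    rw [Finset.prod_comm]
    simp only [Finset.smul_prod', mul_smul]
  have h3 : ∏ y : E, y.1⁻¹ • ∏ g : R, g.1 • y.1 • v = v ^ Nat.card E := by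
    have := h2 1
    rw [Finset.prod_eq_single 1 (fun g _ hg => h.prod_conj (by
      rw [one_mul]
      exact fun e => hg (Subtype.ext (disjoint_def.1 hR g.2 e))) v) (by simp)] at this
    simpa using this
  have h4 : (Nat.card V).Coprime (Nat.card E) := by
    have := h.card_dvd hf (invS_top E)
    rw [card_top] at this
    exact Nat.Coprime.coprime_dvd_right this
      (by simpa using (Nat.coprime_self_sub_right (n := Nat.card V) (m := 1) Nat.card_pos))
  refine hv (h4.pow_left_bijective.1 ((h3.symm.trans ?_).trans (one_pow _).symm))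
  rcases ha with ⟨h5, h6⟩ | h5
  · rw [← Finset.prod_congr rfl fun y _ => congrArg (y.1⁻¹ • ·) (h6 _ (h1 (y.1 • v))), h2]
    exact Finset.prod_eq_one fun g _ => h.prod_conj (h5 g g.2) v
  · exact Finset.prod_eq_one fun y _ => by rw [mem_bot.1 (h5.le (h1 _)), smul_one]

theorem exists_stabilizer_eq {v : V} (hv : v ≠ 1) :
    ∃ σ : H, (orderOf σ).Prime ∧ stabilizer H v = zpowers σ := by
  haveI := nontrivial_of_ne v 1 hv
  have hd : ∀ w : V, w ≠ 1 → Disjoint (stabilizer H w) E := fun w hw =>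
    disjoint_def.2 fun hx he => h.free hf he hw hx
  have h1 : stabilizer H v ≠ ⊥ := fun e => h.ndvd v hv (by rw [e, index_bot]; exact index_dvd_card _)
  obtain ⟨r, hr, h2⟩ := Nat.exists_prime_and_dvd (mt card_eq_one.1 h1)
  haveI := Fact.mk hr
  obtain ⟨⟨σ, hσ⟩, ho⟩ := exists_prime_orderOf_dvd_card' r h2
  rw [orderOf_mk] at ho
  have hE' : σ ∉ E := fun e => hr.ne_one (by rw [← ho, h.free hf e hv hσ, orderOf_one])
  haveI := h.comm_of_inf_le (h.centralizer_inf hE').le
  have h3 : ∀ w : V, w ≠ 1 → σ • w = w → stabilizer H w ≤ centralizer {σ} := fun w hw e x hx =>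
    haveI := h.comm_of_inf_le (A := stabilizer H w) ((hd w hw).le_bot.trans bot_le)
    mem_centralizer_singleton_iff.2 (setLike_mul_comm (s := stabilizer H w) hx e)
  have h4 : ∀ w : V, σ • w = w → stabilizer H v ≤ stabilizer H w := fun w hw s hs => by
    by_contra hn
    have hw1 : w ≠ 1 := fun e => hn (e ▸ smul_one s)
    have hvw : v * w ≠ 1 := fun e => hn (by
      rw [eq_inv_of_mul_eq_one_right e, mem_stabilizer_iff, smul_inv', hs])
    have h5 : σ • (v * w) = v * w := by rw [smul_mul', hσ, hw]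
    have h6 : ∀ u : V, u ≠ 1 → σ • u = u → stabilizer H u ≤ stabilizer H (s • u / u) :=
      fun u hu e x hx => by
        rw [mem_stabilizer_iff, smul_div', smul_smul,
          setLike_mul_comm (s := centralizer {σ}) (h3 u hu e hx) (h3 v hv hσ hs), mul_smul, hx]
    have h7 : s • (v * w) / (v * w) = s • w / w := by rw [smul_mul', hs, mul_div_mul_left_eq_div]
    have h8 : s • w / w ≠ 1 := fun e => hn (div_eq_one.1 e)
    have h9 := (h6 w hw1 hw).trans (h.anti _ _ h8 (h7 ▸ h6 _ hvw h5))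
    refine hn (h.anti w v hv (fun x hx => ?_) hs)
    have := h9 hx
    rwa [mem_stabilizer_iff, smul_mul', hx, mul_left_inj] at this
  refine ⟨σ, ho ▸ hr, le_antisymm (fun a ha => by_contra fun hn => ?_) (zpowers_le.2 hσ)⟩
  refine h.not_fix hf ((hd v hv).mono_left (zpowers_le.2 hσ)) (a := a) (.inl ⟨fun g hg e => hn ?_,
    fun w hw => h4 w (hw (mem_zpowers σ)) ha⟩)
  rw [eq_inv_of_mul_eq_one_left (h.free hf e hv (mul_mem ha (zpowers_le.2 hσ hg)))]
  exact inv_mem hg

theorem not_dvd_card {w : V} (hw : w ≠ 1) {τ : H} (e : stabilizer H w = zpowers τ) :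
    ¬ orderOf τ ∣ Nat.card E := by
  rintro ⟨k, hk⟩
  refine h.ndvd w hw ⟨k, Nat.eq_of_mul_eq_mul_right (orderOf_pos τ) ?_⟩
  rw [e, ← Nat.card_zpowers, index_mul_card, ← E.index_mul_card, hk, Nat.card_zpowers]
  ring

theorem card_dvd_prime [Nontrivial V] {R : Subgroup H} (hR : (Nat.card R).Coprime (Nat.card E)) :
    ∃ t : ℕ, t.Prime ∧ Nat.card R ∣ t := by
  obtain ⟨u, hu, hu1⟩ := (fixS V R).bot_or_exists_ne_one.resolve_left fun e =>
    h.not_fix hf (disjoint_of_coprime_natCard hR) (a := 1) (.inr e)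
  obtain ⟨τ, h1, h2⟩ := h.exists_stabilizer_eq hf hu1
  exact ⟨_, h1, Nat.card_zpowers τ ▸ card_dvd_of_le (h2 ▸ hu)⟩

theorem main_faith [Nontrivial V] : E.index.Prime ∧ Nat.card V < Z.relIndex E ^ 2 := by
  haveI := h.comm
  obtain ⟨v, hv⟩ := exists_ne (1 : V)
  obtain ⟨σ, hr, hσ⟩ := h.exists_stabilizer_eq hf hv
  haveI := Fact.mk hr
  have hE' : σ ∉ E := fun e => h.not_dvd_card hf hv hσ (orderOf_dvd_natCard E e)
  have k1 : ∀ w : V, w ≠ 1 → ∀ τ : H, (orderOf τ).Prime → stabilizer H w = zpowers τ →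
      IsSylowIn (orderOf σ) (zpowers τ) ⊤ := fun w hw τ ht e => by
    haveI := Fact.mk ht
    have h1 := h.not_dvd_card hf hw e
    have h2 : orderOf τ = orderOf σ := by
      by_contra hn
      have h3 : orderOf τ ∣ Nat.card (centralizer {σ}) := by
        refine (ht.dvd_mul.1 (index_mul_card (centralizer {σ}) ▸ orderOf_dvd_natCard τ)).resolve_left
          fun h3 => h1 (h3.trans ?_)
        rw [h.index_centralizer hE']
        exact relIndex_dvd_card _ _
      obtain ⟨⟨ρ, hρ⟩, ho⟩ := exists_prime_orderOf_dvd_card' _ h3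
      rw [orderOf_mk] at ho
      have h4 := Commute.orderOf_mul_eq_mul_orderOf_of_coprime (mem_centralizer_singleton_iff.1 hρ)
        (ho ▸ (Nat.coprime_primes ht hr).2 hn)
      obtain ⟨t, h5, h6⟩ := h.card_dvd_prime hf (R := zpowers (ρ * σ)) (by
        rw [Nat.card_zpowers, h4, ho]
        exact Nat.Coprime.mul_left (ht.coprime_iff_not_dvd.2 h1)
          (hr.coprime_iff_not_dvd.2 (h.not_dvd_card hf hv hσ)))
      rw [Nat.card_zpowers, h4, ho] at h6
      exact hn (((Nat.prime_dvd_prime_iff_eq ht h5).1 (dvd_of_mul_right_dvd h6)).trans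
        ((Nat.prime_dvd_prime_iff_eq hr h5).1 (dvd_of_mul_left_dvd h6)).symm)
    rw [← h2]
    obtain ⟨S, hS, h3⟩ := exists_isSylowIn_ge (p := orderOf τ) (Q := zpowers τ)
      (.of_card (n := 1) (by simp)) le_top
    obtain ⟨t, h5, h6⟩ := h.card_dvd_prime hf (hS.isPGroup.coprime_card h1)
    have h7 := card_dvd_of_le h3
    refine eq_of_le_of_card_ge h3 ?_ ▸ hS
    rw [Nat.card_zpowers] at h7 ⊢
    rw [(Nat.prime_dvd_prime_iff_eq ht h5).1 (h7.trans h6)]
    exact Nat.le_of_dvd h5.pos h6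
  have hS := k1 v hv σ hr hσ
  have hd : Disjoint (zpowers σ) E := hσ ▸ disjoint_def.2 fun hx he => h.free hf he hv hx
  have k2 : normalizer (zpowers σ : Set H) ⊓ E ≤ Z := fun e he => h.frob e he.2 σ hE' (by
    rw [disjoint_def.1 hd (x := ⁅e, σ⁆) (mul_mem (conj_mem_of_mem_normalizer he.1 (mem_zpowers σ))
      (inv_mem (mem_zpowers σ))) (commutator_le_left E ⊤ (commutator_mem_commutator he.2 trivial))]
    exact one_mem _)
  have k3 : normalizer (zpowers σ : Set H) = centralizer {σ} := by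
    haveI := h.comm_of_inf_le k2
    refine le_antisymm (fun x hx => mem_centralizer_singleton_iff.2
      (setLike_mul_comm (s := normalizer _) hx (le_normalizer (mem_zpowers σ)))) ?_
    rw [← centralizer_closure, ← zpowers_eq_closure]
    exact centralizer_le_normalizer _
  have k4 := card_add_eq_of_nSyl (invS_top (⊤ : Subgroup H)) (fun w _ hw => by
    obtain ⟨τ, h1, h2⟩ := h.exists_stabilizer_eq hf hw
    exact ⟨_, k1 w hw τ h1 h2, h2.ge, h2.le.trans le_normalizer⟩) hS
  rw [k3, h.index_centralizer hE', top_inf_eq, card_top] at k4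
  set x := Z.relIndex E
  set W := fixS V (zpowers σ)
  have hW : ∀ w ∈ W, w ≠ 1 → stabilizer H w = zpowers σ := fun w hw h1 =>
    le_antisymm (hσ ▸ h.anti v w h1 (hσ ▸ hw)) hw
  have hQ : 1 < Nat.card W := (one_lt_card_iff_ne_bot W).2 fun e => hv (e.le hσ.ge)
  have k5 : Nat.card W * Nat.card W ≤ Nat.card V := by
    obtain ⟨y, hy, hyZ⟩ := SetLike.exists_of_lt h.lt
    have h1 := card_mul_card_le W (W.map (MulDistribMulAction.toMulAut H V y).toMonoidHom)
    rwa [card_map_of_injective (MulEquiv.injective _), (eq_bot_iff (a := _ ⊓ _)).2 ?_, card_bot,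
      mul_one] at h1
    rintro _ ⟨h2, w, hw, rfl⟩
    by_contra h3
    have h4 : w ≠ 1 := fun e => h3 (by rw [e, map_one]; exact one_mem _)
    refine hyZ (k2 ⟨conj_smul_eq_iff_mem_normalizer.1 ?_, hy⟩)
    rw [← hW w hw h4, ← stabilizer_smul_eq_conj, hW w hw h4]
    exact hW _ h2 h3
  obtain ⟨q, hq⟩ : ∃ q, Nat.card W = q + 1 := ⟨_, (Nat.sub_add_cancel hQ.le).symm⟩
  have k6 : Nat.card V - 1 = x * q := by
    rw [hq, mul_add_one] at k4
    omega
  have hV := Nat.sub_add_cancel (Nat.card_pos (α := V))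
  have k7 : Nat.card V < x ^ 2 := by
    rw [hq] at k5 hQ
    have : q + 2 ≤ x := by nlinarith
    nlinarith
  refine ⟨?_, k7⟩
  have hi : ∀ U : Subgroup V, InvS E U → U = ⊥ ∨ U = ⊤ := fun U hU => by
    by_contra hn
    push Not at hn
    have h1 := h.card_dvd hf hU
    have h2 := h.card_dvd hf (invS_top E)
    have h3 := (one_lt_card_iff_ne_bot U).2 hn.1
    have h4 := one_lt_index_of_ne_top hn.2
    rw [card_top, ← U.index_mul_card] at h2
    rw [← U.index_mul_card] at k7
    obtain ⟨a, ha⟩ := Nat.exists_eq_add_one.2 (zero_lt_one.trans h3)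
    obtain ⟨b, hb⟩ := Nat.exists_eq_add_one.2 (zero_lt_one.trans h4)
    rw [ha, hb] at h2 k7
    rw [ha, add_tsub_cancel_right] at h1
    rw [show (b + 1) * (a + 1) - 1 = (b + 1) * a + b by rw [mul_add_one]; rfl] at h2
    have h5 := Nat.le_of_dvd (by omega) ((Nat.dvd_add_right (h1.mul_left _)).1 h2)
    have h6 := Nat.le_of_dvd (by omega) h1
    have h7 : x ≤ Nat.card E := Nat.le_of_dvd Nat.card_pos (relIndex_dvd_card _ _)
    nlinarith
  have k8 : ∀ {τ : H} {t : ℕ}, t.Prime → τ ∉ E → τ ^ t ∈ E → ∃ a, a ^ t = Nat.card V ∧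
      a - 1 ∣ q ∧ Nat.card (fixS V (zpowers τ)) ≤ a := fun ht h1 h2 => by
    obtain ⟨a, h3, h4, h5⟩ := exists_card_fixed_field hf hi ht h2 fun e =>
      h.lt.not_ge ((le_inf e le_rfl).trans (h.centralizer_inf h1).le)
    rw [← inf_relIndex_right, h.centralizer_inf h1, k6] at h4
    exact ⟨a, h3, Nat.dvd_of_mul_dvd_mul_left (relIndex_pos _ _) h4, h5⟩
  obtain ⟨a, h1, h2, h3⟩ := k8 hr hE' (by rw [pow_orderOf_eq_one]; exact one_mem _)
  have h4 := Nat.le_of_dvd (by omega) h2
  obtain rfl : a = q + 1 := by change Nat.card W ≤ a at h3; omega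
  have h5 := Nat.eq_prime_pow_of_unique_prime_dvd (p := orderOf σ) E.index_ne_zero_of_finite
    fun {t} ht hd => by
      by_contra hn
      haveI := Fact.mk ht
      obtain ⟨τ, hτ⟩ := exists_prime_orderOf_dvd_card' (G := H ⧸ E) t hd
      obtain ⟨τ, rfl⟩ := QuotientGroup.mk_surjective τ
      obtain ⟨b, h5, h6, -⟩ := k8 (τ := τ) ht
        (fun e => ht.ne_one (by rw [← hτ, (QuotientGroup.eq_one_iff τ).2 e, orderOf_one]))
        ((QuotientGroup.eq_one_iff _).1 (by rw [QuotientGroup.mk_pow, ← hτ, pow_orderOf_eq_one]))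
      have h7 := (Nat.coprime_primes ht hr).2 hn
      obtain ⟨c, rfl, h8⟩ := Nat.exists_eq_pow_of_exponent_coprime_of_pow_eq_pow h7 (h5.trans h1.symm)
      have h9 := Nat.pow_sub_one_gcd_pow_sub_one c (orderOf σ) t
      rw [← h8, add_tsub_cancel_right, Nat.gcd_eq_left h6, h7.symm.gcd_eq_one, pow_one] at h9
      have hc : 1 < c := by
        by_contra hc
        have : c ^ t ≤ 1 := pow_le_one₀ c.zero_le (not_lt.1 hc)
        omega
      have := Nat.pow_lt_pow_right hc hr.one_lt
      rw [pow_one] at this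
      omega
  have h6 := hS.sup_eq_of_relIndex_eq_pow le_top (relIndex_top_right E ▸ h5)
  have h7 := index_dvd_card_of_sup_eq_top ((sup_comm _ _).trans h6)
  rw [Nat.card_zpowers] at h7
  exact ((Nat.dvd_prime hr).1 h7).resolve_left (fun e => hE' ((index_eq_one.1 e).ge trivial)) ▸ hr

omit hf in
theorem main [Nontrivial V] : E.index.Prime ∧ Nat.card V < Z.relIndex E ^ 2 := by
  set φ := MulDistribMulAction.toMulAut H V
  have hs := φ.rangeRestrict_surjective
  obtain ⟨v, hv⟩ := exists_ne (1 : V)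
  have h1 : ∀ e ∈ E, e ∈ φ.ker → e ∈ Z := fun e he hk => by_contra fun hn =>
    hv (h.fpf e he hn v (MulEquiv.congr_fun hk v))
  have hK : φ.rangeRestrict.ker ≤ Z := fun k hk => by
    rw [MonoidHom.ker_rangeRestrict] at hk
    refine h1 k (by_contra fun hn => h.lt.not_ge fun e he => h.frob e he k hn (h1 _ ?_ ?_)) hk
    · exact commutator_le_left E ⊤ (commutator_mem_commutator he trivial)
    · exact commutator_le_right ⊤ φ.ker (commutator_mem_commutator trivial hk)
  have hE' := hK.trans h.lt.le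
  have m : ∀ {K : Subgroup H}, φ.rangeRestrict.ker ≤ K → ∀ x,
      φ.rangeRestrict x ∈ K.map φ.rangeRestrict ↔ x ∈ K := fun hK x => by
    rw [← mem_comap, comap_map_eq_self hK]
  have hst : ∀ w : V, stabilizer H w = (stabilizer φ.range w).comap φ.rangeRestrict := fun _ => rfl
  haveI := hE.map _ hs
  haveI := h.comm
  haveI := h.cyc
  have := main_faith (H := φ.range) (V := V) (E := E.map φ.rangeRestrict)
    (Z := Z.map φ.rangeRestrict)
    { comm := inferInstance
      cyc := isCyclic_of_surjective (QuotientGroup.map E _ φ.rangeRestrict (le_comap_map _ _))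
        (QuotientGroup.map_surjective_of_surjective _ _ _ (QuotientGroup.mk_surjective.comp hs) _)
      lt := (map_mono h.lt.le).lt_of_ne fun e => h.lt.not_ge fun x hx =>
        (m hK x).1 (e.ge ⟨x, hx, rfl⟩)
      cent := by
        rintro _ ⟨z, hz, rfl⟩
        refine mem_center_iff.2 fun g => ?_
        obtain ⟨g, rfl⟩ := hs g
        rw [← map_mul, ← map_mul, mem_center_iff.1 (h.cent hz)]
      frob := by
        rintro _ ⟨e, he, rfl⟩ g hg h2
        obtain ⟨g, rfl⟩ := hs g
        rw [← map_commutatorElement, m hK] at h2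
        exact ⟨e, h.frob e he g (fun h3 => hg ⟨g, h3, rfl⟩) h2, rfl⟩
      irr := fun U hU => h.irr U fun g _ => hU (φ.rangeRestrict g) (mem_top _)
      fpf := by
        rintro _ ⟨e, he, rfl⟩ hz
        exact h.fpf e he fun h3 => hz ⟨e, h3, rfl⟩
      ndvd := fun w hw => by
        rw [index_map_eq _ hs hE', ← index_comap_of_surjective _ hs]
        exact h.ndvd w hw
      anti := fun u w hw e => (comap_le_comap_of_surjective hs).1
        (h.anti u w hw (comap_mono (f := φ.rangeRestrict) e)) }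
    fun g hg => Subtype.ext (MulEquiv.ext hg)
  rwa [index_map_eq _ hs hE', ← relIndex_comap_comap_of_surjective hs, comap_map_eq_self hK,
    comap_map_eq_self hE'] at this

end BCore

variable {V}

theorem mem_of_smul_div_mem {U : Subgroup V} {e : H} (hU : ∀ u ∈ U, e • u ∈ U)
    (hf : ∀ v : V, e • v = v → v = 1) {v : V} (h : e • v / v ∈ U) : v ∈ U := by
  have h1 : Function.Injective fun w : V => e • w / w := fun a b e1 => div_eq_one.1 (hf _ (by
    rw [smul_div', div_eq_div_iff_div_eq_div]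
    exact e1))
  obtain ⟨u, hu⟩ := (Finite.injective_iff_surjective (f := fun u : U => (⟨e • u.1 / u.1,
    div_mem (hU u u.2) u.2⟩ : U))).1 (fun a b e1 => Subtype.ext (h1 (congrArg Subtype.val e1))) ⟨_, h⟩
  exact h1 (congrArg Subtype.val hu) ▸ u.2

theorem relIndex_dvd_index_of_normal_right (S E : Subgroup H) [E.Normal] :
    S.relIndex E ∣ S.index := by
  refine (Nat.eq_of_mul_eq_mul_left (Nat.card_pos (α := ↥(S ⊓ E))) (Nat.eq_of_mul_eq_mul_left
    (Nat.card_pos (α := S)) ?_) : S.relIndex E = _) ▸ relIndex_dvd_index_of_le (le_sup_left (b := E))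
  rw [card_inf_mul_relIndex, mul_left_comm, card_mul_relIndex le_sup_left, mul_comm (Nat.card ↥(S ⊓ E)),
    card_sup_mul_card_inf]

variable (V) in
/-- The hypotheses of `BCore` without irreducibility. -/
structure BPre (E Z : Subgroup H) [E.Normal] : Prop extends FrobMod E Z where
  fpf : ∀ e ∈ E, e ∉ Z → ∀ v : V, e • v = v → v = 1
  ndvd : ∀ v : V, v ≠ 1 → ¬ E.index ∣ (stabilizer H v).index
  anti : ∀ v w : V, w ≠ 1 → stabilizer H v ≤ stabilizer H w → stabilizer H w ≤ stabilizer H v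

namespace BPre

variable {E Z : Subgroup H} [hE : E.Normal] (h : BPre V E Z)
include h

theorem eq_top (hr : E.index.Prime) {U : Subgroup V} (hU : InvS (⊤ : Subgroup H) U) (h0 : U ≠ ⊥) :
    U = ⊤ := by
  haveI := Fact.mk hr
  refine eq_top_iff.2 fun v _ => by_contra fun hv => ?_
  let S : Subgroup H :=
    { carrier := {g | g • v / v ∈ U}
      mul_mem' := fun {a b} ha hb => by
        have := mul_mem (hU a trivial _ hb) ha
        rwa [smul_div', div_mul_div_cancel, smul_smul] at this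
      one_mem' := by
        rw [Set.mem_ofPred, one_smul, div_self']
        exact one_mem _
      inv_mem' := fun {a} ha => by
        have := inv_mem (hU a⁻¹ trivial _ ha)
        rwa [smul_div', inv_div, inv_smul_smul] at this }
  haveI := h.comm_of_inf_le (A := S) fun e he => by_contra fun hn =>
    hv (mem_of_smul_div_mem (hU e trivial) (h.fpf e he.2 hn) he.1)
  have h1 : ∀ u ∈ U, ∃ R : Sylow E.index H, R ≤ stabilizer H (v * u) ∧ R ≤ S := fun u hu => by
    obtain ⟨R, hR⟩ := exists_sylow_le_of_not_dvd_index (h.ndvd (v * u) fun e =>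
      hv (eq_inv_of_mul_eq_one_left e ▸ inv_mem hu))
    refine ⟨R, hR, fun g hg => ?_⟩
    have h1 : g • v * g • u = v * u := smul_mul' g v u ▸ hR hg
    rw [mul_comm v, ← div_eq_div_iff_mul_eq_mul] at h1
    exact (h1 ▸ div_mem hu (hU g trivial u hu) : g • v / v ∈ U)
  obtain ⟨R, h2, h3⟩ := h1 1 (one_mem _)
  obtain ⟨σ, h4, h5⟩ := SetLike.not_le_iff_exists.1 fun e : (R : Subgroup H) ≤ E =>
    not_dvd_index_of_sylow_le R e dvd_rfl
  have h6 : ∀ u ∈ U, σ • u = u := fun u hu => by
    obtain ⟨R', h6, h7⟩ := h1 u hu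
    have h8 := h6 ((isSylowIn_sylow R').mem_of_mem_normalizer (x := σ) (isPElt_of_mem R.isPGroup' h4)
      trivial (centralizer_le_normalizer _ fun y hy => setLike_mul_comm (s := S) (h7 hy) (h3 h4)))
    have h9 : σ • v = v := mul_one v ▸ h2 h4
    rwa [mem_stabilizer_iff, smul_mul', h9, mul_right_inj] at h8
  obtain ⟨e, he, heZ⟩ := SetLike.exists_of_lt h.lt
  obtain ⟨u, hu, hu1⟩ := U.bot_or_exists_ne_one.resolve_left h0
  refine hu1 (h.fpf ⁅e, σ⁆ (commutator_le_left E ⊤ (commutator_mem_commutator he trivial))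
    (fun h7 => heZ (h.frob e he σ h5 h7)) u ?_)
  rw [commutatorElement_def, mul_smul, inv_smul_eq_iff.2 (h6 u hu).symm, mul_smul, mul_smul,
    h6 _ (hU _ trivial u hu), smul_inv_smul]

theorem main [Nontrivial V] : E.index.Prime ∧ Nat.card V < Z.relIndex E ^ 2 ∧
    ∀ U : Subgroup V, InvS (⊤ : Subgroup H) U → U = ⊥ ∨ U = ⊤ := by
  obtain ⟨U, ⟨hU, h0⟩, hmin⟩ := exists_minimal_of_wellFoundedLT
    (fun U : Subgroup V => InvS (⊤ : Subgroup H) U ∧ U ≠ ⊥) ⟨⊤, invS_top _, top_ne_bot⟩
  letI := hU.action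
  letI := MulDistribMulAction.compHom U (topEquiv (G := H)).symm.toMonoidHom
  have hs : ∀ u : U, stabilizer H u = stabilizer H u.1 := fun u =>
    Subgroup.ext fun g => Subtype.ext_iff
  haveI := (nontrivial_iff_ne_bot U).2 h0
  have := BCore.main (V := U) ⟨h.toFrobMod, fun W hW => or_iff_not_imp_left.2 fun h1 =>
      eq_top_iff.2 fun u _ => by
        obtain ⟨w, hw, e⟩ := hmin (y := W.map U.subtype) ⟨by
          rintro g - _ ⟨w, hw, rfl⟩
          exact ⟨g • w, hW g trivial w hw, rfl⟩, mt (map_eq_bot_iff_of_injective _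
            U.subtype_injective).1 h1⟩ (map_subtype_le W) u.2
        exact Subtype.ext e ▸ hw,
    fun e he hz v e1 => Subtype.ext (h.fpf e he hz v (congrArg Subtype.val e1)),
    fun v hv => hs v ▸ h.ndvd v fun e => hv (Subtype.ext e),
    fun v w hw => hs v ▸ hs w ▸ h.anti v w fun e => hw (Subtype.ext e)⟩
  refine ⟨this.1, ?_, fun W hW => or_iff_not_imp_left.2 (h.eq_top this.1 hW)⟩
  rw [← card_top, ← h.eq_top this.1 hU h0]
  exact this.2

theorem smul_eq {e : H} (he : e ∈ E) {v : V} (hv : v ≠ 1) (e1 : e • v = v) (w : V) : e • w = w := by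
  haveI := nontrivial_of_ne v 1 hv
  have hz : e ∈ Z := by_contra fun hz => hv (h.fpf e he hz v e1)
  refine ((h.main.2.2 (fixS V (zpowers e)) (invS_fixS fun g _ => ?_)).resolve_left
    fun e2 => hv (e2.le (zpowers_le.2 e1))).ge (mem_top w) (mem_zpowers e)
  exact centralizer_le_normalizer _ fun x hx => (mem_center_iff.1 (zpowers_le.2 (h.cent hz) hx) g).symm

theorem index_stabilizer {v : V} (hv : v ≠ 1) :
    (stabilizer H v).index = (stabilizer H v).relIndex E :=
  haveI := nontrivial_of_ne v 1 hv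
  index_eq_relIndex_of_sup_eq_top' ((isCoatom_of_index_prime h.main.1).2 _
    (right_lt_sup.2 fun e => h.ndvd v hv (index_dvd_of_le e)))

theorem index_stabilizer_eq {v w : V} (hv : v ≠ 1) (hw : w ≠ 1) :
    (stabilizer H v).index = (stabilizer H w).index := by
  rw [h.index_stabilizer hv, h.index_stabilizer hw, ← inf_relIndex_right,
    ← inf_relIndex_right (stabilizer H w), le_antisymm (a := stabilizer H v ⊓ E)
      (b := stabilizer H w ⊓ E) (fun e he => ⟨h.smul_eq he.2 hv he.1 w, he.2⟩) fun e he => ⟨h.smul_eq he.2 hw he.1 v, he.2⟩]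

theorem exists_pow_eq_one [Nontrivial V] : ∃ s : ℕ, s.Prime ∧ ∀ v : V, v ^ s = 1 := by
  obtain ⟨s, hs, h1⟩ := Nat.exists_prime_and_dvd (Finite.one_lt_card (α := V)).ne'
  haveI := Fact.mk hs
  obtain ⟨v, hv⟩ := exists_prime_orderOf_dvd_card' s h1
  refine ⟨s, hs, fun w => ((h.main.2.2 (powMonoidHom s).ker fun g _ u hu => ?_).resolve_left
    fun e => hs.ne_one ?_).ge (mem_top w)⟩
  · rw [MonoidHom.mem_ker, powMonoidHom_apply] at hu ⊢
    rw [← smul_pow', hu, smul_one]
  · rw [← hv, orderOf_eq_one_iff]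
    exact e.le (hv ▸ pow_orderOf_eq_one v)

end BPre

end GT
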