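import Cfsg.Agent.Lib.Grp.PermOrb
import Cfsg.Agent.Lib.Grp.CentCover

/-!
# Radical `2`-subgroups of alternating groups that are Sylow in the centralizer of an element of
odd order
-/

set_option autoImplicit false
set_option linter.unusedSectionVars false

namespace GT

open Finset Equiv
open scoped Pointwise

variable {α : Type*} [Fintype α] [DecidableEq α]

theorem Radical.orbC_inf_le {p : ℕ} [Fact p.Prime] {L E : Subgroup (Perm α)} (h : Radical p L E)
    (hE : IsPGroup p E) : orbC E ⊓ L ≤ E := by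
  refine h _ ((isPGroup_orbC hE).to_le inf_le_left) inf_le_right
    (inf_le_left.trans orbC_le_normalizer) fun x hx => ?_
  exact Subgroup.inf_normalizer_le_normalizer_inf
    ⟨normalizer_le_normalizer_orbC hx.2, Subgroup.le_normalizer hx.1⟩

theorem dvd_card_of_forall_orbF {E : Subgroup (Perm α)} {n : ℕ} (S : Finset α)
    (h1 : ∀ a ∈ S, orbF E a ⊆ S) (h2 : ∀ a ∈ S, n ∣ (orbF E a).card) : n ∣ S.card := by
  induction S using Finset.strongInduction with
  | H S ih =>
    rcases S.eq_empty_or_nonempty with rfl | ⟨a, ha⟩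
    · simp
    rw [← Finset.card_sdiff_add_card_eq_card (h1 a ha)]
    refine dvd_add (ih _ (Finset.sdiff_ssubset (h1 a ha) ⟨a, self_mem_orbF⟩) (fun b hb c hc => ?_)
      fun b hb => h2 b (mem_sdiff.1 hb).1) (h2 a ha)
    rw [mem_sdiff] at hb ⊢
    exact ⟨h1 b hb.1 hc, fun h => hb.2 (orbF_trans h (orbF_symm hc))⟩

theorem sign_eq_of_sq {u : Perm α} (hu : u ^ 2 = 1) :
    Perm.sign u = (-1) ^ (u.support.card / 2) ∧ 2 ∣ u.support.card := by
  have h1 := Perm.cycleType_of_pow_prime_eq_one hu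
  have h2 : u.support.card = u.cycleType.card * 2 := by
    rw [← Perm.sum_cycleType, h1]; simp
  refine ⟨?_, h2 ▸ Dvd.intro_left _ rfl⟩
  rw [Perm.sign_of_cycleType, Perm.sum_cycleType, h2, Nat.mul_div_cancel _ two_pos, pow_add,
    mul_comm _ 2, pow_mul]
  simp

theorem sign_eq_one_iff_of_sq {u : Perm α} (hu : u ^ 2 = 1) :
    Perm.sign u = 1 ↔ 4 ∣ u.support.card := by
  obtain ⟨h1, k, hk⟩ := sign_eq_of_sq hu
  rw [h1, hk, Nat.mul_div_cancel_left _ two_pos, neg_one_pow_eq_one_iff_even (by decide),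
    even_iff_two_dvd]
  omega

/-- An even involution of `orbC E` with large support. -/
theorem exists_even_invol {E : Subgroup (Perm α)} (hE : IsPGroup 2 E) :
    ∃ u ∈ orbC E ⊓ alternatingGroup α, u ^ 2 = 1 ∧ ∀ s,
      2 * (Nat.card (orbC E)).factorization 2 + s ≤ (mov E).card →
      2 * (Nat.card (orbC E ⊓ alternatingGroup α :)).factorization 2 + s ≤ u.support.card := by
  obtain ⟨u, hu, hu1, hu2⟩ := exists_support_eq_mov hE
  have h0 : (Nat.card (orbC E ⊓ alternatingGroup α :)).factorization 2 +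
      ((alternatingGroup α).relIndex (orbC E)).factorization 2 =
      (Nat.card (orbC E)).factorization 2 := by
    rw [← Subgroup.inf_relIndex_right, inf_comm (alternatingGroup α), ← Finsupp.add_apply,
      Subgroup.relIndex, ← Nat.factorization_mul Nat.card_pos.ne' Subgroup.index_ne_zero_of_finite,
      ← Nat.card_congr (Subgroup.subgroupOfEquivOfLe
        (inf_le_left : orbC E ⊓ alternatingGroup α ≤ _)).toEquiv, Subgroup.card_mul_index]
  by_cases h : Perm.sign u = 1
  · exact ⟨u, ⟨hu, h⟩, hu1, fun s hs => by rw [hu2]; omega⟩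
  have h1 : ∃ a ∈ mov E, (orbF E a).card = 2 := by
    by_contra h1
    push Not at h1
    apply h
    rw [sign_eq_one_iff_of_sq hu1, hu2]
    refine dvd_card_of_forall_orbF _ (fun a ha b hb => mem_mov_of_mem_orbF ha hb) fun a ha => ?_
    obtain ⟨k, hk⟩ := exists_card_orbF hE a
    have h2 := one_lt_card_orbF ha
    have h3 := h1 a ha
    rw [hk] at h2 h3 ⊢
    rcases k with _ | _ | k
    · simp at h2
    · simp at h3
    · exact ⟨2 ^ k, by ring⟩
  obtain ⟨a, ha, h2⟩ := h1
  obtain ⟨r, hr, hr1, hr2⟩ := exists_support_eq_orbF hE ha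
  have h3 : Perm.sign r ≠ 1 := by
    rw [Ne, sign_eq_one_iff_of_sq hr1, hr2, h2]; decide
  have h4 : ∀ x ∈ orbF E a, u x = r x := by
    intro x hx
    have h5 : u x ∈ orbF E a := by
      obtain ⟨d, hd, h⟩ := hu.2 x
      rw [h]; exact (apply_mem_orbF_iff hd).2 hx
    have h6 : r x ∈ orbF E a := hr2 ▸ Perm.apply_mem_support.2 (hr2 ▸ hx)
    have h7 : u x ≠ x := Perm.mem_support.1 (hu2 ▸ mem_mov_of_mem_orbF ha hx)
    have h8 : r x ≠ x := Perm.mem_support.1 (hr2 ▸ hx)
    by_contra h9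
    have := Finset.two_lt_card_iff.2 ⟨u x, r x, x, h5, h6, hx, h9, h7, h8⟩
    omega
  have h5 : ∀ x ∈ orbF E a, (u * r) x = x := by
    intro x hx
    rw [Perm.mul_apply, h4 _ (hr2 ▸ Perm.apply_mem_support.2 (hr2 ▸ hx)), ← Perm.mul_apply, ← sq,
      hr1, Perm.one_apply]
  have h6 : ∀ x ∉ orbF E a, (u * r) x = u x := fun x hx => by
    rw [Perm.mul_apply, Perm.notMem_support.1 (show x ∉ r.support by rwa [hr2])]
  have h7 : (u * r).support = mov E \ orbF E a := by
    ext x
    rw [Perm.mem_support, mem_sdiff, ← hu2, Perm.mem_support]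
    by_cases hx : x ∈ orbF E a
    · simp [h5 x hx, hx]
    · simp [h6 x hx, hx]
  refine ⟨u * r, ⟨mul_mem hu hr, ?_⟩, Equiv.ext fun x => ?_, fun s hs => ?_⟩
  · show Perm.sign _ = 1
    rw [map_mul, (Int.units_eq_one_or _).resolve_left h, (Int.units_eq_one_or _).resolve_left h3]
    simp
  · rw [sq, Perm.mul_apply]
    by_cases hx : x ∈ orbF E a
    · rw [h5 x hx, h5 x hx, Perm.one_apply]
    · obtain ⟨d, hd, h8⟩ := hu.2 x
      rw [h6 x hx, h6 _ (by rw [h8]; exact fun h => hx ((apply_mem_orbF_iff hd).1 h)),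
        ← Perm.mul_apply, ← sq, hu1]
  · have h8 := Finset.card_sdiff_add_card_eq_card
      (fun b hb => mem_mov_of_mem_orbF ha hb : orbF E a ⊆ mov E)
    have h9 : 1 ≤ ((alternatingGroup α).relIndex (orbC E)).factorization 2 := by
      have : Nontrivial α := Fintype.one_lt_card_iff_nontrivial.1
        (lt_of_lt_of_le (one_lt_card_orbF ha) (Finset.card_le_univ _))
      have h10 := Subgroup.relIndex_dvd_index_of_normal (alternatingGroup α) (orbC E)
      rw [alternatingGroup.index_eq_two, Nat.dvd_prime Nat.prime_two,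
        Subgroup.relIndex_eq_one] at h10
      rw [h10.resolve_left fun h11 => h (h11 hu), Nat.Prime.factorization_self Nat.prime_two]
    rw [h7]
    omega

/-- A group of order sixteen acting on eight points. -/
@[reducible] def act16 : MulAction (DihedralGroup 4 × Multiplicative (ZMod 2)) (ZMod 4 × ZMod 2) where
  smul g x := match g.1 with
    | .r i => (x.1 + i, x.2 + g.2.toAdd)
    | .sr i => (-i - x.1, x.2 + g.2.toAdd)
  one_smul := by decide
  mul_smul := by decide +kernel

/-- The permutation representation of the group of order sixteen. -/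
def hom16 : DihedralGroup 4 × Multiplicative (ZMod 2) →* Perm (ZMod 4 × ZMod 2) :=
  @MulAction.toPermHom _ _ _ act16

theorem sign_hom16 : ∀ g, Perm.sign (hom16 g) = 1 := by decide +kernel

theorem hom16_trans : ∀ x, ∃ g, hom16 g (1, 0) = x := by decide +kernel

theorem hom16_support : (hom16 (.sr 0, 1)).support.card = 4 ∧ (1, 0) ∈ (hom16 (.sr 0, 1)).support := by
  decide +kernel

section
variable {E : Subgroup (Perm α)} {σ : Perm α}
  (hE : IsSylowIn 2 E (Subgroup.centralizer {σ} ⊓ alternatingGroup α))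
include hE

theorem two_mul_add_four_le {T : Finset α} (hT : ∀ a ∈ T, σ a = a) (h8 : 8 ≤ T.card) :
    2 * (Nat.card (orbC E)).factorization 2 + 4 ≤ (mov E).card := by
  classical
  obtain ⟨ι₀⟩ : Nonempty (ZMod 4 × ZMod 2 ↪ T) :=
    Function.Embedding.nonempty_of_card_le (by simpa using h8)
  let ι : ZMod 4 × ZMod 2 ↪ α := ι₀.trans (Function.Embedding.subtype _)
  let f := (Perm.viaEmbeddingHom ι).comp hom16
  have hf : ∀ g x, f g (ι x) = ι (hom16 g x) := fun g x => Perm.viaEmbedding_apply _ _ _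
  have hf' : ∀ g x, x ∉ Set.range ι → f g x = x := fun g x => Perm.viaEmbedding_apply_of_notMem _ _ _
  have h1 : IsPGroup 2 f.range := (IsPGroup.of_card (n := 4) (by
    rw [Nat.card_prod, DihedralGroup.nat_card]; simp)).of_surjective
    _ f.rangeRestrict_surjective
  obtain ⟨x, -, hx⟩ := hE.exists_conj_le h1 (by
    rintro _ ⟨g, rfl⟩
    refine ⟨Subgroup.mem_centralizer_singleton_iff.2 (Perm.Disjoint.commute fun a => ?_), ?_⟩
    · by_cases ha : a ∈ Set.range ι
      · obtain ⟨y, rfl⟩ := ha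
        exact Or.inr (hT _ (ι₀ y).2)
      · exact Or.inl (hf' g a ha)
    · show Perm.sign _ = 1
      rw [MonoidHom.comp_apply,
        Perm.viaEmbeddingHom_apply, Perm.viaEmbedding, Perm.sign_extendDomain, sign_hom16])
  have h2 : ∀ g, x * f g * x⁻¹ ∈ E := fun g =>
    hx (Subgroup.smul_mem_pointwise_smul _ _ _ ⟨g, rfl⟩)
  have h3 : 8 ≤ (orbF E (x (ι (1, 0)))).card := by
    refine le_trans (b := (univ.image fun y => x (ι y)).card) ?_ (Finset.card_le_card fun b hb => ?_)
    · rw [Finset.card_image_of_injective _ (f := fun y => x (ι y)) (x.injective.comp ι.injective)]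
      simp
    · obtain ⟨y, -, rfl⟩ := mem_image.1 hb
      obtain ⟨g, rfl⟩ := hom16_trans y
      exact mem_orbF.2 ⟨_, h2 g, by simp [hf]⟩
  refine mul_add_le_card_mov hE.isPGroup le_rfl (Or.inr ⟨x (ι (1, 0)), ?_, 2, ?_, h3⟩)
  · by_contra h
    rw [orbF_eq_singleton h] at h3
    simp at h3
  · have h4 : (x * f (.sr 0, 1) * x⁻¹).support.card = 4 := by
      rw [Perm.card_support_conj, MonoidHom.comp_apply, Perm.viaEmbeddingHom_apply,
        Perm.viaEmbedding]
      refine Eq.trans ?_ hom16_support.1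
      convert Perm.card_support_extend_domain _
    refine le_trans (Finset.card_le_card fun b hb => ?_) h4.le
    obtain ⟨y, hy, rfl⟩ := mem_orbF.1 hb
    rw [Perm.mem_support, ← orbC_apply hy (h2 _), y.injective.ne_iff]
    simpa [hf] using Perm.mem_support.1 hom16_support.2

variable (hR : Radical 2 (alternatingGroup α) E) {m : ℕ} (hm : ¬ 2 ∣ m) (hσ : σ ^ m = 1)
include hR hm hσ

theorem apply_eq_of_mem_mov {a : α} (ha : a ∈ mov E) : σ a = a :=
  apply_eq_of_forall_commute hE.isPGroup hm hσ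
    (fun _ hd => (Subgroup.mem_centralizer_singleton_iff.1 (hE.le hd).1).symm)
    (fun _ hy h => (Subgroup.mem_centralizer_singleton_iff.1
      (hE.le (hR.orbC_inf_le hE.isPGroup ⟨hy, h⟩)).1).symm) ha

end

theorem exists_four_of_sq {τ : Perm α} (h1 : τ ≠ 1) (h2 : τ ^ 2 = 1) (h3 : Perm.sign τ = 1) :
    ∃ a c, τ a ≠ a ∧ τ c ≠ c ∧ c ≠ a ∧ c ≠ τ a := by
  obtain ⟨a, ha⟩ : τ.support.Nonempty := by
    rwa [Finset.nonempty_iff_ne_empty, Ne, Perm.support_eq_empty_iff]
  have h4 := Nat.le_of_dvd (Finset.card_pos.2 ⟨a, ha⟩) ((sign_eq_one_iff_of_sq h2).1 h3)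
  obtain ⟨c, hc, hc'⟩ := Finset.exists_mem_notMem_of_card_lt_card
    (lt_of_le_of_lt (Finset.card_le_two (a := a) (b := τ a)) (by omega : 2 < τ.support.card))
  simp only [mem_insert, mem_singleton, not_or] at hc'
  exact ⟨a, c, Perm.mem_support.1 ha, Perm.mem_support.1 hc, hc'⟩

theorem two_mul_card_dvd_factorial {E : Subgroup (Perm α)} (hE : E ≤ alternatingGroup α)
    (h : E ≠ ⊥) : 2 * Nat.card E ∣ (mov E).card.factorial := by
  classical
  have hinv : ∀ d : E, ∀ x, (d : Perm α) x ∈ mov E ↔ x ∈ mov E := fun d x =>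
    ⟨fun h => mem_mov_of_mem_orbF h (orbF_symm (apply_mem_orbF d.2)),
      fun h => mem_mov_of_mem_orbF h (apply_mem_orbF d.2)⟩
  have hsupp : ∀ d : E, ∀ x, (d : Perm α) x ≠ x → x ∈ mov E := fun d x h => mem_mov.2 ⟨d, d.2, h⟩
  let f : E →* alternatingGroup {x // x ∈ mov E} :=
    { toFun := fun d => ⟨(d : Perm α).subtypePerm (hinv d), by
        have h1 : Perm.sign (d : Perm α) = 1 := hE d.2
        rw [Perm.mem_alternatingGroup, ← h1]
        convert Perm.sign_subtypePerm _ (hinv d) (hsupp d)⟩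
      map_one' := Subtype.ext (Equiv.ext fun x => rfl)
      map_mul' := fun d e => Subtype.ext (Equiv.ext fun x => rfl) }
  have hf : Function.Injective f := (injective_iff_map_eq_one f).2 fun d hd =>
    Subtype.ext (Equiv.ext fun x => by_contra fun hx => hx (congrArg Subtype.val
      (Equiv.congr_fun (congrArg Subtype.val hd) ⟨x, hsupp d x hx⟩)))
  have : Nontrivial {x // x ∈ mov E} := by
    obtain ⟨d, hd⟩ := (Subgroup.ne_bot_iff_exists_ne_one).1 h
    obtain ⟨x, hx⟩ : ∃ x, (d : Perm α) x ≠ x := by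
      by_contra h1
      push Not at h1
      exact hd (Subtype.ext (Equiv.ext h1))
    exact ⟨⟨⟨_, (hinv d x).2 (hsupp d x hx)⟩, ⟨x, hsupp d x hx⟩, fun h => hx (congrArg Subtype.val h)⟩⟩
  have h1 := Nat.mul_dvd_mul_left 2 (Subgroup.card_dvd_of_injective f hf)
  rwa [two_mul_nat_card_alternatingGroup, Nat.card_perm, Nat.card_eq_finsetCard] at h1

end GT
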