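import Cfsg.Agent.Lib.Grp.Frob
import Cfsg.Agent.Lib.Grp.CycAb

/-!
# Fixed point free automorphisms of order four (Gorenstein--Herstein)
-/

set_option autoImplicit false
set_option linter.unusedSectionVars false
set_option linter.style.haveILetI false

namespace GT

open Cfsg Subgroup
open scoped Pointwise commutatorElement

universe u

variable {Γ : Type*} [Group Γ] [Finite Γ] {Γ' : Type*} [Group Γ'] [Finite Γ']

theorem mem_normalizer_closure_of_conj_mem {X : Set Γ} {g : Γ}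
    (h : ∀ y ∈ X, g * y * g⁻¹ ∈ closure X) : g ∈ normalizer ((closure X : Subgroup Γ) : Set Γ) :=
  mem_normalizer_of_conj_mem fun _ hy =>
    ((closure_le ((closure X).comap (MulAut.conj g).toMonoidHom)).2 h : _ ≤ _) hy

theorem exists_pow_mul_self_eq {R : Subgroup Γ} (h : ¬ 2 ∣ Nat.card R) {y : Γ} (hy : y ∈ R) :
    ∃ k : ℕ, y ^ k * y ^ k = y := by
  obtain ⟨k, hk⟩ : Odd (Nat.card R) := Nat.not_even_iff_odd.1 (mt Even.two_dvd h)
  refine ⟨k + 1, ?_⟩
  have : y ^ Nat.card R = 1 := orderOf_dvd_iff_pow_eq_one.1 (orderOf_dvd_natCard R hy)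
  rw [← pow_add, show k + 1 + (k + 1) = Nat.card R + 1 by omega, pow_succ, this, one_mul]

theorem card_inverted_eq {R : Subgroup Γ} {θ : Γ} (hθ : θ ∈ normalizer (R : Set Γ))
    (h2 : θ * θ = 1) (h : ¬ 2 ∣ Nat.card R) :
    Nat.card {y : Γ // y ∈ R ∧ θ * y * θ⁻¹ = y⁻¹} = (centralizer {θ}).relIndex R := by
  have hi : θ⁻¹ = θ := inv_eq_of_mul_eq_one_right h2
  have key : ∀ g k : R, (QuotientGroup.leftRel ((centralizer {θ}).subgroupOf R)) g k ↔
      (g : Γ) * (θ * (g : Γ)⁻¹ * θ⁻¹) = k * (θ * (k : Γ)⁻¹ * θ⁻¹) := fun g k => by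
    rw [QuotientGroup.leftRel_apply, mem_subgroupOf, mem_centralizer_singleton_iff]
    simp only [coe_mul, InvMemClass.coe_inv]
    constructor
    · intro e
      calc _ = (g : Γ) * (θ * ((g : Γ)⁻¹ * k)) * (k : Γ)⁻¹ * θ⁻¹ := by group
        _ = _ := by rw [← e]; group
    · intro e
      calc _ = (g : Γ)⁻¹ * (k * (θ * (k : Γ)⁻¹ * θ⁻¹)) * θ * k := by group
        _ = _ := by rw [← e]; group
  symm
  refine Nat.card_eq_of_bijective (Quotient.lift (fun g : R => (⟨g * (θ * (g : Γ)⁻¹ * θ⁻¹),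
    R.mul_mem g.2 (conj_mem_of_mem_normalizer hθ (R.inv_mem g.2)), by
      rw [hi, mul_inv_rev, mul_inv_rev, mul_inv_rev, hi, inv_inv]
      calc _ = θ * g * θ * (g : Γ)⁻¹ * (θ * θ) := by group
        _ = _ := by rw [h2]; group⟩ : {y : Γ // y ∈ R ∧ θ * y * θ⁻¹ = y⁻¹}))
    fun g k e => Subtype.ext ((key g k).1 e)) ⟨fun a b e => ?_, fun y => ?_⟩
  · induction a using Quotient.inductionOn
    induction b using Quotient.inductionOn
    exact Quotient.sound ((key _ _).2 (congrArg Subtype.val e))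
  · obtain ⟨k, hk⟩ := exists_pow_mul_self_eq h y.2.1
    refine ⟨Quotient.mk _ ⟨y.1 ^ k, pow_mem y.2.1 k⟩, Subtype.ext ?_⟩
    change y.1 ^ k * (θ * (y.1 ^ k)⁻¹ * θ⁻¹) = y.1
    rw [← conj_inv, ← conj_pow, y.2.2, inv_pow, inv_inv, hk]

omit [Finite Γ] in
theorem prod_pow_factorization_of_dvd {m n : ℕ} (hn : n ≠ 0) (h : m ∣ n) :
    ∏ r : n.primeFactors, (r : ℕ) ^ m.factorization r = m := by
  have hm : m ≠ 0 := ne_zero_of_dvd_ne_zero hn h
  rw [Finset.prod_coe_sort n.primeFactors (fun r => r ^ m.factorization r)]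
  conv_rhs => rw [← Nat.prod_factorization_pow_eq_self hm]
  rw [Finsupp.prod_of_support_subset _ (Nat.primeFactors_mono h hn) _ (by simp)]

theorem eq_of_forall_pPart_eq {y z : Γ} (h : ∀ r : ℕ, r.Prime → r ∣ orderOf y ∨ r ∣ orderOf z →
    pPart r y = pPart r z) : y = z := by
  have h1 : zpowers y ≤ centralizer {z} := le_of_forall_isPElt_mem fun r _ w hw hw' => by
    by_cases h1 : w = 1
    · exact h1 ▸ one_mem _
    obtain ⟨k, rfl⟩ := hw
    have h2 := h r Fact.out (Or.inl ((hw'.dvd_orderOf h1).trans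
      (orderOf_dvd_of_mem_zpowers ⟨k, rfl⟩)))
    rw [← hw'.pPart_eq]
    dsimp only
    rw [pPart_zpow, h2]
    exact zpow_mem (mem_centralizer_singleton_iff.2 (commute_pPart_self r z)) k
  have hc : Commute y z := mem_centralizer_singleton_iff.1 (h1 (mem_zpowers y))
  rw [← mul_inv_eq_one, ← orderOf_eq_one_iff]
  by_contra hne
  obtain ⟨r, hr, hd⟩ := Nat.exists_prime_and_dvd hne
  have := Fact.mk hr
  refine pPart_ne_one_iff.2 hd ?_
  have h3 := hd.trans hc.inv_right.orderOf_mul_dvd_mul_orderOf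
  rw [orderOf_inv] at h3
  rw [pPart_mul hc.inv_right, pPart_inv, h r hr (hr.dvd_mul.1 h3), mul_inv_cancel]

/-- `x` induces a fixed point free automorphism of order dividing four on the odd order group
`M`. -/
structure Fpf4 (M : Subgroup Γ) (x : Γ) : Prop where
  norm : x ∈ normalizer (M : Set Γ)
  pow4 : x * x * (x * x) = 1
  fpf : ∀ n ∈ M, n * x = x * n → n = 1
  odd : ¬ 2 ∣ Nat.card M

namespace Fpf4

variable {M : Subgroup Γ} {x : Γ} (h : Fpf4 M x)
include h

theorem act : CoprimeAct (zpowers x) M :=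
  coprimeAct_of_isPGroup_left (zpowers_le.2 h.norm) (IsPElt.isPGroup_zpowers
    (isPElt_of_pow_eq_one (k := 2) (by rw [← h.pow4]; simp [pow_succ, mul_assoc]))) h.odd

theorem act2 : CoprimeAct (zpowers (x * x)) M :=
  h.act.of_le_left (zpowers_le.2 (mul_mem (mem_zpowers x) (mem_zpowers x)))

theorem of_le {N : Subgroup Γ} (hN : N ≤ M) (hx : x ∈ normalizer (N : Set Γ)) : Fpf4 N x :=
  ⟨hx, h.pow4, fun n hn => h.fpf n (hN hn), fun e => h.odd (e.trans (card_dvd_of_le hN))⟩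

theorem map (f : Γ →* Γ') : Fpf4 (M.map f) (f x) :=
  ⟨map_normalizer_le M f ⟨x, h.norm, rfl⟩, by simp only [← map_mul, h.pow4, map_one],
    fun n hn e => by
      have h1 : n ∈ M.map f ⊓ centralizer (((zpowers x).map f : Subgroup Γ') : Set Γ') := by
        rw [MonoidHom.map_zpowers, centralizer_zpowers]
        exact ⟨hn, mem_centralizer_singleton_iff.2 e⟩
      rw [← h.act.map_inf_centralizer, centralizer_zpowers] at h1
      obtain ⟨m, hm, rfl⟩ := h1
      rw [h.fpf m hm.1 (mem_centralizer_singleton_iff.1 hm.2), map_one],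
    fun e => h.odd (e.trans (card_map_dvd M f))⟩

theorem subgroupOf {K : Subgroup Γ} (hx : x ∈ K) : Fpf4 (M.subgroupOf K) ⟨x, hx⟩ :=
  ⟨le_normalizer_comap K.subtype h.norm, Subtype.ext h.pow4,
    fun n hn e => Subtype.ext (h.fpf n hn (congrArg Subtype.val e)),
    fun e => h.odd (e.trans (by rw [card_subgroupOf]; exact card_dvd_of_le inf_le_left))⟩

theorem norm_F : x ∈ normalizer ((M ⊓ centralizer {x * x} : Subgroup Γ) : Set Γ) :=
  mem_normalizer_of_conj_mem fun f hf => ⟨conj_mem_of_mem_normalizer h.norm hf.1,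
    mem_centralizer_singleton_iff.2 (by
      have := mem_centralizer_singleton_iff.1 hf.2
      calc _ = x * (f * (x * x)) * x⁻¹ := by group
        _ = _ := by rw [this]; group)⟩

theorem inv_F {f : Γ} (hf : f ∈ M ⊓ centralizer {x * x}) : x * f * x⁻¹ = f⁻¹ :=
  conj_eq_inv_of_fpf h.norm_F (fun n hn => h.fpf n hn.1)
    (fun n hn => by rw [sq]; exact mem_centralizer_singleton_iff.1 hn.2) hf

theorem comm_F : IsMulCommutative ↥(M ⊓ centralizer {x * x}) :=
  isMulCommutative_of_conj_eq_inv fun _ hf => h.inv_F hf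

theorem commute_conj {f y : Γ} (hf : f ∈ M ⊓ centralizer {x * x}) (hy : y ∈ M)
    (hi : x * x * y * (x * x)⁻¹ = y⁻¹) : Commute (f * y * f⁻¹) (x * y * x⁻¹) := by
  obtain ⟨k, -, hk⟩ := exists_conj_eq_mul_of_fpf h.norm h.fpf (M.mul_mem hf.1 hy)
  have h1 : (f * y * x) * (f * y * x) * ((f * y * x) * (f * y * x)) = 1 := by
    rw [← hk]
    calc _ = k * (x * x * (x * x)) * k⁻¹ := by group
      _ = 1 := by rw [h.pow4]; group
  have h2 : x * x * f * (x * x)⁻¹ = f := by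
    rw [← mem_centralizer_singleton_iff.1 hf.2, mul_inv_cancel_right]
  have h3 := h.inv_F hf
  have h4 : (f * y * x) * (f * y * x) * ((f * y * x) * (f * y * x)) =
      f * y * (x * f * x⁻¹) * (x * y * x⁻¹) * (x * x * f * (x * x)⁻¹) * (x * x * y * (x * x)⁻¹) *
        (x * (x * x * f * (x * x)⁻¹) * x⁻¹) * (x * (x * x * y * (x * x)⁻¹) * x⁻¹) *
        (x * x * (x * x)) := by group
  rw [h4, h2, h3, hi, h.pow4] at h1
  rw [← commutatorElement_eq_one_iff_commute, ← h1, commutatorElement_def]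
  group

theorem exists_invariant {r : ℕ} [hr : Fact r.Prime] (hd : r ∣ Nat.card M) :
    ∃ A : Subgroup Γ, A ≠ ⊥ ∧ A ≤ M ∧ IsPGroup r A ∧
      M ⊓ centralizer {x * x} ≤ normalizer (A : Set Γ) ∧ x ∈ normalizer (A : Set Γ) := by
  have := h.comm_F
  by_cases hF : r ∣ Nat.card ↥(M ⊓ centralizer {x * x})
  · exact ⟨powKer (M ⊓ centralizer {x * x}) r, powKer_ne_bot _ hF,
      (powKer_le _ _).trans inf_le_left, IsElementaryAbelian.isPGroup'
        ⟨isMulCommutative_of_le (powKer_le _ _), fun _ ha => ha.2⟩,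
      le_normalizer.trans (normalizer_le_normalizer_powKer _ _),
      normalizer_le_normalizer_powKer _ _ h.norm_F⟩
  obtain ⟨P, hP, hxP⟩ := h.act.exists_isSylowIn r
  have hx : x ∈ normalizer (P : Set Γ) := hxP (mem_zpowers x)
  have hF1 : ∀ u ∈ M ⊓ centralizer {x * x}, IsPElt r u → u = 1 := fun u hu hu' =>
    hu'.eq_one_of_isPRegular (isPRegular_of_mem hF hu)
  have hinv : ∀ y ∈ P, x * x * y * (x * x)⁻¹ = y⁻¹ := fun y hy =>
    conj_eq_inv_of_fpf (mul_mem hx hx) (fun n hn e => hF1 n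
      ⟨hP.le hn, mem_centralizer_singleton_iff.2 e⟩ (isPElt_of_mem hP.isPGroup hn))
      (by rw [sq, h.pow4]; exact one_mem _) hy
  have hPc := isMulCommutative_of_conj_eq_inv hinv
  have key : ∀ c ∈ P, ∀ f ∈ M ⊓ centralizer {x * x}, Commute (f * c * f⁻¹) c := by
    intro c hc f hf
    have hd : x * c * x⁻¹ ∈ P := conj_mem_of_mem_normalizer hx hc
    have e1 : x * (x * c * x⁻¹) * x⁻¹ = c⁻¹ := by rw [← hinv c hc]; group
    have c1 := h.commute_conj hf (hP.le hc) (hinv c hc)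
    have c2 := h.commute_conj hf (hP.le hd) (hinv _ hd)
    have c3 := h.commute_conj hf (hP.le (mul_mem hc hd)) (hinv _ (mul_mem hc hd))
    have c4 : Commute c (x * c * x⁻¹) := setLike_mul_comm hc hd
    have c5 : Commute (f * c * f⁻¹) (f * (x * c * x⁻¹) * f⁻¹) := (c4.conj f)
    have hfc : x * x * f * (x * x)⁻¹ = f := by
      rw [← mem_centralizer_singleton_iff.1 hf.2, mul_inv_cancel_right]
    have ia : x * x * (f * c * f⁻¹) * (x * x)⁻¹ = (f * c * f⁻¹)⁻¹ := by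
      rw [← conj_mul, ← conj_mul, conj_inv.symm, hfc, hinv c hc]; group
    have am : f * c * f⁻¹ ∈ M := mul_mem (mul_mem hf.1 (hP.le hc)) (inv_mem hf.1)
    have ap : IsPElt r (f * c * f⁻¹) := (isPElt_of_mem hP.isPGroup hc).conj f
    rw [e1] at c2
    rw [← conj_mul, ← conj_mul (b := x), e1] at c3
    generalize x * c * x⁻¹ = d at *
    generalize f * c * f⁻¹ = a at *
    generalize f * d * f⁻¹ = b at *
    have c2' : Commute b c := by simpa using c2
    have e2 : a⁻¹ * c⁻¹ * a * c = d⁻¹ * b * d * b⁻¹ := by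
      have e3 : a * b * (d * c⁻¹) = c⁻¹ * d * (a * b) := by rw [c3.eq, c4.inv_left.eq]
      calc _ = a⁻¹ * d⁻¹ * (d * c⁻¹) * a * c := by group
        _ = a⁻¹ * d⁻¹ * (c⁻¹ * d * (a * b)) * (b⁻¹ * c) := by rw [c4.inv_left.eq]; group
        _ = (a⁻¹ * d⁻¹ * a) * b * d * (c⁻¹ * (b⁻¹ * c)) := by rw [← e3]; group
        _ = _ := by rw [c1.inv_inv.eq, c2'.inv_left.eq]; group
    have ua : Commute (a⁻¹ * c⁻¹ * a * c) a := by
      rw [e2]
      exact ((c1.symm.inv_left.mul_left c5.symm).mul_left c1.symm).mul_left c5.symm.inv_left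
    have uc : Commute (a⁻¹ * c⁻¹ * a * c) c := by
      rw [e2]
      exact ((c4.symm.inv_left.mul_left c2').mul_left c4.symm).mul_left c2'.inv_left
    have e4 : ⁅a⁻¹, c⁻¹⁆ = a⁻¹ * c⁻¹ * a * c := by simp [commutatorElement_def]
    have e5 := hF1 (a⁻¹ * c⁻¹ * a * c) ⟨M.mul_mem (M.mul_mem (M.mul_mem (M.inv_mem am)
      (M.inv_mem (hP.le hc))) am) (hP.le hc), mem_centralizer_singleton_iff.2 (by
        rw [← mul_inv_eq_iff_eq_mul.1 (show x * x * (a⁻¹ * c⁻¹ * a * c) * (x * x)⁻¹ =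
          a⁻¹ * c⁻¹ * a * c from ?_)]
        rw [← conj_mul, ← conj_mul, ← conj_mul, ← conj_inv, ← conj_inv, ia, hinv c hc]
        calc _ = c * a * (a⁻¹ * c⁻¹ * a * c) * (c * a)⁻¹ := by group
          _ = _ := by rw [← (uc.mul_right ua).eq, mul_inv_cancel_right])⟩ (by
      obtain ⟨k, hk⟩ := ap.exists_pow_eq_one
      refine isPElt_of_pow_eq_one (k := k) ?_
      rw [← e4, ← commutator_pow_left_eq (e4 ▸ ua.inv_right), inv_pow, hk]
      simp)
    calc a * c = c * a * (a⁻¹ * c⁻¹ * a * c) := by group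
      _ = c * a := by rw [e5, mul_one]
  obtain ⟨c, hc, hc1, hcr⟩ := exists_mem_pow_eq_one
    (dvd_card_of_isPGroup_of_ne_bot hP.isPGroup (hP.ne_bot hd))
  have hd : x * c * x⁻¹ ∈ P := conj_mem_of_mem_normalizer hx hc
  let X : Set Γ := {y | ∃ f ∈ M ⊓ centralizer {x * x},
    y = f * c * f⁻¹ ∨ y = f * (x * c * x⁻¹) * f⁻¹}
  have hconj : ∀ {f g u v : Γ}, Commute (g⁻¹ * f * u * (g⁻¹ * f)⁻¹) v →
      Commute (f * u * f⁻¹) (g * v * g⁻¹) := fun {f g u v} e => by
    have := e.conj g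
    rwa [show g * (g⁻¹ * f * u * (g⁻¹ * f)⁻¹) * g⁻¹ = f * u * f⁻¹ by group] at this
  have hW : IsMulCommutative (closure X) := isMulCommutative_closure (by
    rintro _ ⟨f, hf, rfl | rfl⟩ _ ⟨g, hg, rfl | rfl⟩
    · exact hconj (key c hc _ (mul_mem (inv_mem hg) hf))
    · exact hconj (h.commute_conj (mul_mem (inv_mem hg) hf) (hP.le hc) (hinv c hc))
    · exact (hconj (h.commute_conj (mul_mem (inv_mem hf) hg) (hP.le hc) (hinv c hc))).symm
    · exact hconj (key _ hd _ (mul_mem (inv_mem hg) hf)))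
  refine ⟨powKer (closure X) r, fun e => hc1 (e.le ⟨subset_closure ⟨1, one_mem _, by simp⟩, hcr⟩),
    (powKer_le _ _).trans ((closure_le _).2 ?_), IsElementaryAbelian.isPGroup'
      ⟨isMulCommutative_of_le (powKer_le _ _), fun _ ha => ha.2⟩,
    fun g hg => normalizer_le_normalizer_powKer _ _ (mem_normalizer_closure_of_conj_mem ?_),
    normalizer_le_normalizer_powKer _ _ (mem_normalizer_closure_of_conj_mem ?_)⟩
  · rintro _ ⟨f, hf, rfl | rfl⟩
    · exact mul_mem (mul_mem hf.1 (hP.le hc)) (inv_mem hf.1)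
    · exact mul_mem (mul_mem hf.1 (hP.le hd)) (inv_mem hf.1)
  · rintro _ ⟨f, hf, rfl | rfl⟩
    · exact subset_closure ⟨g * f, mul_mem hg hf, Or.inl (by group)⟩
    · exact subset_closure ⟨g * f, mul_mem hg hf, Or.inr (by group)⟩
  · rintro _ ⟨f, hf, rfl | rfl⟩
    · refine subset_closure ⟨f⁻¹, inv_mem hf, Or.inr ?_⟩
      rw [← conj_mul, ← conj_mul, ← conj_inv, h.inv_F hf]
    · have e1 : x * (x * c * x⁻¹) * x⁻¹ = c⁻¹ := by rw [← hinv c hc]; group
      rw [← conj_mul, ← conj_mul, ← conj_inv, h.inv_F hf, e1, ← conj_inv]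
      exact inv_mem (subset_closure ⟨f⁻¹, inv_mem hf, Or.inl rfl⟩)

end Fpf4

theorem fpf4_normalizer_aux (r : ℕ) [hr : Fact r.Prime] (Γ : Type u) [Group Γ] [Finite Γ] :
    ∀ (M : Subgroup Γ) (x : Γ), Fpf4 M x → ∀ P, IsSylowIn r P M → x ∈ normalizer (P : Set Γ) →
      M ⊓ centralizer {x * x} ≤ normalizer (P : Set Γ) := by
  refine induction_on_card (P := fun Γ _ _ => ∀ (M : Subgroup Γ) (x : Γ), Fpf4 M x →
    ∀ P, IsSylowIn r P M → x ∈ normalizer (P : Set Γ) →
      M ⊓ centralizer {x * x} ≤ normalizer (P : Set Γ)) (fun Γ _ _ ih M x h P hP hx => ?_) Γ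
  by_cases hd : r ∣ Nat.card M
  swap
  · rw [hP.eq_bot_iff.2 hd]
    exact le_normalizer_of_normal
  obtain ⟨A, ⟨h1, hAM, hA, hF, hxA⟩, hm⟩ := Set.exists_max_image {A : Subgroup Γ | A ≠ ⊥ ∧ A ≤ M ∧
    IsPGroup r A ∧ M ⊓ centralizer {x * x} ≤ normalizer (A : Set Γ) ∧ x ∈ normalizer (A : Set Γ)}
    (fun A => Nat.card A) (Set.toFinite _) (h.exists_invariant hd)
  have huniq : ∀ Q, IsSylowIn r Q M → x ∈ normalizer (Q : Set Γ) → Q = P := fun Q hQ hxQ => by
    obtain ⟨c, hc, e⟩ := h.act.exists_mem_centralizer_conj_eq_of_isSylowIn hQ hP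
      (zpowers_le.2 hxQ) (zpowers_le.2 hx)
    rw [h.fpf c hc.1 (hc.2 x (mem_zpowers x)).symm, conj_one_smul] at e
    exact e
  by_cases hn : normalizer (A : Set Γ) = ⊤
  · have := normalizer_eq_top_iff.1 hn
    have hAP : A ≤ P := hP.le_of_normalizes hA hAM le_normalizer_of_normal
    have h2 := ih _ (card_quotient_lt h1) _ _ (h.map (QuotientGroup.mk' A)) _ (hP.map _)
      (map_normalizer_le P _ ⟨x, hx, rfl⟩)
    intro f hf
    have h3 := h2 (x := QuotientGroup.mk' A f) ⟨⟨f, hf.1, rfl⟩,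
      mem_centralizer_singleton_iff.2 (by
        simp only [← map_mul]; rw [mem_centralizer_singleton_iff.1 hf.2])⟩
    rw [← comap_map_mk'_of_le hAP,
      ← comap_normalizer_eq_of_surjective _ (QuotientGroup.mk'_surjective A)]
    exact h3
  · have hN := h.of_le (inf_le_left : M ⊓ normalizer (A : Set Γ) ≤ M)
      (le_normalizer_inf (zpowers_le.2 h.norm) (le_normalizer_normalizer (zpowers_le.2 hxA)) (mem_zpowers x))
    obtain ⟨Q, hQ, hxQ, hAQ⟩ := hN.act.exists_isSylowIn_ge hA (le_inf hAM le_normalizer)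
      (zpowers_le.2 hxA)
    have hQK : Q ≤ normalizer (A : Set Γ) := hQ.le.trans inf_le_right
    have h2 := ih _ (card_lt_of_ne_top hn) _ _ (hN.subgroupOf hxA) _
      ((isSylowIn_subgroupOf_iff hQK inf_le_right).2 hQ)
      (le_normalizer_comap _ (hxQ (mem_zpowers x)))
    have h3 : M ⊓ centralizer {x * x} ≤ normalizer (Q : Set Γ) := fun f hf => by
      have h4 := h2 (x := ⟨f, hF hf⟩) ⟨⟨hf.1, hF hf⟩, mem_centralizer_singleton_iff.2
        (Subtype.ext (mem_centralizer_singleton_iff.1 hf.2))⟩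
      rw [← subgroupOf_normalizer_eq hQK] at h4
      exact h4
    have h4 : A = Q := eq_of_le_of_card_ge hAQ (hm Q ⟨fun e => h1 (eq_bot_iff.2 (e ▸ hAQ)),
      hQ.le.trans inf_le_left, hQ.isPGroup, h3, hxQ (mem_zpowers x)⟩)
    subst h4
    rw [← huniq A hQ.of_inf_normalizer hxA]
    exact hF

namespace Fpf4

variable {M : Subgroup Γ} {x : Γ} (h : Fpf4 M x)
include h

theorem mem_of_inverted {r : ℕ} [Fact r.Prime] {P : Subgroup Γ} (hP : IsSylowIn r P M)
    (hx : x ∈ normalizer (P : Set Γ)) {y : Γ} (hy : y ∈ M) (hr : IsPElt r y)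
    (hi : x * x * y * (x * x)⁻¹ = y⁻¹) : y ∈ P := by
  obtain ⟨c, hc, e⟩ := h.act2.exists_conj_le_of_isSylowIn hP (zpowers_le.2 (mul_mem hx hx))
    hr.isPGroup_zpowers (zpowers_le.2 hy) (zpowers_le.2 (mem_normalizer_of_conj_mem (by
      rintro _ ⟨k, rfl⟩
      dsimp only
      rw [← conj_zpow, hi]
      exact zpow_mem (inv_mem (mem_zpowers y)) k)))
  rw [centralizer_zpowers] at hc
  rw [conj_smul_eq_of_mem_normalizer (fpf4_normalizer_aux r Γ M x h P hP hx hc)] at e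
  exact e (mem_zpowers y)

theorem commute_of_ne {r s : ℕ} [Fact r.Prime] [Fact s.Prime] (hrs : r ≠ s) {y z : Γ}
    (hy : y ∈ M) (hz : z ∈ M) (hr : IsPElt r y) (hs : IsPElt s z)
    (hi : x * x * y * (x * x)⁻¹ = y⁻¹) (hj : x * x * z * (x * x)⁻¹ = z⁻¹) : Commute y z := by
  classical
  by_cases hy1 : y = 1
  · exact hy1 ▸ Commute.one_left z
  by_cases hz1 : z = 1
  · exact hz1 ▸ Commute.one_right y
  have hn : Nat.card M ≠ 0 := Nat.card_pos.ne'
  have hpr : ∀ r : (Nat.card M).primeFactors, Fact (r : ℕ).Prime := fun r =>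
    ⟨Nat.prime_of_mem_primeFactors r.2⟩
  choose P hP hxP using fun r : (Nat.card M).primeFactors => h.act.exists_isSylowIn r
  have hx : ∀ r, x ∈ normalizer (P r : Set Γ) := fun r => hxP r (mem_zpowers x)
  have hinv : ∀ (r : ℕ) [Fact r.Prime] (y : Γ), x * x * y * (x * x)⁻¹ = y⁻¹ →
      x * x * pPart r y * (x * x)⁻¹ = (pPart r y)⁻¹ := fun r _ y hy => by
    rw [← pPart_conj, hy, pPart_inv]
  let Ψ : {y : Γ // y ∈ M ∧ x * x * y * (x * x)⁻¹ = y⁻¹} →
      ∀ r : (Nat.card M).primeFactors, {y : Γ // y ∈ P r ∧ x * x * y * (x * x)⁻¹ = y⁻¹} :=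
    fun y r => ⟨pPart r y.1, h.mem_of_inverted (hP r) (hx r) (pPart_mem r y.2.1) (isPElt_pPart r _)
      (hinv r _ y.2.2), hinv r _ y.2.2⟩
  have hΨ : Function.Bijective Ψ := by
    refine (Nat.bijective_iff_injective_and_card Ψ).2 ⟨fun a b e => Subtype.ext
      (eq_of_forall_pPart_eq fun r hr hd => congrArg Subtype.val (congrFun e ⟨r,
        Nat.mem_primeFactors.2 ⟨hr, hd.elim (fun hd => hd.trans (orderOf_dvd_natCard M a.2.1))
          (fun hd => hd.trans (orderOf_dvd_natCard M b.2.1)), hn⟩⟩)), ?_⟩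
    rw [Nat.card_pi, card_inverted_eq (mul_mem h.norm h.norm) h.pow4 h.odd]
    refine Nat.eq_of_mul_eq_mul_left (Nat.card_pos (α := ↥(centralizer {x * x} ⊓ M))) ?_
    rw [card_inf_mul_relIndex]
    conv_lhs => rw [← prod_pow_factorization_of_dvd hn dvd_rfl]
    conv_rhs => rw [← prod_pow_factorization_of_dvd hn
      (card_dvd_of_le (inf_le_right : centralizer {x * x} ⊓ M ≤ M))]
    rw [← Finset.prod_mul_distrib]
    refine Finset.prod_congr rfl fun r _ => ?_
    have h1 := h.act2.isSylowIn_inf_centralizer (hP r) (zpowers_le.2 (mul_mem (hx r) (hx r)))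
    rw [centralizer_zpowers, inf_comm, inf_comm M] at h1
    rw [card_inverted_eq (mul_mem (hx r) (hx r)) h.pow4 (h.of_le (hP r).le (hx r)).odd,
      ← h1.card_eq, card_inf_mul_relIndex, (hP r).card_eq]
  let r' : (Nat.card M).primeFactors := ⟨r, Nat.mem_primeFactors.2
    ⟨Fact.out, (hr.dvd_orderOf hy1).trans (orderOf_dvd_natCard M hy), hn⟩⟩
  let s' : (Nat.card M).primeFactors := ⟨s, Nat.mem_primeFactors.2
    ⟨Fact.out, (hs.dvd_orderOf hz1).trans (orderOf_dvd_natCard M hz), hn⟩⟩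
  have hne : r' ≠ s' := fun e => hrs (congrArg Subtype.val e)
  obtain ⟨w, hw⟩ := hΨ.2 (Function.update (Function.update (fun r => ⟨1, one_mem _, by simp⟩) r'
    ⟨y, h.mem_of_inverted (hP r') (hx r') hy hr hi, hi⟩) s'
    ⟨z, h.mem_of_inverted (hP s') (hx s') hz hs hj, hj⟩)
  have e1 := congrArg Subtype.val (congrFun hw r')
  have e2 := congrArg Subtype.val (congrFun hw s')
  rw [Function.update_of_ne hne, Function.update_self] at e1
  rw [Function.update_self] at e2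
  change pPart r w.1 = y at e1
  change pPart s w.1 = z at e2
  rw [← e1, ← e2]
  exact commute_pPart_left r (commute_pPart_self s w.1).symm

theorem exists_normal (hF : ¬ M ≤ centralizer {x * x}) : ∃ D : Subgroup Γ, D ≠ ⊥ ∧ D ≤ M ∧
    Group.IsSolvable D ∧ M ≤ normalizer (D : Set Γ) ∧ x ∈ normalizer (D : Set Γ) := by
  have hθ := mul_mem h.norm h.norm
  have hi : (x * x)⁻¹ = x * x := inv_eq_of_mul_eq_one_right h.pow4
  have hdec : ∀ g ∈ M, ∃ y ∈ M, x * x * y * (x * x)⁻¹ = y⁻¹ ∧ y⁻¹ * g ∈ centralizer {x * x} := by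
    intro g hg
    have h1 : g * (x * x * g⁻¹ * (x * x)⁻¹) ∈ M :=
      M.mul_mem hg (conj_mem_of_mem_normalizer hθ (M.inv_mem hg))
    obtain ⟨k, hk⟩ := exists_pow_mul_self_eq h.odd h1
    have h2 : x * x * (g * (x * x * g⁻¹ * (x * x)⁻¹)) * (x * x)⁻¹ =
        (g * (x * x * g⁻¹ * (x * x)⁻¹))⁻¹ := by
      have := h.pow4
      generalize x * x = θ at *
      rw [hi, mul_inv_rev, mul_inv_rev, mul_inv_rev, hi, inv_inv]
      calc _ = θ * g * θ * g⁻¹ * (θ * θ) := by group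
        _ = _ := by rw [this]; group
    have h3 : x * x * (g * (x * x * g⁻¹ * (x * x)⁻¹)) ^ k * (x * x)⁻¹ =
        ((g * (x * x * g⁻¹ * (x * x)⁻¹)) ^ k)⁻¹ := by rw [← conj_pow, h2, inv_pow]
    refine ⟨_, pow_mem h1 k, h3, mem_centralizer_singleton_iff.2 ?_⟩
    generalize (g * (x * x * g⁻¹ * (x * x)⁻¹)) ^ k = y at *
    generalize x * x = θ at *
    calc _ = y⁻¹ * (g * (θ * g⁻¹ * θ⁻¹)) * θ * g := by group
      _ = θ * (θ⁻¹ * (θ * y * θ⁻¹)⁻¹ * θ) * g := by rw [← hk, h3]; group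
      _ = _ := by group
  obtain ⟨y, hy, hyi, hy1⟩ : ∃ y ∈ M, x * x * y * (x * x)⁻¹ = y⁻¹ ∧ y ≠ 1 := by
    by_contra hn
    push Not at hn
    refine hF fun g hg => ?_
    obtain ⟨y, hy, hyi, e⟩ := hdec g hg
    rwa [hn y hy hyi, inv_one, one_mul] at e
  obtain ⟨r, hr, hd⟩ := Nat.exists_prime_and_dvd (mt orderOf_eq_one_iff.1 hy1)
  have := Fact.mk hr
  obtain ⟨P, hP, hxP⟩ := h.act.exists_isSylowIn r
  let X : Set Γ := {y | y ∈ M ∧ IsPElt r y ∧ x * x * y * (x * x)⁻¹ = y⁻¹}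
  have hXP : closure X ≤ P := (closure_le _).2 fun y hy =>
    h.mem_of_inverted hP (hxP (mem_zpowers x)) hy.1 hy.2.1 hy.2.2
  refine ⟨closure X, fun e => pPart_ne_one_iff.2 hd (e.le (subset_closure ⟨pPart_mem r hy,
    isPElt_pPart r y, by rw [← pPart_conj, hyi, pPart_inv]⟩)), hXP.trans hP.le,
    IsPGroup.isSolvable' (hP.isPGroup.to_le hXP), fun g hg => ?_,
    mem_normalizer_closure_of_conj_mem fun z hz => subset_closure
      ⟨conj_mem_of_mem_normalizer h.norm hz.1, hz.2.1.conj x, by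
        rw [conj_inv, ← hz.2.2]; group⟩⟩
  obtain ⟨y, hy, hyi, e⟩ := hdec g hg
  rw [← mul_inv_cancel_left y g]
  refine mul_mem ((le_of_forall_isPElt_mem (K := zpowers y) fun s _ w hw hs => ?_) (mem_zpowers y))
    (mem_normalizer_closure_of_conj_mem fun z hz => subset_closure
      ⟨mul_mem (mul_mem (mul_mem (inv_mem hy) hg) hz.1) (inv_mem (mul_mem (inv_mem hy) hg)),
      hz.2.1.conj _, ?_⟩)
  · have hwM : w ∈ M := zpowers_le.2 hy hw
    have hwi : x * x * w * (x * x)⁻¹ = w⁻¹ := by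
      obtain ⟨k, rfl⟩ := hw
      dsimp only
      rw [← conj_zpow, hyi, inv_zpow]
    by_cases hsr : s = r
    · subst hsr
      exact le_normalizer (subset_closure ⟨hwM, hs, hwi⟩)
    · refine mem_normalizer_closure_of_conj_mem fun z hz => ?_
      rw [(h.commute_of_ne hsr hwM hz.1 hs hz.2.1 hwi hz.2.2).eq, mul_inv_cancel_right]
      exact subset_closure hz
  · have e1 := mem_centralizer_singleton_iff.1 e
    generalize y⁻¹ * g = f at *
    rw [conj_inv, ← hz.2.2]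
    calc _ = (x * x * f) * z * (x * x * f)⁻¹ := by group
      _ = _ := by rw [← e1]; group

end Fpf4

theorem fpf4_solvable_aux (Γ : Type u) [Group Γ] [Finite Γ] :
    ∀ (M : Subgroup Γ) (x : Γ), Fpf4 M x → Group.IsSolvable M := by
  refine induction_on_card (P := fun Γ _ _ => ∀ (M : Subgroup Γ) (x : Γ), Fpf4 M x →
    Group.IsSolvable M) (fun Γ _ _ ih M x h => ?_) Γ
  by_cases hF : M ≤ centralizer {x * x}
  · have := h.comm_F
    rw [inf_of_le_left hF] at this
    exact isSolvable_of_isMulCommutative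
  obtain ⟨D, h1, hDM, hD, hM, hx⟩ := h.exists_normal hF
  by_cases hn : normalizer (D : Set Γ) = ⊤
  · have := normalizer_eq_top_iff.1 hn
    have := ih _ (card_quotient_lt h1) _ _ (h.map (QuotientGroup.mk' D))
    have h2 : Group.IsSolvable (QuotientGroup.mk' D).ker := by rwa [QuotientGroup.ker_mk']
    have h3 := isSolvable_comap (f := QuotientGroup.mk' D) (M.map (QuotientGroup.mk' D))
    rwa [comap_map_mk'_of_le hDM] at h3
  · have := ih _ (card_lt_of_ne_top hn) _ _ (h.subgroupOf hx)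
    exact isSolvable_of_mulEquiv (subgroupOfEquivOfLe hM)

/-- **Gorenstein--Herstein**. -/
theorem Fpf4.isSolvable {M : Subgroup Γ} {x : Γ} (h : Fpf4 M x) : Group.IsSolvable M :=
  fpf4_solvable_aux Γ M x h

end GT
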