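import Cfsg.Agent.Lib.Grp.NoFour
import Cfsg.Agent.Lib.Grp.SylowIn
import Cfsg.Agent.Lib.Grp.PPart

/-!
# Systems of involutions

An abstraction of a classical group in odd characteristic: to an involution `t` (acting as `-1`
on a subspace `W` and as `1` on a complement) we attach the subgroup `H t` of elements acting
trivially on the complement and `rk t = dim W`.  A Sylow `2`-subgroup of `H t` is a direct
product, a wreath product, or has no normal four-subgroup.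
-/

set_option autoImplicit false
set_option linter.unusedSectionVars false

namespace GT

open Cfsg Subgroup
open scoped commutatorElement Pointwise

/-- The axioms satisfied by the involutions of a classical group in odd characteristic. -/
structure InvSys (G : Type*) [Group G] where
  H : G → Subgroup G
  rk : G → ℕ
  self_mem : ∀ t, t * t = 1 → t ∈ H t
  comm : ∀ t g, g ∈ H t → Commute g t
  le : ∀ t u, u ∈ H t → H u ≤ H t
  commute : ∀ t u a b, t * t = 1 → u * u = 1 → u ∈ H t → a ∈ H u → b ∈ H (t * u) → Commute a b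
  disj : ∀ t u a, t * t = 1 → u * u = 1 → u ∈ H t → a ∈ H u → a ∈ H (t * u) → a = 1
  split : ∀ t u g, t * t = 1 → u * u = 1 → u ∈ H t → g ∈ H t → Commute g u →
    ∃ a ∈ H u, ∃ b ∈ H (t * u), g = a * b
  conj : ∀ u g a, a ∈ H u → g * a * g⁻¹ ∈ H (g * u * g⁻¹)
  rk_mul : ∀ t u a b, t * t = 1 → u * u = 1 → u ∈ H t → a ∈ H u → b ∈ H (t * u) → a * a = 1 →
    b * b = 1 → rk (a * b) = rk a + rk b
  rk_conj : ∀ u g, rk (g * u * g⁻¹) = rk u
  rk_eq_zero : ∀ u, rk u = 0 → u = 1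

variable {G : Type*} [Group G] [Finite G]

theorem isPElt_two_of_mul_self {x : G} (h : x * x = 1) : IsPElt 2 x :=
  have : Fact (Nat.Prime 2) := ⟨Nat.prime_two⟩
  isPElt_of_pow_eq_one (k := 1) (by rw [pow_one, pow_two, h])

theorem inv_eq_of_mul_self {x : G} (h : x * x = 1) : x⁻¹ = x := inv_eq_of_mul_eq_one_right h

theorem mul_self_of_commute {x y : G} (hx : x * x = 1) (hy : y * y = 1) (h : Commute x y) :
    x * y * (x * y) = 1 := by
  calc x * y * (x * y) = x * (y * x) * y := by group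
    _ = (x * x) * (y * y) := by rw [← h.eq]; group
    _ = 1 := by rw [hx, hy, one_mul]

theorem conj_mul_self {x : G} (hx : x * x = 1) (g : G) : g * x * g⁻¹ * (g * x * g⁻¹) = 1 := by
  calc g * x * g⁻¹ * (g * x * g⁻¹) = g * (x * x) * g⁻¹ := by group
    _ = 1 := by rw [hx]; group

theorem isPGroup_sup_of_commute {p : ℕ} {A B : Subgroup G} (hA : IsPGroup p A) (hB : IsPGroup p B)
    (h : ∀ a ∈ A, ∀ b ∈ B, Commute a b) : IsPGroup p (A ⊔ B : Subgroup G) :=
  hA.to_sup_of_normal_right' hB fun a ha => mem_normalizer_of_conj_mem fun b hb => by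
    rw [(h a ha b hb).eq, mul_inv_cancel_right]; exact hb

theorem mem_normalizer_sup {A B : Subgroup G} {g : G} (hA : ∀ a ∈ A, g * a * g⁻¹ ∈ A ⊔ B)
    (hB : ∀ a ∈ B, g * a * g⁻¹ ∈ A ⊔ B) : g ∈ normalizer ((A ⊔ B : Subgroup G) : Set G) := by
  refine mem_normalizer_of_conj_mem fun x hx => ?_
  have : A ⊔ B ≤ (A ⊔ B).comap (MulAut.conj g).toMonoidHom := sup_le hA hB
  exact this hx

namespace InvSys

variable (X : InvSys G)

/-- `t = u v` is an orthogonal splitting. -/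
structure Pair (t u v : G) : Prop where
  tt : t * t = 1
  uu : u * u = 1
  mem : u ∈ X.H t
  eq : v = t * u

/-- `S` permutes `u` and `v`. -/
def Nrm (S : Subgroup G) (u v : G) : Prop :=
  ∀ g ∈ S, (g * u * g⁻¹ = u ∧ g * v * g⁻¹ = v) ∨ (g * u * g⁻¹ = v ∧ g * v * g⁻¹ = u)

theorem Nrm.symm {S : Subgroup G} {u v : G} (h : Nrm S u v) : Nrm S v u := fun g hg =>
  (h g hg).imp And.symm And.symm

/-- `S` leaves no proper piece of `t` invariant. -/
def Indec (S : Subgroup G) (t : G) : Prop :=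
  ∀ u ∈ X.H t, u * u = 1 → (∀ g ∈ S, Commute g u) → u = 1 ∨ u = t

variable {X} {t u v : G} {S : Subgroup G}

theorem rk_one : X.rk 1 = 0 := by
  have := X.rk_mul 1 1 1 1 (one_mul 1) (one_mul 1) (one_mem _) (one_mem _) (one_mem _) (one_mul 1)
    (one_mul 1)
  rw [one_mul] at this; omega

theorem eq_one_of_mem_one {a : G} (h : a ∈ X.H 1) : a = 1 :=
  X.disj 1 1 a (one_mul 1) (one_mul 1) (one_mem _) h (by rwa [one_mul])

theorem rk_pos (h : u ≠ 1) : 0 < X.rk u := Nat.pos_of_ne_zero fun e => h (X.rk_eq_zero u e)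

theorem ne_one_of_rk_pos (h : 0 < X.rk u) : u ≠ 1 := fun e => by
  rw [e, rk_one] at h; exact lt_irrefl _ h

namespace Pair

variable (h : X.Pair t u v)
include h

theorem cut : Commute u t := X.comm t u h.mem

theorem mem' : v ∈ X.H t := h.eq ▸ mul_mem (X.self_mem t h.tt) h.mem

theorem vv : v * v = 1 := h.eq ▸ mul_self_of_commute h.tt h.uu h.cut.symm

theorem eq' : u = t * v := by rw [h.eq, ← mul_assoc, h.tt, one_mul]

theorem symm : X.Pair t v u := ⟨h.tt, h.vv, h.mem', h.eq'⟩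

theorem mul : u * v = t := by rw [h.eq, ← h.cut.eq, ← mul_assoc, h.uu, one_mul]

theorem le : X.H u ≤ X.H t := X.le t u h.mem

theorem commute {a b : G} (ha : a ∈ X.H u) (hb : b ∈ X.H v) : Commute a b :=
  X.commute t u a b h.tt h.uu h.mem ha (h.eq ▸ hb)

theorem disj {a : G} (ha : a ∈ X.H u) (hb : a ∈ X.H v) : a = 1 :=
  X.disj t u a h.tt h.uu h.mem ha (h.eq ▸ hb)

theorem split {g : G} (hg : g ∈ X.H t) (hc : Commute g u) :
    ∃ a ∈ X.H u, ∃ b ∈ X.H v, g = a * b := h.eq ▸ X.split t u g h.tt h.uu h.mem hg hc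

theorem rk_mul {a b : G} (ha : a ∈ X.H u) (hb : b ∈ X.H v) (haa : a * a = 1) (hbb : b * b = 1) :
    X.rk (a * b) = X.rk a + X.rk b :=
  X.rk_mul t u a b h.tt h.uu h.mem ha (h.eq ▸ hb) haa hbb

theorem umem : u ∈ X.H u := X.self_mem u h.uu

theorem vmem : v ∈ X.H v := X.self_mem v h.vv

theorem rk_add : X.rk u + X.rk v = X.rk t := by
  rw [← h.rk_mul h.umem h.vmem h.uu h.vv, h.mul]

theorem uniq {a b a' b' : G} (ha : a ∈ X.H u) (hb : b ∈ X.H v) (ha' : a' ∈ X.H u)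
    (hb' : b' ∈ X.H v) (e : a * b = a' * b') : a = a' ∧ b = b' := by
  have e1 : a'⁻¹ * a = b' * b⁻¹ := by
    calc a'⁻¹ * a = a'⁻¹ * (a * b) * b⁻¹ := by group
      _ = b' * b⁻¹ := by rw [e]; group
  have e2 : a'⁻¹ * a = 1 := h.disj (mul_mem (inv_mem ha') ha) (e1 ▸ mul_mem hb' (inv_mem hb))
  rw [e2] at e1
  exact ⟨(inv_mul_eq_one.1 e2).symm, (mul_inv_eq_one.1 e1.symm).symm⟩

theorem sq_of_mul {a b : G} (ha : a ∈ X.H u) (hb : b ∈ X.H v) :
    a * b * (a * b) = (a * a) * (b * b) := by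
  calc a * b * (a * b) = a * (b * a) * b := by group
    _ = _ := by rw [← (h.commute ha hb).eq]; group

theorem mul_self {a b : G} (ha : a ∈ X.H u) (hb : b ∈ X.H v) (e : a * b * (a * b) = 1) :
    a * a = 1 ∧ b * b = 1 :=
  h.uniq (mul_mem ha ha) (mul_mem hb hb) (one_mem _) (one_mem _)
    (by rw [← h.sq_of_mul ha hb, e, one_mul])

theorem conj_v {g : G} (hg : g ∈ X.H t) : g * v * g⁻¹ = t * (g * u * g⁻¹) := by
  rw [h.eq]
  calc g * (t * u) * g⁻¹ = (g * t) * u * g⁻¹ := by group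
    _ = _ := by rw [(X.comm t g hg).eq]; group

theorem nrm (hS : S ≤ X.H t) (hn : ∀ g ∈ S, g * u * g⁻¹ = u ∨ g * u * g⁻¹ = t * u) :
    Nrm S u v := fun g hg => by
  rcases hn g hg with e | e
  · left; exact ⟨e, by rw [h.conj_v (hS hg), e, h.eq]⟩
  · right; exact ⟨e.trans h.eq.symm, by rw [h.conj_v (hS hg), e, ← mul_assoc, h.tt, one_mul]⟩

theorem nrm_of_commute (hS : S ≤ X.H t) (hn : ∀ g ∈ S, Commute g u) : Nrm S u v :=
  h.nrm hS fun g hg => Or.inl (by rw [(hn g hg).eq, mul_inv_cancel_right])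

theorem commute_v {g : G} (hg : g ∈ X.H t) (hc : Commute g u) : Commute g v :=
  h.eq ▸ (X.comm t g hg).mul_right hc

/-- The projection of `S ∩ C(u)` to `H u`. -/
def proj (S : Subgroup G) : Subgroup G where
  carrier := {a | a ∈ X.H u ∧ ∃ b ∈ X.H v, a * b ∈ S}
  mul_mem' := by
    rintro a a' ⟨ha, b, hb, hab⟩ ⟨ha', b', hb', hab'⟩
    refine ⟨mul_mem ha ha', b * b', mul_mem hb hb', ?_⟩
    have : a * a' * (b * b') = a * b * (a' * b') := by
      calc a * a' * (b * b') = a * (a' * b) * b' := by group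
        _ = _ := by rw [(h.commute ha' hb).eq]; group
    rw [this]; exact mul_mem hab hab'
  one_mem' := ⟨one_mem _, 1, one_mem _, by rw [one_mul]; exact one_mem _⟩
  inv_mem' := by
    rintro a ⟨ha, b, hb, hab⟩
    refine ⟨inv_mem ha, b⁻¹, inv_mem hb, ?_⟩
    rw [← mul_inv_rev, ← (h.commute ha hb).eq]; exact inv_mem hab

theorem isPGroup_proj (hS : IsPGroup 2 S) : IsPGroup 2 (h.proj S) := by
  have : Fact (Nat.Prime 2) := ⟨Nat.prime_two⟩
  refine isPGroup_iff_forall_isPElt.2 ?_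
  rintro a ⟨ha, b, hb, hab⟩
  obtain ⟨k, hk⟩ := (isPElt_of_mem hS hab).exists_pow_eq_one
  rw [(h.commute ha hb).mul_pow] at hk
  exact isPElt_of_pow_eq_one (h.uniq (pow_mem ha _) (pow_mem hb _) (one_mem _) (one_mem _)
    (by rw [hk, one_mul])).1

theorem conj_mem_proj {u' v' : G} (h' : X.Pair t u' v') {g a : G} (hg : g ∈ S)
    (e1 : g * u * g⁻¹ = u') (e2 : g * v * g⁻¹ = v') (ha : a ∈ h.proj S) :
    g * a * g⁻¹ ∈ h'.proj S := by
  obtain ⟨ha, b, hb, hab⟩ := ha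
  refine ⟨e1 ▸ X.conj u g a ha, g * b * g⁻¹, e2 ▸ X.conj v g b hb, ?_⟩
  have : g * a * g⁻¹ * (g * b * g⁻¹) = g * (a * b) * g⁻¹ := by group
  rw [this]; exact mul_mem (mul_mem hg hab) (inv_mem hg)

theorem proj_le (hS : IsSylowIn 2 S (X.H t)) (hn : Nrm S u v) : h.proj S ≤ S := by
  have : Fact (Nat.Prime 2) := ⟨Nat.prime_two⟩
  refine le_sup_left.trans (hS.le_of_normalizes (Q := h.proj S ⊔ h.symm.proj S)
    (isPGroup_sup_of_commute (h.isPGroup_proj hS.isPGroup) (h.symm.isPGroup_proj hS.isPGroup)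
      fun a ha b hb => h.commute ha.1 hb.1)
    (sup_le (fun a ha => h.le ha.1) fun a ha => h.symm.le ha.1) fun g hg => ?_)
  rcases hn g hg with ⟨e1, e2⟩ | ⟨e1, e2⟩
  · exact mem_normalizer_sup (fun a ha => mem_sup_left (h.conj_mem_proj h hg e1 e2 ha))
      fun a ha => mem_sup_right (h.symm.conj_mem_proj h.symm hg e2 e1 ha)
  · exact mem_normalizer_sup (fun a ha => mem_sup_right (h.conj_mem_proj h.symm hg e1 e2 ha))
      fun a ha => mem_sup_left (h.symm.conj_mem_proj h hg e2 e1 ha)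

theorem split_mem (hS : IsSylowIn 2 S (X.H t)) (hn : Nrm S u v) {g : G} (hg : g ∈ S)
    (hc : Commute g u) : ∃ a ∈ S ⊓ X.H u, ∃ b ∈ S ⊓ X.H v, g = a * b := by
  obtain ⟨a, ha, b, hb, rfl⟩ := h.split (hS.le hg) hc
  have haS : a ∈ S := h.proj_le hS hn ⟨ha, b, hb, hg⟩
  refine ⟨a, ⟨haS, ha⟩, b, ⟨?_, hb⟩, rfl⟩
  have := mul_mem (inv_mem haS) hg
  rwa [inv_mul_cancel_left] at this

theorem exists_swap (hS : IsSylowIn 2 S (X.H t)) (hn : Nrm S u v) {g : G} (hg : g ∈ S)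
    (e1 : g * u * g⁻¹ = v) (e2 : g * v * g⁻¹ = u) :
    ∃ s ∈ S, s * s = 1 ∧ s * u * s⁻¹ = v ∧ s * v * s⁻¹ = u := by
  have hc : Commute (g * g) u := by
    have : g * g * u * (g * g)⁻¹ = u := by
      calc g * g * u * (g * g)⁻¹ = g * (g * u * g⁻¹) * g⁻¹ := by group
        _ = u := by rw [e1, e2]
    exact mul_inv_eq_iff_eq_mul.1 this
  obtain ⟨a, ha, b, hb, hab⟩ := h.split_mem hS hn (mul_mem hg hg) hc
  have h1 : g * a * g⁻¹ ∈ X.H v := e1 ▸ X.conj u g a ha.2
  have h2 : g * b * g⁻¹ ∈ X.H u := e2 ▸ X.conj v g b hb.2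
  have h3 : g * a * g⁻¹ = b := by
    refine (h.uniq h2 h1 ha.2 hb.2 ?_).2
    rw [(h.commute h2 h1).eq, ← hab]
    calc g * a * g⁻¹ * (g * b * g⁻¹) = g * (a * b) * g⁻¹ := by group
      _ = g * g := by rw [← hab]; group
  have hau : a⁻¹ * u * a = u := by
    rw [mul_assoc, ← (X.comm u a ha.2).eq, inv_mul_cancel_left]
  have hav : a⁻¹ * v * a = v := by
    rw [mul_assoc, ← (h.commute ha.2 h.vmem).eq, inv_mul_cancel_left]
  refine ⟨g * a⁻¹, mul_mem hg (inv_mem ha.1), ?_, ?_, ?_⟩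
  · calc g * a⁻¹ * (g * a⁻¹) = (g * a * g⁻¹)⁻¹ * (g * g) * a⁻¹ := by group
      _ = b⁻¹ * (b * a) * a⁻¹ := by rw [h3, hab, (h.commute ha.2 hb.2).eq]
      _ = 1 := by group
  · calc g * a⁻¹ * u * (g * a⁻¹)⁻¹ = g * (a⁻¹ * u * a) * g⁻¹ := by group
      _ = v := by rw [hau, e1]
  · calc g * a⁻¹ * v * (g * a⁻¹)⁻¹ = g * (a⁻¹ * v * a) * g⁻¹ := by group
      _ = u := by rw [hav, e2]

theorem split_or_swap (hS : IsSylowIn 2 S (X.H t)) (hn : Nrm S u v) {s : G} (hs : s ∈ S)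
    (e1 : s * u * s⁻¹ = v) {g : G} (hg : g ∈ S) :
    ∃ a ∈ S ⊓ X.H u, ∃ b ∈ S ⊓ X.H v, g = a * b ∨ g = a * b * s := by
  rcases hn g hg with ⟨f1, -⟩ | ⟨f1, f2⟩
  · obtain ⟨a, ha, b, hb, e⟩ := h.split_mem hS hn hg (mul_inv_eq_iff_eq_mul.1 f1)
    exact ⟨a, ha, b, hb, Or.inl e⟩
  · have e2 : s * v * s⁻¹ = u := by
      rw [h.conj_v (hS.le hs), e1, ← h.eq']
    have : Commute (g * s⁻¹) u := by
      have : g * s⁻¹ * u * (g * s⁻¹)⁻¹ = u := by
        calc g * s⁻¹ * u * (g * s⁻¹)⁻¹ = g * (s⁻¹ * (s * v * s⁻¹) * s) * g⁻¹ := by rw [e2]; group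
          _ = g * v * g⁻¹ := by group
          _ = u := f2
      exact mul_inv_eq_iff_eq_mul.1 this
    obtain ⟨a, ha, b, hb, e⟩ := h.split_mem hS hn (mul_mem hg (inv_mem hs)) this
    exact ⟨a, ha, b, hb, Or.inr (mul_inv_eq_iff_eq_mul.1 e)⟩

theorem isSylowIn (hS : IsSylowIn 2 S (X.H t)) (hn : Nrm S u v) :
    IsSylowIn 2 (S ⊓ X.H u) (X.H u) := by
  have : Fact (Nat.Prime 2) := ⟨Nat.prime_two⟩
  refine isSylowIn_of_maximal (hS.isPGroup.to_inf_left) inf_le_right fun Q hQ hQu hSQ => ?_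
  refine le_antisymm (le_inf ?_ hQu) hSQ
  by_cases hall : ∀ g ∈ S, g * u * g⁻¹ = u
  · refine le_sup_left.trans (hS.eq_of_le (Q := Q ⊔ (S ⊓ X.H v))
      (isPGroup_sup_of_commute hQ hS.isPGroup.to_inf_left fun a ha b hb => h.commute (hQu ha) hb.2)
      (sup_le (hQu.trans h.le) (inf_le_left.trans hS.le)) fun g hg => ?_).le
    obtain ⟨a, ha, b, hb, rfl⟩ := h.split_mem hS hn hg (mul_inv_eq_iff_eq_mul.1 (hall g hg))
    exact mul_mem (mem_sup_left (hSQ ha)) (mem_sup_right hb)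
  · push Not at hall
    obtain ⟨g, hg, hgu⟩ := hall
    obtain ⟨e1, e2⟩ := (hn g hg).resolve_left fun e => hgu e.1
    obtain ⟨s, hs, hss, f1, f2⟩ := h.exists_swap hS hn hg e1 e2
    have hQ' : MulAut.conj s • Q ≤ X.H v := conj_smul_le_iff.2 fun a ha =>
      f1 ▸ X.conj u s a (hQu ha)
    have hT : IsPGroup 2 (Q ⊔ MulAut.conj s • Q : Subgroup G) :=
      isPGroup_sup_of_commute hQ (isPGroup_conj_smul s hQ) fun a ha b hb =>
        h.commute (hQu ha) (hQ' hb)
    have hsN : s ∈ normalizer ((Q ⊔ MulAut.conj s • Q : Subgroup G) : Set G) :=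
      mem_normalizer_sup (fun a ha => mem_sup_right (conj_mem_conj_smul.2 ha)) fun a ha => by
        have := mem_conj_smul.1 ha
        rw [inv_eq_of_mul_self hss] at this ⊢
        exact mem_sup_left this
    refine (le_sup_left.trans le_sup_left).trans
      (hS.eq_of_le (Q := (Q ⊔ MulAut.conj s • Q) ⊔ zpowers s)
      (hT.to_sup_of_normal_left' (isPElt_two_of_mul_self hss).isPGroup_zpowers (zpowers_le.2 hsN))
      (sup_le (sup_le (hQu.trans h.le) (hQ'.trans h.symm.le)) (zpowers_le.2 (hS.le hs)))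
      fun x hx => ?_).le
    obtain ⟨a, ha, b, hb, e⟩ := h.split_or_swap hS hn hs f1 hx
    have hab : a * b ∈ Q ⊔ MulAut.conj s • Q := by
      refine mul_mem (mem_sup_left (hSQ ha)) (mem_sup_right (mem_conj_smul.2 (hSQ ⟨?_, ?_⟩)))
      · exact S.mul_mem (S.mul_mem (S.inv_mem hs) hb.1) hs
      · have := X.conj v s b hb.2
        rw [f2] at this
        rwa [inv_eq_of_mul_self hss] at this ⊢
    rcases e with rfl | rfl
    · exact mem_sup_left hab
    · exact mul_mem (mem_sup_left hab) (mem_sup_right (mem_zpowers s))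

theorem rk_swap {s : G} (hs : s ∈ X.H t) (hss : s * s = 1) (e1 : s * u * s⁻¹ = v) :
    X.rk u = X.rk v ∧ X.rk s = X.rk u := by
  have h1 : X.rk u = X.rk v := by rw [← e1, X.rk_conj]
  have h2 : u * s * u⁻¹ = t * s := by
    rw [inv_eq_of_mul_self h.uu, ← h.mul, ← e1, inv_eq_of_mul_self hss]
    calc u * s * u = u * s * u * (s * s) := by rw [hss, mul_one]
      _ = _ := by group
  have h3 : X.Pair t s (t * s) := ⟨h.tt, hss, hs, rfl⟩
  have h4 := h3.rk_add
  rw [← h2, X.rk_conj] at h4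
  have h5 := h.rk_add
  omega

theorem indec (hS : IsSylowIn 2 S (X.H t)) (hn : Nrm S u v) (hI : X.Indec S t) {s : G} (hs : s ∈ S)
    (hss : s * s = 1) (e1 : s * u * s⁻¹ = v) : X.Indec (S ⊓ X.H u) u := by
  intro w hw hww hc
  have e2 : s * v * s⁻¹ = u := by rw [h.conj_v (hS.le hs), e1, ← h.eq']
  have hw' : s * w * s⁻¹ ∈ X.H v := e1 ▸ X.conj u s w hw
  have hcw : Commute w (s * w * s⁻¹) := h.commute hw hw'
  have hs' : s⁻¹ = s := inv_eq_of_mul_self hss
  have := hI (w * (s * w * s⁻¹)) (mul_mem (h.le hw) (h.symm.le hw'))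
    (mul_self_of_commute hww (conj_mul_self hww s) hcw) fun g hg => by
      obtain ⟨a, ha, b, hb, e⟩ := h.split_or_swap hS hn hs e1 hg
      have hb' : s * b * s⁻¹ ∈ S ⊓ X.H u :=
        ⟨S.mul_mem (S.mul_mem hs hb.1) (S.inv_mem hs), e2 ▸ X.conj v s b hb.2⟩
      have h1 : Commute b (s * w * s⁻¹) := by
        have := (hc _ hb').eq
        rw [hs'] at this ⊢
        calc b * (s * w * s) = (s * s) * b * (s * w * s) := by rw [hss, one_mul]
          _ = s * (s * b * s * w) * s := by group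
          _ = s * w * s * b * (s * s) := by rw [this]; group
          _ = s * w * s * b := by rw [hss, mul_one]
      have h2 : Commute (a * b) (w * (s * w * s⁻¹)) :=
        ((hc a ha).mul_right (h.commute ha.2 hw')).mul_left
          ((h.commute hw hb.2).symm.mul_right h1)
      rcases e with rfl | rfl
      · exact h2
      · refine h2.mul_left ?_
        have : s * (w * (s * w * s⁻¹)) = (s * w * s⁻¹) * w * s := by
          rw [hs']
          calc s * (w * (s * w * s)) = s * w * s * w * s := by group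
            _ = _ := rfl
        rw [Commute, SemiconjBy, this, ← hcw.eq]
  rcases this with e | e
  · left; exact (h.uniq hw hw' (one_mem _) (one_mem _) (by rw [e, one_mul])).1
  · right; exact (h.uniq hw hw' h.umem h.vmem (by rw [e, h.mul])).1

end Pair

theorem mem_of_commute (hS : IsSylowIn 2 S (X.H t)) (hu : u ∈ X.H t) (huu : u * u = 1)
    (hc : ∀ g ∈ S, Commute g u) : u ∈ S :=
  have : Fact (Nat.Prime 2) := ⟨Nat.prime_two⟩
  hS.mem_of_mem_normalizer (isPElt_two_of_mul_self huu) hu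
    (mem_normalizer_of_conj_mem fun g hg => by rwa [← (hc g hg).eq, mul_inv_cancel_right])

theorem self_mem_sylow (hS : IsSylowIn 2 S (X.H t)) (ht : t * t = 1) : t ∈ S :=
  mem_of_commute hS (X.self_mem t ht) ht fun g hg => X.comm t g (hS.le hg)

/-- The three possible shapes of a Sylow `2`-subgroup of `H t`. -/
theorem trichotomy (hS : IsSylowIn 2 S (X.H t)) (ht : t * t = 1) :
    (∃ u v, X.Pair t u v ∧ u ≠ 1 ∧ v ≠ 1 ∧ ∀ g ∈ S, Commute g u) ∨
    (X.Indec S t ∧ ∃ u v s, X.Pair t u v ∧ u ≠ 1 ∧ Nrm S u v ∧ s ∈ S ∧ s * s = 1 ∧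
      s * u * s⁻¹ = v) ∨ (X.Indec S t ∧ NoFour S t) := by
  by_cases hI : X.Indec S t
  · right
    by_cases hN : NoFour S t
    · exact Or.inr ⟨hI, hN⟩
    left
    refine ⟨hI, ?_⟩
    unfold NoFour at hN
    push Not at hN
    obtain ⟨u, huS, huu, hn, hu1, hut⟩ := hN
    have hP : X.Pair t u (t * u) := ⟨ht, huu, hS.le huS, rfl⟩
    have hn' : Nrm S u (t * u) := hP.nrm hS.le hn
    have : ¬ ∀ g ∈ S, g * u * g⁻¹ = u := fun hall =>
      (hI u hP.mem huu fun g hg => mul_inv_eq_iff_eq_mul.1 (hall g hg)).elim hu1 hut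
    push Not at this
    obtain ⟨g, hg, hgu⟩ := this
    obtain ⟨e1, e2⟩ := (hn' g hg).resolve_left fun e => hgu e.1
    obtain ⟨s, hs, hss, f1, -⟩ := hP.exists_swap hS hn' hg e1 e2
    exact ⟨u, t * u, s, hP, hu1, hn', hs, hss, f1⟩
  · left
    unfold Indec at hI
    push Not at hI
    obtain ⟨u, hu, huu, hc, hu1, hut⟩ := hI
    refine ⟨u, t * u, ⟨ht, huu, hu, rfl⟩, hu1, fun e => hut ?_, hc⟩
    rw [eq_inv_of_mul_eq_one_right e, inv_eq_of_mul_self ht]

end InvSys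

end GT
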