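import Cfsg.Agent.Lib.Grp.InvSysThm

/-!
# Subgroups of `O₄` containing `SO₄`
-/

set_option autoImplicit false
set_option linter.unusedSectionVars false

namespace GT

open Cfsg Subgroup
open scoped commutatorElement Pointwise

variable {G : Type*} [Group G] [Finite G]

namespace InvSys

variable {X : InvSys G} {S : Subgroup G}

theorem HasRefl.inf_le_sqN_of_four (hr : X.HasRefl)
    (h1 : ∀ t, X.Refl t → ∀ g ∈ X.H t, g = 1 ∨ g = t)
    (h2 : ∀ t, t * t = 1 → X.rk t = 2 → ∀ g ∈ X.H t, ∀ r ∈ X.H t, X.Refl r →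
      X.Refl g ∨ X.Refl (g * r))
    {z : G} (hz : z * z = 1) (hH : X.H z = ⊤) (hrk : X.rk z = 4) (hS : IsSylowIn 2 S ⊤)
    (K : Subgroup G) (hK : ∀ r r', X.Refl r → X.Refl r' → r * r' ∈ K) :
    S ⊓ K ≤ sqN (S ⊓ K) := by
  have : Fact (Nat.Prime 2) := ⟨Nat.prime_two⟩
  have hS' : IsSylowIn 2 S (X.H z) := hH ▸ hS
  have hA := hr.le_closure h1 h2 _ z S rfl hz hS'
  obtain ⟨u, v, a1, a2, a3, a4, -, -, a7, a8, a9, a10⟩ := hr.twoPieces _ z S rfl hrk.ge hz hS'
  let L : Subgroup G := normalClosure {x | ∃ r r', X.Refl r ∧ X.Refl r' ∧ x = r * r'}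
  have hLK : L ≤ K := by
    refine (closure_le _).2 fun x hx => ?_
    obtain ⟨y, ⟨r, r', h, h', rfl⟩, hc⟩ := Group.mem_conjugatesOfSet_iff.1 hx
    obtain ⟨g, rfl⟩ := isConj_iff.1 hc
    rw [show g * (r * r') * g⁻¹ = (g * r * g⁻¹) * (g * r' * g⁻¹) by group]
    exact hK _ _ (h.conj g) (h'.conj g)
  have hL : ∀ r r', X.Refl r → X.Refl r' → r * r' ∈ L := fun r r' h h' =>
    subset_normalClosure ⟨r, r', h, h', rfl⟩
  obtain ⟨c, hcS, hc⟩ := hr.exists_mem a8 a1 (ne_one_of_rk_pos (X := X) (by omega))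
  obtain ⟨d, hdS, hd⟩ := hr.exists_mem a9 a2 (ne_one_of_rk_pos (X := X) (by omega))
  have heven : ∀ x, x * x = 1 → Even (X.rk x) → x ∈ L := by
    rintro x hx ⟨k, hk⟩
    rw [← QuotientGroup.eq_one_iff]
    have := hr.map_eq_pow (QuotientGroup.mk' L) (ε := QuotientGroup.mk' L c) (fun r h => by
      rw [QuotientGroup.mk'_apply, QuotientGroup.mk'_apply, QuotientGroup.eq,
        inv_eq_of_mul_self h.1]
      exact hL r c h hc) _ x hx hk
    rw [← two_mul, pow_mul, ← map_pow, pow_two, hc.1, map_one, one_pow] at this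
    exact this
  have hcomm : ∀ r ∈ S, ∀ r' ∈ S, X.Refl r → X.Refl r' → Commute r r' → r * r' ∈ sqN (S ⊓ L) :=
    fun r hrS r' hrS' h h' hcm => mem_sqN_of_mul_self ⟨S.mul_mem hrS hrS', hL r r' h h'⟩
      (mul_self_of_commute h.1 h'.1 hcm)
  have key : ∀ x ∈ S, X.Refl x → x ∈ sqN (S ⊓ L) ⊔ zpowers c := by
    intro x hx hx1
    have : x = x * c * c := by rw [mul_assoc, hc.1, mul_one]
    rw [this]
    refine mul_mem (mem_sup_left ?_) (mem_sup_right (mem_zpowers c))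
    rcases a10 x hx hx1 with e | e
    · exact hcomm x hx c hcS.1 hx1 hc (e c hcS.2)
    · have : x * c = x * d * (d * c) := by
        rw [mul_assoc, ← mul_assoc d, hd.1, one_mul]
      rw [this]
      exact mul_mem (hcomm x hx d hdS.1 hx1 hd (e d hdS.2))
        (hcomm d hdS.1 c hcS.1 hd hc (a7 c hcS.2 d hdS.2).symm)
  have hSN : S ≤ normalizer (sqN (S ⊓ L) : Set G) := fun g hg =>
    normalizer_le_normalizer_sqN _ (mem_normalizer_of_conj_mem fun x hx =>
      ⟨S.mul_mem (S.mul_mem hg hx.1) (S.inv_mem hg),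
        (inferInstance : L.Normal).conj_mem x hx.2 g⟩)
  have hM : S ≤ sqN (S ⊓ L) ⊔ zpowers c := by
    refine hA.trans ((closure_le _).2 ?_)
    rintro x ⟨hx, hxx, -⟩
    have hP : X.Pair z x (z * x) := ⟨hz, hxx, hS'.le hx, rfl⟩
    have e := hP.rk_add
    by_cases he : Even (X.rk x)
    · exact mem_sup_left (mem_sqN_of_mul_self ⟨hx, heven x hxx he⟩ hxx)
    by_cases h1 : X.rk x = 1
    · exact key x hx ⟨hxx, h1⟩
    · have hzS := self_mem_sylow hS' hz
      rw [Nat.not_even_iff_odd, Nat.odd_iff] at he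
      rw [SetLike.mem_coe, hP.eq']
      exact mul_mem (mem_sup_left (mem_sqN_of_mul_self
        ⟨hzS, heven z hz (by rw [hrk]; decide)⟩ hz)) (key _ (S.mul_mem hzS hx) ⟨hP.vv, by omega⟩)
  intro x hx
  obtain ⟨m, hm, e, he, rfl⟩ :=
    (mem_sup_of_le_normalizer_left ((zpowers_le.2 hcS.1).trans hSN)).1 (hM hx.1)
  have hm' := sqN_mono (inf_le_inf_left S hLK) hm
  refine mul_mem hm' (mem_sqN_of_mul_self ?_ ?_)
  · have := mul_mem (inv_mem hm'.1) hx
    rwa [inv_mul_cancel_left] at this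
  · obtain ⟨i, rfl⟩ := mem_zpowers_iff.1 he
    rw [← (Commute.refl c).mul_zpow, hc.1, one_zpow]

end InvSys

end GT
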