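import Cfsg.Agent.Lib.Grp.InvSys

/-!
# Abelianizations of Sylow `2`-subgroups of groups with a system of involutions
-/

set_option autoImplicit false
set_option linter.unusedSectionVars false

namespace GT

open Cfsg Subgroup
open scoped commutatorElement Pointwise

variable {G : Type*} [Group G] [Finite G]

/-- The elements of `P` whose square lies in the derived subgroup of `P`. -/
def sqN (P : Subgroup G) : Subgroup G where
  carrier := {x | x ∈ P ∧ x * x ∈ ⁅P, P⁆}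
  mul_mem' := by
    rintro x y ⟨hx, hx2⟩ ⟨hy, hy2⟩
    refine ⟨mul_mem hx hy, ?_⟩
    have : x * y * (x * y) = x * x * ⁅x⁻¹, y⁆ * (y * y) := by
      rw [commutatorElement_def]; group
    rw [this]
    exact mul_mem (mul_mem hx2 (commutator_mem_commutator (inv_mem hx) hy)) hy2
  one_mem' := ⟨one_mem _, by rw [one_mul]; exact one_mem _⟩
  inv_mem' := by
    rintro x ⟨hx, hx2⟩
    exact ⟨inv_mem hx, by rw [← mul_inv_rev]; exact inv_mem hx2⟩

theorem mem_sqN_of_mul_self {P : Subgroup G} {x : G} (hx : x ∈ P) (h : x * x = 1) : x ∈ sqN P :=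
  ⟨hx, h ▸ one_mem _⟩

theorem sqN_mono {P Q : Subgroup G} (h : P ≤ Q) : sqN P ≤ sqN Q := fun _ hx =>
  ⟨h hx.1, commutator_mono h h hx.2⟩

theorem normalizer_le_normalizer_sqN (P : Subgroup G) :
    normalizer (P : Set G) ≤ normalizer (sqN P : Set G) := fun g hg =>
  mem_normalizer_of_conj_mem fun x hx => ⟨conj_mem_of_mem_normalizer hg hx.1, by
    have : g * x * g⁻¹ * (g * x * g⁻¹) = g * (x * x) * g⁻¹ := by group
    rw [this]
    exact conj_mem_of_mem_normalizer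
      (normalizer_inf_normalizer_le_normalizer_commutator P P ⟨hg, hg⟩) hx.2⟩

theorem IsSylowIn.not_isCyclic {p : ℕ} [Fact p.Prime] {S H Q : Subgroup G} (hS : IsSylowIn p S H)
    (hQ : IsPGroup p Q) (hQH : Q ≤ H) (h : ¬ IsCyclic Q) : ¬ IsCyclic S := fun hc => by
  obtain ⟨g, -, hg⟩ := hS.exists_le_conj hQ hQH
  obtain ⟨a, rfl⟩ := isCyclic_iff_exists_zpowers_eq.1 hc
  rw [conj_smul_zpowers] at hg
  exact h (isCyclic_of_le hg)

/-- Transfer of the conclusion along an injective map onto a normal subgroup. -/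
theorem sq_mem_commutator_of_range {K : Type*} [Group K] [Finite K] (f : K →* G)
    (hf : Function.Injective f) (P : Sylow 2 K)
    (h : ∀ S : Subgroup G, IsSylowIn 2 S ⊤ → S ⊓ f.range ≤ sqN (S ⊓ f.range)) :
    ∀ x : (P : Subgroup K), x ^ 2 ∈ commutator (P : Subgroup K) := by
  have : Fact (Nat.Prime 2) := ⟨Nat.prime_two⟩
  obtain ⟨S, hS, hPS⟩ := exists_isSylowIn_ge (H := ⊤) (P.isPGroup'.map f) le_top
  have h1 : IsSylowIn 2 ((P : Subgroup K).map f) f.range := by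
    rw [MonoidHom.range_eq_map]; exact (isSylowIn_sylow P).map f
  have h2 : S ⊓ f.range = (P : Subgroup K).map f :=
    h1.eq_of_le hS.isPGroup.to_inf_left inf_le_right (le_inf hPS h1.le)
  have h3 := h S hS
  rw [h2] at h3
  intro x
  have h4 := (h3 (mem_map_of_mem f x.2)).2
  rw [← map_commutator, ← map_mul, mem_map_iff_mem hf] at h4
  have h5 : ((P : Subgroup K).subtype (x ^ 2)) ∈ (commutator (P : Subgroup K)).map
      (P : Subgroup K).subtype := by
    rw [commutator_def, map_commutator, ← MonoidHom.range_eq_map, range_subtype, pow_two]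
    exact h4
  exact (mem_map_iff_mem (subtype_injective _)).1 h5

namespace InvSys

variable {X : InvSys G}

theorem le_sqN_of_noncyclic
    (h : ∀ t, t * t = 1 → t ≠ 1 → ∃ Q ≤ X.H t, IsPGroup 2 Q ∧ ¬ IsCyclic Q) (n : ℕ) :
    ∀ (t : G) (S : Subgroup G), X.rk t = n → t * t = 1 → IsSylowIn 2 S (X.H t) → S ≤ sqN S := by
  have : Fact (Nat.Prime 2) := ⟨Nat.prime_two⟩
  induction n using Nat.strong_induction_on with
  | _ n ih =>
  intro t S hn ht hS
  by_cases ht1 : t = 1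
  · subst ht1
    intro g hg
    rw [eq_one_of_mem_one (hS.le hg)]; exact one_mem _
  have step : ∀ u v, X.Pair t u v → v ≠ 1 → Nrm S u v → S ⊓ X.H u ≤ sqN S := fun u v hP hv hN =>
    (ih _ (by have := hP.rk_add; have := rk_pos (X := X) hv; omega) u _ rfl hP.uu
      (hP.isSylowIn hS hN)).trans (sqN_mono inf_le_left)
  rcases trichotomy hS ht with ⟨u, v, hP, hu, hv, hc⟩ | ⟨-, u, v, s, hP, hu, hN, hs, hss, e⟩ |
    ⟨-, hN⟩
  · have hN := hP.nrm_of_commute hS.le hc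
    intro g hg
    obtain ⟨a, ha, b, hb, rfl⟩ := hP.split_mem hS hN hg (hc g hg)
    exact mul_mem (step u v hP hv hN ha) (step v u hP.symm hu hN.symm hb)
  · have hv : v ≠ 1 := ne_one_of_rk_pos (X := X)
      (by rw [← (hP.rk_swap (hS.le hs) hss e).1]; exact rk_pos hu)
    intro g hg
    obtain ⟨a, ha, b, hb, e'⟩ := hP.split_or_swap hS hN hs e hg
    have := mul_mem (step u v hP hv hN ha) (step v u hP.symm hu hN.symm hb)
    rcases e' with rfl | rfl
    · exact this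
    · exact mul_mem this (mem_sqN_of_mul_self hs hss)
  · obtain ⟨Q, hQ, hQ2, hQc⟩ := h t ht ht1
    exact fun g hg => ⟨hg, hN.sq_mem hS.isPGroup (self_mem_sylow hS ht)
      (fun g hg => (X.comm t g (hS.le hg)).eq) ht1 ht (hS.not_isCyclic hQ2 hQ hQc) g hg⟩

/-- Reflections: the involutions of rank one. -/
def Refl (X : InvSys G) (r : G) : Prop := r * r = 1 ∧ X.rk r = 1

theorem Refl.conj {r : G} (h : X.Refl r) (g : G) : X.Refl (g * r * g⁻¹) :=
  ⟨conj_mul_self h.1 g, by rw [X.rk_conj, h.2]⟩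

/-- Every piece contains a reflection. -/
def HasRefl (X : InvSys G) : Prop := ∀ t, t * t = 1 → t ≠ 1 → ∃ r ∈ X.H t, X.Refl r

variable {t : G} {S : Subgroup G}

theorem HasRefl.exists_mem (hr : X.HasRefl) (hS : IsSylowIn 2 S (X.H t)) (ht : t * t = 1)
    (ht1 : t ≠ 1) : ∃ r ∈ S, X.Refl r := by
  have : Fact (Nat.Prime 2) := ⟨Nat.prime_two⟩
  obtain ⟨r, hrt, h⟩ := hr t ht ht1
  obtain ⟨g, -, hg⟩ := hS.exists_conj_mem (isPElt_two_of_mul_self h.1) hrt
  exact ⟨_, hg, h.conj g⟩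

theorem HasRefl.not_noFour (hr : X.HasRefl) (hS : IsSylowIn 2 S (X.H t)) (ht : t * t = 1)
    (h3 : 3 ≤ X.rk t) : ¬ NoFour S t := by
  have : Fact (Nat.Prime 2) := ⟨Nat.prime_two⟩
  intro hN
  have ht1 : t ≠ 1 := ne_one_of_rk_pos (X := X) (by omega)
  obtain ⟨r, hrt, h⟩ := hr t ht ht1
  have hP : X.Pair t r (t * r) := ⟨ht, h.1, hrt, rfl⟩
  have h1 := hP.rk_add
  have h2 := h.2
  obtain ⟨r', hrt', h'⟩ := hr (t * r) hP.vv (ne_one_of_rk_pos (X := X) (by omega))
  have hc : Commute r r' := hP.commute hP.umem hrt'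
  obtain ⟨g, -, hg⟩ := hS.exists_conj_le (Q := zpowers r ⊔ zpowers r')
    (isPGroup_sup_of_commute (isPElt_two_of_mul_self h.1).isPGroup_zpowers
      (isPElt_two_of_mul_self h'.1).isPGroup_zpowers fun a ha b hb => by
        obtain ⟨i, rfl⟩ := mem_zpowers_iff.1 ha
        obtain ⟨j, rfl⟩ := mem_zpowers_iff.1 hb
        exact hc.zpow_zpow i j)
    (sup_le (zpowers_le.2 hrt) (zpowers_le.2 (hP.symm.le hrt')))
  have hx := conj_smul_le_iff.1 hg r (mem_sup_left (mem_zpowers r))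
  have hy := conj_smul_le_iff.1 hg r' (mem_sup_right (mem_zpowers r'))
  have e1 := (h.conj g).2
  have e2 := (h'.conj g).2
  have e3 : X.rk (g * r * g⁻¹ * (g * r' * g⁻¹)) = 2 := by
    rw [show g * r * g⁻¹ * (g * r' * g⁻¹) = g * (r * r') * g⁻¹ by group, X.rk_conj,
      hP.rk_mul hP.umem hrt' h.1 h'.1, h.2, h'.2]
  have e0 := rk_one (X := X)
  rcases hN.commuting hS.isPGroup (self_mem_sylow hS ht) (fun g hg => (X.comm t g (hS.le hg)).eq)
    ht1 ht hx hy (h.conj g).1 (h'.conj g).1 (by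
      have := hc.map (MulAut.conj g)
      simpa using this) with (e | e) | (e | e) | (e | e)
  · rw [e] at e1; omega
  · rw [e] at e1; omega
  · rw [e] at e2; omega
  · rw [e] at e2; omega
  · rw [e] at e3; omega
  · rw [e] at e3; omega

theorem not_indec_of_pair {u v : G} (hP : X.Pair t u v) (hu : u ≠ 1) (hv : v ≠ 1)
    (hc : ∀ g ∈ S, Commute g u) : ¬ X.Indec S t := fun hI => by
  rcases hI u hP.mem hP.uu hc with e | e
  · exact hu e
  · exact hv (by rw [hP.eq, e, hP.tt])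

theorem HasRefl.even_rk (hr : X.HasRefl) (hS : IsSylowIn 2 S (X.H t)) (ht : t * t = 1)
    (hI : X.Indec S t) (h2 : 2 ≤ X.rk t) : Even (X.rk t) := by
  rcases trichotomy hS ht with ⟨u, v, hP, hu, hv, hc⟩ | ⟨-, u, v, s, hP, hu, hN, hs, hss, e⟩ |
    ⟨-, hN⟩
  · exact absurd hI (not_indec_of_pair hP hu hv hc)
  · exact ⟨X.rk u, by rw [← hP.rk_add, (hP.rk_swap (hS.le hs) hss e).1]⟩
  · have : X.rk t = 2 := by
      by_contra h
      exact hr.not_noFour hS ht (by omega) hN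
    rw [this]; exact even_two

theorem HasRefl.exists_sq (hr : X.HasRefl) (hS : IsSylowIn 2 S (X.H t)) (ht : t * t = 1)
    (hI : X.Indec S t) (h2 : 2 ≤ X.rk t) : ∃ j ∈ X.H t, j * j = t := by
  rcases trichotomy hS ht with ⟨u, v, hP, hu, hv, hc⟩ | ⟨-, u, v, s, hP, hu, hN, hs, hss, e⟩ |
    ⟨-, hN⟩
  · exact absurd hI (not_indec_of_pair hP hu hv hc)
  · refine ⟨s * u, mul_mem (hS.le hs) hP.mem, ?_⟩
    rw [← hP.symm.mul, ← e, inv_eq_of_mul_self hss]; group
  · have ht1 : t ≠ 1 := ne_one_of_rk_pos (X := X) (by omega)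
    obtain ⟨r, hrS, h⟩ := hr.exists_mem hS ht ht1
    obtain ⟨j, hj, e⟩ := hN.exists_sq hS.isPGroup (self_mem_sylow hS ht)
      (fun g hg => (X.comm t g (hS.le hg)).eq) ht1 ht hrS h.1
      (ne_one_of_rk_pos (X := X) (by rw [h.2]; exact one_pos)) fun e => by
        have := h.2; rw [e] at this; omega
    exact ⟨j, hS.le hj, e⟩

theorem HasRefl.map_eq_pow (hr : X.HasRefl) {A : Type*} [Group A] (φ : G →* A) {ε : A}
    (hε : ∀ r, X.Refl r → φ r = ε) (n : ℕ) : ∀ x, x * x = 1 → X.rk x = n → φ x = ε ^ n := by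
  induction n with
  | zero => intro x _ h; rw [X.rk_eq_zero x h, map_one, pow_zero]
  | succ n ih =>
    intro x hx h
    obtain ⟨r, hrx, h'⟩ := hr x hx (ne_one_of_rk_pos (X := X) (by omega))
    have hP : X.Pair x r (x * r) := ⟨hx, h'.1, hrx, rfl⟩
    have h1 := hP.rk_add
    have h2 := h'.2
    rw [← hP.mul, map_mul, hε r h', ih _ hP.vv (by omega), pow_succ']

/-- The special linear case. -/
theorem HasRefl.inf_ker_le_sqN (hr : X.HasRefl) {A : Type*} [CommGroup A] (φ : G →* A) {ε : A}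
    (hε1 : ε ≠ 1) (hε2 : ε * ε = 1) (hε : ∀ r, X.Refl r → φ r = ε)
    (h1 : ∀ t, X.Refl t → ∀ g ∈ X.H t, φ g = 1 → g = 1)
    (h2 : ∀ t, t * t = 1 → X.rk t = 2 → ∃ Q ≤ X.H t ⊓ φ.ker, IsPGroup 2 Q ∧ ¬ IsCyclic Q) (n : ℕ) :
    ∀ (t : G) (S : Subgroup G), X.rk t = n → t * t = 1 → IsSylowIn 2 S (X.H t) →
      ((∀ y, IsPElt 2 y → φ y = 1 ∨ φ y = ε) ∨ (X.Indec S t ∧ 2 ≤ n)) →
      S ⊓ φ.ker ≤ sqN (S ⊓ φ.ker) := by
  have : Fact (Nat.Prime 2) := ⟨Nat.prime_two⟩
  have hpow : ∀ x, x * x = 1 → (φ x = 1 ↔ Even (X.rk x)) := fun x hx => by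
    rw [hr.map_eq_pow φ hε _ x hx rfl]
    rcases Nat.even_or_odd' (X.rk x) with ⟨k, e | e⟩
    · rw [e, pow_mul, pow_two, hε2, one_pow]; simp
    · rw [e, pow_succ, pow_mul, pow_two, hε2, one_pow, one_mul]; simp [hε1]
  induction n using Nat.strong_induction_on with
  | _ n ih =>
  intro t S hn ht hS hcase
  by_cases hn0 : n = 0
  · intro g hg
    rw [X.rk_eq_zero t (hn.trans hn0)] at hS
    rw [eq_one_of_mem_one (hS.le hg.1)]; exact one_mem _
  by_cases hn1 : n = 1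
  · intro g hg
    rw [h1 t ⟨ht, hn.trans hn1⟩ g (hS.le hg.1) hg.2]; exact one_mem _
  have ht1 : t ≠ 1 := ne_one_of_rk_pos (X := X) (by omega)
  by_cases hn2 : n = 2
  · obtain ⟨Q, hQ, hQ2, hQc⟩ := h2 t ht (hn.trans hn2)
    have hP : IsSylowIn 2 (S ⊓ φ.ker) (X.H t ⊓ φ.ker) := by
      have := hS.inf_of_le_normalizer (N := X.H t ⊓ φ.ker) inf_le_left fun g hg =>
        mem_normalizer_of_conj_mem fun x hx => ⟨(X.H t).mul_mem ((X.H t).mul_mem hg hx.1) ((X.H t).inv_mem hg),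
          φ.normal_ker.conj_mem x hx.2 g⟩
      rwa [← inf_assoc, inf_eq_left.2 hS.le] at this
    have hN : NoFour (S ⊓ φ.ker) t := fun x hx hxx _ => by
      have hP' : X.Pair t x (t * x) := ⟨ht, hxx, hS.le hx.1, rfl⟩
      have e1 := hP'.rk_add
      obtain ⟨k, hk⟩ := (hpow x hxx).1 hx.2
      by_cases h0 : X.rk x = 0
      · exact Or.inl (X.rk_eq_zero x h0)
      · right
        have := X.rk_eq_zero (t * x) (by omega)
        rw [eq_inv_of_mul_eq_one_right this, inv_eq_of_mul_self ht]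
    exact fun g hg => ⟨hg, hN.sq_mem hP.isPGroup
      ⟨self_mem_sylow hS ht, (hpow t ht).2 (by rw [hn, hn2]; exact even_two)⟩
      (fun g hg => (X.comm t g (hS.le hg.1)).eq) ht1 ht (hP.not_isCyclic hQ2 hQ hQc) g hg⟩
  have step : ∀ u v, X.Pair t u v → v ≠ 1 → Nrm S u v →
      ((∀ y, IsPElt 2 y → φ y = 1 ∨ φ y = ε) ∨ (X.Indec (S ⊓ X.H u) u ∧ 2 ≤ X.rk u)) →
      ∀ a ∈ S ⊓ X.H u, φ a = 1 → a ∈ sqN (S ⊓ φ.ker) := fun u v hP hv hN hc a ha ha1 =>
    ((ih _ (by have := hP.rk_add; have := rk_pos (X := X) hv; omega) u _ rfl hP.uu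
      (hP.isSylowIn hS hN) hc).trans (sqN_mono (inf_le_inf_right _ inf_le_left))) ⟨ha, ha1⟩
  rcases trichotomy hS ht with ⟨u, v, hP, hu, hv, hc⟩ | ⟨hI, u, v, s, hP, hu, hN, hs, hss, e⟩ |
    ⟨-, hN⟩
  · have hN := hP.nrm_of_commute hS.le hc
    have hy := hcase.resolve_right fun h => not_indec_of_pair hP hu hv hc h.1
    intro g hg
    obtain ⟨a, ha, b, hb, rfl⟩ := hP.split_mem hS hN hg.1 (hc g hg.1)
    have hab : φ a * φ b = 1 := by rw [← map_mul]; exact hg.2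
    rcases hy a (isPElt_of_mem hS.isPGroup ha.1) with ea | ea
    · rw [ea, one_mul] at hab
      exact mul_mem (step u v hP hv hN (Or.inl hy) a ha ea)
        (step v u hP.symm hu hN.symm (Or.inl hy) b hb hab)
    · have eb : φ b = ε := by
        rw [ea, ← hε2] at hab; exact mul_left_cancel hab
      obtain ⟨r, hrS, h⟩ := hr.exists_mem (hP.isSylowIn hS hN) hP.uu hu
      obtain ⟨r', hrS', h'⟩ := hr.exists_mem (hP.symm.isSylowIn hS hN.symm) hP.vv hv
      have : a * b = (a * r) * (r * r') * (r' * b) := by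
        calc a * b = a * (r * r) * (r' * r') * b := by rw [h.1, h'.1]; group
          _ = _ := by group
      rw [this]
      refine mul_mem (mul_mem (step u v hP hv hN (Or.inl hy) _ (mul_mem ha hrS) ?_)
        (mem_sqN_of_mul_self ⟨S.mul_mem hrS.1 hrS'.1, ?_⟩
          (mul_self_of_commute h.1 h'.1 (hP.commute hrS.2 hrS'.2))))
        (step v u hP.symm hu hN.symm (Or.inl hy) _ (mul_mem hrS' hb) ?_)
      · rw [map_mul, ea, hε r h, hε2]
      · show φ (r * r') = 1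
        rw [map_mul, hε r h, hε r' h', hε2]
      · rw [map_mul, eb, hε r' h', hε2]
  · obtain ⟨e1, e2⟩ := hP.rk_swap (hS.le hs) hss e
    have e3 := hP.rk_add
    have hv : v ≠ 1 := ne_one_of_rk_pos (X := X) (by omega)
    have e' : s * v * s⁻¹ = u := by rw [hP.conj_v (hS.le hs), e, ← hP.eq']
    have hIu := hP.indec hS hN hI hs hss e
    have hIv := hP.symm.indec hS hN.symm hI hs hss e'
    have hφs : φ s = 1 := (hpow s hss).2
      (e2 ▸ hr.even_rk (hP.isSylowIn hS hN) hP.uu hIu (by omega))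
    have hsP : s ∈ S ⊓ φ.ker := ⟨hs, hφs⟩
    have key : ∀ a ∈ S ⊓ X.H u, ∀ b ∈ S ⊓ X.H v, φ (a * b) = 1 → a * b ∈ sqN (S ⊓ φ.ker) := by
      intro a ha b hb hab
      have ha' : s * a * s⁻¹ ∈ S ⊓ X.H v :=
        ⟨S.mul_mem (S.mul_mem hs ha.1) (S.inv_mem hs), e ▸ X.conj u s a ha.2⟩
      have hφ : φ (s * a * s⁻¹) = φ a := by simp [hφs]
      have hc : Commute a (s * a * s⁻¹) := hP.commute ha.2 ha'.2
      have : a * b = (a * (s * a * s⁻¹)⁻¹) * (s * a * s⁻¹ * b) := by group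
      rw [this]
      have hy : a * (s * a * s⁻¹)⁻¹ ∈ S ⊓ φ.ker := ⟨S.mul_mem ha.1 (S.inv_mem ha'.1), by
        show φ _ = 1
        rw [map_mul, map_inv, hφ, mul_inv_cancel]⟩
      refine mul_mem ⟨hy, ?_⟩ (step v u hP.symm hu hN.symm (Or.inr ⟨hIv, by omega⟩) _
        (mul_mem ha' hb) (by rw [map_mul, hφ, ← map_mul, hab]))
      have : a * (s * a * s⁻¹)⁻¹ * (a * (s * a * s⁻¹)⁻¹) = ⁅a * (s * a * s⁻¹)⁻¹, s⁆ := by
        rw [commutatorElement_def, mul_assoc (a * (s * a * s⁻¹)⁻¹), mul_assoc (a * (s * a * s⁻¹)⁻¹)]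
        congr 1
        rw [hc.inv_right.eq]
        rw [inv_eq_of_mul_self hss]
        calc (s * a * s)⁻¹ * a = (s * a * s)⁻¹ * a * (s * s) := by rw [hss, mul_one]
          _ = s⁻¹ * a⁻¹ * s⁻¹ * a * s * s := by group
          _ = s * a⁻¹ * s * a * s * s := by rw [inv_eq_of_mul_self hss]
          _ = s * (a⁻¹ * (s * a * s)) * s := by group
          _ = _ := by group
      rw [this]
      exact commutator_mem_commutator hy hsP
    intro g hg
    obtain ⟨a, ha, b, hb, e''⟩ := hP.split_or_swap hS hN hs e hg.1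
    rcases e'' with rfl | rfl
    · exact key a ha b hb hg.2
    · refine mul_mem (key a ha b hb ?_) (mem_sqN_of_mul_self hsP hss)
      have : φ (a * b * s) = 1 := hg.2
      rwa [map_mul, hφs, mul_one] at this
  · exact absurd hN (hr.not_noFour hS ht (by omega))

/-- Two commuting pieces of rank at least two such that every reflection of `S` centralizes one of
them. -/
def TwoPieces (X : InvSys G) (S : Subgroup G) (t : G) : Prop :=
  ∃ u v, u * u = 1 ∧ v * v = 1 ∧ 2 ≤ X.rk u ∧ 2 ≤ X.rk v ∧ X.H u ≤ X.H t ∧ X.H v ≤ X.H t ∧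
    (∀ a ∈ X.H u, ∀ b ∈ X.H v, Commute a b) ∧ IsSylowIn 2 (S ⊓ X.H u) (X.H u) ∧
    IsSylowIn 2 (S ⊓ X.H v) (X.H v) ∧
    ∀ r ∈ S, X.Refl r → (∀ b ∈ X.H u, Commute r b) ∨ ∀ b ∈ X.H v, Commute r b

theorem Pair.refl_mem {u v : G} (hP : X.Pair t u v) (hS : IsSylowIn 2 S (X.H t)) (hN : Nrm S u v)
    {r : G} (hr : r ∈ S) (h : X.Refl r) (hc : Commute r u) : r ∈ X.H u ∨ r ∈ X.H v := by
  obtain ⟨a, ha, b, hb, rfl⟩ := hP.split_mem hS hN hr hc
  obtain ⟨haa, hbb⟩ := hP.mul_self ha.2 hb.2 h.1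
  have e := hP.rk_mul ha.2 hb.2 haa hbb
  rw [h.2] at e
  by_cases h0 : X.rk a = 0
  · right; rw [X.rk_eq_zero a h0, one_mul]; exact hb.2
  · left; rw [X.rk_eq_zero b (by omega), mul_one]; exact ha.2

theorem Pair.twoPieces {u v : G} (hP : X.Pair t u v) (hS : IsSylowIn 2 S (X.H t)) (hN : Nrm S u v)
    (hu : 2 ≤ X.rk u) (hv : 2 ≤ X.rk v) : X.TwoPieces S t := by
  refine ⟨u, v, hP.uu, hP.vv, hu, hv, hP.le, hP.symm.le, fun a ha b hb => hP.commute ha hb,
    hP.isSylowIn hS hN, hP.symm.isSylowIn hS hN.symm, fun r hr h => ?_⟩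
  rcases hN r hr with ⟨e, -⟩ | ⟨e, -⟩
  · rcases hP.refl_mem hS hN hr h (mul_inv_eq_iff_eq_mul.1 e) with h1 | h1
    · right; exact fun b hb => hP.commute h1 hb
    · left; exact fun b hb => (hP.commute hb h1).symm
  · have := (hP.rk_swap (hS.le hr) h.1 e).2
    rw [h.2] at this; omega

theorem HasRefl.twoPieces (hr : X.HasRefl) (n : ℕ) : ∀ (t : G) (S : Subgroup G), X.rk t = n →
    4 ≤ n → t * t = 1 → IsSylowIn 2 S (X.H t) → X.TwoPieces S t := by
  induction n using Nat.strong_induction_on with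
  | _ n ih =>
  intro t S hn h4 ht hS
  have step : ∀ u v, X.Pair t u v → X.rk u = 1 → (∀ g ∈ S, Commute g u) → X.TwoPieces S t := by
    intro u v hP hu hc
    have hN := hP.nrm_of_commute hS.le hc
    have hSv := hP.symm.isSylowIn hS hN.symm
    have e := hP.rk_add
    by_cases h5 : 4 ≤ X.rk v
    · obtain ⟨u₁, u₂, a1, a2, a3, a4, a5, a6, a7, a8, a9, a10⟩ :=
        ih _ (by omega) v _ rfl h5 hP.vv hSv
      rw [inf_assoc, inf_eq_right.2 a5] at a8
      rw [inf_assoc, inf_eq_right.2 a6] at a9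
      refine ⟨u₁, u₂, a1, a2, a3, a4, a5.trans hP.symm.le, a6.trans hP.symm.le, a7, a8, a9,
        fun r hrS h => ?_⟩
      rcases hP.refl_mem hS hN hrS h (hc r hrS) with h1 | h1
      · left; exact fun b hb => hP.commute h1 (a5 hb)
      · exact a10 r ⟨hrS, h1⟩ h
    · have key : ∀ w, w ∈ X.H v → w * w = 1 → X.rk w = 2 → (∀ g ∈ S ⊓ X.H v, Commute g w) →
          X.TwoPieces S t := by
        intro w hw hww h2 hcw
        have hP' : X.Pair t w (t * w) := ⟨ht, hww, hP.symm.le hw, rfl⟩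
        have e' := hP'.rk_add
        refine hP'.twoPieces hS (hP'.nrm_of_commute hS.le fun g hg => ?_) (by omega) (by omega)
        obtain ⟨a, ha, b, hb, rfl⟩ := hP.split_mem hS hN hg (hc g hg)
        exact (hP.commute ha.2 hw).mul_left (hcw b hb)
      rcases trichotomy hSv hP.vv with ⟨u', v', hP', hu', hv', hc'⟩ |
        ⟨-, u', v', s, hP', -, -, hs, hss, e'⟩ | ⟨-, hN'⟩
      · have e1 := hP'.rk_add
        have e2 := rk_pos (X := X) hu'
        have e3 := rk_pos (X := X) hv'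
        by_cases h2 : X.rk u' = 2
        · exact key u' hP'.mem hP'.uu h2 hc'
        · exact key v' hP'.mem' hP'.vv (by omega) fun g hg => hP'.commute_v hg.2 (hc' g hg)
      · have e1 := hP'.rk_add
        have e2 := (hP'.rk_swap hs.2 hss e').1
        omega
      · exact absurd hN' (hr.not_noFour hSv hP.vv (by omega))
  rcases trichotomy hS ht with ⟨u, v, hP, hu, hv, hc⟩ | ⟨-, u, v, s, hP, -, hN, hs, hss, e⟩ |
    ⟨-, hN⟩
  · have e2 := rk_pos (X := X) hu
    have e3 := rk_pos (X := X) hv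
    by_cases h1 : X.rk u = 1
    · exact step u v hP h1 hc
    by_cases h1' : X.rk v = 1
    · exact step v u hP.symm h1' fun g hg => hP.commute_v (hS.le hg) (hc g hg)
    exact hP.twoPieces hS (hP.nrm_of_commute hS.le hc) (by omega) (by omega)
  · have e1 := hP.rk_add
    have e2 := (hP.rk_swap (hS.le hs) hss e).1
    exact hP.twoPieces hS hN (by omega) (by omega)
  · exact absurd hN (hr.not_noFour hS ht (by omega))

theorem HasRefl.le_closure (hr : X.HasRefl) (h1 : ∀ t, X.Refl t → ∀ g ∈ X.H t, g = 1 ∨ g = t)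
    (h2 : ∀ t, t * t = 1 → X.rk t = 2 → ∀ g ∈ X.H t, ∀ r ∈ X.H t, X.Refl r →
      X.Refl g ∨ X.Refl (g * r)) (n : ℕ) :
    ∀ (t : G) (S : Subgroup G), X.rk t = n → t * t = 1 → IsSylowIn 2 S (X.H t) →
      S ≤ closure {x | x ∈ S ∧ x * x = 1 ∧ (X.rk x = 1 ∨ ∃ y, y * y = x)} := by
  induction n using Nat.strong_induction_on with
  | _ n ih =>
  intro t S hn ht hS
  by_cases hn0 : n = 0
  · intro g hg
    rw [X.rk_eq_zero t (hn.trans hn0)] at hS
    rw [eq_one_of_mem_one (hS.le hg)]; exact one_mem _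
  by_cases hn1 : n = 1
  · intro g hg
    rcases h1 t ⟨ht, hn.trans hn1⟩ g (hS.le hg) with rfl | rfl
    · exact one_mem _
    · exact subset_closure ⟨hg, ht, Or.inl (hn.trans hn1)⟩
  have ht1 : t ≠ 1 := ne_one_of_rk_pos (X := X) (by omega)
  by_cases hn2 : n = 2
  · obtain ⟨r, hrS, h⟩ := hr.exists_mem hS ht ht1
    intro g hg
    rcases h2 t ht (hn.trans hn2) g (hS.le hg) r (hS.le hrS) h with e | e
    · exact subset_closure ⟨hg, e.1, Or.inl e.2⟩
    · have : g = g * r * r := by rw [mul_assoc, h.1, mul_one]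
      rw [this]
      exact mul_mem (subset_closure ⟨mul_mem hg hrS, e.1, Or.inl e.2⟩)
        (subset_closure ⟨hrS, h.1, Or.inl h.2⟩)
  have step : ∀ u v, X.Pair t u v → v ≠ 1 → Nrm S u v →
      S ⊓ X.H u ≤ closure {x | x ∈ S ∧ x * x = 1 ∧ (X.rk x = 1 ∨ ∃ y, y * y = x)} :=
    fun u v hP hv hN =>
    (ih _ (by have := hP.rk_add; have := rk_pos (X := X) hv; omega) u _ rfl hP.uu
      (hP.isSylowIn hS hN)).trans (closure_mono fun x hx => ⟨hx.1.1, hx.2⟩)
  rcases trichotomy hS ht with ⟨u, v, hP, hu, hv, hc⟩ | ⟨hI, u, v, s, hP, hu, hN, hs, hss, e⟩ |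
    ⟨-, hN⟩
  · have hN := hP.nrm_of_commute hS.le hc
    intro g hg
    obtain ⟨a, ha, b, hb, rfl⟩ := hP.split_mem hS hN hg (hc g hg)
    exact mul_mem (step u v hP hv hN ha) (step v u hP.symm hu hN.symm hb)
  · obtain ⟨e1, e2⟩ := hP.rk_swap (hS.le hs) hss e
    have e3 := hP.rk_add
    have hv : v ≠ 1 := ne_one_of_rk_pos (X := X) (by omega)
    obtain ⟨j, hj, hjj⟩ := hr.exists_sq (hP.isSylowIn hS hN) hP.uu (hP.indec hS hN hI hs hss e)
      (by omega)
    have hj' : s * j * s⁻¹ ∈ X.H v := e ▸ X.conj u s j hj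
    have hP' : X.Pair t s (t * s) := ⟨ht, hss, hS.le hs, rfl⟩
    obtain ⟨a, ha, b, hb, hab⟩ := hP'.split (mul_mem (hP.le hj) (hP.symm.le hj')) (by
      have h3 : j * (s * j * s⁻¹) * s = s * ((s * j * s⁻¹) * j) := by
        rw [inv_eq_of_mul_self hss]
        calc j * (s * j * s) * s = j * s * j * (s * s) := by group
          _ = (s * s) * j * s * j := by rw [hss]; group
          _ = _ := by group
      rw [Commute, SemiconjBy, h3, (hP.commute hj hj').eq])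
    have hsq : a * a = s := by
      refine (hP'.uniq (mul_mem ha ha) (mul_mem hb hb) hP'.umem hP'.vmem ?_).1
      rw [← hP'.sq_of_mul ha hb, ← hab, hP.sq_of_mul hj hj', hjj, hP'.mul, ← hP.mul, ← e, ← hjj]
      group
    intro g hg
    obtain ⟨a', ha', b', hb', e'⟩ := hP.split_or_swap hS hN hs e hg
    have := mul_mem (step u v hP hv hN ha') (step v u hP.symm hu hN.symm hb')
    rcases e' with rfl | rfl
    · exact this
    · exact mul_mem this (subset_closure ⟨hs, hss, Or.inr ⟨a, hsq⟩⟩)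
  · exact absurd hN (hr.not_noFour hS ht (by omega))

/-- The orthogonal case. -/
theorem HasRefl.inf_commutator_le_sqN (hr : X.HasRefl)
    (h1 : ∀ t, X.Refl t → ∀ g ∈ X.H t, g = 1 ∨ g = t)
    (h2 : ∀ t, t * t = 1 → X.rk t = 2 → ∀ g ∈ X.H t, ∀ r ∈ X.H t, X.Refl r →
      X.Refl g ∨ X.Refl (g * r))
    (h4 : ∀ t, t * t = 1 → 2 ≤ X.rk t → ∀ r, X.Refl r → ∃ g, g * r * g⁻¹ ∈ X.H t)
    (h5 : ∀ r₁ r₂ r₃, X.Refl r₁ → X.Refl r₂ → X.Refl r₃ →
      IsConj r₁ r₂ ∨ IsConj r₁ r₃ ∨ IsConj r₂ r₃)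
    {z : G} (hz : z * z = 1) (hH : X.H z = ⊤) (hrk : 4 ≤ X.rk z) (hS : IsSylowIn 2 S ⊤) :
    S ⊓ commutator G ≤ sqN (S ⊓ commutator G) := by
  have : Fact (Nat.Prime 2) := ⟨Nat.prime_two⟩
  have hS' : IsSylowIn 2 S (X.H z) := hH ▸ hS
  have hA := hr.le_closure h1 h2 _ z S rfl hz hS'
  have hker : ∀ x, x ∈ commutator G ↔ Abelianization.of x = 1 := fun x => by
    rw [← Abelianization.ker_of]; rfl
  have hsq : ∀ y, IsPElt 2 y → y * y ∈ commutator G := by
    intro y hy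
    obtain ⟨g, -, hg⟩ := hS.exists_conj_mem hy (mem_top y)
    have : ∀ x ∈ closure {x | x ∈ S ∧ x * x = 1 ∧ (X.rk x = 1 ∨ ∃ y, y * y = x)},
        Abelianization.of x * Abelianization.of x = 1 := by
      intro x hx
      induction hx using closure_induction with
      | mem x hx => rw [← map_mul, hx.2.1, map_one]
      | one => simp
      | mul x y _ _ hx hy => rw [map_mul, mul_mul_mul_comm, hx, hy, one_mul]
      | inv x _ hx => rw [map_inv, ← mul_inv, hx, inv_one]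
    have h3 := this _ (hA hg)
    rw [hker, map_mul]
    simpa [mul_comm] using h3
  obtain ⟨u, v, a1, a2, a3, a4, -, -, a7, a8, a9, a10⟩ := hr.twoPieces _ z S rfl hrk hz hS'
  have hconj : ∀ w, w * w = 1 → 2 ≤ X.rk w → IsSylowIn 2 (S ⊓ X.H w) (X.H w) → ∀ r, X.Refl r →
      ∃ c ∈ S ⊓ X.H w, IsConj r c ∧ X.Refl c := by
    intro w hw h2w hSw r h
    obtain ⟨g, hg⟩ := h4 w hw h2w r h
    obtain ⟨g', -, hg'⟩ := hSw.exists_conj_mem (isPElt_two_of_mul_self (h.conj g).1) hg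
    exact ⟨_, hg', (isConj_iff.2 ⟨g, rfl⟩).trans (isConj_iff.2 ⟨g', rfl⟩), (h.conj g).conj g'⟩
  have hcomm : ∀ r ∈ S, ∀ r' ∈ S, r * r = 1 → r' * r' = 1 → IsConj r r' → Commute r r' →
      r * r' ∈ sqN (S ⊓ commutator G) := by
    intro r hrS r' hrS' h h' hc hcm
    refine mem_sqN_of_mul_self ⟨S.mul_mem hrS hrS', ?_⟩ (mul_self_of_commute h h' hcm)
    obtain ⟨g, rfl⟩ := isConj_iff.1 hc
    have : r * (g * r * g⁻¹) = ⁅r, g⁆ := by
      rw [commutatorElement_def, inv_eq_of_mul_self h]; group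
    rw [this]; exact commutator_mem_commutator (mem_top _) (mem_top _)
  have hL : ∀ r ∈ S, ∀ r' ∈ S, X.Refl r → X.Refl r' → IsConj r r' →
      r * r' ∈ sqN (S ⊓ commutator G) := by
    intro r hrS r' hrS' h h' hc
    obtain ⟨c, hcS, hc1, hc2⟩ := hconj u a1 a3 a8 r h
    obtain ⟨d, hdS, hd1, hd2⟩ := hconj v a2 a4 a9 r h
    have hdc : d * c ∈ sqN (S ⊓ commutator G) :=
      hcomm d hdS.1 c hcS.1 hd2.1 hc2.1 (hd1.symm.trans hc1) (a7 c hcS.2 d hdS.2).symm
    have key : ∀ x ∈ S, X.Refl x → IsConj r x → x * c ∈ sqN (S ⊓ commutator G) := by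
      intro x hx hx1 hx2
      rcases a10 x hx hx1 with e | e
      · exact hcomm x hx c hcS.1 hx1.1 hc2.1 (hx2.symm.trans hc1) (e c hcS.2)
      · have : x * c = x * d * (d * c) := by
          rw [mul_assoc, ← mul_assoc d, hd2.1, one_mul]
        rw [this]
        exact mul_mem (hcomm x hx d hdS.1 hx1.1 hd2.1 (hx2.symm.trans hd1) (e d hdS.2)) hdc
    have : r * r' = (r * c) * (r' * c)⁻¹ := by
      conv_lhs => rw [← inv_eq_of_mul_self h'.1]
      group
    rw [this]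
    exact mul_mem (key r hrS h (IsConj.refl r)) (inv_mem (key r' hrS' h' hc))
  obtain ⟨α, hα, β, hβ, hα', hβ', hαβ⟩ : ∃ α ∈ S ⊓ X.H u, ∃ β ∈ S ⊓ X.H v, X.Refl α ∧ X.Refl β ∧
      ∀ r, X.Refl r → IsConj r α ∨ IsConj r β := by
    obtain ⟨r₀, -, h₀⟩ := hr z hz (ne_one_of_rk_pos (X := X) (by omega))
    obtain ⟨α, hα, hα1, hα2⟩ := hconj u a1 a3 a8 r₀ h₀
    by_cases hall : ∀ r, X.Refl r → IsConj r α
    · obtain ⟨β, hβ, -, hβ2⟩ := hconj v a2 a4 a9 r₀ h₀
      exact ⟨α, hα, β, hβ, hα2, hβ2, fun r h => Or.inl (hall r h)⟩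
    · push Not at hall
      obtain ⟨r₁, h₁, hn⟩ := hall
      obtain ⟨β, hβ, hβ1, hβ2⟩ := hconj v a2 a4 a9 r₁ h₁
      refine ⟨α, hα, β, hβ, hα2, hβ2, fun r h => ?_⟩
      rcases h5 r α β h hα2 hβ2 with e | e | e
      · exact Or.inl e
      · exact Or.inr e
      · exact absurd (hβ1.trans e.symm) hn
  have hcαβ : Commute α β := a7 α hα.2 β hβ.2
  have hSN : S ≤ normalizer (sqN (S ⊓ commutator G) : Set G) := fun g hg =>
    normalizer_le_normalizer_sqN _ (mem_normalizer_of_conj_mem fun x hx =>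
      ⟨S.mul_mem (S.mul_mem hg hx.1) (S.inv_mem hg),
        (inferInstance : (commutator G).Normal).conj_mem x hx.2 g⟩)
  have hE : zpowers α ⊔ zpowers β ≤ S := sup_le (zpowers_le.2 hα.1) (zpowers_le.2 hβ.1)
  have hM : S ≤ sqN (S ⊓ commutator G) ⊔ (zpowers α ⊔ zpowers β) := by
    refine hA.trans ((closure_le _).2 ?_)
    rintro x ⟨hx, hxx, e | ⟨y, rfl⟩⟩
    · rcases hαβ x ⟨hxx, e⟩ with e' | e'
      · have : x = x * α * α := by rw [mul_assoc, hα'.1, mul_one]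
        rw [this]
        exact mul_mem (mem_sup_left (hL x hx α hα.1 ⟨hxx, e⟩ hα' e'))
          (mem_sup_right (mem_sup_left (mem_zpowers α)))
      · have : x = x * β * β := by rw [mul_assoc, hβ'.1, mul_one]
        rw [this]
        exact mul_mem (mem_sup_left (hL x hx β hβ.1 ⟨hxx, e⟩ hβ' e'))
          (mem_sup_right (mem_sup_right (mem_zpowers β)))
    · refine mem_sup_left (mem_sqN_of_mul_self ⟨hx, hsq y ?_⟩ hxx)
      exact isPElt_of_pow_eq_one (k := 2) (by rw [← hxx]; norm_num [pow_succ, mul_assoc])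
  intro x hx
  obtain ⟨m, hm, e, he, rfl⟩ := (mem_sup_of_le_normalizer_left (hE.trans hSN)).1 (hM hx.1)
  refine mul_mem hm (mem_sqN_of_mul_self ?_ ?_)
  · have := mul_mem (inv_mem hm.1) hx
    rwa [inv_mul_cancel_left] at this
  · obtain ⟨a, ha, b, hb, rfl⟩ := (mem_sup_of_le_normalizer_left (N := zpowers α) (H := zpowers β)
      (zpowers_le.2 (mem_normalizer_of_conj_mem fun y hy => by
        obtain ⟨i, rfl⟩ := mem_zpowers_iff.1 hy
        rw [← (hcαβ.zpow_left i).eq, mul_inv_cancel_right]; exact hy))).1 he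
    obtain ⟨i, rfl⟩ := mem_zpowers_iff.1 ha
    obtain ⟨j, rfl⟩ := mem_zpowers_iff.1 hb
    refine mul_self_of_commute ?_ ?_ (hcαβ.zpow_zpow i j)
    · rw [← (Commute.refl α).mul_zpow, hα'.1, one_zpow]
    · rw [← (Commute.refl β).mul_zpow, hβ'.1, one_zpow]

end InvSys

end GT
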