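import Cfsg.Agent.Lib.Grp.NqDim
import Cfsg.Agent.Lib.Grp.Frob
import Cfsg.Agent.Lib.Char.NqSp

/-!
# Regular orbits, fixed points of pairs, and semilinear actions with incomparable stabilizers
-/

set_option autoImplicit false
set_option linter.unusedSectionVars false
set_option linter.style.haveILetI false

namespace GT

open Subgroup MulAction Module
open scoped commutatorElement Pointwise

variable {H : Type*} [Group H] [Finite H]

theorem exists_commutator_mem_of_fpf {R B : Subgroup H} [B.Normal] {c : H}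
    (hc : c ∈ normalizer (R : Set H)) (h : ∀ x ∈ R, ⁅x, c⁆ ∈ B → x ∈ B) {a : H} (ha : a ∈ R) :
    ∃ x ∈ R, ⁅x, c⁆⁻¹ * a ∈ B := by
  obtain ⟨_, ⟨x, hx, rfl⟩, e⟩ := exists_commutator_eq_of_fpf (N := R.map (QuotientGroup.mk' B))
    (x := (c : H ⧸ B)) (map_normalizer_le R _ ⟨c, hc, rfl⟩) (by
      rintro _ ⟨x, hx, rfl⟩ e
      exact (QuotientGroup.eq_one_iff x).2 (h x hx ((QuotientGroup.eq_one_iff _).1
        (commutatorElement_eq_one_iff_mul_comm.2 e)))) ⟨a, ha, rfl⟩
  exact ⟨x, hx, QuotientGroup.eq.1 e⟩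

variable {V : Type*} [CommGroup V] [Finite V] [MulDistribMulAction H V]

theorem exists_regular {U U₁ : Subgroup V} (hU : InvS (⊤ : Subgroup H) U)
    (hU₁ : InvS (⊤ : Subgroup H) U₁) (hne : ¬ U ≤ U₁) {m : ℕ} (hm : (Nat.card U).Coprime m)
    (hp : ∀ h : H, ∀ u ∈ U, h ^ m • u = u) (hc : ∀ g h : H, ∀ u ∈ U, g • h • u = h • g • u) :
    ∃ u ∈ U, u ∉ U₁ ∧ ∀ h : H, h • u = u → ∀ w ∈ U, h • w = w := by
  obtain ⟨u, ⟨hu, hu1⟩, hmin⟩ := (Set.toFinite {u | u ∈ U ∧ u ∉ U₁}).exists_minimalFor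
    (stabilizer H) _ (SetLike.not_le_iff_exists.1 hne)
  refine ⟨u, hu, hu1, fun d hd w hw => ?_⟩
  let N : V →* V := ∏ i ∈ Finset.range m, MulDistribMulAction.toMonoidHom V (d ^ i)
  have hN : ∀ v, N v = ∏ i ∈ Finset.range m, d ^ i • v := fun v => by
    simp [N, MonoidHom.finsetProd_apply]
  have h1 : ∀ v, d • v = v → N v = v ^ m := fun v hv => by
    rw [hN, Finset.prod_congr rfl fun i _ => (pow_mem (mem_stabilizer_iff.2 hv) i : _ = v)]
    simp
  have h2 : N (d • w) = N w := by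
    have := Finset.prod_range_succ (fun i => d ^ i • w) m
    rw [Finset.prod_range_succ', hp d w hw, pow_zero, one_smul, mul_left_inj] at this
    simp only [hN, ← this, pow_succ, mul_smul]
  have hi : ∀ a ∈ U, ∀ b ∈ U, a ^ m = b ^ m → a = b := fun a ha b hb e =>
    congrArg Subtype.val (hm.pow_left_bijective.1 (a₁ := ⟨a, ha⟩) (a₂ := ⟨b, hb⟩) (Subtype.ext e))
  have h3 : N (u * (d • w / w)) = u ^ m := by rw [map_mul, map_div, h2, div_self', mul_one, h1 u hd]
  have h4 : u * (d • w / w) ∈ U := mul_mem hu (div_mem (hU _ trivial _ hw) hw)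
  have h5 := hmin (j := u * (d • w / w)) ⟨h4, fun h5 => hu1 ?_⟩ (fun g hg => ?_) hd
  · have h6 := hi _ h4 _ hu ((h1 _ h5).symm.trans h3)
    rwa [mul_eq_left, div_eq_one] at h6
  · have h6 : u ^ m ∈ U₁ := h3 ▸ hN _ ▸ prod_mem fun i _ => hU₁ _ trivial _ h5
    obtain ⟨k, hk⟩ := exists_pow_eq_self_of_coprime (x := u)
      (hm.symm.coprime_dvd_right (orderOf_dvd_natCard U hu))
    exact hk ▸ pow_mem h6 k
  · refine hi _ (hU _ trivial _ hu) _ hu ?_
    rw [← smul_pow', ← h3, hN, Finset.smul_prod']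
    exact Finset.prod_congr rfl fun i _ => by rw [hc _ _ _ h4, mem_stabilizer_iff.1 hg]

theorem exists_fixed_smul_pair {K : Subgroup H} {U : Subgroup V} (hU : InvS K U) (h0 : U ≠ ⊥) {x y : H}
    (hx : x ∈ K) (hy : y ∈ K) {q : ℕ} (hq : 0 < q) (hc : (Nat.card V).Coprime q)
    (hxy : ∀ u ∈ U, ⁅x, y⁆ • u = u) (hxq : ∀ u ∈ U, x ^ q • u = u) (hyq : ∀ u ∈ U, y ^ q • u = u) :
    ∃ u ∈ U, u ≠ 1 ∧ ((∃ j : ℕ, (x * y ^ j) • u = u) ∨ ∃ i, 0 < i ∧ i < q ∧ y ^ i • u = u) := by
  by_contra hn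
  push Not at hn
  letI := hU.action
  let φ := MulDistribMulAction.toMulAut K U
  obtain ⟨u, hu, hu1⟩ := (bot_or_exists_ne_one U).resolve_left h0
  have h1 := pow_eq_one_of_fpf_pair (x := φ ⟨x, hx⟩) (y := φ ⟨y, hy⟩) hq
    (commutatorElement_eq_one_iff_commute.1 (by
      rw [← map_commutatorElement]
      exact MulEquiv.ext fun u => Subtype.ext (hxy u u.2)))
    (by rw [← map_pow]; exact MulEquiv.ext fun u => Subtype.ext (hxq u u.2))
    (by rw [← map_pow]; exact MulEquiv.ext fun u => Subtype.ext (hyq u u.2))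
    (fun j u e => by
      rw [← map_pow, ← map_mul] at e
      by_contra h
      exact (hn u u.2 fun h' => h (Subtype.ext h')).1 j (congrArg Subtype.val e))
    (fun i h1 h2 u e => by
      rw [← map_pow] at e
      by_contra h
      exact (hn u u.2 fun h' => h (Subtype.ext h')).2 i h1 h2 (congrArg Subtype.val e)) ⟨u, hu⟩
  exact hu1 (hc.pow_left_bijective.1 ((congrArg Subtype.val h1).trans (one_pow q).symm))

theorem exists_card_fixed_field [Nontrivial V] {E : Subgroup H} [hE : E.Normal] [IsMulCommutative E]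
    (hf : ∀ h : H, (∀ v : V, h • v = v) → h = 1)
    (hi : ∀ U : Subgroup V, InvS E U → U = ⊥ ∨ U = ⊤) {τ : H} {t : ℕ} (ht : t.Prime)
    (h1 : τ ^ t ∈ E) (h2 : ¬ E ≤ centralizer {τ}) :
    ∃ a, a ^ t = Nat.card V ∧ (centralizer {τ}).relIndex E * (a - 1) ∣ Nat.card V - 1 ∧
      Nat.card (fixS V (zpowers τ)) ≤ a := by
  classical
  haveI := Fact.mk ht
  set ρ := Representation.ofMulDistribMulAction H V with hρ
  set K := Subring.centralizer (ρ '' E)
  have hK : ∀ {a}, a ∈ K ↔ ∀ g ∈ E, ρ g * a = a * ρ g := by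
    intro a
    simp [K, Subring.mem_centralizer_iff]
  letI : Field K := (isField_centralizer_image hi).toField
  haveI : Finite (Module.End ℤ (Additive V)) := DFunLike.finite _
  have hinj : Function.Injective ρ := (injective_iff_map_eq_one ρ).2 fun g hg =>
    hf g fun v => congrArg Additive.toMul (LinearMap.congr_fun hg (Additive.ofMul v))
  letI : MulSemiringAction H K :=
    { smul := fun h k => ⟨ρ h * k.1 * ρ h⁻¹, hK.2 fun g hg => by
        have := hK.1 k.2 _ (hE.conj_mem' g hg h)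
        calc ρ g * (ρ h * k.1 * ρ h⁻¹) = ρ h * (ρ (h⁻¹ * g * h) * k.1) * ρ h⁻¹ := by
              simp only [← mul_assoc, ← map_mul, mul_inv_cancel, one_mul]
          _ = _ := by rw [this]; simp only [mul_assoc, ← map_mul, mul_inv_cancel, mul_one]⟩
      one_smul := fun k => Subtype.ext (show ρ 1 * k.1 * ρ 1⁻¹ = k.1 by simp)
      mul_smul := fun a b k => Subtype.ext
        (show ρ (a * b) * k.1 * ρ (a * b)⁻¹ = ρ a * (ρ b * k.1 * ρ b⁻¹) * ρ a⁻¹ by simp [mul_assoc])
      smul_zero := fun a => Subtype.ext (show ρ a * 0 * ρ a⁻¹ = 0 by simp)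
      smul_add := fun a k l => Subtype.ext
        (show ρ a * (k.1 + l.1) * ρ a⁻¹ = ρ a * k.1 * ρ a⁻¹ + ρ a * l.1 * ρ a⁻¹ by
          rw [mul_add, add_mul])
      smul_one := fun a => Subtype.ext (show ρ a * 1 * ρ a⁻¹ = 1 by
        rw [mul_one, ← map_mul, mul_inv_cancel, map_one])
      smul_mul := fun a k l => Subtype.ext
        (show ρ a * (k.1 * l.1) * ρ a⁻¹ = ρ a * k.1 * ρ a⁻¹ * (ρ a * l.1 * ρ a⁻¹) by
          simp only [mul_assoc]
          rw [← mul_assoc (ρ a⁻¹), ← map_mul, inv_mul_cancel, map_one, one_mul]) }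
  have hs : ∀ (h : H) (k : K), (h • k).1 = ρ h * k.1 * ρ h⁻¹ := fun _ _ => rfl
  let ι : E →* Kˣ := MonoidHom.toHomUnits
    { toFun := fun e => ⟨ρ e, hK.2 fun g hg => by
        rw [← map_mul, ← map_mul, setLike_mul_comm (s := E) hg e.2]⟩
      map_one' := Subtype.ext (map_one ρ)
      map_mul' := fun a b => Subtype.ext (map_mul ρ a.1 b.1) }
  have hι : ∀ e : E, τ • (ι e : K) = ι e ↔ (e : H) ∈ centralizer {τ} := fun e => by
    rw [Subtype.ext_iff, hs, mem_centralizer_singleton_iff, eq_comm (a := e * τ), ← mul_inv_eq_iff_eq_mul,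
      ← hinj.eq_iff, map_mul, map_mul]
    rfl
  let φ := MulSemiringAction.toRingAut H K τ
  have ho : orderOf φ = t := orderOf_eq_prime (by
    rw [← map_pow]
    refine RingEquiv.ext fun k => Subtype.ext ((hs _ k).trans ?_)
    rw [hK.1 k.2 _ h1, mul_assoc, ← map_mul, mul_inv_cancel, map_one, mul_one]
    rfl) fun e => h2 fun x hx => (hι ⟨x, hx⟩).1 (RingEquiv.congr_fun e _)
  haveI : Finite (zpowers φ) := finite_zpowers.2 (orderOf_pos_iff.1 (ho ▸ ht.pos))
  haveI := Fintype.ofFinite (zpowers φ)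
  set F := FixedPoints.subfield (zpowers φ) K
  have hF : ∀ k : K, k ∈ F ↔ τ • k = k := fun k =>
    ⟨fun h => h ⟨φ, mem_zpowers _⟩, fun h g => zpowers_le.2 (mem_stabilizer_iff.2 h : φ ∈ _) g.2⟩
  have hb : ∀ v : V, v ≠ 1 → Function.Bijective fun k : K => (k.1 (.ofMul v)).toMul := fun v hv => by
    refine ⟨fun k l e => ?_, fun w => ?_⟩
    · have : (k - l) • Additive.ofMul v = 0 := by rw [sub_smul, sub_eq_zero]; exact e
      exact sub_eq_zero.1 ((smul_eq_zero.1 this).resolve_right hv)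
    · let U : Subgroup V :=
        { carrier := Set.range fun k : K => (k.1 (.ofMul v)).toMul
          mul_mem' := by rintro _ _ ⟨k, rfl⟩ ⟨l, rfl⟩; exact ⟨k + l, rfl⟩
          one_mem' := ⟨0, rfl⟩
          inv_mem' := by rintro _ ⟨k, rfl⟩; exact ⟨-k, rfl⟩ }
      refine ((hi U ?_).resolve_left fun e => hv (e.le ⟨1, rfl⟩)).ge (mem_top w)
      rintro g hg _ ⟨k, rfl⟩
      exact ⟨ι ⟨g, hg⟩ * k, rfl⟩
  obtain ⟨v, hv⟩ := exists_ne (1 : V)
  have hc := Nat.card_eq_of_bijective _ (hb v hv)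
  refine ⟨Nat.card F, ?_, ?_, ?_⟩
  · rw [← hc, natCard_eq_pow_finrank (K := F) (V := K), FixedPoints.finrank_eq_card,
      ← Nat.card_eq_fintype_card, Nat.card_zpowers, ho]
  · let B := (Units.map F.subtype.toMonoidHom).range
    have h3 : B.comap ι = (centralizer {τ}).subgroupOf E := Subgroup.ext fun e => by
      rw [mem_subgroupOf, ← hι, ← hF]
      refine ⟨?_, fun h => ⟨Units.mk0 ⟨_, h⟩
        fun e0 => (ι e).ne_zero (congrArg Subtype.val e0), Units.ext rfl⟩⟩
      rintro ⟨u, hu⟩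
      exact hu ▸ u.1.2
    rw [← hc, ← Nat.card_units, ← Nat.card_units, relIndex, ← h3, index_comap, ← B.index_mul_card,
      ← Nat.card_congr (MonoidHom.ofInjective (Units.map_injective F.subtype_injective)).toEquiv.symm]
    exact Nat.mul_dvd_mul_right (relIndex_dvd_index_of_normal _ _) _
  · rcases (fixS V (zpowers τ)).bot_or_exists_ne_one with h3 | ⟨w, hw, hw1⟩
    · rw [h3, card_bot]
      exact Nat.card_pos
    choose g hg using (hb w hw1).2
    refine Nat.card_le_card_of_injective (fun u => ⟨g u, (hF _).2 ((hb w hw1).1 ?_)⟩) fun u u' e =>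
      Subtype.ext ((hg u).symm.trans ((congrArg (fun k : F => (k.1.1 (.ofMul w)).toMul) e).trans (hg u')))
    change τ • ((g u).1 (.ofMul (τ⁻¹ • w))).toMul = _
    rw [show τ⁻¹ • w = w from hw (inv_mem (mem_zpowers τ))]
    exact (congrArg (τ • ·) (hg u)).trans ((u.2 (mem_zpowers τ)).trans (hg u).symm)

end GT
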