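import Cfsg.Agent.Lib.Grp.Thompson
import Cfsg.Agent.Lib.Grp.FpfFour

/-!
# Groups whose derived subgroup is a normal subgroup together with one conjugacy class
-/

set_option autoImplicit false
set_option linter.unusedSectionVars false
set_option linter.style.haveILetI false

namespace GT

open Cfsg Subgroup
open scoped Pointwise commutatorElement

variable {Γ : Type*} [Group Γ] [Finite Γ] {Γ' : Type*} [Group Γ'] [Finite Γ']

omit [Finite Γ] in
theorem commutatorElement_mem_commutator' (a b : Γ) : ⁅a, b⁆ ∈ commutator Γ :=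
  commutator_mem_commutator (mem_top a) (mem_top b)

omit [Finite Γ] [Finite Γ'] in
theorem map_commutator_of_surjective' {f : Γ →* Γ'} (hf : Function.Surjective f) :
    (commutator Γ).map f = commutator Γ' := by
  rw [map_commutator_eq, MonoidHom.range_eq_top.2 hf]; rfl

omit [Finite Γ] [Finite Γ'] in
theorem mem_map_iff_of_ker_le {f : Γ →* Γ'} {T : Subgroup Γ} (h : f.ker ≤ T) {y : Γ} :
    f y ∈ T.map f ↔ y ∈ T := by
  rw [← mem_comap, comap_map_eq, sup_of_le_left h]

theorem exists_prime_pow_primitive {p n : ℕ} (hp : 1 < p) (hn : 1 < n) :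
    ∃ l j : ℕ, l.Prime ∧ l ^ (j + 1) ∣ p ^ n - 1 ∧
      ∀ d, 0 < d → d < n → ¬ l ^ (j + 1) ∣ p ^ d - 1 := by
  have h1 := Polynomial.sub_one_lt_natAbs_cyclotomic_eval hn hp.ne'
  set c := ((Polynomial.cyclotomic n ℤ).eval (p : ℤ)).natAbs
  obtain ⟨l, hl, hlc⟩ := Nat.exists_prime_and_dvd (show c ≠ 1 by omega)
  have hd : ∀ d ∈ n.properDivisors, (p ^ d - 1) * c ∣ p ^ n - 1 := fun d hd => by
    have := map_dvd (Polynomial.evalRingHom (p : ℤ))
      (Polynomial.X_pow_sub_one_mul_cyclotomic_dvd_X_pow_sub_one_of_dvd ℤ hd)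
    have h2 : ∀ k, ((p : ℤ) ^ k - 1).natAbs = p ^ k - 1 := fun k => by
      rw [← Nat.cast_pow, ← Nat.cast_one, ← Nat.cast_sub (Nat.one_le_pow _ _ (by omega)),
        Int.natAbs_natCast]
    have := Int.natAbs_dvd_natAbs.2 this
    simpa [Int.natAbs_mul, h2] using this
  have h0 : p ^ n - 1 ≠ 0 := Nat.sub_ne_zero_of_lt (Nat.one_lt_pow (by omega) hp)
  have h3 : l ∣ p ^ n - 1 := (hlc.mul_left _).trans
    (hd 1 (Nat.mem_properDivisors.2 ⟨one_dvd _, hn⟩))
  obtain ⟨j, hj⟩ : ∃ j, (p ^ n - 1).factorization l = j + 1 :=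
    ⟨_, (Nat.succ_pred_eq_of_pos (hl.factorization_pos_of_dvd h0 h3)).symm⟩
  have h4 : l ^ (j + 1) ∣ p ^ n - 1 := hj ▸ Nat.ordProj_dvd _ _
  refine ⟨l, j, hl, h4, fun d hd0 hdn h5 => ?_⟩
  have h6 := Nat.dvd_gcd h5 h4
  rw [Nat.pow_sub_one_gcd_pow_sub_one] at h6
  have h7 := (mul_dvd_mul h6 hlc).trans (hd _ (Nat.mem_properDivisors.2
    ⟨Nat.gcd_dvd_right d n, (Nat.gcd_le_left n hd0).trans_lt hdn⟩))
  rw [← pow_succ, ← hj] at h7
  exact Nat.pow_succ_factorization_not_dvd h0 hl h7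

theorem exists_fixed_of_pair' {U : Subgroup Γ} [IsMulCommutative U] (hU : U ≠ ⊥) {x y : Γ} {q : ℕ}
    (hq : 0 < q) (hc : (Nat.card U).Coprime q) (hxn : x ∈ normalizer (U : Set Γ))
    (hyn : y ∈ normalizer (U : Set Γ)) (hxy : ⁅x, y⁆ ∈ centralizer (U : Set Γ))
    (hx : x ^ q ∈ centralizer (U : Set Γ)) (hy : y ^ q ∈ centralizer (U : Set Γ)) :
    ∃ z, ((∃ j : ℕ, z = x * y ^ j) ∨ ∃ i, 0 < i ∧ i < q ∧ z = y ^ i) ∧
      ∃ u ∈ U, u ≠ 1 ∧ u * z = z * u := by
  open scoped IsMulCommutative in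
  by_contra hn
  push Not at hn
  have key : ∀ z : normalizer (U : Set Γ), (∀ u ∈ U, u ≠ 1 → u * z ≠ z * u) →
      ∀ u, U.normalizerMonoidHom z u = u → u = 1 := fun z hz u hu => by
    by_contra h1
    refine hz u u.2 (fun h => h1 (Subtype.ext h)) ?_
    have : (z : Γ) * u * (z : Γ)⁻¹ = u := congrArg Subtype.val hu
    rw [mul_inv_eq_iff_eq_mul] at this
    exact this.symm
  have hker : ∀ z : normalizer (U : Set Γ), (z : Γ) ∈ centralizer (U : Set Γ) →
      U.normalizerMonoidHom z = 1 := fun z hz => by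
    rw [← MonoidHom.mem_ker, normalizerMonoidHom_ker]; exact hz
  refine hU (eq_bot_iff.2 fun u hu => ?_)
  have := pow_eq_one_of_fpf_pair (x := U.normalizerMonoidHom ⟨x, hxn⟩)
    (y := U.normalizerMonoidHom ⟨y, hyn⟩) hq
    (by rw [← commutatorElement_eq_one_iff_commute, ← map_commutatorElement]; exact hker _ hxy)
    (by rw [← map_pow]; exact hker _ hx) (by rw [← map_pow]; exact hker _ hy)
    (fun j => by rw [← map_pow, ← map_mul]; exact key _ (hn _ (Or.inl ⟨j, rfl⟩)))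
    (fun i h0 hi => by rw [← map_pow]; exact key _ (hn _ (Or.inr ⟨i, h0, hi, rfl⟩))) ⟨u, hu⟩
  exact congrArg Subtype.val ((powCoprime hc).injective (a₁ := ⟨u, hu⟩) (a₂ := 1)
    (by simpa using this))

theorem le_centralizer_of_card_lt_pow {p l j n : ℕ} [hp : Fact p.Prime] (hl : l.Prime)
    (hlp : l ≠ p) (hd : ∀ d, 0 < d → d < n → ¬ l ^ (j + 1) ∣ p ^ d - 1) {τ : Γ}
    (hτ : τ ^ l ^ (j + 1) = 1) {N : Subgroup Γ} [IsMulCommutative N] (hN : IsPGroup p N)
    (hn : τ ∈ normalizer (N : Set Γ)) (hc : Nat.card N < p ^ n) :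
    N ≤ centralizer (zpowers (τ ^ l ^ j) : Set Γ) := by
  have := Fact.mk hl
  by_cases ha : τ ^ l ^ j = 1
  · rw [ha, centralizer_zpowers]
    exact fun x _ => mem_centralizer_singleton_iff.2 (by simp)
  have ho : orderOf τ = l ^ (j + 1) := orderOf_eq_prime_pow ha hτ
  have hal : (τ ^ l ^ j) ^ l = 1 := by rw [← pow_mul, ← pow_succ, hτ]
  have hca := card_zpowers_of_pow_eq_one hal ha
  have hle : zpowers (τ ^ l ^ j) ≤ zpowers τ := zpowers_le.2 (pow_mem (mem_zpowers τ) _)
  have hact : CoprimeAct (zpowers (τ ^ l ^ j)) N := coprimeAct_of_isPGroup_right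
    (hle.trans (zpowers_le.2 hn)) hN (by
      rw [hca]; exact fun h => hlp ((Nat.prime_dvd_prime_iff_eq hp.out hl).1 h).symm)
  have hτp : IsPGroup l (zpowers τ) := IsPElt.isPGroup_zpowers ⟨_, ho⟩
  have hF : FrobAct (zpowers τ) ⁅N, zpowers (τ ^ l ^ j)⁆ :=
    ⟨le_normalizer_commutator (zpowers_le.2 hn) (le_normalizer_of_le_centralizer
      fun _ hx _ hy => setLike_mul_comm (hle hy) hx), fun h hh h1 y hy e => by
      have h2 : zpowers (τ ^ l ^ j) ≤ zpowers h := le_of_card_dvd_of_isCyclic hle (zpowers_le.2 hh)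
        (hca.dvd.trans (dvd_card_of_isPGroup_of_ne_bot (hτp.to_le (zpowers_le.2 hh))
          (by rwa [Ne, zpowers_eq_bot])))
      refine hact.disjoint_commutator_centralizer.eq_bot.le ⟨hy, centralizer_anti h2 ?_⟩
      rw [centralizer_zpowers]
      exact mem_centralizer_singleton_iff.2 e⟩
  have h1 := hF.card_dvd_sub_one
  obtain ⟨d, hd'⟩ := IsPGroup.iff_card.1 (hN.to_le hact.commutator_le)
  rw [Nat.card_zpowers, ho, hd'] at h1
  have h2 : d = 0 := by
    by_contra h0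
    refine hd d (Nat.pos_of_ne_zero h0) ((Nat.pow_lt_pow_iff_right hp.out.one_lt).1 ?_) h1
    exact hd' ▸ (card_le_of_le hact.commutator_le).trans_lt hc
  rw [h2, pow_zero, card_eq_one] at hd'
  exact commutator_eq_bot_iff_le_centralizer.1 hd'

theorem card_inf_centralizer_mul_le {S T : Subgroup Γ} {x : Γ}
    (h : ∀ t ∈ T, ∃ u ∈ S, u * x * u⁻¹ = t * x) :
    Nat.card ↥(centralizer {x} ⊓ S) * Nat.card T ≤ Nat.card S := by
  rw [← card_inf_mul_relIndex (centralizer {x}) S]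
  refine Nat.mul_le_mul_left _ ?_
  choose u hu e using h
  refine Nat.card_le_card_of_injective (fun t : T => (QuotientGroup.mk ⟨u t t.2, hu t t.2⟩ :
    S ⧸ (centralizer {x}).subgroupOf S)) fun s t hst => Subtype.ext ?_
  have h1 : (u s s.2)⁻¹ * u t t.2 * x = x * ((u s s.2)⁻¹ * u t t.2) :=
    mem_centralizer_singleton_iff.1 (mem_subgroupOf.1 (QuotientGroup.eq.1 hst))
  refine mul_right_cancel (b := x) ?_
  rw [← e s s.2, ← e t t.2]
  calc _ = u s s.2 * (x * ((u s s.2)⁻¹ * u t t.2)) * (u t t.2)⁻¹ := by group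
    _ = _ := by rw [← h1]; group

/-- The derived subgroup is the union of the normal subgroup `T` and the class of `g`, and the
centre of `Γ / T` lies in the derived subgroup. -/
structure OneCl (T : Subgroup Γ) (g : Γ) : Prop where
  normal : T.Normal
  le : T ≤ commutator Γ
  mem : g ∈ commutator Γ
  nmem : g ∉ T
  conj : ∀ y ∈ commutator Γ, y ∉ T → IsConj g y
  cent : ∀ u, (∀ v, ⁅u, v⁆ ∈ T) → u ∈ commutator Γ

namespace OneCl

variable {T : Subgroup Γ} {g : Γ}

theorem map (h : OneCl T g) {f : Γ →* Γ'} (hf : Function.Surjective f) (hk : f.ker ≤ T) :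
    OneCl (T.map f) (f g) where
  normal := h.normal.map f hf
  le := map_commutator_of_surjective' hf ▸ map_mono h.le
  mem := map_commutator_of_surjective' hf ▸ mem_map_of_mem f h.mem
  nmem := mt (mem_map_iff_of_ker_le hk).1 h.nmem
  conj := fun y hy hT => by
    rw [← map_commutator_of_surjective' hf] at hy
    obtain ⟨y, hy, rfl⟩ := hy
    exact f.map_isConj (h.conj y hy (mt (mem_map_of_mem f) hT))
  cent := fun u hu => by
    obtain ⟨u, rfl⟩ := hf u
    rw [← map_commutator_of_surjective' hf]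
    exact mem_map_of_mem f (h.cent u fun v => (mem_map_iff_of_ker_le hk).1
      (by rw [map_commutatorElement]; exact hu _))

theorem map_mk (h : OneCl T g) (A : Subgroup Γ) [A.Normal] (hA : A ≤ T) :
    OneCl (T.map (QuotientGroup.mk' A)) (QuotientGroup.mk' A g) :=
  h.map (QuotientGroup.mk'_surjective A) (by rwa [QuotientGroup.ker_mk'])

theorem quot (h : OneCl T g) [T.Normal] : OneCl ⊥ (QuotientGroup.mk' T g) := by
  have := h.map_mk T le_rfl
  rwa [map_mk'_eq_bot_iff.2 le_rfl] at this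

theorem of_mem (h : OneCl T g) {x : Γ} (hx : x ∈ commutator Γ) (hT : x ∉ T) : OneCl T x :=
  ⟨h.normal, h.le, hx, hT, fun y h1 h2 => (h.conj x hx hT).symm.trans (h.conj y h1 h2), h.cent⟩

theorem bot_elem (h : OneCl ⊥ g) : ∃ p : ℕ, p.Prime ∧ IsElementaryAbelian p (commutator Γ) := by
  have hg : g ≠ 1 := h.nmem
  obtain ⟨p, hp, hd⟩ := Nat.exists_prime_and_dvd (mt orderOf_eq_one_iff.1 hg)
  have := Fact.mk hp
  obtain ⟨y, hy, hyo⟩ := exists_mem_orderOf_eq (p := p) (H := zpowers g) (by rwa [Nat.card_zpowers])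
  have ho : orderOf g = p := (orderOf_eq_of_isConj (h.conj y (zpowers_le.2 h.mem hy)
    fun e => hp.one_lt.ne' (by rw [← hyo, mem_bot.1 e, orderOf_one]))).trans hyo
  have hpow : ∀ a ∈ commutator Γ, a ^ p = 1 := fun a ha => by
    by_cases h1 : a = 1
    · rw [h1, one_pow]
    · rw [← ho, orderOf_eq_of_isConj (h.conj a ha h1), pow_orderOf_eq_one]
  have hS : IsPGroup p (commutator Γ) := fun a => ⟨1, Subtype.ext (by simpa using hpow a a.2)⟩
  obtain ⟨⟨z, hz⟩, hz1⟩ := ne_bot_iff_exists_ne_one.1 (inf_centralizer_ne_bot_of_isPGroup hS hS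
    (fun e => hg (e.le h.mem)) le_normalizer)
  refine ⟨p, hp, isMulCommutative_iff_forall.2 fun a ha b hb => ?_, hpow⟩
  by_cases h1 : b = 1
  · simp [h1]
  obtain ⟨c, rfl⟩ := isConj_iff.1 ((h.conj z hz.1 fun e => hz1 (Subtype.ext e)).symm.trans
    (h.conj b hb h1))
  exact (Normal.conj_mem inferInstance z hz.2 c : _ ∈ centralizer _) a ha

theorem exists_prime (h : OneCl T g) : ∃ p : ℕ, p.Prime ∧
    (∀ a ∈ commutator Γ, ∀ b ∈ commutator Γ, ⁅a, b⁆ ∈ T) ∧ ∀ a ∈ commutator Γ, a ^ p ∈ T := by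
  have := h.normal
  obtain ⟨p, hp, hc, hpow⟩ := h.quot.bot_elem
  have hm : ∀ a ∈ commutator Γ, QuotientGroup.mk' T a ∈ commutator (Γ ⧸ T) := fun a ha =>
    map_commutator_of_surjective' (QuotientGroup.mk'_surjective T) ▸ mem_map_of_mem _ ha
  refine ⟨p, hp, fun a ha b hb => (QuotientGroup.eq_one_iff _).1 ?_,
    fun a ha => (QuotientGroup.eq_one_iff _).1 (hpow _ (hm a ha))⟩
  change QuotientGroup.mk' T _ = 1
  rw [map_commutatorElement, commutatorElement_eq_one_iff_mul_comm]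
  exact setLike_mul_comm (hm a ha) (hm b hb)

theorem mem_of_isPRegular {p : ℕ} [Fact p.Prime] (hpow : ∀ a ∈ commutator Γ, a ^ p ∈ T) {y : Γ}
    (hy : y ∈ commutator Γ) (hr : IsPRegular p y) : y ∈ T :=
  zpowers_le.2 (hpow y hy) (mem_zpowers_pow_iff.2 (isPRegular_iff_coprime.1 hr).symm)

theorem isPElt (h : OneCl T g) {p : ℕ} [Fact p.Prime] (hpow : ∀ a ∈ commutator Γ, a ^ p ∈ T) :
    IsPElt p g :=
  (isPElt_pPart p g).of_isConj (h.conj _ (pPart_mem p h.mem) fun e => h.nmem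
    ((mem_iff_pPart_mem_and_pRegPart_mem p).2 ⟨e, mem_of_isPRegular hpow (pRegPart_mem p h.mem)
      (isPRegular_pRegPart p g)⟩)).symm

section Central

theorem mul_mem_of_central (h : OneCl T g) (hc : ∀ s ∈ commutator Γ, ∀ v, ⁅s, v⁆ ∈ T) {a b : Γ}
    (ha : a ∈ commutator Γ) (hb : b ∈ commutator Γ) (ha' : a ∉ T) (hb' : b ∉ T) : a * b ∈ T := by
  have key : ∀ a ∈ commutator Γ, a ∉ T → ∀ b ∈ commutator Γ, b ∉ T → a * b⁻¹ ∈ T :=
    fun a ha ha' b hb hb' => by
      obtain ⟨c, rfl⟩ := isConj_iff.1 ((h.of_mem ha ha').conj b hb hb')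
      have := hc a ha c
      rwa [commutatorElement_def, show a * c * a⁻¹ * c⁻¹ = a * (c * a * c⁻¹)⁻¹ by group] at this
  simpa using key a ha ha' b⁻¹ (inv_mem hb) (by simpa using hb')

theorem sq_mem_of_central (h : OneCl T g) (hc : ∀ s ∈ commutator Γ, ∀ v, ⁅s, v⁆ ∈ T) (u : Γ) :
    u * u ∈ commutator Γ := by
  refine h.cent _ fun v => ?_
  have h1 := commutatorElement_mem_commutator' u v
  have h2 : ⁅u * u, v⁆ = (⁅⁅u, v⁆, u⁆)⁻¹ * (⁅u, v⁆ * ⁅u, v⁆) := by
    simp [commutatorElement_def, mul_assoc]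
  rw [h2]
  refine mul_mem (inv_mem (hc _ h1 u)) ?_
  by_cases h3 : ⁅u, v⁆ ∈ T
  · exact mul_mem h3 h3
  · exact h.mul_mem_of_central hc h1 h1 h3 h3

theorem exists_cyclic (h : OneCl T g) (hc : ∀ s ∈ commutator Γ, ∀ v, ⁅s, v⁆ ∈ T)
    (h2 : Nat.card T = 2) : ∃ c : Γ, g ∈ zpowers c ∧
      ∀ u ∉ zpowers c, ∀ v ∉ zpowers c, u * v ∈ zpowers c := by
  have := h.normal
  obtain ⟨⟨z, hz⟩, hz1, hzu⟩ := (Nat.card_eq_two_iff' (1 : T)).1 h2
  have hz1' : z ≠ 1 := fun e => hz1 (Subtype.ext e)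
  have hT : ∀ t ∈ T, t = 1 ∨ t = z := fun t ht => or_iff_not_imp_left.2 fun e =>
    congrArg Subtype.val (hzu ⟨t, ht⟩ fun e' => e (congrArg Subtype.val e'))
  have hzc : ∀ u, u * z = z * u := mem_center_iff.1 (le_center_of_card_eq_two h2 hz)
  have hzz : z * z = 1 := (hT _ (mul_mem hz hz)).resolve_right fun e => hz1' (by simpa using e)
  have hS : ∀ s ∈ commutator Γ, s ∉ T → s = g ∨ s = z * g := fun s hs hs' => by
    rcases hT _ (h.mul_mem_of_central hc hs (inv_mem h.mem) hs' (by simpa using h.nmem)) with e | e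
    · exact Or.inl (mul_inv_eq_one.1 e)
    · exact Or.inr (mul_inv_eq_iff_eq_mul.1 e)
  have hout : ∀ u, u * g ≠ g * u → u * g * u⁻¹ = z * g := fun u hu =>
    (hS _ (Normal.conj_mem inferInstance g h.mem u) fun e => h.nmem (by
      simpa [mul_assoc] using this.conj_mem _ e u⁻¹)).resolve_left
      fun e => hu (mul_inv_eq_iff_eq_mul.1 e)
  have hmul : ∀ u v, u * g ≠ g * u → v * g ≠ g * v → u * v * g = g * (u * v) := fun u v hu hv => by
    rw [← mul_inv_eq_iff_eq_mul]
    calc _ = u * (v * g * v⁻¹) * u⁻¹ := by group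
      _ = z * (u * g * u⁻¹) := by rw [hout v hv, ← mul_assoc, hzc]; group
      _ = g := by rw [hout u hu, ← mul_assoc, hzz, one_mul]
  have hCS : ∀ b, b * g = g * b → ∀ s ∈ commutator Γ, b * s = s * b := fun b hb s hs => by
    by_cases hs' : s ∈ T
    · rcases hT s hs' with rfl | rfl
      · simp
      · exact hzc b
    · rcases hS s hs hs' with rfl | rfl
      · exact hb
      · rw [← mul_assoc, hzc, mul_assoc, hb, mul_assoc]
  obtain ⟨y, hy⟩ := isConj_iff.1 (h.conj (z * g) (mul_mem (h.le hz) h.mem) fun e =>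
    h.nmem ((mul_mem_cancel_left hz).1 e))
  have hy' : y * g ≠ g * y := fun e => hz1' (by
    rw [e, mul_inv_cancel_right] at hy; simpa using hy.symm)
  have hyi : y⁻¹ * g ≠ g * y⁻¹ := fun e => hy' (by
    have : Commute y⁻¹ g := e
    simpa using this.inv_left.eq)
  have hnc : ∀ s ∈ commutator Γ, y * s = s * y → s ∈ T := fun s hs e => by
    by_contra hs'
    rcases hS s hs hs' with rfl | rfl
    · exact hy' e
    · rw [← mul_assoc, hzc, mul_assoc, mul_assoc] at e
      exact hy' (mul_left_cancel e)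
  have hCC : ∀ b c, b * g = g * b → c * g = g * c → ⁅b, c⁆ ∈ T := fun b c hb hc' => by
    have h1 : ⁅centralizer ({g} : Set Γ), centralizer {g}⁆ ≤ centralizer ((⊤ : Subgroup Γ) : Set Γ) :=
      commutator_le_centralizer_of_rotate
        (fun s hs b hb => hCS b (mem_centralizer_singleton_iff.1 hb) s (commutator_mono le_top le_top hs))
        (fun s hs b hb => hCS b (mem_centralizer_singleton_iff.1 hb) s (commutator_mono le_top le_top hs))
    exact hnc _ (commutatorElement_mem_commutator' b c) (h1 (commutator_mem_commutator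
      (mem_centralizer_singleton_iff.2 hb) (mem_centralizer_singleton_iff.2 hc')) y (mem_top y))
  have hcent : ∀ b, b * g = g * b → ⁅b, y⁆ ∈ T → b ∈ commutator Γ := fun b hb hby =>
    h.cent b fun v => by
      by_cases hv : v * g = g * v
      · exact hCC b v hb hv
      · have h1 := hCC b _ hb (hmul v y⁻¹ hv hyi)
        have : ⁅b, v⁆ = ⁅b, v * y⁻¹⁆ * (v * y⁻¹ * ⁅b, y⁆ * (v * y⁻¹)⁻¹) := by
          simp only [commutatorElement_def]; group
        rw [this]
        exact mul_mem h1 (h.normal.conj_mem _ hby _)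
  obtain ⟨c, hcg, hcy⟩ : ∃ c, c * g = g * c ∧ ⁅c, y⁆ ∉ T := by
    by_contra hn
    push Not at hn
    refine h.nmem ((commutator_le.2 fun u _ v _ => ?_ : commutator Γ ≤ T) h.mem)
    by_cases hu : u * g = g * u
    · exact hc u (hcent u hu (hn u hu)) v
    · have h1 := hmul u y⁻¹ hu hyi
      have h3 : ⁅y, v⁆ ∈ T := by
        by_cases hv : v * g = g * v
        · rw [← commutatorElement_inv]; exact inv_mem (hn v hv)
        · have h4 := hn _ (hmul v y⁻¹ hv hyi)
          have : ⁅y, v⁆ = ⁅v * y⁻¹, y⁆⁻¹ := by simp only [commutatorElement_def]; group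
          rw [this]; exact inv_mem h4
      have : ⁅u, v⁆ = u * y⁻¹ * ⁅y, v⁆ * (u * y⁻¹)⁻¹ * ⁅u * y⁻¹, v⁆ := by
        simp only [commutatorElement_def]; group
      rw [this]
      exact mul_mem (h.normal.conj_mem _ h3 _) (hc _ (hcent _ h1 (hn _ h1)) v)
  have hw := commutatorElement_mem_commutator' c y
  have hC : ∀ b, b * g = g * b → b ∈ commutator Γ ∨ b * c ∈ commutator Γ := fun b hb => by
    by_cases hby : ⁅b, y⁆ ∈ T
    · exact Or.inl (hcent b hb hby)
    · refine Or.inr (hcent _ ((Commute.mul_left hb hcg : Commute _ _)) ?_)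
      have : ⁅b * c, y⁆ = b * ⁅c, y⁆ * b⁻¹ * ⁅b, y⁆ := by simp only [commutatorElement_def]; group
      rw [this, hCS b hb _ hw, mul_inv_cancel_right]
      exact h.mul_mem_of_central hc hw (commutatorElement_mem_commutator' b y) hcy hby
  have hCc : ∀ b, b * g = g * b → Commute c b := fun b hb => by
    rcases hC b hb with e | e
    · exact hCS c hcg b e
    · have : Commute c (b * c) := hCS c hcg _ e
      simpa using this.mul_right (Commute.refl c).inv_right
  have hyy : Commute c (y * y) := hCc _ (hmul y y hy' hy')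
  have hc' : Commute c (y * c * y⁻¹) := hCc _ (by
    refine hmul (y * c) y⁻¹ (fun e => hy' ?_) hyi
    have h1 : Commute (y * c) g := e
    have h3 : Commute c g := hcg
    simpa using (h1.mul_left h3.inv_left).eq)
  have hcc : y * (y * c * y⁻¹) * y⁻¹ = c := by
    calc _ = y * y * c * (y * y)⁻¹ := by group
      _ = c := by rw [← hyy.eq, mul_inv_cancel_right]
  have hwe : ⁅c, y⁆ = c * (y * c * y⁻¹)⁻¹ := by simp only [commutatorElement_def]; group
  have hwz : ⁅c, y⁆ * ⁅c, y⁆ = z := by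
    have h1 : y * ⁅c, y⁆ * y⁻¹ = ⁅c, y⁆⁻¹ := by
      rw [hwe, ← conj_mul, ← conj_inv, hcc]; group
    have h3 : y * ⁅c, y⁆ * y⁻¹ = z * ⁅c, y⁆ := by
      rcases hS _ hw hcy with e | e
      · rw [e, hy]
      · rw [e, ← conj_mul, hy, hzc y, mul_inv_cancel_right]
    rw [h1, inv_eq_iff_mul_eq_one, ← mul_assoc, hzc, mul_assoc, ← hzz] at h3
    exact mul_left_cancel h3
  have hd : c * (y * c * y⁻¹) ∈ T := by
    have h1 : y * (c * (y * c * y⁻¹)) = c * (y * c * y⁻¹) * y := by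
      rw [← mul_inv_eq_iff_eq_mul, ← conj_mul, hcc, hc'.eq]
    refine hnc _ ?_ h1
    have : c * (y * c * y⁻¹) = c * c * ⁅c⁻¹, y⁆ := by simp only [commutatorElement_def]; group
    rw [this]
    exact mul_mem (h.sq_mem_of_central hc c) (commutatorElement_mem_commutator' _ _)
  have hc2 : c * c = ⁅c, y⁆ * (c * (y * c * y⁻¹)) := by
    rw [hwe, hc'.eq]; group
  have hzm : z ∈ zpowers c := by
    have : c * c * (c * c) = z := by
      rw [hc2]
      rcases hT _ hd with e | e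
      · rw [e, mul_one, hwz]
      · rw [e, ← hwz, hwz, mul_assoc, ← mul_assoc z, ← hzc, mul_assoc, hzz, mul_one, hwz]
    exact this ▸ mul_mem (mul_mem (mem_zpowers c) (mem_zpowers c))
      (mul_mem (mem_zpowers c) (mem_zpowers c))
  have hTm : T ≤ zpowers c := fun t ht => (hT t ht).elim (fun e => e ▸ one_mem _) fun e => e ▸ hzm
  have hwm : ⁅c, y⁆ ∈ zpowers c := (mul_mem_cancel_right (hTm hd)).1
    (hc2 ▸ mul_mem (mem_zpowers c) (mem_zpowers c))
  have hSm : commutator Γ ≤ zpowers c := fun s hs => by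
    by_cases hs' : s ∈ T
    · exact hTm hs'
    · exact (mul_mem_cancel_right hwm).1 (hTm (h.mul_mem_of_central hc hs hw hs' hcy))
  have hCm : ∀ b, b * g = g * b → b ∈ zpowers c := fun b hb => (hC b hb).elim (fun e => hSm e)
    fun e => (mul_mem_cancel_right (mem_zpowers c)).1 (hSm e)
  exact ⟨c, hSm h.mem, fun u hu v hv => hCm _ (hmul u v (mt (hCm u) hu) (mt (hCm v) hv))⟩

theorem pow_four_of_central (h : OneCl T g) (hc : ∀ s ∈ commutator Γ, ∀ v, ⁅s, v⁆ ∈ T)
    (hΓ : IsPGroup 2 Γ) : g * g * (g * g) = 1 := by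
  have := h.normal
  have hgg : g * g ∈ T := h.mul_mem_of_central hc h.mem h.mem h.nmem h.nmem
  by_cases hT : T = ⊥
  · rw [show g * g = 1 from hT.le hgg, one_mul]
  obtain ⟨A, hAn, -, hAT, hA2, -⟩ := exists_normal_relIndex_eq_of_lt' hΓ (bot_lt_iff_ne_bot.2 hT)
  by_cases hA : A = ⊥
  · rw [hA, relIndex_bot_left] at hA2
    rw [← sq, ← hA2]
    exact orderOf_dvd_iff_pow_eq_one.1 (orderOf_dvd_natCard T hgg)
  obtain ⟨B, hBn, -, hBA, hB2, hB⟩ := exists_normal_relIndex_eq_of_lt' hΓ (bot_lt_iff_ne_bot.2 hA)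
  exfalso
  have hf := QuotientGroup.mk'_surjective A
  obtain ⟨c, hgc, hc2⟩ := (h.map_mk A hAT).exists_cyclic (fun s hs v => by
    rw [← map_commutator_of_surjective' hf] at hs
    obtain ⟨s, hs, rfl⟩ := hs
    obtain ⟨v, rfl⟩ := hf v
    rw [← map_commutatorElement]
    exact mem_map_of_mem _ (hc s hs v)) (by rw [card_map_mk', hA2])
  obtain ⟨c, rfl⟩ := hf c
  have hdec : ∀ u, QuotientGroup.mk' A u ∈ zpowers (QuotientGroup.mk' A c) →
      ∃ a ∈ A, ∃ k : ℤ, u = a * c ^ k := fun u ⟨k, hk⟩ => ⟨u * (c ^ k)⁻¹, by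
    rw [← QuotientGroup.eq_one_iff]
    change QuotientGroup.mk' A _ = 1
    rw [map_mul, map_inv, map_zpow, mul_inv_eq_one]
    exact hk.symm, k, by group⟩
  have hcen : ∀ a ∈ A, ∀ u, Commute (QuotientGroup.mk' B a) (QuotientGroup.mk' B u) :=
    fun a ha u => by
      rw [← commutatorElement_eq_one_iff_commute, ← map_commutatorElement]
      exact (QuotientGroup.eq_one_iff _).2 (hB (commutator_mem_commutator ha (mem_top u)))
  have hD : ∀ u, QuotientGroup.mk' A u ∈ zpowers (QuotientGroup.mk' A c) →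
      QuotientGroup.mk' B (u * g * u⁻¹) = QuotientGroup.mk' B g := fun u hu => by
    obtain ⟨a, ha, k, rfl⟩ := hdec u hu
    obtain ⟨b, hb, m, e⟩ := hdec g hgc
    have : Commute (QuotientGroup.mk' B (a * c ^ k)) (QuotientGroup.mk' B g) := by
      rw [map_mul]
      refine (hcen a ha g).mul_left ?_
      rw [e, map_mul]
      exact (hcen b hb _).symm.mul_right (((Commute.refl c).zpow_zpow k m).map _)
    rw [map_mul, map_mul, this.eq, map_inv, mul_inv_cancel_right]
  obtain ⟨a, ha, haB⟩ : ∃ a ∈ A, a ∉ B := by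
    by_contra hn
    push Not at hn
    rw [relIndex_eq_one.2 hn] at hB2
    omega
  obtain ⟨t, ht, htA⟩ : ∃ t ∈ T, t ∉ A := by
    by_contra hn
    push Not at hn
    rw [relIndex_eq_one.2 hn] at hA2
    omega
  have hconj : ∀ t ∈ T, t ∉ B → ∃ u, u * g * u⁻¹ = t * g ∧
      QuotientGroup.mk' A u ∉ zpowers (QuotientGroup.mk' A c) := fun t ht htB => by
    obtain ⟨u, hu⟩ := isConj_iff.1 (h.conj (t * g) (mul_mem (h.le ht) h.mem) fun e =>
      h.nmem ((mul_mem_cancel_left ht).1 e))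
    refine ⟨u, hu, fun e => htB ((QuotientGroup.eq_one_iff t).1 ?_)⟩
    have := hD u e
    rwa [hu, map_mul, mul_eq_right] at this
  obtain ⟨u, hu, hu'⟩ := hconj a (hAT ha) haB
  obtain ⟨v, hv, hv'⟩ := hconj t ht (mt (fun e => hBA e) htA)
  have h1 := hD (v⁻¹ * u) (by rw [map_mul, map_inv]; exact hc2 _ (by simpa using hv') _ hu')
  have h2 : QuotientGroup.mk' B (a * g) = QuotientGroup.mk' B (t * g) := by
    rw [← hu, ← hv, map_mul _ (v * g), map_mul _ v, ← h1, ← map_mul, ← map_mul]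
    congr 1; group
  rw [map_mul, map_mul, mul_left_inj] at h2
  exact htA ((mul_mem_cancel_left (inv_mem ha)).1 (hBA (QuotientGroup.eq.1 h2)))

end Central

theorem bot_noncentral (h : OneCl ⊥ g) {s v : Γ} (hs : s ∈ commutator Γ) (hv : ⁅s, v⁆ ≠ 1) :
    (∀ n ∈ commutator Γ, n ≠ 1 → centralizer {n} ≤ commutator Γ) ∧
      ∃ e : Γ, orderOf e + 1 = Nat.card (commutator Γ) ∧ FrobAct (zpowers e) (commutator Γ) := by
  obtain ⟨p, -, hS, -⟩ := h.bot_elem
  have h1 : ∀ n ∈ commutator Γ, n ≠ 1 → ∀ e, e * n = n * e → ∀ m ∈ commutator Γ, m * e = e * m := by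
    intro n hn hn1 e he m hm
    by_cases hm1 : m = 1
    · simp [hm1]
    obtain ⟨u, rfl⟩ := isConj_iff.1 ((h.of_mem hn hn1).conj m hm hm1)
    have h2 : ⁅e, u⁆ * (u * n * u⁻¹) = (u * n * u⁻¹) * ⁅e, u⁆ :=
      setLike_mul_comm (commutatorElement_mem_commutator' e u) hm
    symm
    rw [← mul_inv_eq_iff_eq_mul]
    calc _ = ⁅e, u⁆ * (u * (e * n * e⁻¹) * u⁻¹) * ⁅e, u⁆⁻¹ := by
          simp only [commutatorElement_def]; group
      _ = _ := by rw [he, mul_inv_cancel_right, h2, mul_inv_cancel_right]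
  have hfpf : ∀ n ∈ commutator Γ, n * v = v * n → n = 1 := fun n hn e => by_contra fun hn1 =>
    hv (commutatorElement_eq_one_iff_mul_comm.2 (h1 n hn hn1 v e.symm s hs))
  have h2 : ∀ c, (∀ m ∈ commutator Γ, m * c = c * m) → c ∈ commutator Γ := fun c hc => by
    obtain ⟨k, hk, e⟩ := exists_commutator_eq_of_fpf (N := commutator Γ)
      (le_normalizer_of_normal (mem_top v)) hfpf (commutatorElement_mem_commutator' c v)
    refine (mul_mem_cancel_left (inv_mem hk)).1 (h.cent _ fun u => ?_)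
    have h3 : v * (k⁻¹ * c) = k⁻¹ * c * v := by
      calc _ = k⁻¹ * ⁅k, v⁆ * v * c := by simp only [commutatorElement_def]; group
        _ = _ := by rw [e]; simp only [commutatorElement_def]; group
    have h4 : ∀ m ∈ commutator Γ, m * (k⁻¹ * c) = k⁻¹ * c * m := fun m hm =>
      ((Commute.inv_right (setLike_mul_comm hm hk : Commute m k)).mul_right (hc m hm)).eq
    generalize k⁻¹ * c = d at h3 h4
    rw [← commutatorElement_inv, inv_mem_iff, mem_bot]
    refine hfpf _ (commutatorElement_mem_commutator' u d) ?_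
    have h5 := h4 _ (commutatorElement_mem_commutator' v u)
    have h6 : ⁅v, u⁆ * (u * d * u⁻¹) = (u * d * u⁻¹) * ⁅v, u⁆ := by
      have := h4 (u⁻¹ * ⁅v, u⁆ * u) (by
        simpa using Normal.conj_mem inferInstance _ (commutatorElement_mem_commutator' v u) u⁻¹)
      calc _ = u * (u⁻¹ * ⁅v, u⁆ * u * d) * u⁻¹ := by group
        _ = _ := by rw [this]; group
    have h7 : v * (u * d * u⁻¹) * v⁻¹ = u * d * u⁻¹ := by
      calc _ = ⁅v, u⁆ * (u * (v * d * v⁻¹) * u⁻¹) * ⁅v, u⁆⁻¹ := by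
            simp only [commutatorElement_def]; group
        _ = _ := by rw [h3, mul_inv_cancel_right, h6, mul_inv_cancel_right]
    have h8 : Commute v (u * d * u⁻¹) := mul_inv_eq_iff_eq_mul.1 h7
    exact (h8.mul_right (Commute.inv_right h3)).symm
  have h3 : ∀ n ∈ commutator Γ, n ≠ 1 → centralizer {n} ≤ commutator Γ := fun n hn hn1 c hc =>
    h2 c (h1 n hn hn1 c (mem_centralizer_singleton_iff.1 hc))
  refine ⟨h3, ?_⟩
  obtain ⟨H, hF, hsup⟩ := exists_frobAct_of_centralizer_le h3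
  have : IsMulCommutative H := isMulCommutative_iff_forall.2 fun a ha b hb =>
    commutatorElement_eq_one_iff_mul_comm.1 (hF.disjoint.eq_bot.le
      ⟨commutatorElement_mem_commutator' a b, H.mul_mem (H.mul_mem (H.mul_mem ha hb) (H.inv_mem ha))
        (H.inv_mem hb)⟩)
  have hne : commutator Γ ≠ ⊥ := fun e => h.nmem (e ▸ h.mem)
  obtain ⟨e, rfl⟩ := isCyclic_iff_exists_zpowers_eq.1 (hF.isCyclic_of_isMulCommutative hne le_rfl)
  refine ⟨e, ?_, hF⟩
  have h4 := hF.card_lt hne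
  have h5 : Nat.card (commutator Γ) ≤ Nat.card (Option (zpowers e)) := by
    refine Nat.card_le_card_of_surjective (fun o => o.elim 1 fun x =>
      ⟨x * g * (x : Γ)⁻¹, Normal.conj_mem inferInstance g h.mem x⟩) fun y => ?_
    by_cases hy : y = 1
    · exact ⟨none, hy.symm⟩
    obtain ⟨u, hu⟩ := isConj_iff.1 (h.conj y y.2 fun e => hy (Subtype.ext e))
    obtain ⟨n, hn, x, hx, rfl⟩ := (mem_sup_of_le_normalizer_left hF.norm).1 (hsup.ge (mem_top u))
    refine ⟨some ⟨x, hx⟩, Subtype.ext ?_⟩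
    have h6 : n * (x * g * x⁻¹) = (x * g * x⁻¹) * n :=
      setLike_mul_comm hn (Normal.conj_mem inferInstance g h.mem x)
    rw [← hu]
    calc x * g * x⁻¹ = n * (x * g * x⁻¹) * n⁻¹ := by rw [h6, mul_inv_cancel_right]
      _ = _ := by group
  rw [Finite.card_option] at h5
  rw [Nat.card_zpowers] at h4 h5
  omega

theorem structure_of_noncentral (h : OneCl T g) {p : ℕ} [hp : Fact p.Prime]
    (hS : IsPGroup p (commutator Γ)) (hpow : ∀ a ∈ commutator Γ, a ^ p ∈ T) {s v : Γ}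
    (hs : s ∈ commutator Γ) (hv : ⁅s, v⁆ ∉ T) :
    g ^ p = 1 ∨ ((∀ t ∈ T, ∀ s ∈ commutator Γ, s * t = t * s) ∧ (∀ t ∈ T, t ^ p = 1) ∧
      ∃ x ∈ commutator Γ, ∃ y ∈ commutator Γ, (∀ j : ℕ, x * y ^ j ∉ T) ∧ y ∉ T) := by
  have := h.normal
  have hf := QuotientGroup.mk'_surjective T
  have hk : (QuotientGroup.mk' T).ker ≤ commutator Γ := by rw [QuotientGroup.ker_mk']; exact h.le
  have hm : ∀ {a}, QuotientGroup.mk' T a ∈ commutator (Γ ⧸ T) ↔ a ∈ commutator Γ := by
    intro a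
    rw [← map_commutator_of_surjective' hf, mem_map_iff_of_ker_le hk]
  obtain ⟨hC, e, he, hF⟩ := h.quot.bot_noncentral (hm.2 hs) (v := QuotientGroup.mk' T v) (by
    rw [← map_commutatorElement]; exact mt (QuotientGroup.eq_one_iff _).1 hv)
  have hcam : ∀ x ∈ commutator Γ, x ∉ T → ∀ t ∈ T, ∃ u ∈ commutator Γ, u * x * u⁻¹ = t * x := by
    intro x hx hxT t ht
    obtain ⟨u, hu⟩ := isConj_iff.1 ((h.of_mem hx hxT).conj (t * x) (mul_mem (h.le ht) hx)
      fun e => hxT ((mul_mem_cancel_left ht).1 e))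
    refine ⟨u, hm.1 (hC _ (hm.2 hx) (mt (QuotientGroup.eq_one_iff _).1 hxT)
      (mem_centralizer_singleton_iff.2 ?_)), hu⟩
    rw [← mul_inv_eq_iff_eq_mul, ← map_inv, ← map_mul, ← map_mul, hu, map_mul,
      show QuotientGroup.mk' T t = 1 from (QuotientGroup.eq_one_iff _).2 ht, one_mul]
  obtain ⟨n, hn⟩ := hS.exists_relIndex_eq_pow T
  rw [← map_commutator_of_surjective' hf, card_map_mk', hn] at he
  have hbound : ∀ {Δ : Type _} [Group Δ] [Finite Δ] (f : Γ →* Δ), f.ker ≤ T →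
      Nat.card ↥(centralizer {f g} ⊓ (commutator Γ).map f) ≤ p ^ n := fun f hfT => by
    have h1 := card_inf_centralizer_mul_le (S := (commutator Γ).map f) (T := T.map f) (x := f g)
      (by
        rintro _ ⟨t, ht, rfl⟩
        obtain ⟨u, hu, e⟩ := hcam g h.mem h.nmem t ht
        exact ⟨f u, mem_map_of_mem f hu, by rw [← map_mul, ← map_inv, ← map_mul, e, map_mul]⟩)
    rw [← card_mul_relIndex (map_mono h.le : T.map f ≤ _), relIndex_map_map,
      sup_of_le_left hfT, sup_of_le_left (hfT.trans h.le), hn, mul_comm] at h1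
    exact Nat.le_of_mul_le_mul_left h1 Nat.card_pos
  by_cases hn1 : n ≤ 1
  · left
    have h1 := hbound (MonoidHom.id Γ) (by simp)
    rw [Subgroup.map_id, MonoidHom.id_apply] at h1
    have h2 := (card_le_of_le (le_inf (zpowers_le.2 (mem_centralizer_singleton_iff.2 rfl))
      (zpowers_le.2 h.mem))).trans (h1.trans (Nat.pow_le_pow_right hp.out.pos hn1))
    obtain ⟨k, hk⟩ := isPElt_of_mem hS h.mem
    rw [Nat.card_zpowers, hk] at h2
    rw [← orderOf_dvd_iff_pow_eq_one, hk]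
    simpa using pow_dvd_pow p ((Nat.pow_le_pow_iff_right hp.out.one_lt).1 h2)
  right
  push Not at hn1
  obtain ⟨l, j, hl, hlj, hd⟩ := exists_prime_pow_primitive hp.out.one_lt hn1
  have hp1 : ∀ {m}, m ∣ p ^ n - 1 → ¬ p ∣ m := fun {m} h1 h2 => by
    have h3 := (Nat.dvd_sub_iff_right (Nat.one_le_pow _ _ hp.out.pos)
      (dvd_pow_self p (by omega))).1 (h2.trans h1)
    exact hp.out.one_lt.ne' (Nat.dvd_one.1 h3)
  have heo : orderOf e = p ^ n - 1 := by omega
  obtain ⟨e, hereg, rfl⟩ := IsPRegular.exists_lift hf (show IsPRegular p e from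
    isPRegular_iff.2 (hp1 heo.dvd))
  have he1 : e ^ (p ^ n - 1) = 1 := (isPElt_of_mem hS (hk (by
    rw [MonoidHom.mem_ker, map_pow, ← heo, pow_orderOf_eq_one]))).eq_one_of_isPRegular
    (hereg.pow _)
  obtain ⟨m, hm'⟩ := hlj
  have hτ : (e ^ m) ^ l ^ (j + 1) = 1 := by rw [← pow_mul, mul_comm, ← hm', he1]
  have hlp : l ≠ p := fun e => hp1 (hm' ▸ (dvd_pow_self l (by omega)).mul_right m) (e ▸ dvd_rfl)
  set a := (e ^ m) ^ l ^ j with ha
  have ha1 : QuotientGroup.mk' T a ≠ 1 := by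
    rw [ha, ← pow_mul, map_pow]
    have h0 : 0 < p ^ n - 1 := heo ▸ orderOf_pos _
    have hm0 : 0 < m := Nat.pos_of_ne_zero fun e => by simp [hm', e] at h0
    refine pow_ne_one_of_lt_orderOf (Nat.mul_pos hm0 (pow_pos hl.pos j)).ne' ?_
    rw [heo, hm', mul_comm]
    exact Nat.mul_lt_mul_of_pos_right (Nat.pow_lt_pow_right hl.one_lt j.lt_succ_self) hm0
  have ham : QuotientGroup.mk' T a ∈ zpowers (QuotientGroup.mk' T e) := by
    rw [ha, ← pow_mul, map_pow]; exact pow_mem (mem_zpowers _) _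
  have hact : CoprimeAct (zpowers a) T := coprimeAct_of_isPGroup_right le_normalizer_of_normal
    (hS.to_le h.le) (by rw [Nat.card_zpowers]; exact (hereg.pow m).pow _)
  have hTa : ⁅T, zpowers a⁆ ≤ ⊥ := by
    refine chief_induction_down (Q := fun N => ⁅T, zpowers a⁆ ≤ N) h.normal hact.commutator_le
      (fun A B hBT hAB hB => ?_) ⊥ inferInstance bot_le
    have := hAB.normal_left
    have hN := hAB.isMinNormal_map
    have := hN.normal
    have hfA := QuotientGroup.mk'_surjective A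
    have hSp := hS.map (QuotientGroup.mk' A)
    have : ((commutator Γ).map (QuotientGroup.mk' A)).Normal := Normal.map inferInstance _ hfA
    have := hSp.isNilpotent
    have h1 := hN.le_centralizer_of_isNilpotent ((commutator Γ).map (QuotientGroup.mk' A))
    have hBS : B.map (QuotientGroup.mk' A) ≤ (commutator Γ).map (QuotientGroup.mk' A) :=
      map_mono (hBT.trans h.le)
    have hkA : (QuotientGroup.mk' A).ker ≤ T := by
      rw [QuotientGroup.ker_mk']; exact hAB.le.trans hBT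
    have : IsMulCommutative (B.map (QuotientGroup.mk' A)) :=
      isMulCommutative_iff_forall.2 fun x hx y hy => h1 hy x (hBS hx)
    have h2 := le_centralizer_of_card_lt_pow hl hlp hd (τ := QuotientGroup.mk' A (e ^ m))
      (by rw [← map_pow, hτ, map_one]) (hSp.to_le hBS) (le_normalizer_of_normal (mem_top _))
      ((card_lt_of_lt (lt_of_le_of_ne (le_inf (fun x hx => mem_centralizer_singleton_iff.2
        (h1 hx _ (mem_map_of_mem _ h.mem)).symm) hBS) fun e => h.nmem
        ((mem_map_iff_of_ker_le hkA).1 (map_mono hBT (e.ge ⟨mem_centralizer_singleton_iff.2 rfl,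
          mem_map_of_mem _ h.mem⟩))))).trans_le (hbound _ hkA))
    rw [← map_pow, ← MonoidHom.map_zpowers, ← commutator_eq_bot_iff_le_centralizer,
      ← map_commutator, map_mk'_eq_bot_iff] at h2
    rw [← hact.commutator_commutator_eq]
    exact (commutator_mono hB le_rfl).trans h2
  have haC : a ∈ centralizer (T : Set Γ) := le_centralizer_iff.1
    (commutator_eq_bot_iff_le_centralizer.1 (eq_bot_iff.2 hTa)) (mem_zpowers a)
  have hdec : ∀ s ∈ commutator Γ, ∃ c ∈ centralizer (T : Set Γ), ∃ t ∈ T, s = c * t := by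
    intro s hs
    obtain ⟨k, -, hk⟩ := exists_commutator_eq_of_fpf (hF.norm ham) (hF.fpf _ ham ha1) (hm.2 hs)
    obtain ⟨k, rfl⟩ := hf k
    rw [← map_commutatorElement] at hk
    exact ⟨⁅k, a⁆, mul_mem (Normal.conj_mem inferInstance a haC k) (inv_mem haC), _,
      QuotientGroup.eq.1 hk, by group⟩
  obtain ⟨x, hx, t₀, ht₀, e₀⟩ := hdec g h.mem
  have hxS : x ∈ commutator Γ := (mul_mem_cancel_right (h.le ht₀)).1 (e₀ ▸ h.mem)
  have hxT : x ∉ T := fun e => h.nmem (e₀ ▸ mul_mem e ht₀)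
  have hTC : T ≤ centralizer (T : Set Γ) := fun t ht => by
    obtain ⟨u, hu, e⟩ := hcam x hxS hxT t ht
    obtain ⟨c, hc, t', ht', rfl⟩ := hdec u hu
    have : t = c * x * c⁻¹ * x⁻¹ := by
      rw [eq_mul_inv_iff_mul_eq, ← e, mul_assoc c, hx t' ht']; group
    rw [this]
    exact mul_mem (mul_mem (mul_mem hc hx) (inv_mem hc)) (inv_mem hx)
  have hSC : ∀ t ∈ T, ∀ s ∈ commutator Γ, s * t = t * s := fun t ht s hs => by
    obtain ⟨c, hc, t', ht', rfl⟩ := hdec s hs
    exact (mul_mem hc (hTC ht') t ht).symm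
  refine ⟨hSC, fun t ht => ?_, ?_⟩
  · obtain ⟨u, hu, e⟩ := hcam x hxS hxT t ht
    have h1 : ⁅u, x⁆ = t := by rw [commutatorElement_def, e, mul_inv_cancel_right]
    rw [← h1, ← commutator_pow_left_eq (h1 ▸ (hSC t ht u hu).symm),
      commutatorElement_eq_one_iff_mul_comm]
    exact (hSC _ (hpow u hu) x hxS).symm
  · by_contra hn'
    push Not at hn'
    have h1 : Nat.card (commutator (Γ ⧸ T)) ≤ Nat.card (zpowers (QuotientGroup.mk' T g)) :=
      card_le_of_le fun y hy => by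
        obtain ⟨y, rfl⟩ := hf y
        by_contra hy'
        refine h.nmem (hn' y (hm.1 hy) g h.mem fun j hj => hy' ?_)
        have := (QuotientGroup.eq_one_iff _).2 hj
        change QuotientGroup.mk' T _ = 1 at this
        rw [map_mul, mul_eq_one_iff_eq_inv, map_pow] at this
        exact this ▸ inv_mem (pow_mem (mem_zpowers _) j)
    rw [← map_commutator_of_surjective' hf, card_map_mk', hn, card_zpowers_of_pow_eq_one (p := p)
      ((QuotientGroup.eq_one_iff _).2 (hpow g h.mem)) h.quot.nmem] at h1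
    exact ((pow_one p).symm.trans_lt (Nat.pow_lt_pow_right hp.out.one_lt hn1)).not_ge h1

theorem isSolvable (h : OneCl T g) (hN : ∀ (p : ℕ) [Fact p.Prime], IsPElt p g →
    HasNormalPComplement p (commutator Γ)) : Group.IsSolvable Γ := by
  obtain ⟨p, hp, hcomm, hpow⟩ := h.exists_prime
  have := Fact.mk hp
  have := h.normal
  have hc := hN p (h.isPElt hpow)
  set M := (pPrimeCore p (commutator Γ)).map (commutator Γ).subtype with hM
  have : M.Normal := normal_map_subtype_of_characteristic _ _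
  have hMp : ¬ p ∣ Nat.card M := not_dvd_card_map_pPrimeCore _
  have hMS : M ≤ commutator Γ := map_subtype_le _
  have hMT : M ≤ T := fun y hy => mem_of_isPRegular hpow (hMS hy) (isPRegular_of_mem hMp hy)
  have hf := QuotientGroup.mk'_surjective M
  have hS : IsPGroup p (commutator (Γ ⧸ M)) := by
    obtain ⟨k, hk⟩ := hasNormalPComplement_iff_index_pPrimeCore.1 hc
    rw [← map_commutator_of_surjective' hf]
    refine IsPGroup.of_card (n := k) ?_
    rw [card_map_mk', ← hk, hM, relIndex, ← comap_subtype,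
      comap_map_eq_self_of_injective (commutator Γ).subtype_injective]
  suffices Group.IsSolvable M by
    have h1 : Group.IsSolvable (QuotientGroup.mk' M).ker := by rwa [QuotientGroup.ker_mk']
    have := IsPGroup.isSolvable' hS
    have h2 := isSolvable_comap (f := QuotientGroup.mk' M) (commutator (Γ ⧸ M))
    rw [← map_commutator_of_surjective' hf, comap_map_mk'_of_le hMS] at h2
    exact Group.isSolvable_of_ker_le_range (commutator Γ).subtype Abelianization.of (by simp)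
  have hfpf : ∀ x ∈ commutator Γ, x ∉ T → ∀ m ∈ M, m * x = x * m → m = 1 := fun x hx hxT m hm e => by
    have h1 := ((h.of_mem (mul_mem hx (hMS hm)) fun e => hxT
      ((mul_mem_cancel_right (hMT hm)).1 e)).isPElt hpow).pRegPart_eq
    rwa [pRegPart_mul_eq e.symm ((h.of_mem hx hxT).isPElt hpow) (isPRegular_of_mem hMp hm)] at h1
  have hone : ∀ x, IsPElt p x → QuotientGroup.mk' M x = 1 → x = 1 := fun x hx e =>
    hx.eq_one_of_isPRegular (isPRegular_of_mem hMp ((QuotientGroup.eq_one_iff x).1 e))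
  have hth : ∀ x, x ^ p = 1 → (∀ m ∈ M, m * x = x * m → m = 1) → Group.IsSolvable M :=
    fun x h1 h2 => by
      have := isNilpotent_of_fpf_of_pow_prime (le_normalizer_of_normal (mem_top x)) h1 h2
      infer_instance
  have hk : (QuotientGroup.mk' M).ker ≤ T := by rwa [QuotientGroup.ker_mk']
  have hm : ∀ {a}, QuotientGroup.mk' M a ∈ commutator (Γ ⧸ M) ↔ a ∈ commutator Γ := by
    intro a
    rw [← map_commutator_of_surjective' hf, mem_map_iff_of_ker_le (hk.trans h.le)]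
  have hq := h.map_mk M hMT
  have hg := h.isPElt hpow
  by_cases hcen : ∀ s ∈ commutator Γ, ∀ v, ⁅s, v⁆ ∈ T
  · obtain rfl : p = 2 := by
      by_contra hp2
      have h1 := h.mul_mem_of_central hcen h.mem h.mem h.nmem h.nmem
      obtain ⟨k, hk⟩ := hp.odd_of_ne_two hp2
      have h2 := hpow g h.mem
      rw [hk, pow_succ, pow_mul, sq] at h2
      exact h.nmem ((mul_mem_cancel_left (pow_mem h1 k)).1 h2)
    have h1 := hq.pow_four_of_central (fun s hs v => by
      obtain ⟨s, rfl⟩ := hf s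
      obtain ⟨v, rfl⟩ := hf v
      rw [← map_commutatorElement]
      exact mem_map_of_mem _ (hcen s (hm.1 hs) v)) (isPGroup_of_isPGroup_quotient hS fun u => by
        obtain ⟨u, rfl⟩ := QuotientGroup.mk_surjective u
        obtain ⟨u, rfl⟩ := hf u
        refine ⟨1, ?_⟩
        rw [pow_one, sq, ← QuotientGroup.mk_mul, QuotientGroup.eq_one_iff, ← map_mul]
        exact hm.2 (h.sq_mem_of_central hcen u))
    simp only [← map_mul] at h1
    exact Fpf4.isSolvable ⟨le_normalizer_of_normal (mem_top g), hone _ (by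
      simpa [pow_succ, mul_assoc] using hg.pow 4) h1, hfpf g h.mem h.nmem, hMp⟩
  push Not at hcen
  obtain ⟨s, hs, v, hv⟩ := hcen
  rcases hq.structure_of_noncentral hS (fun a ha => by
    obtain ⟨a, rfl⟩ := hf a
    exact mem_map_of_mem (QuotientGroup.mk' M) (hpow a (hm.1 ha))) (hm.2 hs)
    (v := QuotientGroup.mk' M v) (by
      rwa [← map_commutatorElement, mem_map_iff_of_ker_le hk]) with h1 | ⟨h1, h2, x, hx, y, hy, h3, h4⟩
  · exact hth g (hone _ (hg.pow p) h1) (hfpf g h.mem h.nmem)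
  obtain ⟨P, hP⟩ := exists_isSylowIn p (commutator Γ)
  have hPm : P.map (QuotientGroup.mk' M) = commutator (Γ ⧸ M) := by
    have := hP.map (QuotientGroup.mk' M)
    rw [map_commutator_of_surjective' hf] at this
    exact this.eq_self_of_isPGroup hS
  rw [← hPm] at hx hy
  obtain ⟨x, hx, rfl⟩ := hx
  obtain ⟨y, hy, rfl⟩ := hy
  have h3' : ∀ j : ℕ, x * y ^ j ∉ T := fun j e => h3 j (mem_map_of_mem (QuotientGroup.mk' M) e)
  have h4' : y ∉ T := fun e => h4 (mem_map_of_mem (QuotientGroup.mk' M) e)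
  have hxT : x ∉ T := by simpa using h3' 0
  have hZ : ∀ t ∈ T, t ∈ P → ∀ u ∈ P, u * t = t * u := fun t ht htP u hu =>
    commutatorElement_eq_one_iff_mul_comm.1 (hone _ (isPElt_of_mem hP.isPGroup
      (P.mul_mem (P.mul_mem (P.mul_mem hu htP) (P.inv_mem hu)) (P.inv_mem htP))) (by
        rw [map_commutatorElement, commutatorElement_eq_one_iff_mul_comm]
        exact h1 _ (mem_map_of_mem _ ht) _ (hm.2 (hP.le hu))))
  have hTp : ∀ t ∈ T, t ∈ P → t ^ p = 1 := fun t ht htP =>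
    hone _ (isPElt_of_mem hP.isPGroup (pow_mem htP p)) (h2 _ (mem_map_of_mem _ ht))
  have hz := hpow x (hP.le hx)
  by_cases hz1 : x ^ p = 1
  · exact hth x hz1 (hfpf x (hP.le hx) hxT)
  refine hth (x ^ p) (hTp _ hz (pow_mem hx p)) fun m hmM e => by_contra fun hm1 => ?_
  have hnorm : ∀ t ∈ T, t ∈ P → P ≤ normalizer (centralizer {t} : Subgroup Γ) := fun t ht htP =>
    (show P ≤ centralizer {t} from fun u hu =>
      mem_centralizer_singleton_iff.2 (hZ t ht htP u hu)).trans le_normalizer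
  obtain ⟨U, ⟨hU1, hUM, hUn⟩, hmin⟩ := Set.exists_min_image {U : Subgroup Γ | U ≠ ⊥ ∧
    U ≤ M ⊓ centralizer {x ^ p} ∧ P ≤ normalizer (U : Set Γ)} (fun U => Nat.card U) (Set.toFinite _)
    ⟨M ⊓ centralizer {x ^ p}, fun e' => hm1 (e'.le ⟨hmM, mem_centralizer_singleton_iff.2 e⟩), le_rfl,
      le_normalizer_inf le_normalizer_of_normal (hnorm _ hz (pow_mem hx p))⟩
  have hirr : ∀ V ≤ U, V ≠ ⊥ → P ≤ normalizer (V : Set Γ) → V = U := fun V h1 h2 h3 =>
    eq_of_le_of_card_ge h1 (hmin V ⟨h2, h1.trans hUM, h3⟩)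
  have hUp : ¬ p ∣ Nat.card U := fun e => hMp (e.trans (card_dvd_of_le (hUM.trans inf_le_left)))
  have hcop : (Nat.card U).Coprime p := ((Nat.Prime.coprime_iff_not_dvd hp).2 hUp).symm
  have : IsMulCommutative U := by
    obtain ⟨r, hr, hrU⟩ := Nat.exists_prime_and_dvd (mt card_eq_one.1 hU1)
    have := Fact.mk hr
    obtain ⟨R, hR, hRn⟩ := (coprimeAct_of_isPGroup_left hUn hP.isPGroup hUp).exists_isSylowIn r
    have hUr : IsPGroup r U := hirr R hR.le (hR.ne_bot hrU) hRn ▸ hR.isPGroup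
    rw [← hirr _ inf_le_left (inf_centralizer_ne_bot_of_isPGroup hUr hUr hU1 le_normalizer)
      (le_normalizer_inf hUn (le_normalizer_centralizer hUn))]
    exact isMulCommutative_inf_centralizer U
  have hpw : ∀ {w : Γ} {i : ℕ}, 0 < i → i < p → ∀ K : Subgroup Γ, w ^ p ∈ K → w ^ i ∈ K → w ∈ K := by
    intro w i h0 hi K h1 h2
    have := (Nat.coprime_of_lt_prime h0.ne' hi hp).isCoprime
    obtain ⟨a, b, hab⟩ := this
    rw [← zpow_one w, ← hab, zpow_add, mul_comm a, mul_comm b, zpow_mul, zpow_mul, zpow_natCast,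
      zpow_natCast]
    exact mul_mem (zpow_mem h1 a) (zpow_mem h2 b)
  have hTU : ∀ t ∈ T, t ∈ P → t ∈ centralizer (U : Set Γ) := fun t ht htP => by
    obtain ⟨w, ⟨j, rfl⟩ | ⟨i, h0, hi, rfl⟩, u, hu, hu1, e⟩ := exists_fixed_of_pair hU1 hp.pos hcop
      (hUn hx) (hUn htP) (hZ t ht htP x hx) (fun u hu => mem_centralizer_singleton_iff.1 (hUM hu).2)
      (by rw [hTp t ht htP]; exact one_mem _)
    · exact absurd (hfpf _ (mul_mem (hP.le hx) (pow_mem (h.le ht) j)) (fun e => hxT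
        ((mul_mem_cancel_right (pow_mem ht j)).1 e)) u (hUM hu).1 e) hu1
    · refine hpw h0 hi _ (by rw [hTp t ht htP]; exact one_mem _) fun u' hu' => ?_
      rw [← hirr (U ⊓ centralizer {t ^ i}) inf_le_left (fun e' => hu1 (e'.le ⟨hu,
        mem_centralizer_singleton_iff.2 e⟩)) (le_normalizer_inf hUn (hnorm _ (pow_mem ht i)
        (pow_mem htP i)))] at hu'
      exact mem_centralizer_singleton_iff.1 hu'.2
  obtain ⟨w, ⟨j, rfl⟩ | ⟨i, h0, hi, rfl⟩, u, hu, hu1, e⟩ := exists_fixed_of_pair' hU1 hp.pos hcop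
    (hUn hx) (hUn hy) (hTU _ (hcomm x (hP.le hx) y (hP.le hy))
      (P.mul_mem (P.mul_mem (P.mul_mem hx hy) (P.inv_mem hx)) (P.inv_mem hy)))
    (hTU _ hz (pow_mem hx p)) (hTU _ (hpow y (hP.le hy)) (pow_mem hy p))
  · exact hu1 (hfpf _ (hP.le (mul_mem hx (pow_mem hy j))) (h3' j) u (hUM hu).1 e)
  · exact hu1 (hfpf _ (hP.le (pow_mem hy i)) (fun e => h4' (hpw h0 hi _ (hpow y (hP.le hy)) e))
      u (hUM hu).1 e)

end OneCl

end GT
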