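import Cfsg.Agent.Lib.Grp.Ess

/-!
# Automorphisms of odd order of subgroups of `2`-generated groups of order `64`
-/

set_option autoImplicit false
set_option linter.unusedSectionVars false

namespace GT

open Cfsg Subgroup
open scoped Pointwise

universe u

variable {G : Type u} [Group G] [Finite G]

theorem card_mul_card_le_of_le {H K Q : Subgroup G} (hH : H ≤ Q) (hK : K ≤ Q) :
    Nat.card H * Nat.card K ≤ Nat.card Q * Nat.card ↥(H ⊓ K) := by
  have := card_mul_card_le (H.subgroupOf Q) (K.subgroupOf Q)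
  rwa [← inf_subgroupOf_aux H K Q, card_subgroupOf_of_le hH, card_subgroupOf_of_le hK,
    card_subgroupOf_of_le (inf_le_left.trans hH)] at this
where inf_subgroupOf_aux (H K Q : Subgroup G) :
    (H ⊓ K).subgroupOf Q = H.subgroupOf Q ⊓ K.subgroupOf Q := rfl

theorem card_sup_sup_le {K : Subgroup G} {a b : G} (ha : a ∈ normalizer (K : Set G))
    (hb : b ∈ normalizer (K : Set G)) (haa : a * a ∈ K) (hbb : b * b ∈ K)
    (hab : b * a * b⁻¹ * a⁻¹ ∈ K) : Nat.card ↥(K ⊔ zpowers a ⊔ zpowers b) ≤ 4 * Nat.card K := by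
  have h1 := card_sup_zpowers_le ha haa
  have h2 := card_sup_zpowers_le (C := K ⊔ zpowers a) (t := b) (mem_normalizer_of_conj_mem
    fun g hg => by
      obtain ⟨k, hk, _, ⟨i, rfl⟩, rfl⟩ := (mem_sup_of_le_normalizer_left (zpowers_le.2 ha)).1 hg
      rw [← conj_mul, ← conj_zpow, show b * a * b⁻¹ = b * a * b⁻¹ * a⁻¹ * a by group]
      exact mul_mem (mem_sup_left (conj_mem_of_mem_normalizer hb hk))
        (zpow_mem (mul_mem_sup hab (mem_zpowers a)) i)) (mem_sup_left hbb)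
  omega

theorem commutator_mem_of_sq_mem {P N : Subgroup G} (h : ∀ u ∈ P, u * u ∈ N) {a b : G}
    (ha : a ∈ P) (hb : b ∈ P) : a * b * a⁻¹ * b⁻¹ ∈ N := by
  rw [show a * b * a⁻¹ * b⁻¹ = a * b * (a * b) * (b⁻¹ * a⁻¹ * b * (b⁻¹ * a⁻¹ * b)) * (b⁻¹ * b⁻¹) by
    group]
  exact mul_mem (mul_mem (h _ (mul_mem ha hb)) (h _ (mul_mem (mul_mem (inv_mem hb) (inv_mem ha)) hb)))
    (h _ (inv_mem hb))

theorem forall_commute_of_closure {P : Subgroup G} {a b : G} (hP : closure {a, b} = P) {H : Type*}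
    [Group H] (π : G →* H) {v : H} (ha : π a * v = v * π a) (hb : π b * v = v * π b) :
    ∀ g ∈ P, π g * v = v * π g := fun g hg => by
  have : P ≤ (centralizer {v}).comap π := by
    rw [← hP, closure_le, Set.insert_subset_iff, Set.singleton_subset_iff]
    exact ⟨mem_centralizer_singleton_iff.2 ha, mem_centralizer_singleton_iff.2 hb⟩
  exact mem_centralizer_singleton_iff.1 (this hg)

theorem PAct.cube {Q : Subgroup G} {t : G} (h : PAct Q t 3) {q : G} (hq : q ∈ Q) :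
    t * (t * (t * q * t⁻¹) * t⁻¹) * t⁻¹ = q := by
  calc _ = t ^ 3 * q * (t ^ 3)⁻¹ := by rw [pow_succ, pow_two]; group
    _ = q := by rw [← h.pow q hq, mul_inv_cancel_right]

theorem commute_of_mem_normalizer_fix {Q : Subgroup G} {t g f : G}
    (hg : g ∈ normalizer ((Q ⊓ centralizer {t} : Subgroup G) : Set G))
    (hf : f ∈ Q ⊓ centralizer {t}) : g⁻¹ * (t * g * t⁻¹) * f = f * (g⁻¹ * (t * g * t⁻¹)) := by
  have h1 := mem_centralizer_singleton_iff.1 (conj_mem_of_mem_normalizer hg hf).2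
  have h2 := mem_centralizer_singleton_iff.1 hf.2
  calc g⁻¹ * (t * g * t⁻¹) * f = g⁻¹ * t * g * t⁻¹ * (f * t) * t⁻¹ := by group
    _ = g⁻¹ * (t * (g * f * g⁻¹)) * g * t⁻¹ := by rw [h2]; group
    _ = _ := by rw [← h1]; group

theorem commute_conj_of_fix {t a f : G} (hf : f * t = t * f) (h : a * f = f * a) :
    t * a * t⁻¹ * f = f * (t * a * t⁻¹) := by
  calc t * a * t⁻¹ * f = t * a * t⁻¹ * (f * t) * t⁻¹ := by group
    _ = t * (a * f) * t⁻¹ := by rw [hf]; group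
    _ = t * f * a * t⁻¹ := by rw [h]; group
    _ = _ := by rw [← hf]; group

/-- A `2`-generated group of order `64` and exponent at most `8` with elementary abelian centre. -/
structure O64 (P : Subgroup G) (z : G) : Prop where
  pg : IsPGroup 2 P
  card : Nat.card P = 64
  gen : ∀ N ≤ P, (∀ u ∈ P, u * u ∈ N) → 16 ≤ Nat.card N
  elem : ∀ u ∈ P, (∀ g ∈ P, g * u = u * g) → u * u = 1
  exp : ∀ u ∈ P, orderOf u ≤ 8
  zP : z ∈ P
  zc : z ∈ center G
  z1 : z ≠ 1

namespace O64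

variable {P : Subgroup G} {z : G} (h : O64 P z)
include h

theorem zz : z * z = 1 := h.elem z h.zP fun g _ => mem_center_iff.1 h.zc g

theorem card_z : Nat.card (zpowers z) = 2 := by
  rw [Nat.card_zpowers, orderOf_eq_two_of_mul_self h.zz h.z1]

theorem cards {W : Subgroup G} (hW : W ≤ P) : Nat.card W = 1 ∨ Nat.card W = 2 ∨ Nat.card W = 4 ∨
    Nat.card W = 8 ∨ Nat.card W = 16 ∨ Nat.card W = 32 ∨ Nat.card W = 64 :=
  card_eq_two_pow (h.pg.to_le hW) (h.card ▸ card_le_of_le hW)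

theorem card_lt {W : Subgroup G} (hW : W < P) : Nat.card W ≤ 32 := by
  have := two_mul_card_le_of_lt hW
  have := h.card
  omega

theorem le_of_le_sup {R U : Subgroup G} (hR : R ≤ P) (hU : U ≤ P) (hs : ∀ u ∈ P, u * u ∈ U)
    (hc : Nat.card U ≤ 16) (h1 : P ≤ R ⊔ U) : P ≤ R := by
  by_contra h2
  obtain ⟨M, h3, h4, h5⟩ := exists_idx_ge h.pg (lt_of_le_not_ge hR h2)
  have h6 := h.gen (M ⊓ U) (inf_le_right.trans hU) fun u hu => ⟨h5 u hu, hs u hu⟩
  have h7 := two_mul_card_le_of_lt (inf_lt_right.2 fun e => h4.not_ge (h1.trans (sup_le h3 e)))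
  omega

theorem exists_quot : ∃ (H : Type u) (_ : Group H) (_ : Finite H) (π : G →* H),
    ∀ g, π g = 1 ↔ g ∈ zpowers z := by
  have : (zpowers z).Normal := ⟨fun n hn g => by
    rw [mem_center_iff.1 (zpowers_le.2 h.zc hn) g, mul_inv_cancel_right]; exact hn⟩
  exact ⟨_, inferInstance, inferInstance, QuotientGroup.mk' (zpowers z),
    fun g => QuotientGroup.eq_one_iff g⟩

theorem z_le_fix {Q : Subgroup G} (hz : z ∈ Q) (t : G) : zpowers z ≤ Q ⊓ centralizer {t} :=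
  zpowers_le.2 ⟨hz, center_le_centralizer _ h.zc⟩

section Top

variable {t : G} {r : ℕ} (ht : PAct P t r)
include ht

theorem exists_gen_pair : r = 3 ∧ (Nat.card ↥(P ⊓ centralizer {t}) = 16 →
    ∀ u ∈ P, u * u ∈ P ⊓ centralizer {t}) ∧ ∃ g ∈ P, ∃ a b, a = g⁻¹ * (t * g * t⁻¹) ∧
      b = t * a * t⁻¹ ∧ t * b * t⁻¹ = (a * b)⁻¹ ∧ closure {a, b} = P := by
  obtain ⟨U, ⟨h1, h2, h3⟩, h4⟩ := (Set.toFinite {W : Subgroup G | P ⊓ centralizer {t} ≤ W ∧ W < P ∧
    t ∈ normalizer (W : Set G)}).exists_maximal ⟨_, le_rfl, ht.fix_lt, ht.norm_fix⟩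
  have hmin : ∀ W, U ≤ W → W < P → t ∈ normalizer (W : Set G) → W ≤ U :=
    fun W h5 h6 h7 => h4 ⟨h1.trans h5, h6, h7⟩ h5
  have h5 := ht.sq_mem_of_min h2 h3 hmin
  have h6 := h.gen U h2.le h5
  have h7 := h.card_lt h2
  have h8 := ht.modEq h2.le h3
  rw [show U ⊓ centralizer {t} = P ⊓ centralizer {t} from
    le_antisymm (inf_le_inf_right _ h2.le) (le_inf h1 inf_le_right)] at h8
  have h9 := (h8.trans (ht.modEq le_rfl ht.norm).symm).symm
  rw [h.card] at h9
  have h10 : Nat.card U = 16 := by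
    by_contra h10
    rw [show Nat.card U = 32 by rcases h.cards h2.le with e | e | e | e | e | e | e <;> omega] at h9
    exact ht.ne_two ((Nat.prime_dvd_prime_iff_eq ht.prime Nat.prime_two).1
      (ht.prime.dvd_of_dvd_pow (n := 5) ((Nat.modEq_iff_dvd' (by norm_num)).1 h9.symm)))
  have hr : r = 3 := by
    rw [h10] at h9
    rcases (Nat.Prime.dvd_mul ht.prime (m := 2 ^ 4) (n := 3)).1
      ((Nat.modEq_iff_dvd' (by norm_num)).1 h9.symm) with e | e
    · exact absurd ((Nat.prime_dvd_prime_iff_eq ht.prime Nat.prime_two).1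
        (ht.prime.dvd_of_dvd_pow e)) ht.ne_two
    · exact (Nat.prime_dvd_prime_iff_eq ht.prime Nat.prime_three).1 e
  subst hr
  refine ⟨rfl, fun e => eq_of_le_of_card_ge h1 (by omega) ▸ h5, ?_⟩
  obtain ⟨g, hg, hg'⟩ := SetLike.not_le_iff_exists.1 h2.not_ge
  obtain ⟨a, ha⟩ : ∃ a, a = g⁻¹ * (t * g * t⁻¹) := ⟨_, rfl⟩
  obtain ⟨b, hb⟩ : ∃ b, b = t * a * t⁻¹ := ⟨_, rfl⟩
  have haP : a ∈ P := ha ▸ mul_mem (inv_mem hg) (ht.conj_mem hg)
  have hc : t * b * t⁻¹ = (a * b)⁻¹ := by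
    rw [hb, ha]
    calc _ = t * t * g⁻¹ * t⁻¹ * t⁻¹ * (t * (t * (t * g * t⁻¹) * t⁻¹) * t⁻¹) := by group
      _ = _ := by rw [ht.cube hg]; simp [mul_assoc]
  have hR : closure {a, b} ≤ P := by
    rw [closure_le, Set.insert_subset_iff, Set.singleton_subset_iff]
    exact ⟨haP, hb ▸ ht.conj_mem haP⟩
  have ha' : a ∈ closure ({a, b} : Set G) := subset_closure (by simp)
  have hb' : b ∈ closure ({a, b} : Set G) := subset_closure (by simp)
  have hRn : t ∈ normalizer ((closure {a, b} : Subgroup G) : Set G) :=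
    mem_normalizer_of_conj_mem fun u hu => by
      have : closure {a, b} ≤ (closure {a, b}).comap (MulAut.conj t).toMonoidHom := by
        rw [closure_le, Set.insert_subset_iff, Set.singleton_subset_iff]
        exact ⟨show t * a * t⁻¹ ∈ closure {a, b} by rw [← hb]; exact hb',
          show t * b * t⁻¹ ∈ closure {a, b} by rw [hc]; exact inv_mem (mul_mem ha' hb')⟩
      exact this hu
  refine ⟨g, hg, a, b, ha, hb, hc, le_antisymm hR (h.le_of_le_sup hR h2.le h5 h10.le ?_)⟩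
  by_contra h11
  exact hg' (ht.mem_of_comm_mem h2.le h3 h1 hg (ha ▸ hmin _ le_sup_right
    (lt_of_le_not_ge (sup_le hR h2.le) h11) (zpowers_le.1 (le_normalizer_sup (zpowers_le.2 hRn)
      (zpowers_le.2 h3))) (mem_sup_left ha')))

theorem not_le_normalizer_fix :
    ¬ P ≤ normalizer ((P ⊓ centralizer {t} : Subgroup G) : Set G) := fun hn => by
  obtain ⟨rfl, -, g, hg, a, b, ha, hb, hc, hP⟩ := h.exists_gen_pair ht
  have haP : a ∈ P := hP ▸ subset_closure (by simp)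
  have hbP : b ∈ P := hP ▸ subset_closure (by simp)
  have h1 : ∀ f ∈ P ⊓ centralizer {t}, ∀ g ∈ P, g * f = f * g := fun f hf => by
    have h2 := ha ▸ commute_of_mem_normalizer_fix (hn hg) hf
    exact forall_commute_of_closure hP (MonoidHom.id G) h2
      (hb ▸ commute_conj_of_fix (mem_centralizer_singleton_iff.1 hf.2) h2)
  obtain ⟨w, hw⟩ : ∃ w, w = a * b * a⁻¹ * b⁻¹ := ⟨_, rfl⟩
  have hwP : w ∈ P := hw ▸ mul_mem (mul_mem (mul_mem haP hbP) (inv_mem haP)) (inv_mem hbP)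
  obtain ⟨k, hk, h2⟩ := ht.exists_conj_fix hwP (inv_mem (mul_mem hbP haP)) (by
    calc t * w * t⁻¹ = t * a * t⁻¹ * (t * b * t⁻¹) * (t * a * t⁻¹)⁻¹ * (t * b * t⁻¹)⁻¹ := by
          rw [hw]; group
      _ = _ := by rw [← hb, hc, hw]; group)
  have h3 : ∀ g ∈ P, g * w = w * g := by
    rw [show w = k * w * k⁻¹ by
      rw [eq_mul_inv_iff_mul_eq, ← mul_left_inj k⁻¹, ← mul_right_inj k, mul_inv_cancel_right,
        h1 _ h2 k hk, inv_mul_cancel_right]]
    exact h1 _ h2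
  have h4 := h.elem w hwP h3
  have hab : a * b = w * (b * a) := by rw [hw]; group
  have h5 : ∀ g ∈ P, g * (a * a) = a * a * g := forall_commute_of_closure hP (MonoidHom.id G)
    (mul_assoc _ _ _).symm (by
      change b * (a * a) = a * a * b
      rw [mul_assoc, hab, ← mul_assoc a w, h3 a haP, mul_assoc w, ← mul_assoc a b, hab,
        mul_assoc w, ← mul_assoc w w, h4, one_mul, mul_assoc])
  have h6 : ∀ g ∈ P, g * (b * b) = b * b * g := forall_commute_of_closure hP (MonoidHom.id G) (by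
      change a * (b * b) = b * b * a
      rw [← mul_assoc, hab, mul_assoc, mul_assoc, hab, ← mul_assoc b w, h3 b hbP, mul_assoc w b,
        ← mul_assoc, h4, one_mul, mul_assoc])
    (mul_assoc _ _ _).symm
  have h7 : ∀ {K : Subgroup G}, K ≤ centralizer P → ∀ {u}, u ∈ P → u ∈ normalizer (K : Set G) :=
    fun hK u hu => centralizer_le_normalizer _ fun k hk => (hK hk u hu).symm
  have haa := mul_mem haP haP
  have hbb := mul_mem hbP hbP
  have h8 := card_sup_zpowers_le (h7 bot_le haa) (h.elem _ haa h5)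
  have h9 : ⊥ ⊔ zpowers (a * a) ≤ centralizer P := sup_le bot_le (zpowers_le.2 h5)
  have h10 := card_sup_sup_le (h7 h9 hbb) (h7 h9 hwP) (h.elem _ hbb h6 ▸ one_mem _) (h4 ▸ one_mem _)
    (by rw [← h3 _ hbb]; simp)
  have h11 := sup_le (sup_le h9 (zpowers_le.2 h6)) (zpowers_le.2 h3)
  have h12 := card_sup_sup_le (h7 h11 haP) (h7 h11 hbP)
    (mem_sup_left (mem_sup_left (mem_sup_right (mem_zpowers _))))
    (mem_sup_left (mem_sup_right (mem_zpowers _))) (mem_sup_right (by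
      rw [show b * a * b⁻¹ * a⁻¹ = w⁻¹ by rw [hw]; group]
      exact inv_mem (mem_zpowers _)))
  have h13 : P ≤ ⊥ ⊔ zpowers (a * a) ⊔ zpowers (b * b) ⊔ zpowers w ⊔ zpowers a ⊔ zpowers b := by
    rw [← hP, closure_le, Set.insert_subset_iff, Set.singleton_subset_iff]
    exact ⟨mem_sup_left (mem_sup_right (mem_zpowers a)), mem_sup_right (mem_zpowers b)⟩
  have h14 := card_le_of_le h13
  rw [card_bot] at h8
  have := h.card
  omega

theorem not_pAct_top : False := by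
  obtain ⟨rfl, h16, g, hg, a, b, ha, hb, hc, hP⟩ := h.exists_gen_pair ht
  have haP : a ∈ P := hP ▸ subset_closure (by simp)
  have hbP : b ∈ P := hP ▸ subset_closure (by simp)
  have hn := h.not_le_normalizer_fix ht
  set F := P ⊓ centralizer {t} with hF
  have hzF : zpowers z ≤ F := h.z_le_fix h.zP t
  have hz := h.card_z
  have hF4 : Nat.card F = 4 := by
    have h1 := ht.modEq le_rfl ht.norm
    have h2 := h.card_lt (W := F) ht.fix_lt
    have h3 := card_le_of_le hzF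
    have h4 : Nat.card F ≠ 16 := fun e => hn (le_normalizer_of_sq_mem inf_le_left (h16 e))
    rw [h.card, ← hF, Nat.ModEq] at h1
    rcases h.cards (W := F) inf_le_left with e | e | e | e | e | e | e <;> omega
  obtain ⟨H, _, _, π, hπ⟩ := h.exists_quot
  obtain ⟨K, hK⟩ : ∃ K : Subgroup G, ∀ u, u ∈ K ↔ u ∈ P ∧ ∀ g ∈ P, π g * π u = π u * π g :=
    ⟨P ⊓ (centralizer (P.map π : Set H)).comap π, fun u => and_congr_right fun _ =>
      ⟨fun h1 g hg => h1 _ ⟨g, hg, rfl⟩, fun h1 _ ⟨g, hg, e⟩ => e ▸ h1 g hg⟩⟩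
  have hKP : K ≤ P := fun u hu => ((hK u).1 hu).1
  have hKn : ∀ s ∈ normalizer (P : Set G), s ∈ normalizer (K : Set G) := fun s hs =>
    mem_normalizer_of_conj_mem fun u hu => (hK _).2 ⟨conj_mem_of_mem_normalizer hs (hKP hu),
      fun g hg => by
        have := ((hK u).1 hu).2 _ (inv_conj_mem_of_mem_normalizer hs hg)
        simp only [map_mul, map_inv] at this ⊢
        calc π g * (π s * π u * (π s)⁻¹) = π s * ((π s)⁻¹ * π g * π s * π u) * (π s)⁻¹ := by group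
          _ = _ := by rw [this]; group⟩
  have hzK : zpowers z ≤ K := fun u hu =>
    (hK u).2 ⟨zpowers_le.2 h.zP hu, fun g _ => by rw [(hπ u).2 hu, mul_one, one_mul]⟩
  have hFK : ¬ F ≤ K := fun e => hn fun g hg => mem_normalizer_of_conj_mem fun f hf => by
    rw [show g * f * g⁻¹ = g * f * g⁻¹ * f⁻¹ * f by group]
    refine mul_mem (hzF ((hπ _).1 ?_)) hf
    simp [((hK f).1 (e hf)).2 g hg]
  have h1 : Nat.card ↥(K ⊓ centralizer {t}) = 2 := by
    have h2 := two_mul_card_le_of_lt (inf_lt_right.2 hFK)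
    have h3 := card_le_of_le (le_inf hzK hzF)
    rw [show K ⊓ centralizer {t} = K ⊓ F by rw [hF, ← inf_assoc, inf_eq_left.2 hKP]]
    omega
  have h2 : zpowers z < K := by
    obtain ⟨⟨_, ⟨u, hu, rfl⟩, h2⟩, h3⟩ := ne_bot_iff_exists_ne_one.1
      (inf_centralizer_ne_bot_of_isPGroup (h.pg.map π) (h.pg.map π) (fun e => hFK fun f hf =>
        hzK ((hπ f).1 (e.le ⟨f, hf.1, rfl⟩))) le_normalizer)
    exact lt_of_le_of_ne hzK fun e => h3 (Subtype.ext ((hπ u).2
      (e.ge ((hK u).2 ⟨hu, fun g hg => h2 _ ⟨g, hg, rfl⟩⟩))))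
  have hFn : F ≤ normalizer (K : Set G) := fun f hf => hKn f (le_normalizer hf.1)
  have h3 : F ⊔ K < P := lt_of_le_of_ne (sup_le inf_le_left hKP) fun e => hFK fun f hf =>
    (hK f).2 ⟨hf.1, fun g hg => by
      obtain ⟨f', hf', k, hk, rfl⟩ := (mem_sup_of_le_normalizer_right hFn).1 (e.ge hg)
      rw [map_mul, mul_assoc, ← ((hK k).1 hk).2 f hf.1, ← mul_assoc, ← mul_assoc, ← map_mul,
        ← map_mul, comm_of_card_le_two_mul hzF (fun b hb g _ =>
          mem_center_iff.1 (zpowers_le.2 h.zc hb) g) (by omega) f' hf' f hf, map_mul, map_mul]⟩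
  have h4 := card_sup_mul_card_inf_of_le_normalizer hFn
  rw [inf_comm, hF, ← inf_assoc, inf_eq_left.2 hKP, h1, ← hF, hF4] at h4
  have h5 := ht.modEq hKP (hKn t ht.norm)
  have h6 := two_mul_card_le_of_lt h2
  have h7 := h.card_lt h3
  have hK8 : Nat.card K = 8 := by
    rw [h1, Nat.ModEq] at h5
    rcases h.cards hKP with e | e | e | e | e | e | e <;> omega
  have h8 := ht.sq_mem_of_min h3 (zpowers_le.1 (le_normalizer_sup (zpowers_le.2 ht.norm_fix)
    (zpowers_le.2 (hKn t ht.norm)))) fun W h8 h9 h10 => by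
      have h11 := ht.modEq h9.le h10
      have h12 := h.card_lt h9
      rw [show W ⊓ centralizer {t} = F from le_antisymm (inf_le_inf_right _ h9.le)
        (le_inf (le_sup_left.trans h8) inf_le_right), hF4, Nat.ModEq] at h11
      refine (eq_of_le_of_card_ge h8 ?_).ge
      rcases h.cards h9.le with e | e | e | e | e | e | e <;> omega
  obtain ⟨f, hf, k, hk, h9⟩ := (mem_sup_of_le_normalizer_right hFn).1 (h8 a haP)
  have hk' := conj_mem_of_mem_normalizer (hKn t ht.norm) hk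
  have h10 : a * a = b * b * ((t * k * t⁻¹)⁻¹ * k) := by
    rw [hb, conj_mul, ← h9, ← mul_assoc t, ← mem_centralizer_singleton_iff.1 hf.2]; group
  have haa : a * a ∈ K := (hK _).2 ⟨mul_mem haP haP, forall_commute_of_closure hP π
    (by simp [mul_assoc]) (by
      rw [h10, map_mul, mul_assoc (π _), ← ((hK _).1 (mul_mem (inv_mem hk') hk)).2 b hbP]
      simp [mul_assoc])⟩
  have hbb : b * b ∈ K := by
    rw [hb, conj_mul]; exact conj_mem_of_mem_normalizer (hKn t ht.norm) haa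
  have hcc : a * b * (a * b) ∈ K := by
    have := conj_mem_of_mem_normalizer (hKn t ht.norm) hbb
    rwa [← conj_mul, hc, ← mul_inv_rev, inv_mem_iff] at this
  have h11 := card_sup_sup_le (hKn a (le_normalizer haP)) (hKn b (le_normalizer hbP)) haa hbb (by
    rw [show b * a * b⁻¹ * a⁻¹ = b * (a * b * (a * b)) * b⁻¹ * (a⁻¹ * (b * b)⁻¹ * a) * (a * a)⁻¹ by
      group]
    exact mul_mem (mul_mem (conj_mem_of_mem_normalizer (hKn b (le_normalizer hbP)) hcc)
      (inv_conj_mem_of_mem_normalizer (hKn a (le_normalizer haP)) (inv_mem hbb))) (inv_mem haa))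
  have h12 : P ≤ K ⊔ zpowers a ⊔ zpowers b := by
    rw [← hP, closure_le, Set.insert_subset_iff, Set.singleton_subset_iff]
    exact ⟨mem_sup_left (mem_sup_right (mem_zpowers a)), mem_sup_right (mem_zpowers b)⟩
  have h13 := card_le_of_le h12
  have := h.card
  omega

end Top

end O64

theorem PAct.mem_of_comm_sq_mem {Q U : Subgroup G} {t : G} {r : ℕ} (h : PAct Q t r) (hU : U ≤ Q)
    (ht : t ∈ normalizer (U : Set G)) (hF : Q ⊓ centralizer {t} ≤ U) {g : G} (hg : g ∈ Q)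
    (h1 : g⁻¹ * (t * (t * g * t⁻¹) * t⁻¹) ∈ U) : g ∈ U := by
  have h2 : zpowers (t ^ 2) = zpowers t := le_antisymm (zpowers_le.2 (pow_mem (mem_zpowers t) 2))
    (zpowers_le.2 (mem_zpowers_pow_iff.2 (isPRegular_iff_coprime.1 h.reg).symm))
  refine PAct.mem_of_comm_mem (t := t ^ 2) (r := r) ⟨h.pg, h.prime, h.reg.pow 2, pow_mem h.norm 2,
    fun e => h.ne (zpowers_le.1 (h2 ▸ zpowers_le.2 e)), ?_⟩ hU (pow_mem ht 2) ?_ hg ?_
  · rw [← pow_mul, mul_comm, pow_mul]; exact pow_mem h.pow 2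
  · rwa [← centralizer_zpowers, h2, centralizer_zpowers]
  · convert h1 using 2
    simp [pow_two, mul_assoc]

/-- The automorphism induced by `t` is inverted by `x`. -/
structure SX (P Q : Subgroup G) (t x : G) (r : ℕ) : Prop extends PAct Q t r where
  le : Q ≤ P
  cen : P ⊓ centralizer (Q : Set G) ≤ Q
  xP : x ∈ P
  xQ : x ∉ Q
  xn : x ∈ normalizer (Q : Set G)
  xx : x * x ∈ Q
  inv : x * t * x⁻¹ * t ∈ centralizer (Q : Set G)

namespace SX

variable {P Q : Subgroup G} {t x : G} {r : ℕ} (h : SX P Q t x r)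
include h

set_option quotPrecheck false in
local notation "F" => Q ⊓ centralizer ({t} : Set G)

theorem x_mem {q : G} (hq : q ∈ Q) : x * q * x⁻¹ ∈ Q := conj_mem_of_mem_normalizer h.xn hq

theorem conj_conj {q : G} (hq : q ∈ Q) :
    x * (t * q * t⁻¹) * x⁻¹ = t⁻¹ * (x * q * x⁻¹) * t := by
  have h1 := h.inv _ (inv_conj_mem_of_mem_normalizer h.norm (h.x_mem hq))
  calc _ = x * t * x⁻¹ * t * (t⁻¹ * (x * q * x⁻¹) * t) * (x * t * x⁻¹ * t)⁻¹ := by group
    _ = _ := by rw [← h1, mul_inv_cancel_right]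

theorem conj_inv {q : G} (hq : q ∈ Q) :
    x * (t⁻¹ * q * t) * x⁻¹ = t * (x * q * x⁻¹) * t⁻¹ := by
  have h1 := h.conj_conj (inv_conj_mem_of_mem_normalizer h.norm hq)
  rw [show t * (t⁻¹ * q * t) * t⁻¹ = q by group] at h1
  rw [h1]; group

theorem x_norm_fix : x ∈ normalizer ((F : Subgroup G) : Set G) :=
  mem_normalizer_of_conj_mem fun f hf => ⟨h.x_mem hf.1, by
    have h1 := h.conj_conj hf.1
    rw [← mem_centralizer_singleton_iff.1 hf.2, mul_inv_cancel_right] at h1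
    refine mem_centralizer_singleton_iff.2 ?_
    conv_rhs => rw [h1]
    group⟩

variable (hs : ∀ q ∈ Q, q * q ∈ Q ⊓ centralizer {t})
include hs

theorem exists_ctil : ∃ C : Subgroup G, (∀ q, q ∈ C ↔ q ∈ Q ∧ x * q * x⁻¹ * q⁻¹ ∈ F) ∧ F ≤ C ∧
    (∀ q ∈ Q, x * q * x⁻¹ * q⁻¹ ∈ C) ∧ Nat.card C * Nat.card C ≤ Nat.card Q * Nat.card ↥F := by
  have hn := le_normalizer_of_sq_mem inf_le_left hs
  let C : Subgroup G :=
    { carrier := {q | q ∈ Q ∧ x * q * x⁻¹ * q⁻¹ ∈ F}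
      one_mem' := ⟨one_mem _, by simp⟩
      mul_mem' := fun {a b} ha hb => ⟨mul_mem ha.1 hb.1, by
        rw [show x * (a * b) * x⁻¹ * (a * b)⁻¹ =
          x * a * x⁻¹ * a⁻¹ * (a * (x * b * x⁻¹ * b⁻¹) * a⁻¹) by group]
        exact mul_mem ha.2 (conj_mem_of_mem_normalizer (hn ha.1) hb.2)⟩
      inv_mem' := fun {a} ha => ⟨inv_mem ha.1, by
        rw [show x * a⁻¹ * x⁻¹ * a⁻¹⁻¹ = a⁻¹ * (x * a * x⁻¹ * a⁻¹)⁻¹ * a by group]
        exact inv_conj_mem_of_mem_normalizer (hn ha.1) (inv_mem ha.2)⟩ }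
  have hCQ : C ≤ Q := fun _ hq => hq.1
  refine ⟨C, fun _ => Iff.rfl, fun f hf =>
    ⟨hf.1, mul_mem (conj_mem_of_mem_normalizer h.x_norm_fix hf) (inv_mem hf)⟩, fun q hq =>
    ⟨mul_mem (h.x_mem hq) (inv_mem hq), ?_⟩, ?_⟩
  · rw [show x * (x * q * x⁻¹ * q⁻¹) * x⁻¹ * (x * q * x⁻¹ * q⁻¹)⁻¹ =
      x * x * q * (x * x)⁻¹ * q⁻¹ * (q * (x * q * x⁻¹)⁻¹ * (q * (x * q * x⁻¹)⁻¹)) by group]
    exact mul_mem (commutator_mem_of_sq_mem hs h.xx hq) (hs _ (mul_mem hq (inv_mem (h.x_mem hq))))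
  have h1 := card_mul_card_le_of_le hCQ (K := MulAut.conj t • C)
    (conj_smul_le_iff.2 fun q hq => h.conj_mem hq.1)
  rw [card_conj_smul] at h1
  refine h1.trans (Nat.mul_le_mul_left _ (card_le_of_le fun q hq => ?_))
  obtain ⟨⟨hq, h2⟩, h3⟩ := hq
  have h4 := (mem_conj_smul.1 h3).2
  rw [h.conj_inv hq] at h4
  refine h.toPAct.mem_of_comm_sq_mem inf_le_left h.norm_fix le_rfl hq ?_
  have h5 := conj_mem_of_mem_normalizer h.norm_fix
    (mul_mem (inv_mem (conj_mem_of_mem_normalizer h.norm_fix h2)) h4)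
  rw [show q⁻¹ * (t * (t * q * t⁻¹) * t⁻¹) = q⁻¹ * (t * ((t * (x * q * x⁻¹ * q⁻¹) * t⁻¹)⁻¹ *
    (t * (x * q * x⁻¹) * t⁻¹ * (t⁻¹ * q * t)⁻¹)) * t⁻¹) * q by group]
  exact inv_conj_mem_of_mem_normalizer (hn hq) h5

theorem not_eight (h8 : Nat.card Q = 8 * Nat.card ↥F) : False := by
  obtain ⟨C, h1, h2, h3, h4⟩ := h.exists_ctil hs
  have hCQ : C ≤ Q := fun q hq => ((h1 q).1 hq).1
  have h5 : Nat.card C ≤ 2 * Nat.card ↥F := by
    obtain ⟨k, hk⟩ := (h.pg.to_le hCQ).exists_relIndex_eq_pow F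
    have h6 := card_mul_relIndex h2
    rw [hk] at h6
    rw [← h6, h8] at h4
    have h7 : 0 < Nat.card ↥F := Nat.card_pos
    rw [← h6, mul_comm]
    refine Nat.mul_le_mul_right _ ?_
    rcases k with _ | _ | k
    · simp
    · simp
    · have : 4 ≤ 2 ^ (k + 1 + 1) := Nat.pow_le_pow_right (n := 2) two_pos (show 2 ≤ _ by omega)
      nlinarith [Nat.mul_le_mul this this, Nat.mul_pos h7 h7]
  obtain ⟨y, -, hy⟩ := exists_idx_of_card_le h2 h5
  have h6 : Nat.card Q ≤ 2 * Nat.card C := by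
    by_cases h6 : Q ≤ C
    · have := card_le_of_le h6
      omega
    obtain ⟨q₁, hq₁, hq₁'⟩ := SetLike.not_le_iff_exists.1 h6
    refine Idx.card_le (y := q₁) fun q hq => or_iff_not_imp_left.2 fun hq' => ?_
    have h7 := mul_mem hq (inv_mem hq₁)
    refine (h1 _).2 ⟨h7, ?_⟩
    rw [show x * (q * q₁⁻¹) * x⁻¹ * (q * q₁⁻¹)⁻¹ = x * q * x⁻¹ * q⁻¹ * (x * q₁ * x⁻¹ * q₁⁻¹)⁻¹ *
      (x * q₁ * x⁻¹ * q₁⁻¹ * (q * q₁⁻¹) * (x * q₁ * x⁻¹ * q₁⁻¹)⁻¹ * (q * q₁⁻¹)⁻¹) by group]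
    exact mul_mem (hy.mul_inv_mem (h3 q hq) (h3 q₁ hq₁) (fun e => hq' ((h1 q).2 ⟨hq, e⟩))
      fun e => hq₁' ((h1 q₁).2 ⟨hq₁, e⟩)) (commutator_mem_of_sq_mem hs (hCQ (h3 q₁ hq₁)) h7)
  have : 0 < Nat.card ↥F := Nat.card_pos
  omega

end SX

/-- The configuration of a minimal nonabelian maximal subgroup with derived group `⟨z⟩`. -/
def TypeTwo (P : Subgroup G) (z : G) : Prop :=
  ∃ Q ≤ P, Nat.card Q = 32 ∧ (∀ q ∈ Q, ∀ r ∈ Q, q * r * q⁻¹ * r⁻¹ ∈ zpowers z) ∧
    (∀ q ∈ Q, q * q = 1 → ∀ r ∈ Q, r * q = q * r) ∧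
      ∃ q ∈ Q, q * q * (q * q) = 1 ∧ ∃ x ∈ P, x ∉ Q ∧ q * q * (x * (q * q) * x⁻¹) ∉ zpowers z

namespace O64

variable {P Q : Subgroup G} {z t x : G} {r : ℕ} (h : O64 P z) (hx : SX P Q t x r)
include h hx

set_option quotPrecheck false in
local notation "F" => Q ⊓ centralizer ({t} : Set G)

theorem z_mem : z ∈ Q := hx.cen ⟨h.zP, center_le_centralizer _ h.zc⟩

theorem zF : zpowers z ≤ F := h.z_le_fix (h.z_mem hx) t

theorem idx_of_card (h32 : Nat.card Q = 32) : Idx P Q x := by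
  obtain ⟨y, -, hy⟩ := exists_idx_of_card_le hx.le (by rw [h.card, h32])
  exact hy.change hx.xP hx.xQ

theorem not_elem (hs : ∀ q ∈ Q, q * q ∈ F) (h32 : Nat.card Q = 32) (h2 : Nat.card ↥F = 2) :
    False := by
  obtain ⟨C, h1, h3, h4, h5⟩ := hx.exists_ctil hs
  have hCQ : C ≤ Q := fun q hq => ((h1 q).1 hq).1
  have h6 := h.gen C (hCQ.trans hx.le) fun u hu => by
    rcases h.idx_of_card hx h32 u hu with h6 | h6
    · exact h3 (hs u h6)
    · obtain ⟨q, rfl⟩ : ∃ q, u = q * x := ⟨u * x⁻¹, by simp⟩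
      rw [mul_inv_cancel_right] at h6
      rw [show q * x * (q * x) = q * (x * q * x⁻¹ * q⁻¹) * q⁻¹ * (x * q * x⁻¹ * q⁻¹)⁻¹ *
        (x * q * x⁻¹ * q⁻¹) * (q * q) * (x * x) by group]
      refine mul_mem (mul_mem (mul_mem (h3 (commutator_mem_of_sq_mem hs h6 (hCQ (h4 q h6))))
        (h4 q h6)) (h3 (hs q h6))) ((h1 _).2 ⟨hx.xx, ?_⟩)
      rw [show x * (x * x) * x⁻¹ * (x * x)⁻¹ = 1 by group]
      exact one_mem _
  rw [h32, h2] at h5
  nlinarith

theorem eq_three : r = 3 := by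
  by_contra h3
  have hp := hx.prime
  have h2 := hx.ne_two
  have h1 := h.card_lt (lt_of_le_of_ne hx.le fun e => hx.xQ (e ▸ hx.xP))
  have h4 := card_le_of_le (h.zF hx)
  rw [h.card_z] at h4
  have key : ∀ {W : Subgroup G}, F < W → W ≤ Q → t ∈ normalizer (W : Set G) →
      Nat.card W = 8 * Nat.card ↥F ∨ Nat.card W = 16 * Nat.card ↥F := fun {W} h5 h6 h7 => by
    have h8 := hx.modEq h6 h7
    rw [show W ⊓ centralizer {t} = F from le_antisymm (inf_le_inf_right _ h6)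
      (le_inf h5.le inf_le_right)] at h8
    obtain ⟨k, hk⟩ := (hx.pg.to_le h6).exists_relIndex_eq_pow F
    obtain ⟨j, hj⟩ := (hx.pg.to_le (inf_le_left : F ≤ Q)).exists_card_eq
    have h9 := card_mul_relIndex h5.le
    have h10 := card_lt_of_lt h5
    have h11 := card_le_of_le h6
    rw [hk] at h9
    have h12 := (Nat.modEq_iff_dvd' h10.le).1 h8.symm
    rw [← h9, ← Nat.mul_sub_one, hj] at h12
    replace h12 := (hp.dvd_mul.1 h12).resolve_left fun e =>
      h2 ((Nat.prime_dvd_prime_iff_eq hp Nat.prime_two).1 (hp.dvd_of_dvd_pow e))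
    have h13 : k < 5 := (Nat.pow_lt_pow_iff_right one_lt_two).1 (by nlinarith)
    interval_cases k
    · omega
    · exact absurd (Nat.dvd_one.1 h12) hp.ne_one
    · exact absurd ((Nat.prime_dvd_prime_iff_eq hp Nat.prime_three).1 h12) h3
    · omega
    · omega
  have hs := hx.sq_mem_of_min hx.fix_lt hx.norm_fix fun W h5 h6 h7 => by
    by_contra h8
    have h9 := key (lt_of_le_not_ge h5 h8) h6.le h7
    have h10 := key hx.fix_lt le_rfl hx.norm
    have h11 := card_lt_of_lt h6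
    have h12 := hx.modEq h6.le h7
    have h13 := (h12.trans (by rw [show W ⊓ centralizer {t} = F from
      le_antisymm (inf_le_inf_right _ h6.le) (le_inf h5 inf_le_right)])).trans
      (hx.modEq le_rfl hx.norm).symm
    rw [show Nat.card W = 16 by omega, show Nat.card Q = 32 by omega] at h13
    exact h2 ((Nat.prime_dvd_prime_iff_eq hp Nat.prime_two).1
      (hp.dvd_of_dvd_pow (n := 4) ((Nat.modEq_iff_dvd' (by norm_num)).1 h13)))
  rcases key hx.fix_lt le_rfl hx.norm with h5 | h5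
  · exact hx.not_eight hs h5
  · exact h.not_elem hx hs (by omega) (by omega)

end O64

end GT
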