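import Cfsg.Agent.Lib.Grp.Ord64

/-!
# Automorphisms of order three of subgroups of `2`-generated groups of order `64`
-/

set_option autoImplicit false
set_option linter.unusedSectionVars false

namespace GT

open Cfsg Subgroup
open scoped Pointwise

universe u

variable {G : Type u} [Group G] [Finite G]

theorem four_cosets {K : Subgroup G} {a b : G} (ha : a ∈ normalizer (K : Set G))
    (hb : b ∈ normalizer (K : Set G)) (haa : a * a ∈ K) (hbb : b * b ∈ K)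
    (hab : b * a * b⁻¹ * a⁻¹ ∈ K) {q : G} (hq : q ∈ K ⊔ zpowers a ⊔ zpowers b) :
    q ∈ K ∨ q * a⁻¹ ∈ K ∨ q * b⁻¹ ∈ K ∨ q * (a * b)⁻¹ ∈ K := by
  have h1 := idx_sup_zpowers ha haa
  have h2 := idx_sup_zpowers (C := K ⊔ zpowers a) (t := b) (mem_normalizer_of_conj_mem
    fun g hg => by
      obtain ⟨k, hk, _, ⟨i, rfl⟩, rfl⟩ := (mem_sup_of_le_normalizer_left (zpowers_le.2 ha)).1 hg
      rw [← conj_mul, ← conj_zpow, show b * a * b⁻¹ = b * a * b⁻¹ * a⁻¹ * a by group]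
      exact mul_mem (mem_sup_left (conj_mem_of_mem_normalizer hb hk))
        (zpow_mem (mul_mem_sup hab (mem_zpowers a)) i)) (mem_sup_left hbb)
  rcases h2 q hq with h3 | h3 <;> rcases h1 _ h3 with h4 | h4
  exacts [.inl h4, .inr (.inl h4), .inr (.inr (.inl h4)),
    .inr (.inr (.inr (by rwa [mul_inv_rev, ← mul_assoc])))]

theorem eq_one_of_cube {Q : Subgroup G} (hQ : IsPGroup 2 Q) {f : G} (hf : f ∈ Q)
    (h : f * f * f = 1) : f = 1 :=
  (isPElt_of_mem hQ hf).eq_one_of_isPRegular fun e => by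
    have := e.trans (orderOf_dvd_of_pow_eq_one (n := 3) (by rw [pow_succ, pow_two, h]))
    omega

theorem Idx.forall_commute {P Q : Subgroup G} {x v : G} (h : Idx P Q x)
    (h1 : ∀ r ∈ Q, r * v = v * r) (h2 : x * v = v * x) : ∀ g ∈ P, g * v = v * g := fun g hg => by
  rcases h g hg with h3 | h3
  · exact h1 g h3
  · calc g * v = g * x⁻¹ * (x * v) := by group
      _ = _ := by rw [h2, ← mul_assoc, h1 _ h3]; group

theorem Idx.norm_commute {P Q : Subgroup G} {x w : G} (h : Idx P Q x) (hQ : Q ≤ P) (hx : x ∈ P)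
    (hw : w ∈ Q) (h1 : ∀ r ∈ Q, r * w = w * r) :
    ∀ g ∈ P, g * (w * (x * w * x⁻¹)) = w * (x * w * x⁻¹) * g := by
  have h2 : ∀ r ∈ Q, r * (x * w * x⁻¹) = x * w * x⁻¹ * r := fun r hr => by
    calc _ = x * (x⁻¹ * r * x⁻¹⁻¹ * w) * x⁻¹ := by group
      _ = _ := by rw [h1 _ (h.conj_mem hQ (inv_mem hx) hr)]; group
  refine h.forall_commute (fun r hr => by
    rw [← mul_assoc, h1 r hr, mul_assoc, h2 r hr, ← mul_assoc]) ?_
  calc _ = x * w * x⁻¹ * (x * x * w) * x⁻¹ := by group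
    _ = _ := by rw [h1 _ (h.sq_mem hx), h2 w hw]; group

theorem TypeTwo.exists_not {P : Subgroup G} {z : G} (hz : TypeTwo P z) (h64 : Nat.card P = 64)
    (he : ∀ u ∈ P, (∀ g ∈ P, g * u = u * g) → u * u = 1) :
    ∃ v ∈ P, (∀ g ∈ P, g * v = v * g) ∧ v ≠ 1 ∧ ¬ TypeTwo P v := by
  obtain ⟨Q, hQ, h32, hc, hi, q, hq, hq4, x, hx, hxQ, hv⟩ := hz
  obtain ⟨_, -, hI⟩ := exists_idx_of_card_le hQ (by rw [h64, h32])
  replace hI := hI.change hx hxQ
  have hqq := mul_mem hq hq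
  have h1 := hI.norm_commute hQ hx hqq (hi _ hqq hq4)
  have hvP := hQ (mul_mem hqq (hI.conj_mem hQ hx hqq))
  have hv1 : q * q * (x * (q * q) * x⁻¹) ≠ 1 := fun e => hv (e ▸ one_mem _)
  refine ⟨_, hvP, h1, hv1, fun ⟨R, hR, hR32, hRc, hRi, _⟩ => hv1 ?_⟩
  by_cases hQR : Q ≤ R
  · have h2 : ∀ a ∈ Q, ∀ b ∈ Q, a * b = b * a := fun a ha b hb => by
      rcases (mem_zpowers_of_mul_self (he _ hvP h1)).1 (hRc a (hQR ha) b (hQR hb)) with e | e
      · rwa [mul_inv_eq_one, mul_inv_eq_iff_eq_mul] at e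
      · exact absurd (e ▸ hc a ha b hb) hv
    have h3 := hI.conj_mem hQ hx hq
    rw [← he _ (hQ (mul_mem hq h3)) (hI.norm_commute hQ hx hq fun r hr => h2 r hr q hq),
      ← conj_mul, mul_assoc q, mul_assoc q, ← mul_assoc _ q (x * q * x⁻¹), h2 _ h3 q hq,
      mul_assoc q]
  · obtain ⟨y, hy, hy'⟩ := SetLike.not_le_iff_exists.1 hQR
    obtain ⟨_, -, hJ⟩ := exists_idx_of_card_le hR (by rw [h64, hR32])
    rw [(hJ.change (hQ hy) hy').forall_commute (hRi _ (hJ.sq_mem (hQ hq)) hq4)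
      (hi _ hqq hq4 y hy) x hx, mul_inv_cancel_right, hq4]

theorem TypeTwo.map {P : Subgroup G} {z : G} (hz : TypeTwo P z) {H : Type u} [Group H] [Finite H]
    {f : G →* H} (hf : Function.Injective f) : TypeTwo (P.map f) (f z) := by
  obtain ⟨Q, hQ, h32, hc, hi, q, hq, hq4, x, hx, hxQ, hv⟩ := hz
  refine ⟨Q.map f, map_mono hQ, by rwa [card_map_of_injective hf], ?_, ?_, f q, mem_map_of_mem f hq,
    by rw [← map_mul, ← map_mul, hq4, map_one], f x, mem_map_of_mem f hx,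
    by rwa [mem_map_iff_mem hf], ?_⟩
  · rintro _ ⟨a, ha, rfl⟩ _ ⟨b, hb, rfl⟩
    simpa [← MonoidHom.map_zpowers] using mem_map_of_mem f (hc a ha b hb)
  · rintro _ ⟨a, ha, rfl⟩ h _ ⟨b, hb, rfl⟩
    rw [← map_mul, ← map_mul, hi a ha (hf (by rw [map_mul, h, map_one])) b hb]
  · rwa [← MonoidHom.map_zpowers, ← map_inv, ← map_mul, ← map_mul, ← map_mul, ← map_mul,
      mem_map_iff_mem hf]

namespace O64

variable {P Q : Subgroup G} {z t x : G} (h : O64 P z)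
include h

theorem pow_eight {u : G} (hu : u ∈ P) : u * u * (u * u) * (u * u * (u * u)) = 1 := by
  obtain ⟨k, hk⟩ := (isPElt_of_mem h.pg hu)
  have h1 := h.exp u hu
  rw [hk] at h1
  have h2 : k ≤ 3 := (Nat.pow_le_pow_iff_right one_lt_two).1 h1
  have h3 : u ^ 2 ^ 3 = 1 := orderOf_dvd_iff_pow_eq_one.1 (hk ▸ pow_dvd_pow 2 h2)
  rw [← h3]
  simp only [← pow_two, ← pow_mul]
  rfl

theorem typeTwo (hx : SX P Q t x 3) (h32 : Nat.card Q = 32)
    (h2 : Nat.card ↥(Q ⊓ centralizer {t}) = 2) : TypeTwo P z := by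
  have hF : zpowers z = Q ⊓ centralizer {t} :=
    eq_of_le_of_card_ge (h.zF hx) (by rw [h2, h.card_z])
  have hzc : ∀ u ∈ zpowers z, ∀ g, g * u = u * g := fun u hu g =>
    mem_center_iff.1 (zpowers_le.2 h.zc hu) g
  have hz2 : ∀ u ∈ zpowers z, u * u = 1 := fun u hu =>
    h.elem u (zpowers_le.2 h.zP hu) fun g _ => hzc u hu g
  obtain ⟨H, _, _, π, hπ⟩ := h.exists_quot
  have h1 : ∀ g ∈ Q, π g * π (t * g * t⁻¹) * π (t * (t * g * t⁻¹) * t⁻¹) = 1 := fun g hg => by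
    have h3 := hx.conj_mem hg
    obtain ⟨k, -, h4⟩ := hx.exists_conj_fix (mul_mem (mul_mem hg h3) (hx.conj_mem h3)) (inv_mem hg)
      (by rw [← conj_mul, ← conj_mul, hx.toPAct.cube hg]; group)
    have h5 := (hπ _).2 (hF.ge h4)
    rwa [map_mul, map_mul, map_inv, mul_inv_eq_one, mul_eq_left, map_mul, map_mul] at h5
  have h3 : ∀ g ∈ Q, π g * π (t * g * t⁻¹) = π (t * g * t⁻¹) * π g := fun g hg => by
    have h4 := h1 _ (inv_mem hg)
    rw [← conj_inv, ← conj_inv, map_inv, map_inv, map_inv, ← mul_inv_rev, ← mul_inv_rev,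
      inv_eq_one] at h4
    rw [eq_inv_of_mul_eq_one_left (h1 g hg), eq_inv_of_mul_eq_one_right h4]
  obtain ⟨g, hg, hg2, hg4⟩ : ∃ g ∈ Q, g * g ∉ zpowers z ∧ g * g * (g * g) ∈ zpowers z := by
    by_contra! h4
    refine h.not_elem hx (fun q hq => hF ▸ ?_) h32 h2
    by_contra h5
    exact h4 _ (mul_mem hq hq) (h4 q hq h5) (h.pow_eight (hx.le hq) ▸ one_mem _)
  obtain ⟨b, hb⟩ : ∃ b, b = t * g * t⁻¹ := ⟨_, rfl⟩
  obtain ⟨c, hc⟩ : ∃ c, c = t * b * t⁻¹ := ⟨_, rfl⟩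
  have hbQ : b ∈ Q := hb ▸ hx.conj_mem hg
  have hca : t * c * t⁻¹ = g := by rw [hc, hb, hx.toPAct.cube hg]
  have h4 := h1 g hg
  have h5 := h3 g hg
  rw [← hb] at h4 h5
  rw [← hc] at h4
  have htz : ∀ {u}, t * u * t⁻¹ ∈ zpowers z ↔ u ∈ zpowers z := fun {u} => by
    rw [← hπ, ← hπ, map_mul, map_mul, map_inv, mul_inv_eq_one, mul_eq_left]
  have hgb : b * g * b⁻¹ * g⁻¹ ∈ zpowers z := (hπ _).1 (by simp [← h5])
  have hcz : g * b * c ∈ zpowers z := (hπ _).1 (by simp only [map_mul, h4])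
  have hzn : ∀ u, u ∈ normalizer (zpowers z : Set G) := fun u =>
    centralizer_le_normalizer _ fun k hk => (hzc k hk u).symm
  obtain ⟨A, hA⟩ : ∃ A, A = zpowers z ⊔ zpowers g ⊔ zpowers b := ⟨_, rfl⟩
  have hzA : zpowers z ≤ A := hA ▸ le_sup_left.trans le_sup_left
  have hgA : g ∈ A := hA ▸ mem_sup_left (mem_sup_right (mem_zpowers g))
  have hbA : b ∈ A := hA ▸ mem_sup_right (mem_zpowers b)
  have hAQ : A ≤ Q := hA ▸ sup_le (sup_le (hF ▸ inf_le_left) (zpowers_le.2 hg)) (zpowers_le.2 hbQ)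
  have hAn : t ∈ normalizer (A : Set G) := mem_normalizer_of_conj_mem fun u hu => by
    have : A ≤ A.comap (MulAut.conj t).toMonoidHom := by
      conv_lhs => rw [hA]
      exact sup_le (sup_le (fun u hu => hzA (htz.2 hu))
        (zpowers_le.2 (show t * g * t⁻¹ ∈ A from hb ▸ hbA)))
        (zpowers_le.2 (show t * b * t⁻¹ ∈ A from
          hc ▸ (A.mul_mem_cancel_left (mul_mem hgA hbA)).1 (hzA hcz)))
    exact this hu
  have hAQ' : Q ≤ A := by
    have h6 := hx.modEq hAQ hAn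
    rw [show A ⊓ centralizer {t} = Q ⊓ centralizer {t} from le_antisymm (inf_le_inf_right _ hAQ)
      (le_inf (hF ▸ hzA) inf_le_right), h2, Nat.ModEq] at h6
    have h7 : zpowers z < zpowers z ⊔ zpowers (g * g) := left_lt_sup.2 (mt zpowers_le.1 hg2)
    have h8 : zpowers z ⊔ zpowers (g * g) < zpowers z ⊔ zpowers g :=
      lt_of_le_of_ne (sup_le_sup_left (zpowers_le.2 (mul_mem (mem_zpowers g) (mem_zpowers g))) _)
        fun e => by
          rcases idx_sup_zpowers (hzn _) hg4 g (e ▸ mem_sup_right (mem_zpowers g)) with h8 | h8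
          · exact hg2 (mul_mem h8 h8)
          · rw [mul_inv_rev, mul_inv_cancel_left, inv_mem_iff] at h8
            exact hg2 (mul_mem h8 h8)
    have h9 := two_mul_card_le_of_lt h7
    have h10 := two_mul_card_le_of_lt h8
    have h11 := h.card_z
    have h12 : zpowers z ⊔ zpowers g < A := hA ▸ left_lt_sup.2 fun e => by
      obtain ⟨u, hu, _, ⟨i, rfl⟩, h12⟩ :=
        (mem_sup_of_le_normalizer_left (fun u _ => hzn u)).1 (zpowers_le.1 e)
      have h13 : π b = π g ^ i := by rw [← h12, map_mul, (hπ u).2 hu, one_mul, map_zpow]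
      have h14 : π c = π b ^ i := by
        rw [hc, map_mul, map_mul, h13, map_inv, ← conj_zpow, ← map_inv, ← map_mul, ← map_mul, ← hb,
          h13]
      rw [h14, h13, ← zpow_mul, ← zpow_one_add, ← zpow_add, ← orderOf_dvd_iff_zpow_eq_one] at h4
      have h15 : (orderOf (π g) : ℤ) ∣ 2 * 2 := orderOf_dvd_iff_zpow_eq_one.2 (by
        rw [← (hπ _).2 hg4, map_mul, map_mul, zpow_mul, zpow_two, zpow_two])
      obtain ⟨k, hk⟩ := Int.even_mul_succ_self i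
      have h16 := dvd_sub (h4.mul_left (1 + 2 * k)) (h15.mul_right (k * k + k))
      rw [show (1 + 2 * k) * (1 + i + i * i) - 2 * 2 * (k * k + k) = 1 by
        linear_combination (1 + 2 * k) * hk, orderOf_dvd_iff_zpow_eq_one, zpow_one, hπ] at h16
      exact hg2 (mul_mem h16 h16)
    have h13 := two_mul_card_le_of_lt h12
    have h14 := card_le_of_le hAQ
    refine (eq_of_le_of_card_ge hAQ ?_).ge
    rcases h.cards (hAQ.trans hx.le) with e | e | e | e | e | e | e <;> omega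
  have h6 : ∀ v : H, π g * v = v * π g → π b * v = v * π b → ∀ q ∈ Q, π q * v = v * π q :=
    fun v h6 h7 q hq => mem_centralizer_singleton_iff.1 ((show A ≤ (centralizer {v}).comap π from
      hA ▸ sup_le (sup_le (fun u hu => by rw [mem_comap, (hπ u).2 hu]; exact one_mem _)
        (zpowers_le.2 (mem_centralizer_singleton_iff.2 h6)))
        (zpowers_le.2 (mem_centralizer_singleton_iff.2 h7))) (hAQ' hq))
  have h7 : ∀ q ∈ Q, ∀ r ∈ Q, q * r * q⁻¹ * r⁻¹ ∈ zpowers z := fun q hq r hr => (hπ _).1 (by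
    simp [h6 (π r) (h6 (π g) rfl h5.symm r hr).symm (h6 (π b) h5 rfl r hr).symm q hq])
  have h8 : ∀ q ∈ Q, ∀ r ∈ Q, r * (q * q) = q * q * r := fun q hq r hr => by
    have h8 := h7 r hr q hq
    calc r * (q * q) = r * q * r⁻¹ * q⁻¹ * (q * (r * q * r⁻¹ * q⁻¹)) * q * r := by group
      _ = _ := by rw [hzc _ h8, ← mul_assoc _ _ q, hz2 _ h8, one_mul]
  let E : Subgroup G :=
    { carrier := {q | (∀ r ∈ Q, r * q = q * r) ∧ q ∈ Q ∧ q * q ∈ zpowers z}
      one_mem' := ⟨by simp, one_mem _, by simp⟩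
      mul_mem' := fun {u v} hu hv => ⟨fun r hr => by
        rw [← mul_assoc, hu.1 r hr, mul_assoc, hv.1 r hr, mul_assoc], mul_mem hu.2.1 hv.2.1, by
        rw [mul_assoc, ← mul_assoc v, hu.1 v hv.2.1, mul_assoc, ← mul_assoc]
        exact mul_mem hu.2.2 hv.2.2⟩
      inv_mem' := fun {u} hu => ⟨fun r hr => (Commute.inv_right (hu.1 r hr)).eq, inv_mem hu.2.1, by
        rw [← mul_inv_rev]; exact inv_mem hu.2.2⟩ }
  have hzE : zpowers z ≤ E := fun u hu =>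
    ⟨fun r _ => hzc u hu r, hAQ (hzA hu), mul_mem hu hu⟩
  have hEn : ∀ r ∈ Q, r ∈ normalizer (E : Set G) := fun r hr =>
    centralizer_le_normalizer _ fun u hu => (hu.1 r hr).symm
  have hb4 : b * b * (b * b) = g * g * (g * g) := by
    rw [hb, conj_mul, conj_mul, hzc _ hg4, mul_inv_cancel_right]
  have hb2 : b * b ∉ zpowers z := by rwa [hb, conj_mul, htz]
  have hc2 : c * c = (g * b * (g * b))⁻¹ := by
    rw [show c = (g * b)⁻¹ * (g * b * c) by group, mul_assoc, ← mul_assoc (g * b * c),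
      ← hzc _ hcz, mul_assoc, hz2 _ hcz, mul_one, mul_inv_rev (g * b)]
  have hgb2 : g * b * (g * b) = b * g * b⁻¹ * g⁻¹ * (g * g * (b * b)) := by
    calc _ = g * (b * g * b⁻¹ * g⁻¹) * g * (b * b) := by group
      _ = _ := by rw [hzc _ hgb]; group
  have hg1 : g * g * (g * g) = 1 := by
    have h9 : c * c * (c * c) = g * g * (g * g) := by
      rw [hc, conj_mul, conj_mul, hb4, hzc _ hg4, mul_inv_cancel_right]
    rw [← h9, hc2, ← mul_inv_rev, inv_eq_one, hgb2, mul_assoc, ← mul_assoc (g * g * (b * b)),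
      hzc _ hgb, mul_assoc (b * g * b⁻¹ * g⁻¹), ← mul_assoc, hz2 _ hgb, one_mul,
      mul_assoc (g * g), ← mul_assoc (b * b), h8 g hg _ (mul_mem hbQ hbQ), mul_assoc (g * g),
      ← mul_assoc (g * g), hb4, hz2 _ hg4]
  refine ⟨Q, hx.le, h32, h7, fun q hq hq2 => ?_, ?_⟩
  · have h9 : ∀ y ∈ Q, q * y⁻¹ ∈ E → y * y ∈ zpowers z := fun y hy hy' => by
      rw [← (zpowers z).mul_mem_cancel_left hy'.2.2, show q * y⁻¹ * (q * y⁻¹) * (y * y) =
        q * y⁻¹ * (q * y⁻¹ * y) * y by group, ← hy'.1 y hy,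
        show q * y⁻¹ * (y * (q * y⁻¹)) * y = q * q by group, hq2]
      exact one_mem _
    rcases four_cosets (hEn g hg) (hEn b hbQ) ⟨h8 g hg, mul_mem hg hg, hg4⟩
      ⟨h8 b hbQ, mul_mem hbQ hbQ, hb4 ▸ hg4⟩ (hzE hgb)
      (sup_le_sup_right (sup_le_sup_right hzE _) _ (hA ▸ hAQ' hq)) with h10 | h10 | h10 | h10
    · exact h10.1
    · exact absurd (h9 g hg h10) hg2
    · exact absurd (h9 b hbQ h10) hb2
    · have h11 := inv_mem (h9 _ (mul_mem hg hbQ) h10)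
      rw [← hc2, hc, conj_mul, htz] at h11
      exact absurd h11 hb2
  by_contra! h9
  have h10 := (hπ _).2 (h9 g hg hg1 x hx.xP hx.xQ)
  have h11 := (hπ _).2 (h9 b hbQ (hb4 ▸ hg1) x hx.xP hx.xQ)
  have h12 := hx.conj_conj (mul_mem hg hg)
  rw [← conj_mul (b := t), ← hb] at h12
  rw [h12, map_mul, ← map_one π, ← hg1, ← hb4, map_mul π (b * b), mul_right_inj] at h11
  rw [map_mul, ← map_one π, ← hg1, map_mul π (g * g), mul_right_inj] at h10
  have h13 : π (c * c) = π (g * g) := by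
    rw [hc, conj_mul, map_mul, map_mul, ← h11, map_mul, map_mul, h10, map_inv]; group
  rw [hc2, hgb2, map_inv, map_mul, (hπ _).2 hgb, one_mul, inv_eq_iff_mul_eq_one, ← map_mul,
    mul_assoc, h8 g hg _ (mul_mem hbQ hbQ), ← mul_assoc, hg1, one_mul, hπ] at h13
  exact hb2 h13

end O64

/-- The configuration of an automorphism of order three acting on a four-group `Q / F`. -/
structure Tri (P Q F : Subgroup G) (x a b s : G) : Prop where
  le : Q ≤ P
  Fle : F ≤ Q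
  aQ : a ∈ Q
  bQ : b ∈ Q
  ca : ∀ f ∈ F, a * f = f * a
  cb : ∀ f ∈ F, b * f = f * b
  aa : a * a = s
  bb : b * b = s
  sF : s ∈ F
  ss : s * s = 1
  ba : b * a * b⁻¹ = a * s
  aF : a ∉ F
  bF : b ∉ F
  abF : a * b ∉ F
  cos : ∀ q ∈ Q, q ∈ F ∨ q * a⁻¹ ∈ F ∨ q * b⁻¹ ∈ F ∨ q * (a * b)⁻¹ ∈ F
  xP : x ∈ P
  xQ : x ∉ Q
  xn : x ∈ normalizer (Q : Set G)
  xF : x ∈ normalizer (F : Set G)
  xa : x * a * x⁻¹ = a⁻¹
  xb : x * b * x⁻¹ = a * b
  xx : x * x ∈ F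
  idx : Idx (P ⊓ normalizer (Q : Set G)) Q x

theorem SX.exists_tri {P Q : Subgroup G} {t x : G} (h : SX P Q t x 3)
    (hI : Idx (P ⊓ normalizer (Q : Set G)) Q x)
    (h4 : Nat.card Q = 4 * Nat.card ↥(Q ⊓ centralizer {t})) :
    ∃ x a b s, Tri P Q (Q ⊓ centralizer {t}) x a b s := by
  have hxF := h.x_norm_fix
  have htF := h.norm_fix
  have hmem := @h.mem_of_comm_mem _ _ _ _ _ _ _ inf_le_left htF le_rfl
  have hlt := h.fix_lt
  have hs : ∀ q ∈ Q, q * q ∈ Q ⊓ centralizer {t} := h.sq_mem_of_min hlt htF fun W h5 h6 h7 => by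
    by_contra h8
    have h9 := h.modEq h6.le h7
    rw [show W ⊓ centralizer {t} = Q ⊓ centralizer {t} from le_antisymm (inf_le_inf_right _ h6.le)
      (le_inf h5 inf_le_right)] at h9
    have h10 := two_mul_card_le_of_lt (lt_of_le_not_ge h5 h8)
    have h11 := two_mul_card_le_of_lt h6
    obtain ⟨j, hj⟩ := (h.pg.to_le hlt.le).exists_card_eq
    have h12 : 3 ∣ 2 ^ j := by rw [Nat.ModEq] at h9; omega
    exact absurd (Nat.prime_three.dvd_of_dvd_pow h12) (by norm_num)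
  have hn := le_normalizer_of_sq_mem inf_le_left hs
  have hc := @commute_of_mem_normalizer_fix _ _ _ Q t
  have hft : ∀ f ∈ Q ⊓ centralizer {t}, f * t = t * f := fun f hf =>
    mem_centralizer_singleton_iff.1 hf.2
  generalize Q ⊓ centralizer {t} = F at *
  obtain ⟨β, hβ⟩ : ∃ β : G ≃* G, ∀ g, t * g * t⁻¹ = β g := ⟨MulAut.conj t, fun _ => rfl⟩
  obtain ⟨ξ, hξ⟩ : ∃ ξ : G ≃* G, ∀ g, x * g * x⁻¹ = ξ g := ⟨MulAut.conj x, fun _ => rfl⟩
  have hβF : ∀ f ∈ F, β f = f := fun f hf => by rw [← hβ, ← hft f hf, mul_inv_cancel_right]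
  have hβF' : ∀ {u}, β u ∈ F ↔ u ∈ F := fun {u} => hβ u ▸ (mem_normalizer_iff.1 htF u).symm
  have hξF : ∀ {u}, ξ u ∈ F ↔ u ∈ F := fun {u} => hξ u ▸ (mem_normalizer_iff.1 hxF u).symm
  have hβQ : ∀ {q}, q ∈ Q → β q ∈ Q := fun hq => hβ _ ▸ h.conj_mem hq
  have hξQ : ∀ {q}, q ∈ Q → ξ q ∈ Q := fun hq => hξ _ ▸ h.x_mem hq
  have h3 : ∀ {q}, q ∈ Q → β (β (β q)) = q := fun hq => by
    rw [← hβ, ← hβ, ← hβ, h.toPAct.cube hq]
  have hβξ : ∀ {q}, q ∈ Q → β (ξ (β q)) = ξ q := fun hq => by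
    rw [← hβ, ← hξ, ← hβ, ← hξ, h.conj_conj hq]; group
  obtain ⟨T, hT⟩ : ∃ T : G → Prop, ∀ {a}, T a ↔ a ∈ Q ∧ a ∉ F ∧ (∀ f ∈ F, a * f = f * a) ∧
      β (β a) = (a * β a)⁻¹ := ⟨_, Iff.rfl⟩
  have T1 : ∀ {a}, T a → T (β a) := fun {a} ha => by
    obtain ⟨h1, h2, h5, h6⟩ := hT.1 ha
    refine hT.2 ⟨hβQ h1, mt hβF'.1 h2, fun f hf => ?_, by rw [h3 h1, h6]; group⟩
    rw [← hβF f hf, ← map_mul, ← map_mul, h5 f hf]
  have T2 : ∀ {a}, T a → T (ξ a⁻¹) := fun {a} ha => by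
    obtain ⟨h1, h2, h5, h6⟩ := hT.1 ha
    refine hT.2 ⟨hξQ (inv_mem h1), fun e => h2 (inv_mem_iff.1 (hξF.1 e)), fun f hf => ?_, ?_⟩
    · obtain ⟨f, rfl⟩ := ξ.surjective f
      rw [← map_mul, ← map_mul, (Commute.inv_left (h5 f (hξF.1 hf))).eq]
    · have h7 := hβξ (hβQ (hβQ (inv_mem h1)))
      rw [h3 (inv_mem h1)] at h7
      rw [h7, hβξ (hβQ (inv_mem h1)), ← map_mul, ← map_inv, map_inv β, map_inv β, h6]
      congr 1
      group
  have T3 : ∀ {a a'}, T a → T a' → a' * a⁻¹ ∈ F → a' = a := fun {a a'} ha ha' hf => by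
    obtain ⟨f, rfl⟩ : ∃ f, a' = f * a := ⟨a' * a⁻¹, by simp⟩
    rw [mul_inv_cancel_right] at hf
    have h1 := (hT.1 ha').2.2.2
    rw [map_mul, map_mul, hβF f hf, hβF f hf, (hT.1 ha).2.2.2, eq_inv_iff_mul_eq_one,
      ← mul_assoc (f * a), mul_assoc f a, (hT.1 ha).2.2.1 f hf] at h1
    have h2 := (hT.1 (T1 ha)).2.2.1 _ (mul_mem hf hf)
    have h5 := (hT.1 ha).2.2.1 _ (mul_mem hf hf)
    rw [eq_one_of_cube h.pg (hlt.le hf) (by
      rw [← h1, ← mul_assoc f f a, ← h5, mul_assoc a, ← h2]; group), one_mul]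
  have T4 : ∀ {a}, T a → a * β a ∉ F := fun {a} ha e =>
    (hT.1 (T1 (T1 ha))).2.1 ((hT.1 ha).2.2.2 ▸ inv_mem e)
  have T5 : ∀ {a}, T a → ∀ q ∈ Q, q ∈ F ∨ q * a⁻¹ ∈ F ∨ q * (β a)⁻¹ ∈ F ∨
      q * (a * β a)⁻¹ ∈ F := fun {a} ha q hq => by
    have h1 := (hT.1 ha).1
    have h2 := hβQ h1
    refine four_cosets (hn h1) (hn h2) (hs _ h1) (hs _ h2) (commutator_mem_of_sq_mem hs h2 h1)
      ((eq_of_le_of_card_ge (sup_le (sup_le hlt.le (zpowers_le.2 h1)) (zpowers_le.2 h2)) ?_).ge hq)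
    have h6 := two_mul_card_le_of_lt (left_lt_sup.2 (mt zpowers_le.1 (hT.1 ha).2.1))
    have h5 := two_mul_card_le_of_lt (left_lt_sup.2 (mt zpowers_le.1
      (show β a ∉ F ⊔ zpowers a from fun e => (idx_sup_zpowers (hn h1) (hs _ h1) _ e).elim
        (hT.1 (T1 ha)).2.1 fun e => T4 ha (by
          rw [show a * β a = a * (β a * a⁻¹) * a⁻¹ * (a * a) by group]
          exact mul_mem (conj_mem_of_mem_normalizer (hn h1) e) (hs a h1)))))
    omega
  obtain ⟨a, ha, hxa⟩ : ∃ a, T a ∧ ξ a⁻¹ = a := by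
    obtain ⟨q, hq, hq'⟩ := SetLike.not_le_iff_exists.1 hlt.not_ge
    obtain ⟨a, ha⟩ : ∃ a, T a := ⟨q⁻¹ * β q, hT.2 ⟨mul_mem (inv_mem hq) (hβQ hq),
      hβ q ▸ mt (hmem hq) hq', fun f hf => hβ q ▸ hc (hn hq) hf, by
        simp only [map_mul, map_inv, h3 hq]; group⟩⟩
    have h1 := (hT.1 ha).1
    rcases T5 ha _ (hT.1 (T2 ha)).1 with h2 | h2 | h2 | h2
    · exact absurd h2 (hT.1 (T2 ha)).2.1
    · exact ⟨a, ha, T3 ha (T2 ha) h2⟩
    · refine ⟨_, T1 (T1 ha), β.injective (β.injective ?_)⟩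
      rw [← map_inv, ← map_inv, hβξ (hβQ (inv_mem h1)), hβξ (inv_mem h1), h3 (hβQ h1),
        T3 (T1 ha) (T2 ha) h2]
    · refine ⟨_, T1 ha, β.injective ?_⟩
      rw [← map_inv, hβξ (inv_mem h1)]
      refine T3 (T1 (T1 ha)) (T2 ha) ?_
      have := mul_mem h2 (hs _ (mul_mem h1 (hβQ h1)))
      rwa [← mul_assoc, inv_mul_cancel_right, ← inv_inv (a * β a), ← (hT.1 ha).2.2.2] at this
  obtain ⟨haQ, haF, hca, hab⟩ := hT.1 ha
  obtain ⟨hbQ, hbF, hcb, -⟩ := hT.1 (T1 ha)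
  have habF := T4 ha
  have hcos := T5 ha
  rw [map_inv, inv_eq_iff_eq_inv] at hxa
  have hxb : ξ (β a) = a * β a := β.injective (by
    rw [hβξ haQ, hxa, ← inv_inv (a * β a), ← hab, map_inv, h3 haQ])
  have hbb : β a * β a = a * a := by rw [← map_mul, hβF _ (hs a haQ)]
  have hcc : a * β a * (a * β a) = (a * a)⁻¹ := by
    rw [← inv_inj, mul_inv_rev, ← hab, ← map_mul, hbb, hβF _ (hs a haQ), inv_inv]
  rw [← hξ] at hxa hxb
  generalize β a = b at *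
  obtain ⟨w, hw⟩ : ∃ w, b * a * b⁻¹ = a * w := ⟨a⁻¹ * (b * a * b⁻¹), by simp⟩
  have hwF : w ∈ F := by
    have := inv_conj_mem_of_mem_normalizer (hn haQ) (commutator_mem_of_sq_mem hs hbQ haQ)
    rwa [hw, show a⁻¹ * (a * w * a⁻¹) * a = w by group] at this
  have hww : w * w = 1 := by
    have h1 := hcb _ (hs a haQ)
    rwa [← mul_inv_eq_iff_eq_mul, ← conj_mul, hw, mul_assoc a w, ← mul_assoc w, ← hca w hwF,
      mul_assoc a w, ← mul_assoc, mul_eq_left] at h1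
  have h1 : a * a * w * (a * a) = (a * a)⁻¹ := by
    rw [← hcc]
    conv_lhs => rw [mul_assoc a, ← hw, ← hbb]
    group
  have h2 : w * (a * a) = a * a * w := by
    rw [← mul_assoc, ← hca w hwF, mul_assoc, ← hca w hwF, mul_assoc]
  rw [mul_assoc _ w, h2, ← mul_assoc, eq_inv_iff_mul_eq_one, mul_assoc _ w, h2, ← mul_assoc] at h1
  have hss : a * a * (a * a) = 1 := eq_one_of_cube h.pg (mul_mem (mul_mem haQ haQ) (mul_mem haQ haQ))
    (by rw [← inv_one, ← hww, mul_inv_rev, ← eq_inv_of_mul_eq_one_left h1]; simp only [mul_assoc])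
  obtain rfl : w = a * a := by
    rw [hss, one_mul] at h1
    rw [eq_inv_of_mul_eq_one_right h1, eq_comm, ← mul_eq_one_iff_eq_inv, hss]
  have hxxa : x * x * a = a * (x * x) := by
    rw [← mul_inv_eq_iff_eq_mul, show x * x * a * (x * x)⁻¹ = x * (x * a * x⁻¹) * x⁻¹ by group, hxa,
      ← _root_.conj_inv, hxa, inv_inv]
  have hxxb : x * x * b = b * (x * x) := by
    rw [← mul_inv_eq_iff_eq_mul, show x * x * b * (x * x)⁻¹ = x * (x * b * x⁻¹) * x⁻¹ by group, hxb,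
      ← conj_mul, hxa, hxb, inv_mul_cancel_left]
  have hxq : ∀ q ∈ Q, x * x * q⁻¹ ∈ F → x * q * x⁻¹ * q⁻¹ ∈ F := fun q _ hq => by
    rw [show x * q * x⁻¹ * q⁻¹ = (x * (x * x * q⁻¹) * x⁻¹)⁻¹ * (x * x * q⁻¹) by group]
    exact mul_mem (inv_mem (conj_mem_of_mem_normalizer hxF hq)) hq
  rcases hcos _ h.xx with h5 | h5 | h5 | h5
  · exact ⟨x, a, b, a * a, h.le, hlt.le, haQ, hbQ, hca, hcb, rfl, hbb, hs a haQ, hss, hw, haF, hbF,
      habF, hcos, h.xP, h.xQ, h.xn, hxF, hxa, hxb, h5, hI⟩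
  · have h6 := hcb _ h5
    rw [← mul_assoc, ← hxxb, mul_assoc, mul_assoc (x * x), mul_right_inj] at h6
    have h7 : b * a * b⁻¹ = a := by
      rw [← inv_inj, _root_.conj_inv, h6, mul_inv_cancel_right]
    have haa : a * a = 1 := by rwa [h7, left_eq_mul] at hw
    have hxb' : x * b ∉ Q := by rw [Q.mul_mem_cancel_right hbQ]; exact h.xQ
    have hbn := le_normalizer hbQ
    refine ⟨x * b, a, b, a * a, h.le, hlt.le, haQ, hbQ, hca, hcb, rfl, hbb, hs a haQ, hss, hw, haF,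
      hbF, habF, hcos, mul_mem h.xP (h.le hbQ), hxb', mul_mem h.xn hbn, mul_mem hxF (hn hbQ), ?_, ?_,
      ?_, hI.change ⟨mul_mem h.xP (h.le hbQ), mul_mem h.xn hbn⟩ hxb'⟩
    · rw [← hxa]
      conv_rhs => rw [← h7]
      group
    · rw [← hxb]; group
    · rw [show x * b * (x * b) = x * b * x⁻¹ * (x * x * b) by group, hxb, hxxb, mul_assoc a,
        ← mul_assoc b, hbb, haa, one_mul, ← hxxa, eq_inv_of_mul_eq_one_left haa]
      exact h5
  · exact absurd (hxq b hbQ h5) (by rwa [hxb, mul_inv_cancel_right])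
  · have h6 := hxq _ (mul_mem haQ hbQ) h5
    rw [← conj_mul, hxa, hxb, show a⁻¹ * (a * b) * (a * b)⁻¹ = a⁻¹ by group, inv_mem_iff] at h6
    exact absurd h6 haF

end GT
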