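import Cfsg.Agent.Lib.Grp.Ord64B

/-!
# Essential subgroups of `2`-generated groups of order `64`
-/

set_option autoImplicit false
set_option linter.unusedSectionVars false

namespace GT

open Cfsg Subgroup
open scoped Pointwise

universe u

variable {G : Type u} [Group G] [Finite G]

theorem mem_normalizer_sup_zpowers {K : Subgroup G} {a g : G} (h1 : ∀ k ∈ K, g * k * g⁻¹ ∈ K ⊔ zpowers a)
    (h2 : g * a * g⁻¹ ∈ K ⊔ zpowers a) : g ∈ normalizer ((K ⊔ zpowers a : Subgroup G) : Set G) :=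
  mem_normalizer_of_conj_mem fun _ hu => (show K ⊔ zpowers a ≤ (K ⊔ zpowers a).comap
    (MulAut.conj g).toMonoidHom from sup_le h1 (zpowers_le.2 h2)) hu

namespace Tri

variable {P Q F : Subgroup G} {x a b s : G} (h : Tri P Q F x a b s)
include h

theorem exists_eq {q : G} (hq : q ∈ Q) :
    ∃ f ∈ F, q = f ∨ q = f * a ∨ q = f * b ∨ q = f * (a * b) := by
  rcases h.cos q hq with h1 | h1 | h1 | h1 <;> refine ⟨_, h1, ?_⟩ <;> simp [mul_assoc]

theorem le_of {K : Subgroup G} (h1 : F ≤ K) (ha : a ∈ K) (hb : b ∈ K) : Q ≤ K := fun q hq => by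
  obtain ⟨f, hf, rfl | rfl | rfl | rfl⟩ := h.exists_eq hq
  exacts [h1 hf, mul_mem (h1 hf) ha, mul_mem (h1 hf) hb, mul_mem (h1 hf) (mul_mem ha hb)]

theorem comm_of {v : G} (h1 : ∀ f ∈ F, f * v = v * f) (ha : a * v = v * a) (hb : b * v = v * b) :
    ∀ q ∈ Q, q * v = v * q := fun _ hq =>
  mem_centralizer_singleton_iff.1 (h.le_of (K := centralizer {v})
    (fun f hf => mem_centralizer_singleton_iff.2 (h1 f hf)) (mem_centralizer_singleton_iff.2 ha)
    (mem_centralizer_singleton_iff.2 hb) hq)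

theorem xN : x ∈ P ⊓ normalizer (Q : Set G) := ⟨h.xP, h.xn⟩

theorem QN : Q ≤ P ⊓ normalizer (Q : Set G) := le_inf h.le le_normalizer

theorem a_inv : a⁻¹ = a * s := by
  rw [inv_eq_iff_mul_eq_one, ← mul_assoc, h.aa, h.ss]

theorem comm_s : ∀ n ∈ P ⊓ normalizer (Q : Set G), n * s = s * n :=
  h.idx.forall_commute (h.comm_of (fun f hf => by
    rw [← h.aa, ← mul_assoc, ← h.ca f hf, mul_assoc, ← h.ca f hf, mul_assoc])
    (h.ca s h.sF) (h.cb s h.sF)) (by
      rw [← mul_inv_eq_iff_eq_mul, ← h.aa, ← conj_mul, h.xa, ← mul_inv_rev, h.aa,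
        inv_eq_iff_mul_eq_one, h.ss])

theorem le_normalizer_F : P ⊓ normalizer (Q : Set G) ≤ normalizer (F : Set G) := fun n hn => by
  have h1 := h.le_of le_normalizer (centralizer_le_normalizer _ fun f hf => (h.ca f hf).symm)
    (centralizer_le_normalizer _ fun f hf => (h.cb f hf).symm)
  rcases h.idx n hn with h2 | h2
  · exact h1 h2
  · exact (mul_mem_cancel_right (inv_mem h.xF)).1 (h1 h2)

theorem exists_sub {v : G} (hv : v ∈ Q) : ∃ K : Subgroup G, ∀ g,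
    g ∈ K ↔ g ∈ P ⊓ normalizer (Q : Set G) ∧ v⁻¹ * (g * v * g⁻¹) ∈ zpowers s := by
  have h1 : ∀ n ∈ P ⊓ normalizer (Q : Set G), ∀ u ∈ zpowers s, n * u * n⁻¹ = u := fun n hn u hu => by
    rw [mul_inv_eq_iff_eq_mul, eq_comm]
    exact mem_centralizer_singleton_iff.1
      (zpowers_le.2 (mem_centralizer_singleton_iff.2 (h.comm_s n hn).symm) hu)
  refine ⟨⟨⟨⟨{g | g ∈ P ⊓ normalizer (Q : Set G) ∧ v⁻¹ * (g * v * g⁻¹) ∈ zpowers s},
    fun {g k} hg hk => ⟨mul_mem hg.1 hk.1, ?_⟩⟩, one_mem _, by simp⟩,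
    fun {g} hg => ⟨inv_mem hg.1, ?_⟩⟩, fun _ => Iff.rfl⟩
  · rw [show v⁻¹ * (g * k * v * (g * k)⁻¹) =
      v⁻¹ * (g * v * g⁻¹) * (g * (v⁻¹ * (k * v * k⁻¹)) * g⁻¹) by group, h1 g hg.1 _ hk.2]
    exact mul_mem hg.2 hk.2
  · rw [show v⁻¹ * (g⁻¹ * v * g⁻¹⁻¹) = (g⁻¹ * (v⁻¹ * (g * v * g⁻¹)) * g⁻¹⁻¹)⁻¹ by group,
      h1 _ (inv_mem hg.1) _ hg.2]
    exact inv_mem hg.2

theorem conj_a {n : G} (hn : n ∈ P ⊓ normalizer (Q : Set G)) :
    ∃ e ∈ zpowers s, n * a * n⁻¹ = a * e := by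
  obtain ⟨K, hK⟩ := h.exists_sub h.aQ
  have h1 : Q ≤ K := h.le_of
    (fun f hf => (hK f).2 ⟨h.QN (h.Fle hf), by rw [← h.ca f hf]; simp⟩)
    ((hK a).2 ⟨h.QN h.aQ, by simp⟩) ((hK b).2 ⟨h.QN h.bQ, by rw [h.ba]; simp⟩)
  have h2 : x ∈ K := (hK x).2 ⟨h.xN, by
    rw [h.xa, ← mul_inv_rev, h.aa]; exact inv_mem (mem_zpowers s)⟩
  refine ⟨_, ((hK n).1 ?_).2, by simp⟩
  rcases h.idx n hn with h3 | h3
  exacts [h1 h3, (mul_mem_cancel_right (inv_mem h2)).1 (h1 h3)]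

theorem conj_b {q : G} (hq : q ∈ Q) : ∃ e ∈ zpowers s, q * b * q⁻¹ = b * e := by
  obtain ⟨K, hK⟩ := h.exists_sub h.bQ
  refine ⟨_, ((hK q).1 (h.le_of
    (fun f hf => (hK f).2 ⟨h.QN (h.Fle hf), by rw [← h.cb f hf]; simp⟩)
    ((hK a).2 ⟨h.QN h.aQ, ?_⟩) ((hK b).2 ⟨h.QN h.bQ, by simp⟩) hq)).2, by simp⟩
  rw [show b⁻¹ * (a * b * a⁻¹) = b⁻¹ * (a * (b * a * b⁻¹)⁻¹) * b by group, h.ba, mul_inv_rev,
    ← mul_assoc a, (Commute.inv_right (h.ca s h.sF)).eq, mul_inv_cancel_right, mul_assoc,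
    ← (Commute.inv_right (h.cb s h.sF)).eq, inv_mul_cancel_left]
  exact inv_mem (mem_zpowers s)

theorem sF' : zpowers s ≤ F := zpowers_le.2 h.sF

theorem conj_b' {n : G} (hn : n ∈ P ⊓ normalizer (Q : Set G)) (hn' : n ∉ Q) :
    ∃ e ∈ zpowers s, n * b * n⁻¹ = a * e * b := by
  have h1 := (h.idx n hn).resolve_left hn'
  obtain ⟨e, he, h2⟩ := h.conj_a (h.QN h1)
  obtain ⟨e', he', h3⟩ := h.conj_b h1
  refine ⟨e * e', mul_mem he he', ?_⟩
  calc _ = n * x⁻¹ * (x * b * x⁻¹) * (n * x⁻¹)⁻¹ := by group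
    _ = _ := by rw [h.xb, ← conj_mul, h2, h3, h.cb _ (h.sF' he')]; group

theorem mem_of_comm_b {n : G} (hn : n ∈ P ⊓ normalizer (Q : Set G))
    (h1 : n * b * n⁻¹ * b⁻¹ ∈ F) : n ∈ Q := by
  by_contra h2
  obtain ⟨e, he, h3⟩ := h.conj_b' hn h2
  rw [h3, mul_inv_cancel_right, F.mul_mem_cancel_right (h.sF' he)] at h1
  exact h.aF h1

theorem abab : a * b * (a * b) = s := by
  calc _ = a * (b * a * b⁻¹) * (b * b) := by group
    _ = _ := by rw [h.ba, h.bb, ← mul_assoc, h.aa, h.ss, one_mul]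

end Tri

namespace O64

variable {P Q F : Subgroup G} {z x a b s : G} (h : O64 P z) (hT : Tri P Q F x a b s)
include h hT

theorem not_tri_eight (h32 : Nat.card Q = 32) (h8 : Nat.card F = 8) : False := by
  obtain ⟨_, -, hI⟩ := exists_idx_of_card_le hT.le (by rw [h.card, h32])
  replace hI := hI.change hT.xP hT.xQ
  have hxs := hT.comm_s x hT.xN
  have hxF : x ∉ F := fun e => hT.xQ (hT.Fle e)
  by_cases hR : F ≤ zpowers x ⊔ zpowers s
  · have h1 : zpowers x ⊔ zpowers s ≤ centralizer {x * x} := sup_le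
      (zpowers_le.2 (mem_centralizer_singleton_iff.2 (mul_assoc _ _ _).symm))
      (zpowers_le.2 (mem_centralizer_singleton_iff.2
        (hT.comm_s _ (mul_mem hT.xN hT.xN)).symm))
    have h2 := h.elem _ (mul_mem hT.xP hT.xP) (hI.forall_commute (hT.comm_of
      (fun f hf => mem_centralizer_singleton_iff.1 (h1 (hR hf))) (hT.ca _ hT.xx) (hT.cb _ hT.xx))
      (mul_assoc _ _ _).symm)
    have h3 : orderOf x ≤ 2 * 2 := orderOf_le_of_pow_eq_one (by norm_num)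
      (by rw [pow_mul, pow_two, pow_two, h2])
    have h4 := card_sup_zpowers_le (C := zpowers x) (t := s) (centralizer_le_normalizer _ (by
      rw [centralizer_zpowers]; exact mem_centralizer_singleton_iff.2 hxs.symm))
      (hT.ss ▸ one_mem _)
    have h5 := two_mul_card_le_of_lt (lt_of_le_of_ne hR fun e =>
      hxF (e ▸ mem_sup_left (mem_zpowers x)))
    rw [Nat.card_zpowers] at h4
    omega
  have hY : F ⊔ zpowers x ≤ P := sup_le (hT.Fle.trans hT.le) (zpowers_le.2 hT.xP)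
  obtain ⟨M, h1, h2, h3⟩ := exists_idx_ge (h.pg.to_le hY) (lt_of_le_not_ge
    (sup_le le_sup_right (hT.sF'.trans le_sup_left)) fun e => hR (le_sup_left.trans e))
  have hxM : x ∈ M := h1 (mem_sup_left (mem_zpowers x))
  have h4 := two_mul_card_le_of_lt (inf_lt_left.2 fun e : F ≤ M =>
    h2.not_ge (sup_le e (zpowers_le.2 hxM)))
  have h5 := card_sup_zpowers_le (C := F ⊓ M) (t := a)
    (centralizer_le_normalizer _ fun f hf => (hT.ca f hf.1).symm)
    (hT.aa ▸ ⟨hT.sF, h1 (mem_sup_right (mem_zpowers s))⟩)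
  have ha : a ∈ F ⊓ M ⊔ zpowers a := mem_sup_right (mem_zpowers a)
  have hs : s ∈ F ⊓ M ⊔ zpowers a := hT.aa ▸ mul_mem ha ha
  have h6 := h.gen (F ⊓ M ⊔ zpowers a) (sup_le (inf_le_left.trans (hT.Fle.trans hT.le))
    (zpowers_le.2 (hT.le hT.aQ))) fun u hu => by
      have key : ∀ q ∈ Q, ∃ f ∈ F, ∃ e, q = f * e ∧ (∀ f ∈ F, e * f = f * e) ∧
          e * e ∈ F ⊓ M ⊔ zpowers a ∧ e * (x * e * x⁻¹) ∈ F ⊓ M ⊔ zpowers a := fun q hq => by
        obtain ⟨f, hf, rfl | rfl | rfl | rfl⟩ := hT.exists_eq hq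
        · exact ⟨q, hf, 1, by simp, by simp, by simp, by simp⟩
        · exact ⟨f, hf, a, rfl, hT.ca, mul_mem ha ha, by rw [hT.xa]; simp⟩
        · refine ⟨f, hf, b, rfl, hT.cb, hT.bb ▸ hs, ?_⟩
          rw [hT.xb, show b * (a * b) = b * a * b⁻¹ * (b * b) by group, hT.ba, hT.bb]
          exact mul_mem (mul_mem ha hs) hs
        · refine ⟨f, hf, a * b, rfl, fun f hf => by
            rw [mul_assoc, hT.cb f hf, ← mul_assoc, hT.ca f hf, mul_assoc], hT.abab ▸ hs, ?_⟩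
          rw [← conj_mul, hT.xa, hT.xb, inv_mul_cancel_left, mul_assoc, hT.bb]
          exact mul_mem ha hs
      rcases hI u hu with h7 | h7
      · obtain ⟨f, hf, e, rfl, h8, h9, -⟩ := key u h7
        rw [mul_assoc, ← mul_assoc e, h8 f hf, mul_assoc, ← mul_assoc]
        exact mul_mem (mem_sup_left ⟨mul_mem hf hf, h3 f (mem_sup_left hf)⟩) h9
      · obtain ⟨f, hf, e, h8, h9, -, h10⟩ := key _ h7
        have hf' := conj_mem_of_mem_normalizer hT.xF hf
        rw [mul_inv_eq_iff_eq_mul] at h8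
        rw [h8, show f * e * x * (f * e * x) = f * (e * (x * f * x⁻¹)) * (x * e * x⁻¹) * (x * x) by
          group, h9 _ hf', ← mul_assoc f, mul_assoc _ e]
        refine mul_mem (mul_mem (mem_sup_left ⟨mul_mem hf hf', ?_⟩) h10)
          (mem_sup_left ⟨hT.xx, mul_mem hxM hxM⟩)
        rw [show f * (x * f * x⁻¹) = f * x * (f * x) * (x * x)⁻¹ by group]
        exact M.mul_mem (h3 _ (mul_mem_sup hf (mem_zpowers x))) (inv_mem (mul_mem hxM hxM))
  omega

theorem not_tri_two (h8 : Nat.card Q = 8) (hF : zpowers z = F) : False := by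
  obtain ⟨H, _, _, π, hπ⟩ := h.exists_quot
  rw [hF] at hπ
  have hk : π.ker = F := Subgroup.ext hπ
  have hF2 : Nat.card F = 2 := hF ▸ h.card_z
  have h1 := card_map_mul_card_inf_ker π P
  have h2 := card_map_mul_card_inf_ker π Q
  rw [hk, inf_eq_left.2 (hT.Fle.trans hT.le), hF2, h.card] at h1
  rw [hk, inf_eq_left.2 hT.Fle, hF2, h8] at h2
  have h3 : ∀ g ∈ P, π g * π a = π a * π g → π g * π b = π b * π g → g ∈ Q := fun g hg h3 h4 => by
    have h5 : g * b * g⁻¹ * b⁻¹ ∈ F := (hπ _).1 (by simp [h4])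
    refine hT.mem_of_comm_b ⟨hg, mem_normalizer_of_conj_mem fun q hq => ?_⟩ h5
    refine hT.le_of (K := Q.comap (MulAut.conj g).toMonoidHom) (fun f hf => hT.Fle ((hπ _).1 ?_))
      ((Q.mul_mem_cancel_right (inv_mem hT.aQ)).1 (hT.Fle ((hπ _).1 ?_)))
      ((Q.mul_mem_cancel_right (inv_mem hT.bQ)).1 (hT.Fle h5)) hq
    · simp [(hπ f).2 hf]
    · simp [h3]
  obtain ⟨⟨_, ⟨u, hu, rfl⟩, h4⟩, h5⟩ := ne_bot_iff_exists_ne_one.1
    (inf_centralizer_ne_bot_of_isPGroup (h.pg.map π) (h.pg.map π) (fun e => by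
      rw [e, card_bot] at h1; omega) le_normalizer)
  have h6 : ∀ g ∈ P, π g * π u = π u * π g := fun g hg => h4 _ ⟨g, hg, rfl⟩
  have h7 : π u = π a := by
    have h7 := h6 x hT.xP
    rw [← mul_inv_eq_iff_eq_mul, ← map_inv, ← map_mul, ← map_mul] at h7
    obtain ⟨f, hf, rfl | rfl | rfl | rfl⟩ :=
      hT.exists_eq (h3 u hu (h6 a (hT.le hT.aQ)).symm (h6 b (hT.le hT.bQ)).symm)
    · exact absurd (Subtype.ext ((hπ _).2 hf)) h5
    · rw [map_mul, (hπ f).2 hf, one_mul]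
    · rw [← conj_mul, hT.xb, map_mul, map_mul π a, map_mul π f, (hπ f).2 hf,
        (hπ _).2 (conj_mem_of_mem_normalizer hT.xF hf), one_mul, one_mul, mul_eq_right, hπ] at h7
      exact absurd h7 hT.aF
    · rw [← conj_mul, ← conj_mul, hT.xa, hT.xb, inv_mul_cancel_left, map_mul, map_mul π f,
        (hπ f).2 hf, (hπ _).2 (conj_mem_of_mem_normalizer hT.xF hf), one_mul, one_mul, map_mul,
        right_eq_mul, hπ] at h7
      exact absurd h7 hT.aF
  obtain ⟨⟨_, g, hg, rfl⟩, h9⟩ := exists_orderOf_of_card_centralizer_le (h.pg.map π)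
    (b := ⟨π b, b, hT.le hT.bQ, rfl⟩) (by
      refine le_trans (card_le_of_le (K := (Q.map π).subgroupOf (P.map π)) ?_) ?_
      · rintro ⟨_, g, hg, rfl⟩ h9
        exact ⟨g, h3 g hg (h7 ▸ h6 g hg)
          (congrArg Subtype.val (mem_centralizer_singleton_iff.1 h9)), rfl⟩
      · rw [card_subgroupOf_of_le (map_mono hT.le)]; omega)
  have h10 := Nat.le_of_dvd (orderOf_pos g) (orderOf_map_dvd π g)
  have h11 := h.exp g hg
  rw [← orderOf_coe] at h9
  change _ ≤ 2 * orderOf (π g) at h9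
  omega

theorem not_tri_four (h16 : Nat.card Q = 16) (h4 : Nat.card F = 4) (hzF : z ∈ F) : False := by
  obtain ⟨N, hN⟩ : ∃ N, N = P ⊓ normalizer (Q : Set G) := ⟨_, rfl⟩
  have hQN : Q ≤ N := hN ▸ hT.QN
  have hNP : N ≤ P := hN ▸ inf_le_left
  have hI : Idx N Q x := hN ▸ hT.idx
  have hN32 : Nat.card N = 32 := by rw [hI.card_eq hQN (hN ▸ hT.xN) hT.xQ, h16]
  obtain ⟨_, -, hJ⟩ := exists_idx_of_card_le hNP (by rw [h.card, hN32])
  have hNn : ∀ {g n}, g ∈ P → n ∈ N → g * n * g⁻¹ ∈ N := fun hg hn => hJ.conj_mem hNP hg hn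
  have haN := hQN hT.aQ
  have hbN := hQN hT.bQ
  have hzc : ∀ u ∈ zpowers z, ∀ g, g * u = u * g := fun u hu g =>
    mem_center_iff.1 (zpowers_le.2 h.zc hu) g
  have hFab := comm_of_card_le_two_mul (zpowers_le.2 hzF) (fun u hu g _ => hzc u hu g)
    (by rw [h4, h.card_z])
  have hFQ : ∀ f ∈ F, ∀ q ∈ Q, q * f = f * q := fun f hf =>
    hT.comm_of (fun f' hf' => hFab f' hf' f hf) (hT.ca f hf) (hT.cb f hf)
  have hA : ∀ g ∈ P, ∀ f ∈ F, g * f * g⁻¹ ∈ Q := fun g hg f hf => by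
    by_contra h1
    have h2 := hNn hg (hQN (hT.Fle hf))
    have h3 : ∀ n, g⁻¹ * n * g * f = f * (g⁻¹ * n * g) → n ∈ centralizer {g * f * g⁻¹} :=
      fun n hn => mem_centralizer_singleton_iff.2 (by
        calc _ = g * (g⁻¹ * n * g * f) * g⁻¹ := by group
          _ = _ := by rw [hn]; group)
    have h5 : F ≤ centralizer {g * f * g⁻¹} := by
      by_contra h5
      have h6 := card_mul_card_le_of_le hQN (K := MulAut.conj g • Q)
        (conj_smul_le_iff.2 fun q hq => hNn hg (hQN hq))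
      have h7 := card_le_of_le (show Q ⊓ MulAut.conj g • Q ≤ Q ⊓ centralizer {g * f * g⁻¹} from
        fun q hq => ⟨hq.1, h3 q (hFQ f hf _ (mem_conj_smul.1 hq.2))⟩)
      have h8 : Q ⊓ centralizer {g * f * g⁻¹} ≤ normalizer (F : Set G) :=
        inf_le_left.trans (hT.QN.trans hT.le_normalizer_F)
      have h9 := card_sup_mul_card_inf_of_le_normalizer h8
      have h10 := two_mul_card_le_of_lt (inf_lt_right.2 fun e : F ≤ Q ⊓ centralizer {g * f * g⁻¹} =>
        h5 (e.trans inf_le_right))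
      rw [card_conj_smul, h16, hN32] at h6
      obtain ⟨c, hc, f', hf', h11⟩ := (mem_sup_of_le_normalizer_right h8).1
        ((eq_of_le_of_card_ge (sup_le inf_le_left hT.Fle) (by rw [h4] at h9 h10; nlinarith)).ge hT.bQ)
      refine h1 (hT.mem_of_comm_b (hN ▸ h2) ?_)
      rw [← h11, ← conj_mul, ← mem_centralizer_singleton_iff.1 hc.2, mul_inv_cancel_right,
        mul_inv_rev c, ← mul_assoc, mul_assoc c]
      exact conj_mem_of_mem_normalizer (h8 hc)
        (mul_mem (conj_mem_of_mem_normalizer (hT.le_normalizer_F (hN ▸ h2)) hf') (inv_mem hf'))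
    have h6 := h3 b ((hI.change h2 h1).forall_commute (hFQ f hf)
      (mem_centralizer_singleton_iff.1 (h5 hf)).symm _ (by simpa using hNn (inv_mem hg) hbN))
    refine h1 (hT.mem_of_comm_b (hN ▸ h2) ?_)
    rw [← mem_centralizer_singleton_iff.1 h6, mul_inv_cancel_right, mul_inv_cancel]
    exact one_mem _
  have hB : ∀ g ∈ P, g * a * g⁻¹ ∈ Q := fun g hg => by
    have := commutator_mem_of_sq_mem (fun _ => hI.sq_mem) (hNn hg (hN ▸ hT.xN)) (hNn hg hbN)
    rwa [conj_inv, conj_inv, conj_mul, conj_mul, conj_mul, hT.xb, mul_inv_cancel_right] at this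
  have hb : ∀ w ∈ P, w ∉ N → w * b * w⁻¹ ∉ Q := fun w hw hw' e => hw' (hN ▸ ⟨hw,
    mem_normalizer_of_conj_mem fun q hq =>
      hT.le_of (K := Q.comap (MulAut.conj w).toMonoidHom) (hA w hw) (hB w hw) e hq⟩)
  obtain ⟨K, hK⟩ : ∃ K : Subgroup G, ∀ q, q ∈ K ↔ ∀ g ∈ P, g * q * g⁻¹ ∈ Q :=
    ⟨⨅ g ∈ P, Q.comap (MulAut.conj g).toMonoidHom, fun q => by simp [mem_iInf]⟩
  have hKQ : K ≤ Q := fun q hq => by simpa using (hK q).1 hq 1 (one_mem _)
  have hFK : F ≤ K := fun f hf => (hK f).2 fun g hg => hA g hg f hf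
  have haK : a ∈ K := (hK a).2 hB
  have hKn : P ≤ normalizer (K : Set G) := fun g hg => mem_normalizer_of_conj_mem fun k hk =>
    (hK _).2 fun g' hg' => by simpa [mul_assoc] using (hK k).1 hk _ (mul_mem hg' hg)
  have hK' : ∀ w ∈ P, w ∉ N → ∀ q ∈ Q, w * q * w⁻¹ ∈ Q → q ∈ K := fun w hw hw' q hq h1 =>
    (hK q).2 fun g hg => by
      rcases hJ.change hw hw' g hg with h2 | h2
      · exact hI.conj_mem hQN h2 hq
      · simpa [mul_assoc] using hI.conj_mem hQN h2 h1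
  obtain ⟨w, hw, hw', hσ⟩ : ∃ w ∈ P, w ∉ N ∧ w * w ∈ K := by
    obtain ⟨w, hw, hw'⟩ := SetLike.not_le_iff_exists.1 (show ¬ P ≤ N from fun e => by
      have := card_le_of_le e
      have := h.card
      omega)
    have h1 : ∀ w ∈ P, w ∉ N → w * w ∈ Q → w * w ∈ K := fun w hw hw' h1 =>
      hK' w hw hw' _ h1 (by simpa [mul_assoc] using h1)
    by_cases h2 : w * w ∈ Q
    · exact ⟨w, hw, hw', h1 w hw hw' h2⟩
    have h3 : b * w ∉ N := by rwa [N.mul_mem_cancel_left hbN]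
    refine ⟨b * w, mul_mem (hNP hbN) hw, h3, h1 _ (mul_mem (hNP hbN) hw) h3 ?_⟩
    rw [show b * w * (b * w) = b * (w * b * w⁻¹ * (w * w)) by group]
    exact mul_mem hT.bQ (hI.mul_mem (hNn hw hbN) (hJ.sq_mem hw) (hb w hw hw') h2)
  have hKF : Idx K F a := fun k hk => by
    have hbK : b ∉ K := fun e => hb w hw hw' ((hK b).1 e w hw)
    obtain ⟨f, hf, rfl | rfl | rfl | rfl⟩ := hT.exists_eq (hKQ hk)
    · exact .inl hf
    · exact .inr (by simpa using hf)
    · exact absurd ((K.mul_mem_cancel_left (hFK hf)).1 hk) hbK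
    · exact absurd ((K.mul_mem_cancel_left haK).1 ((K.mul_mem_cancel_left (hFK hf)).1 hk)) hbK
  obtain ⟨c, hc⟩ : ∃ c, w * b * w⁻¹ = c := ⟨_, rfl⟩
  have hcN : c ∈ N := hc ▸ hNn hw hbN
  have hcQ : c ∉ Q := hc ▸ hb w hw hw'
  have hbc := mul_mem hbN hcN
  have hs : s = 1 := by
    by_contra hs
    let E : Subgroup G :=
      { carrier := {f | f ∈ F ∧ f * f = 1}
        one_mem' := ⟨one_mem _, by simp⟩
        mul_mem' := fun {u v} hu hv => ⟨mul_mem hu.1 hv.1, by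
          rw [mul_assoc, ← mul_assoc v, hFab v hv.1 u hu.1, mul_assoc, hv.2, mul_one, hu.2]⟩
        inv_mem' := fun {u} hu => ⟨inv_mem hu.1, by rw [← mul_inv_rev, hu.2, inv_one]⟩ }
    have hsE : zpowers s ≤ E := zpowers_le.2 ⟨hT.sF, hT.ss⟩
    have hzE : zpowers z ≤ E := zpowers_le.2 ⟨hzF, h.zz⟩
    have h1 : c * c ∈ E := by
      have h1 : c * c = w * s * w⁻¹ := by rw [← hc, conj_mul, hT.bb]
      refine ⟨(hKF _ (h1 ▸ conj_mem_of_mem_normalizer (hKn hw) (hFK hT.sF))).resolve_right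
        fun e => hs ?_, by rw [h1, conj_mul, hT.ss]; simp⟩
      have h2 : b * (c * c) = c * c * b := by
        have := hT.comm_s _ (hN ▸ hNn (inv_mem hw) hbN)
        calc _ = w * (w⁻¹ * b * w⁻¹⁻¹ * s) * w⁻¹ := by rw [h1]; group
          _ = _ := by rw [this, h1]; group
      have h3 := hT.cb _ e
      rw [← mul_assoc, h2, mul_assoc, mul_assoc (c * c), mul_right_inj,
        ← mul_inv_eq_iff_eq_mul, ← conj_inv, hT.ba, inv_inj, mul_eq_left] at h3
      exact h3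
    obtain ⟨_, -, hz⟩ := exists_idx_of_card_le (zpowers_le.2 hzF) (by rw [h4, h.card_z])
    have h2 : ∀ n ∈ N, ∀ f ∈ F, n * f * n⁻¹ * f ∈ E := fun n hn f hf => by
      by_cases h2 : f ∈ zpowers z
      · rw [hzc f h2 n, mul_inv_cancel_right]; exact hzE (mul_mem h2 h2)
      refine hzE (hz.mul_mem (conj_mem_of_mem_normalizer (hT.le_normalizer_F (hN ▸ hn)) hf) hf
        (fun e => h2 ?_) h2)
      rwa [show f = n⁻¹ * (n * f * n⁻¹) * n by group, hzc _ e, inv_mul_cancel_right]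
    have h3 : ∀ n ∈ N, ∀ k ∈ K, n * k * n⁻¹ * k ∈ E := fun n hn k hk => by
      rcases hKF k hk with h3 | h3
      · exact h2 n hn k h3
      obtain ⟨e, he, h5⟩ := hT.conj_a (hN ▸ hn)
      obtain ⟨f, rfl⟩ : ∃ f, k = f * a := ⟨k * a⁻¹, by simp⟩
      rw [mul_inv_cancel_right] at h3
      rw [← conj_mul, h5, hT.ca _ (hT.sF' he), mul_assoc, mul_assoc e, ← mul_assoc a, hT.ca f h3,
        mul_assoc f, hT.aa, ← mul_assoc e, hFab e (hT.sF' he) f h3, ← mul_assoc, ← mul_assoc]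
      exact mul_mem (mul_mem (h2 n hn f h3) (hsE he)) (hsE (mem_zpowers s))
    obtain ⟨e, he, h5⟩ := hT.conj_b' (hN ▸ hcN) hcQ
    obtain ⟨v, hv, h6⟩ : ∃ v ∈ E, b * w * (b * w) * (b * w * (b * w)) = a * v := by
      refine ⟨s * e * s * (c * c) * ((b * c)⁻¹ * (w * w) * (b * c)⁻¹⁻¹ * (w * w)),
        mul_mem (mul_mem (mul_mem (mul_mem (hsE (mem_zpowers s)) (hsE he)) (hsE (mem_zpowers s))) h1)
          (h3 _ (inv_mem hbc) _ hσ), ?_⟩
      calc _ = b * (c * b * c⁻¹) * (c * c) * ((b * c)⁻¹ * (w * w) * (b * c)⁻¹⁻¹ * (w * w)) := by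
            rw [← hc]; group
        _ = b * a * b⁻¹ * (b * e * b) * (c * c) *
            ((b * c)⁻¹ * (w * w) * (b * c)⁻¹⁻¹ * (w * w)) := by rw [h5]; group
        _ = _ := by rw [hT.ba, hT.cb _ (hT.sF' he), mul_assoc e, hT.bb]; group
    have h7 := h.pow_eight (mul_mem (hNP hbN) hw)
    rw [h6, mul_assoc, ← mul_assoc v, ← hT.ca v hv.1, mul_assoc, hv.2, mul_one, hT.aa] at h7
    exact hs h7
  subst hs
  have hab : a * b = b * a := by rw [eq_comm, ← mul_inv_eq_iff_eq_mul, hT.ba, mul_one]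
  have hQab : ∀ q ∈ Q, ∀ r ∈ Q, r * q = q * r := fun q hq => hT.comm_of
    (fun f hf => (hFQ f hf q hq).symm)
    (hT.comm_of (fun f hf => (hT.ca f hf).symm) rfl hab.symm q hq).symm
    (hT.comm_of (fun f hf => (hT.cb f hf).symm) hab rfl q hq).symm
  have hσc : ∀ g ∈ P, g * (w * w) = w * w * g := (hJ.change hw hw').forall_commute
    ((hI.change hcN hcQ).forall_commute (hQab _ (hKQ hσ)) (by
      calc _ = w * (b * (w * w)) * w⁻¹ := by rw [← hc]; group
        _ = _ := by rw [hQab _ (hKQ hσ) b hT.bQ, ← hc]; group)) (mul_assoc _ _ _).symm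
  have hbw := mul_mem (hNP hbN) hw
  have h1 := card_sup_zpowers_le (C := zpowers (b * w)) (t := w * w) (centralizer_le_normalizer _
    (by rw [centralizer_zpowers]; exact mem_centralizer_singleton_iff.2 (hσc _ hbw).symm))
    (h.elem _ (mul_mem hw hw) hσc ▸ one_mem _)
  have h2 := card_sup_zpowers_le (C := zpowers (b * w) ⊔ zpowers (w * w)) (t := b)
    (sup_comm (zpowers (w * w)) _ ▸ mem_normalizer_sup_zpowers (fun k hk => by
      rw [mem_centralizer_singleton_iff.1 (zpowers_le.2 (mem_centralizer_singleton_iff.2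
        (hσc b (hNP hbN)).symm) hk) |>.symm, mul_inv_cancel_right]
      exact mem_sup_left hk) (by
      rw [← mul_assoc, hT.bb, show 1 * w * b⁻¹ = w * w * (b * w)⁻¹ by group]
      exact mul_mem_sup (mem_zpowers _) (inv_mem (mem_zpowers _)))) (hT.bb ▸ one_mem _)
  have h3 := h.exp _ hbw
  rw [Nat.card_zpowers] at h1
  have hsq : ∀ n ∈ N, n * n ∈ K := fun n hn => (hK _).2 fun g hg => by
    rw [← conj_mul]; exact hI.sq_mem (hNn hg hn)
  have h5 := card_sup_zpowers_le (hKn (hNP hbc)) (hsq _ hbc)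
  have h6 := hKF.card_le
  obtain ⟨R, hR⟩ : ∃ R, R = zpowers (b * w) ⊔ zpowers (w * w) ⊔ zpowers b := ⟨_, rfl⟩
  have hbR : b ∈ R := hR ▸ mem_sup_right (mem_zpowers b)
  have hwR : w ∈ R := (R.mul_mem_cancel_left hbR).1
    (hR ▸ mem_sup_left (mem_sup_left (mem_zpowers _)))
  have h7 := card_le_of_le (h.le_of_le_sup (R := R) (U := K ⊔ zpowers (b * c))
    (hR ▸ sup_le (sup_le (zpowers_le.2 hbw) (zpowers_le.2 (mul_mem hw hw))) (zpowers_le.2 (hNP hbN)))
    (sup_le (hKQ.trans hT.le) (zpowers_le.2 (hNP hbc))) (fun g hg => ?_) (by omega) fun g hg => ?_)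
  · rw [← hR] at h2
    have := h.card
    omega
  · by_cases h7 : g ∈ N
    · exact mem_sup_left (hsq g h7)
    by_cases h8 : g * g ∈ Q
    · exact mem_sup_left (hK' g hg h7 _ h8 (by simpa [mul_assoc] using h8))
    rw [← inv_mul_cancel_right (g * g) (b * c)]
    refine mul_mem_sup (hK' g hg h7 _ (hI.mul_inv_mem (hJ.sq_mem hg) hbc h8
      (by rwa [Q.mul_mem_cancel_left hT.bQ])) ?_) (mem_zpowers _)
    rw [show g * (g * g * (b * c)⁻¹) * g⁻¹ = g * g * (g * (b * c) * g⁻¹)⁻¹ by group]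
    refine hI.mul_inv_mem (hJ.sq_mem hg) (hNn hg hbc) h8 ?_
    rw [← conj_mul, Q.mul_mem_cancel_right]
    · exact hb g hg h7
    · simpa [← hc, mul_assoc] using hI.conj_mem hQN (hJ.mul_mem hg hw h7 hw') hT.bQ
  · have h8 : Q ≤ R ⊔ (K ⊔ zpowers (b * c)) := hT.le_of (hFK.trans (le_sup_left.trans le_sup_right))
      (mem_sup_right (mem_sup_left haK)) (mem_sup_left hbR)
    have h9 : N ≤ R ⊔ (K ⊔ zpowers (b * c)) := (hI.change hcN hcQ).le_sup.trans (sup_le h8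
      (zpowers_le.2 (mem_sup_left (hc ▸ mul_mem (mul_mem hwR hbR) (inv_mem hwR)))))
    exact (hJ.change hw hw').le_sup.trans (sup_le h9 (zpowers_le.2 (mem_sup_left hwR))) hg

end O64

theorem Ess.typeTwo {P Q N : Subgroup G} {z : G} (hE : Ess P Q N) (h : O64 P z) : TypeTwo P z := by
  obtain ⟨t, r, ht, rfl | ⟨x, h1, h2, h3, h4, h5, h6⟩⟩ := hE.exists_pAct h.card.le h.zP h.zc h.z1
  · exact (h.not_pAct_top ht).elim
  have hx : SX P Q t x r := ⟨ht, hE.le, hE.centric, h1, h2, h3, h4, h5⟩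
  obtain rfl := h.eq_three hx
  have h7 := h.card_lt (lt_of_le_of_ne hE.le fun e => h2 (e ▸ h1))
  have h8 := card_le_of_le (h.zF hx)
  have h9 := card_lt_of_lt ht.fix_lt
  have h10 := ht.modEq le_rfl ht.norm
  have h11 := h.cards hE.le
  have h12 := h.cards (inf_le_left.trans hE.le : Q ⊓ centralizer {t} ≤ P)
  rw [Nat.ModEq] at h10
  rw [h.card_z] at h8
  by_cases h13 : Nat.card Q = 4 * Nat.card ↥(Q ⊓ centralizer {t})
  · obtain ⟨x, a, b, s, hT⟩ := hx.exists_tri (h6 rfl) h13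
    rcases h12 with e | e | e | e | e | e | e
    · omega
    · exact (h.not_tri_two hT (by omega) (eq_of_le_of_card_ge (h.zF hx) (by rw [e, h.card_z]))).elim
    · exact (h.not_tri_four hT (by omega) e (h.zF hx (mem_zpowers z))).elim
    · exact (h.not_tri_eight hT (by omega) e).elim
    all_goals omega
  · exact h.typeTwo hx (by omega) (by omega)

end GT
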