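import Cfsg.Agent.Lib.Her.St
import Cfsg.Agent.Lib.Grp.FpfCyc
import Cfsg.Agent.Lib.Grp.Fitting
import Cfsg.Agent.Lib.Grp.NormalCompl
import Cfsg.Agent.Lib.FT.Main

/-!
# Groups all of whose `p`-elements are `p`-central, non-real, with `p`-nilpotent centralizers
-/

set_option autoImplicit false
set_option linter.unusedSectionVars false

namespace GT.PCent

open Cfsg Subgroup
open scoped Pointwise commutatorElement

variable {p : ℕ} [hp : Fact p.Prime]

theorem exists_fix {A X : Type*} [Group A] [Finite A] [Group X] (hA : IsPGroup p A)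
    (hX : IsPGroup p X) (φ : X →* MulAut A) {W : Subgroup A} (hW : W ≠ ⊥)
    (h : ∀ x, ∀ w ∈ W, φ x w ∈ W) : ∃ w ∈ W, w ≠ 1 ∧ ∀ x, φ x w = w := by
  letI : MulAction X W :=
    { smul := fun x w => ⟨φ x w, h x w w.2⟩
      one_smul := fun w => Subtype.ext (by change φ 1 w = w; rw [map_one]; rfl)
      mul_smul := fun x y w => Subtype.ext (by change φ (x * y) w = φ x (φ y w); rw [map_mul]; rfl) }
  obtain ⟨w, h1, h2⟩ := hX.exists_fixed_point_of_prime_dvd_card_of_fixed_point W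
    (dvd_card_of_isPGroup_of_ne_bot (hA.to_subgroup W) hW) (a := 1)
    (fun x => Subtype.ext (map_one (φ x)))
  exact ⟨w, w.2, fun e => h2 (Subtype.ext e.symm), fun x => congrArg Subtype.val (h1 x)⟩

/-- An element of order `p` of a solvable group of odd order with `O_p = 1`, whose `p'`-elements
act freely, has a Jordan block of size `p`. -/
theorem norm_ne_one {A E : Type*} [CommGroup A] [Finite A] [Nontrivial A] (hA : ∀ v : A, v ^ p = 1)
    [Group E] [Finite E] (φ : E →* MulAut A) (hO : pCore p E = ⊥) (ho : Odd (Nat.card E))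
    (hf : ∀ g : E, IsPRegular p g → g ≠ 1 → ∀ v, φ g v = v → v = 1) {σ : E} (hσ : orderOf σ = p)
    (hN : ∀ v, ∏ i ∈ Finset.range p, φ (σ ^ i) v = 1) : False := by
  classical
  have := FT.feit_thompson E ho
  have hX : IsPGroup p (zpowers σ) := IsPElt.isPGroup_zpowers ⟨1, by rw [hσ, pow_one]⟩
  have h1 : σ ≠ 1 := fun e => hp.out.ne_one (by rw [← hσ, e, orderOf_one])
  obtain ⟨s, hs, h2⟩ : ∃ s : ℕ, s.Prime ∧ ¬ pCore s E ≤ centralizer (zpowers σ : Set E) := by
    by_contra! h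
    have h3 := centralizer_fitting_le (G := E) (le_centralizer_iff.1
      (fitting_le_of_forall_pCore_le fun s hs => h s hs.out) (mem_zpowers σ))
    exact h1 (mem_bot.1 (hO ▸ le_pCore_of_le_fitting hX (zpowers_le.2 h3) (mem_zpowers σ)))
  have := Fact.mk hs
  have hR := isPGroup_pCore s E
  have h0 : pCore s E ≠ ⊥ := fun e => h2 (e ▸ bot_le)
  have hsp : s ≠ p := fun e => h0 (e ▸ hO)
  have hs2 : s ≠ 2 := fun e => (Nat.not_even_iff_odd.2 ho) (even_iff_two_dvd.2
    (e ▸ (dvd_card_of_isPGroup_of_ne_bot hR h0).trans (card_subgroup_dvd_card _)))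
  have hr : ∀ k ∈ pCore s E, IsPRegular p k := fun k hk =>
    (isPElt_of_mem hR hk).isPRegular_of_ne hsp.symm
  have hAp : IsPGroup p A := fun v => ⟨1, by rw [pow_one, hA]⟩
  have : IsCyclic (pCore s E) := isCyclic_of_forall_isMulCommutative hs2 hR fun B _ =>
    isCyclic_of_fpf (φ.comp ((pCore s E).subtype.comp B.subtype))
      (hAp.coprime_card (FT.not_dvd_card_of_ne (A := B) (hR.to_subgroup B) hsp.symm))
      fun b hb => hf _ (hr _ b.1.2) fun e => hb (Subtype.ext (Subtype.ext e))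
  have h3 : pCore s E ⊓ centralizer (zpowers σ : Set E) = ⊥ := by_contra fun e =>
    h2 (Her.le_cent_of_cyclic hR (coprimeAct_of_isPGroup_left le_normalizer_of_normal hX
      (FT.not_dvd_card_of_ne hR hsp.symm)) e)
  have := Fintype.ofFinite (pCore s E)
  obtain ⟨v, hv⟩ := exists_ne (1 : A)
  have e0 : ∀ w, ∏ k : pCore s E, φ k w = 1 := fun w => by
    obtain ⟨y, hy⟩ := ne_bot_iff_exists_ne_one.1 h0
    refine hf y (hr _ y.2) (fun e => hy (Subtype.ext e)) _ ?_
    rw [map_prod]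
    exact Fintype.prod_equiv (Equiv.mulLeft y) _ _ fun a => by simp
  have e1 : ∏ k : pCore s E, ∏ i ∈ Finset.range p, φ (k * σ ^ i * (k : E)⁻¹) v = 1 :=
    Finset.prod_eq_one fun k _ => by
      rw [← map_one (φ k), ← hN (φ (k : E)⁻¹ v), map_prod]
      exact Finset.prod_congr rfl fun c _ => by simp
  rw [Finset.prod_comm, Finset.prod_eq_single 0] at e1
  · have e2 : v ^ Nat.card (pCore s E) = 1 := by simpa using e1
    exact FT.not_dvd_card_of_ne hR hsp.symm
      (orderOf_eq_prime (hA v) hv ▸ orderOf_dvd_of_pow_eq_one e2)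
  · intro i hi hi0
    have hz : zpowers (σ ^ i) = zpowers σ := by
      refine eq_of_le_of_card_ge (zpowers_le.2 (pow_mem (mem_zpowers σ) i)) ?_
      rw [Nat.card_zpowers, Nat.card_zpowers, Nat.Coprime.orderOf_pow]
      rw [hσ]
      exact (Nat.coprime_of_lt_prime hi0 (Finset.mem_range.1 hi) hp.out)
    let g : pCore s E → pCore s E := fun k => ⟨⁅(k : E), σ ^ i⁆,
      le_normalizer_iff_commutator_le_left.1 (le_normalizer_of_normal (K := ⊤))
        (commutator_mem_commutator k.2 (mem_top _))⟩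
    have hg : Function.Bijective g := Finite.surjective_iff_bijective.1 fun n => by
      obtain ⟨k, hk, he⟩ := exists_commutator_eq_of_fpf (N := pCore s E) (x := σ ^ i)
        (le_normalizer_of_normal (mem_top _)) (fun n hn e => mem_bot.1 (h3 ▸ ⟨hn, by
          rw [← hz, centralizer_zpowers]; exact mem_centralizer_singleton_iff.2 e⟩)) n.2
      exact ⟨⟨k, hk⟩, Subtype.ext he⟩
    rw [← e0 (φ (σ ^ i) v)]
    refine Fintype.prod_bijective g hg _ _ fun k => ?_
    rw [← MulAut.mul_apply, ← map_mul]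
    exact congrArg (φ · v) (by
      change (k : E) * σ ^ i * (k : E)⁻¹ = ⁅(k : E), σ ^ i⁆ * σ ^ i
      rw [commutatorElement_def, inv_mul_cancel_right])
  · intro h
    exact absurd (Finset.mem_range.2 hp.out.pos) h

variable {G : Type*} [Group G] [Finite G]

theorem le_cent_of_nilp {H S S' : Subgroup G} (h : HasNormalPComplement p H)
    (hS : IsSylowIn p S H) (hS' : IsPGroup p S') (hH : S' ≤ H) {u : G} (hu : u ∈ S')
    (hc : S ≤ centralizer ({u} : Set G)) : S' ≤ centralizer ({u} : Set G) := fun y hy => by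
  obtain ⟨K, h1, h2, h3, k, h4⟩ := hasNormalPComplement_subgroup_iff.1 h
  obtain ⟨a, ha, b, hb, rfl⟩ := (mem_sup_of_le_normalizer_left (hS.le.trans h2)).1
    ((hS.sup_eq_of_relIndex_eq_pow h1 h4).ge (hH hy))
  have h5 : u * (a * b) * u⁻¹ * (a * b)⁻¹ = u * a * u⁻¹ * a⁻¹ := by
    have : b = u⁻¹ * b * u := by
      rw [mul_assoc, mem_centralizer_singleton_iff.1 (hc hb), inv_mul_cancel_left]
    nth_rewrite 1 [this]
    group
  have h6 := disjoint_def.1 (disjoint_of_isPGroup_of_not_dvd hS' h3)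
    (mul_mem (mul_mem (mul_mem hu hy) (inv_mem hu)) (inv_mem hy))
    (h5 ▸ mul_mem (conj_mem_of_mem_normalizer (h2 (hH hu)) ha) (inv_mem ha))
  rw [mul_inv_eq_one, mul_inv_eq_iff_eq_mul] at h6
  exact mem_centralizer_singleton_iff.2 h6.symm

variable (p) in
/-- `u` and `v` are centralized by a common Sylow subgroup. -/
def Sy (u v : G) : Prop := ∃ S : Subgroup G, IsSylowIn p S ⊤ ∧
  S ≤ centralizer ({u} : Set G) ∧ S ≤ centralizer ({v} : Set G)

theorem exists_syl {S D : Subgroup G} {u : G} (hS : IsSylowIn p S ⊤)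
    (h : S ≤ centralizer ({u} : Set G)) (hD : IsPGroup p D) (h' : D ≤ centralizer ({u} : Set G)) :
    ∃ T, IsSylowIn p T ⊤ ∧ T ≤ centralizer ({u} : Set G) ∧ D ≤ T := by
  obtain ⟨T, h1, h2⟩ := exists_isSylowIn_ge hD h'
  exact ⟨T, hS.of_card_ge h1.isPGroup le_top ((hS.of_le h le_top).card_eq_card h1).le, h1.le, h2⟩

theorem Sy.trans {D : Subgroup G} (hD : IsPGroup p D) {u v w : G}
    (h : HasNormalPComplement p (centralizer ({v} : Set G))) (h' : D ≤ centralizer ({v} : Set G))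
    (hu : u ∈ D) (hw : w ∈ D) (h1 : Sy p u v) (h2 : Sy p v w) : Sy p u w := by
  obtain ⟨S, a1, a2, a3⟩ := h1
  obtain ⟨S', b1, b2, b3⟩ := h2
  obtain ⟨T, c1, c2, c3⟩ := exists_syl a1 a3 hD h'
  exact ⟨T, c1, le_cent_of_nilp h (a1.of_le a3 le_top) c1.isPGroup c2 (c3 hu) a2,
    le_cent_of_nilp h (b1.of_le b2 le_top) c1.isPGroup c2 (c3 hw) b3⟩

theorem conj_prod (g v : G) (n : ℕ) :
    (v * g) ^ n = ((List.range n).map fun i => g ^ i * v * (g ^ i)⁻¹).prod * g ^ n := by
  induction n with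
  | zero => simp
  | succ n ih => rw [pow_succ, ih, List.range_succ, List.map_append, List.prod_append]; simp [pow_succ, mul_assoc]

/-- If all `p`-elements are `p`-central of order dividing `p`, non-real and have `p`-nilpotent
centralizers, the Sylow `p`-subgroups are abelian. -/
theorem comm_of_central (hp2 : p ≠ 2)
    (hC : ∀ u : G, IsPElt p u → u ≠ 1 → HasNormalPComplement p (centralizer ({u} : Set G)))
    (hc : ∀ u : G, IsPElt p u → ∃ S, IsSylowIn p S ⊤ ∧ S ≤ centralizer ({u} : Set G))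
    (he : ∀ u : G, IsPElt p u → u ^ p = 1) (hr : ∀ u : G, IsPElt p u → IsConj u u⁻¹ → u = 1)
    {P : Subgroup G} (hP : IsSylowIn p P ⊤) : ∀ x ∈ P, ∀ y ∈ P, x * y = y * x := by
  classical
  by_contra! h
  obtain ⟨x₀, hx₀, y₀, hy₀, h⟩ := h
  obtain ⟨D, ⟨hD, x, hx, z, hz, x1, z1, Dx, Dz, hxz⟩, hmax⟩ := Set.Finite.exists_maximal
    (s := {D : Subgroup G | IsPGroup p D ∧ ∃ x ∈ D, ∃ z ∈ D, x ≠ 1 ∧ z ≠ 1 ∧
      D ≤ centralizer ({x} : Set G) ∧ D ≤ centralizer ({z} : Set G) ∧ ¬ Sy p x z}) (Set.toFinite _) (by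
    obtain ⟨⟨z, hz⟩, z1⟩ := ne_bot_iff_exists_ne_one.1 (inf_centralizer_ne_bot_of_isPGroup
      hP.isPGroup hP.isPGroup (fun e => h (by
        rw [e, mem_bot] at hx₀; simp [hx₀])) le_normalizer)
    have h1 : P ≤ centralizer ({z} : Set G) := fun g hg =>
      mem_centralizer_singleton_iff.2 (hz.2 g hg)
    have z1' : z ≠ 1 := fun e => z1 (Subtype.ext e)
    refine ⟨P ⊓ centralizer {x₀}, hP.isPGroup.to_inf_left, x₀,
      ⟨hx₀, mem_centralizer_singleton_iff.2 rfl⟩, z,
      ⟨hz.1, mem_centralizer_singleton_iff.2 (hz.2 _ hx₀).symm⟩, fun e => h (by simp [e]), z1',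
      inf_le_right, inf_le_left.trans h1, fun ⟨S, a1, a2, a3⟩ => h ?_⟩
    exact (mem_centralizer_singleton_iff.1 (le_cent_of_nilp (hC z (isPElt_of_mem hP.isPGroup hz.1) z1')
      (a1.of_le a3 le_top) hP.isPGroup h1 hx₀ a2 hy₀)).symm)
  let V := D ⊓ centralizer (D : Set G)
  have hV : IsPGroup p V := hD.to_inf_left
  have mV : ∀ {u}, u ∈ V ↔ u ∈ D ∧ D ≤ centralizer ({u} : Set G) := ⟨fun h => ⟨h.1, fun g hg =>
    mem_centralizer_singleton_iff.2 (h.2 g hg)⟩, fun h => ⟨h.1, fun g hg =>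
      mem_centralizer_singleton_iff.1 (h.2 hg)⟩⟩
  have nV : normalizer (D : Set G) ≤ normalizer (V : Set G) :=
    (le_inf le_rfl (normalizer_le_normalizer_centralizer D)).trans inf_normalizer_le_normalizer_inf
  have : IsMulCommutative V := ⟨⟨fun a b => Subtype.ext (b.2.2 a a.2.1)⟩⟩
  let φ : normalizer (D : Set G) →* MulAut V := V.normalizerMonoidHom.comp (inclusion nV)
  have hφ : ∀ g (v : V), (φ g v : G) = g * v * (g : G)⁻¹ := fun _ _ => rfl
  have fx : ∀ {g} {v : V}, φ g v = v ↔ (g : G) ∈ centralizer ({(v : G)} : Set G) := by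
    intro g v
    rw [Subtype.ext_iff, hφ, mul_inv_eq_iff_eq_mul, mem_centralizer_singleton_iff]
  have sy : ∀ g : normalizer (D : Set G), IsPElt p g → (g : G) ∉ D → ∀ u v : V, u ≠ 1 → v ≠ 1 →
      φ g u = u → φ g v = v → Sy p (u : G) v := fun g hg hgD u v u1 v1 hu hv => by
    by_contra h
    exact hgD (hmax (y := D ⊔ zpowers (g : G)) ⟨hD.to_sup_of_normal_left'
      (isPElt_coe.2 hg).isPGroup_zpowers (zpowers_le.2 g.2), u, mem_sup_left u.2.1, v,
      mem_sup_left v.2.1, fun e => u1 (Subtype.ext e), fun e => v1 (Subtype.ext e),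
      sup_le (mV.1 u.2).2 (zpowers_le.2 (fx.1 hu)), sup_le (mV.1 v.2).2 (zpowers_le.2 (fx.1 hv)), h⟩
      le_sup_left (mem_sup_right (mem_zpowers _)))
  have el : ∀ u : V, ∃ g : normalizer (D : Set G), IsPElt p g ∧ (g : G) ∉ D ∧ φ g u = u := fun u => by
    obtain ⟨S, a1, a2⟩ := hc u (isPElt_of_mem hV u.2)
    obtain ⟨T, b1, b2, b3⟩ := exists_syl a1 a2 hD (mV.1 u.2).2
    obtain ⟨g, hg, hgD⟩ := SetLike.exists_of_lt (lt_inf_normalizer_of_lt b1.isPGroup
      (b3.lt_of_ne fun e => hxz ⟨D, e ▸ b1, Dx, Dz⟩))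
    exact ⟨⟨g, hg.2⟩, (isPElt_mk _).2 (isPElt_of_mem b1.isPGroup hg.1), hgD, fx.2 (b2 hg.1)⟩
  let x' : V := ⟨x, mV.2 ⟨hx, Dx⟩⟩
  let z' : V := ⟨z, mV.2 ⟨hz, Dz⟩⟩
  have x1' : x' ≠ 1 := fun e => x1 (congrArg Subtype.val e)
  have z1' : z' ≠ 1 := fun e => z1 (congrArg Subtype.val e)
  have : Nontrivial V := ⟨x', 1, x1'⟩
  have hf : ∀ σ : φ.range, IsPRegular p σ → σ ≠ 1 → ∀ v, σ.1 v = v → v = 1 := fun σ hσ h1 v hv => by
    obtain ⟨g, hg, rfl⟩ := hσ.exists_lift φ.rangeRestrict_surjective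
    by_contra v1
    have := mem_centralizer_of_hasNormalPComplement (hC v (isPElt_of_mem hV v.2)
      fun e => v1 (Subtype.ext e)) hV (inf_le_left.trans (mV.1 v.2).2) (fx.1 hv) (nV g.2)
      (isPRegular_coe.2 hg)
    exact h1 (Subtype.ext (MulEquiv.ext fun w =>
      fx.2 (mem_centralizer_singleton_iff.2 (this w w.2).symm)))
  obtain ⟨g, g1, g2, g3⟩ := el z'
  open scoped IsMulCommutative in
  refine norm_ne_one (p := p) (fun v => Subtype.ext (he _ (isPElt_of_mem hV v.2))) φ.range.subtype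
    ?_ ?_ hf (σ := φ.rangeRestrict g) (orderOf_eq_prime ?_ fun e => hxz ?_) fun v => ?_
  · by_contra h0
    obtain ⟨t, t1⟩ := ne_bot_iff_exists_ne_one.1 h0
    obtain ⟨t', a1, a2⟩ := (isPElt_of_mem (isPGroup_pCore p _) t.2).exists_lift
      φ.rangeRestrict_surjective
    have a3 : (t' : G) ∉ D := fun e => t1 (Subtype.ext (a2 ▸ Subtype.ext (MulEquiv.ext fun w =>
      fx.2 ((mV.1 w.2).2 e))))
    let W : Subgroup V :=
      { carrier := {v | ∀ s ∈ pCore p φ.range, s.1 v = v}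
        one_mem' := fun s _ => map_one _
        mul_mem' := fun ha hb s hs => by rw [map_mul, ha s hs, hb s hs]
        inv_mem' := fun ha s hs => by rw [map_inv, ha s hs] }
    have hW : W ≠ ⊥ := by
      obtain ⟨w, -, w1, hw⟩ := exists_fix hV (isPGroup_pCore p φ.range)
        (φ.range.subtype.comp (pCore p φ.range).subtype) (W := ⊤) top_ne_bot fun _ _ _ => trivial
      exact fun e => w1 (mem_bot.1 (e ▸ fun s hs => hw ⟨s, hs⟩))
    have key : ∀ u : V, u ≠ 1 → ∃ w ∈ W, w ≠ 1 ∧ Sy p (u : G) w := fun u u1 => by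
      obtain ⟨k, k1, k2, k3⟩ := el u
      obtain ⟨w, hw, w1, hw'⟩ := exists_fix hV k1.isPGroup_zpowers (φ.comp (zpowers k).subtype) hW
        fun y w hw s hs => by
          have := hw _ ((inferInstance : (pCore p φ.range).Normal).conj_mem' s hs
            (φ.rangeRestrict y))
          exact (MulAut.apply_inv_self _ _ _).symm.trans (congrArg (φ y) this)
      exact ⟨w, hw, w1, sy k k1 k2 u w u1 w1 k3 (hw' ⟨k, mem_zpowers k⟩)⟩
    obtain ⟨w, hw, w1, a4⟩ := key x' x1'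
    obtain ⟨w', hw', w1', S, a5⟩ := key z' z1'
    have a6 := sy t' a1 a3 w w' w1 w1' (hw _ (a2 ▸ t.2)) (hw' _ (a2 ▸ t.2))
    have a7 : ∀ w : V, w ≠ 1 → HasNormalPComplement p (centralizer ({(w : G)} : Set G)) :=
      fun w w1 => hC _ (isPElt_of_mem hV w.2) fun e => w1 (Subtype.ext e)
    exact hxz (Sy.trans hD (a7 w' w1') (mV.1 w'.2).2 hx hz
      (Sy.trans hD (a7 w w1) (mV.1 w.2).2 hx w'.2.1 a4 a6) ⟨S, a5.1, a5.2.2, a5.2.1⟩)
  · by_contra h0
    obtain ⟨σ, hσ⟩ := exists_prime_orderOf_dvd_card' (G := φ.range) 2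
      (even_iff_two_dvd.1 (Nat.not_odd_iff_even.1 h0))
    have h1 := hf σ (fun e => hp2 ((Nat.prime_dvd_prime_iff_eq hp.out Nat.prime_two).1 (hσ ▸ e)))
      (fun e => by simp [e] at hσ) (z' * σ.1 z') (by
        rw [map_mul, ← MulAut.mul_apply, ← coe_mul, ← sq, ← hσ, pow_orderOf_eq_one]
        exact Subtype.ext ((σ.1 z').2.2 _ hz).symm)
    obtain ⟨_, t, rfl⟩ := σ
    exact z1 (hr z (isPElt_of_mem hD hz) (isConj_iff.2
      ⟨t, eq_inv_of_mul_eq_one_right (congrArg Subtype.val h1)⟩))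
  · rw [← map_pow, show g ^ p = 1 from Subtype.ext (he _ (isPElt_coe.2 g1)), map_one]
  · have : ∀ v, φ g v = v := fun v => by rw [show φ g = 1 from congrArg Subtype.val e]; rfl
    exact sy g g1 g2 x' z' x1' z1' (this _) (this _)
  · have h1 := he (v * g) (isPElt_of_mem (hD.to_sup_of_normal_left'
      (isPElt_coe.2 g1).isPGroup_zpowers (zpowers_le.2 g.2))
      (mul_mem (mem_sup_left v.2.1) (mem_sup_right (mem_zpowers _))))
    rw [conj_prod, he _ (isPElt_coe.2 g1), mul_one] at h1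
    apply Subtype.ext
    rw [coe_one, ← h1]
    generalize p = m
    induction m with
    | zero => simp
    | succ n ih =>
      rw [Finset.prod_range_succ, List.range_succ, List.map_append, List.prod_append, coe_mul, ih]
      simp only [List.map_singleton, List.prod_singleton]
      rw [← map_pow]
      rfl

end GT.PCent
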