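import Cfsg.Agent.Lib.Grp.Retract
import Cfsg.Agent.Lib.Grp.PGrp
import Mathlib.GroupTheory.Perm.Cycle.Type

/-!
# Groups with two classes of nontrivial `2`-elements and `2`-nilpotent centralizers
-/

set_option autoImplicit false
set_option linter.unusedSectionVars false

namespace GT.PairCls

open Cfsg Subgroup Finset

section Pure
variable {Q : Type*} [Group Q] [Fintype Q] [DecidableEq Q]

theorem comm_of_sq {a b : Q} (ha : a * a = 1) (hb : b * b = 1) (h : a * b * (a * b) = 1) :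
    a * b = b * a := by
  have e : ∀ x : Q, x * x = 1 → x⁻¹ = x := fun x hx => inv_eq_of_mul_eq_one_right hx
  rw [← e _ h, mul_inv_rev, e a ha, e b hb]

/-- The fibres of conjugation have the size of the centralizer. -/
theorem card_fiber (x a : Q) :
    #{b : Q | b * x * b⁻¹ = a * x * a⁻¹} = #{b : Q | b * x = x * b} := by
  refine card_bij (fun b _ => a⁻¹ * b) (fun b hb => ?_) (fun b _ c _ h => mul_left_cancel h)
    fun b hb => ⟨a * b, ?_, by group⟩
  · simp only [mem_filter, mem_univ, true_and] at hb ⊢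
    calc a⁻¹ * b * x = a⁻¹ * (b * x * b⁻¹) * b := by group
      _ = x * (a⁻¹ * b) := by rw [hb]; group
  · simp only [mem_filter, mem_univ, true_and] at hb ⊢
    calc a * b * x * (a * b)⁻¹ = a * (b * x) * b⁻¹ * a⁻¹ := by group
      _ = a * x * a⁻¹ := by rw [hb]; group

theorem card_cent_conj (x a : Q) :
    #{b : Q | b * (a * x * a⁻¹) = a * x * a⁻¹ * b} = #{b : Q | b * x = x * b} := by
  refine card_bij (fun b _ => a⁻¹ * b * a) (fun b hb => ?_)
    (fun b _ c _ h => mul_left_cancel (mul_right_cancel h)) fun b hb => ⟨a * b * a⁻¹, ?_, by group⟩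
  · simp only [mem_filter, mem_univ, true_and] at hb ⊢
    calc a⁻¹ * b * a * x = a⁻¹ * (b * (a * x * a⁻¹)) * a := by group
      _ = x * (a⁻¹ * b * a) := by rw [hb]; group
  · simp only [mem_filter, mem_univ, true_and] at hb ⊢
    calc a * b * a⁻¹ * (a * x * a⁻¹) = a * (b * x) * a⁻¹ := by group
      _ = _ := by rw [hb]; group

/-- The class equation for one class. -/
theorem card_class_mul {x : Q} {K : Finset Q} (hK : ∀ w, w ∈ K ↔ ∃ a, a * x * a⁻¹ = w) :
    #K * #{b : Q | b * x = x * b} = Fintype.card Q := by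
  rw [← card_univ, card_eq_sum_card_fiberwise (f := fun a => a * x * a⁻¹) (s := univ) (t := K)
    (fun a _ => (hK _).2 ⟨a, rfl⟩), ← smul_eq_mul, ← sum_const]
  refine sum_congr rfl fun w hw => ?_
  obtain ⟨a, rfl⟩ := (hK w).1 hw
  exact (card_fiber x a).symm

theorem sum_cent_le {K : Finset Q} (hK : ∀ x ∈ K, ∀ w ∈ K, ∃ a, a * x * a⁻¹ = w) :
    ∑ w ∈ K, #{b : Q | b * w = w * b} ≤ Fintype.card Q := by
  rcases K.eq_empty_or_nonempty with rfl | ⟨x, hx⟩
  · simp
  rw [← card_class_mul (x := x) (K := univ.filter fun w => ∃ a, a * x * a⁻¹ = w) (by simp),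
    ← smul_eq_mul, ← sum_const]
  refine (sum_le_sum_of_subset fun w hw => by simpa using hK x hx w hw).trans (sum_le_sum ?_)
  intro w hw
  obtain ⟨a, rfl⟩ := (mem_filter.1 hw).2
  exact (card_cent_conj x a).le

/-- The counting argument inside the Sylow subgroup. -/
theorem card_eq_two_mul_sq {y z : Q} (hy : y * y = z) (hz1 : z ≠ 1) (hz2 : z * z = 1)
    (hzc : ∀ g, g * z = z * g) (hA : ∀ x, x * x = z → ∃ a, a * y * a⁻¹ = x)
    (hN : #{x : Q | x * x ≠ 1} * #{b : Q | b * y = y * b} ≤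
      #{t : Q | t * y = y * t ∧ t * t = 1 ∧ t ≠ 1} * Fintype.card Q) :
    Fintype.card Q = 2 * #{u : Q | u * u = 1 ∧ ∀ g, g * u = u * g} ^ 2 ∧
      ∀ w : Q, w * w = 1 → (∀ g, g * w = w * g) → w ≠ 1 → ∃ x, x * x = w := by
  set c := #{b : Q | b * y = y * b} with hc
  set j := #{t : Q | t * y = y * t ∧ t * t = 1 ∧ t ≠ 1} with hj
  set n := #{x : Q | x * x ≠ 1} with hn
  set s := #{x : Q | x * x = z} with hs
  set q := Fintype.card Q with hq
  set Om := ({x : Q | x * x = 1} : Finset Q) with hOm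
  set W := ({t : Q | t * y = y * t ∧ t * t = 1} : Finset Q) with hW
  have inv : ∀ x : Q, x * x = 1 → x⁻¹ = x := fun x hx => inv_eq_of_mul_eq_one_right hx
  have hsc : s * c = q := card_class_mul fun w => by
    simp only [mem_filter, mem_univ, true_and]
    refine ⟨hA w, ?_⟩
    rintro ⟨a, rfl⟩
    calc a * y * a⁻¹ * (a * y * a⁻¹) = a * (y * y) * a⁻¹ := by group
      _ = z := by rw [hy, hzc]; group
  have hWj : #W = j + 1 := by
    rw [hj, ← card_insert_of_notMem (a := (1 : Q)) (by simp)]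
    congr 1
    ext t
    by_cases h : t = 1 <;> simp [hW, h]
  have hyu : ∀ u ∈ W, y * u * (y * u) = z := fun u hu => by
    obtain ⟨h1, h2⟩ := (mem_filter.1 hu).2
    calc y * u * (y * u) = y * (u * y) * u := by group
      _ = y * y * (u * u) := by rw [h1]; group
      _ = z := by rw [hy, h2, mul_one]
  have h1 : #W ≤ s := card_le_card_of_injOn (fun u => y * u)
    (fun u hu => by simpa using hyu u hu) fun u _ v _ h => mul_left_cancel h
  have h2 : 2 * #W ≤ c := by
    have hd : Disjoint W (W.image fun u => y * u) := by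
      rw [disjoint_left]
      intro a ha hb
      obtain ⟨u, hu, rfl⟩ := mem_image.1 hb
      exact hz1 ((hyu u hu).symm.trans (mem_filter.1 ha).2.2)
    have := card_union_of_disjoint hd
    rw [card_image_of_injective _ (mul_right_injective y)] at this
    rw [two_mul, ← this]
    refine card_le_card (union_subset (fun a ha => by simpa using (mem_filter.1 ha).2.1) ?_)
    intro a ha
    obtain ⟨u, hu, rfl⟩ := mem_image.1 ha
    simp only [mem_filter, mem_univ, true_and]
    rw [mul_assoc, (mem_filter.1 hu).2.1]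
  have h3 : 2 ≤ #W := by
    rw [← card_pair hz1]
    refine card_le_card fun a ha => ?_
    rcases mem_insert.1 ha with rfl | ha
    · simp [hW, hz2, hzc y]
    · simp [hW, mem_singleton.1 ha]
  have h4 : #Om + n = q := by
    rw [hq, ← card_univ]
    exact card_filter_add_card_filter_not _
  set Y := Om.image fun u => y * u with hY
  have hYc : #Y = #Om := card_image_of_injective _ (mul_right_injective y)
  have h5 : #(Om ∩ Y) ≤ c := by
    rcases (Om ∩ Y).eq_empty_or_nonempty with e | ⟨h, hh⟩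
    · simp [e]
    have key : ∀ g ∈ Om ∩ Y, g * y = y⁻¹ * g := fun g hg => by
      obtain ⟨hg1, hg2⟩ := mem_inter.1 hg
      obtain ⟨u, hu, rfl⟩ := mem_image.1 hg2
      have e1 := (mem_filter.1 hg1).2
      calc y * u * y = y * u * (y * u) * u⁻¹ := by group
        _ = y⁻¹ * (y * u) := by rw [e1, inv u (mem_filter.1 hu).2]; group
    refine card_le_card_of_injOn (fun g => h⁻¹ * g) (fun g hg => ?_) fun u _ v _ e =>
      mul_left_cancel e
    simp only [coe_filter, mem_univ, true_and, Set.mem_ofPred_eq]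
    calc h⁻¹ * g * y = h⁻¹ * y⁻¹ * g := by rw [mul_assoc, key g hg, mul_assoc]
      _ = y * h⁻¹ * (h * y⁻¹ * h⁻¹ * y⁻¹) * g := by group
      _ = y * (h⁻¹ * g) := by
        have := key h hh
        have e : h * y⁻¹ * h⁻¹ * y⁻¹ = 1 := by
          calc h * y⁻¹ * h⁻¹ * y⁻¹ = h * (h * y)⁻¹ * y⁻¹ := by group
            _ = 1 := by rw [this]; group
        rw [e]; group
  have h6 := card_union_add_card_inter Om Y
  have h7 : #(Om ∪ Y) ≤ q := card_le_univ _
  have hc0 : 0 < c := by omega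
  have h8 : n ≤ j * s := by
    rw [← hsc, ← mul_assoc] at hN
    exact Nat.le_of_mul_le_mul_right hN hc0
  have h9 : s * c ≤ c + 2 * (j * s) := by omega
  obtain ⟨e, he⟩ : ∃ e, c = 2 * s + e := by
    refine ⟨c - 2 * s, ?_⟩
    have : 2 * s ≤ c := by nlinarith
    omega
  have he0 : e = 0 := by
    by_contra h
    have : 1 ≤ e := by omega
    nlinarith
  have hjs : s = j + 1 := by
    subst he0
    have : s ≤ j + 1 := by nlinarith
    omega
  have hU : Om ∪ Y = univ := by
    refine eq_univ_of_card _ (le_antisymm h7 ?_)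
    show q ≤ _
    nlinarith
  have hcov : ∀ g, g * g = 1 ∨ y⁻¹ * g * (y⁻¹ * g) = 1 := fun g => by
    rcases mem_union.1 (hU ▸ mem_univ g) with h | h
    · exact .inl (mem_filter.1 h).2
    · obtain ⟨u, hu, rfl⟩ := mem_image.1 h
      right
      rw [inv_mul_cancel_left]
      exact (mem_filter.1 hu).2
  have hcen : ∀ u ∈ W, ∀ g, g * u = u * g := by
    intro u hu
    obtain ⟨hu1, hu2⟩ := (mem_filter.1 hu).2
    obtain ⟨a, ha⟩ := hA _ (hyu u hu)
    have k1 : ∀ g, g * g ≠ 1 → g * u = u * g := fun g hg => by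
      have e1 := (hcov g).resolve_left hg
      have e2 := (hcov (a⁻¹ * g * a)).resolve_left fun h => hg (by
        calc g * g = a * (a⁻¹ * g * a * (a⁻¹ * g * a)) * a⁻¹ := by group
          _ = 1 := by rw [h]; group)
      have e3 : u * (y⁻¹ * g) * (u * (y⁻¹ * g)) = 1 := by
        have e4 : u * y⁻¹ = a * y⁻¹ * a⁻¹ := by
          rw [← inv u hu2, ← mul_inv_rev, ← ha]; group
        calc u * (y⁻¹ * g) * (u * (y⁻¹ * g)) = u * y⁻¹ * g * (u * y⁻¹ * g) := by group
          _ = a * (y⁻¹ * (a⁻¹ * g * a) * (y⁻¹ * (a⁻¹ * g * a))) * a⁻¹ := by rw [e4]; group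
          _ = 1 := by rw [e2]; group
      have e5 := comm_of_sq hu2 e1 e3
      calc g * u = y * (y⁻¹ * g * u) := by group
        _ = y * u * (y⁻¹ * g) := by rw [← e5]; group
        _ = u * g := by rw [← hu1]; group
    intro g
    by_cases hg : g * g = 1
    · by_cases h : g * u * (g * u) = 1
      · exact comm_of_sq hg hu2 h
      · have := k1 _ h
        calc g * u = g * u * u * u⁻¹ := by group
          _ = u * g := by rw [this]; group
    · exact k1 g hg
  have hWU : ({u : Q | u * u = 1 ∧ ∀ g, g * u = u * g} : Finset Q) = W := by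
    ext u
    simp only [hW, mem_filter, mem_univ, true_and]
    exact ⟨fun h => ⟨(h.2 y).symm, h.1⟩, fun h => ⟨h.2, hcen u (by simpa [hW] using h)⟩⟩
  refine ⟨by rw [hWU, hWj, ← hjs, ← hsc, he, he0]; ring, fun w w2 wc _ => ?_⟩
  have hu : z * w ∈ W := mem_filter.2 ⟨mem_univ _, by rw [mul_assoc, ← wc, ← mul_assoc, ← hzc,
    mul_assoc], by rw [mul_assoc, ← mul_assoc w, ← wc, mul_assoc, w2, mul_one, hz2]⟩
  obtain ⟨a, ha⟩ := hA _ (hyu _ hu)
  have k : ∀ o : Q, o * o = 1 → o * y * o⁻¹ = y * (z * w) → ∃ x, x * x = w := fun o o2 e =>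
    ⟨o * y, by
      calc o * y * (o * y) = o * y * o⁻¹ * (o * o) * y := by group
        _ = y * (z * w * y) := by rw [e, o2]; group
        _ = y * y * z * w := by rw [(mem_filter.1 hu).2.1]; group
        _ = w := by rw [hy, hz2, one_mul]⟩
  rcases hcov a with h | h
  · exact k a h ha
  · refine k _ h ?_
    calc y⁻¹ * a * y * (y⁻¹ * a)⁻¹ = y⁻¹ * (a * y * a⁻¹) * y := by group
      _ = z * w * y := by rw [ha]; group
      _ = _ := (mem_filter.1 hu).2.1

/-- A fixed point free automorphism of `p`-power order. -/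
theorem card_modEq_one {p k : ℕ} [Fact p.Prime] {σ : MulAut Q} (hσ : σ ^ p ^ k = 1)
    (hf : ∀ x, σ x = x → x = 1) (A : Q → Prop) [DecidablePred A] (h1 : A 1)
    (hA : ∀ x, A x → A (σ x)) : #{x | A x} ≡ 1 [MOD p] := by
  let f : Function.End {x // A x} := fun x => ⟨σ x, hA _ x.2⟩
  have hp : ∀ (m : ℕ) (x : {x // A x}), ((f ^ m) x : Q) = (σ ^ m) x := by
    intro m
    induction m with
    | zero => intro x; rfl
    | succ m ih => intro x; rw [pow_succ, pow_succ]; exact ih (f x)
  have h := Equiv.Perm.card_fixedPoints_modEq (f := f) (p := p) (n := k)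
    (funext fun x => Subtype.ext (by rw [hp, hσ]; rfl))
  rw [Fintype.card_subtype] at h
  refine h.trans (congrArg (· % p) (Fintype.card_eq_one_iff.2 ?_))
  exact ⟨⟨⟨1, h1⟩, Subtype.ext (map_one σ)⟩, fun x =>
    Subtype.ext (Subtype.ext (hf _ (congrArg Subtype.val x.2)))⟩

end Pure

variable {G : Type*} [Group G] [Finite G]

/-- Double counting of the commuting pairs (element of order `> 2`, involution). -/
theorem count {T : Subgroup G} [Fintype T] [DecidableEq T] {y z : T}
    {φ : centralizer ({(z : G)} : Set G) →* G} (R : Retr 2 _ T φ) (hT : IsPGroup 2 T)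
    (hz1 : z ≠ 1) (hz2 : z * z = 1)
    (hS : IsSylowIn 2 (T ⊓ centralizer ({(y : G)} : Set G)) (centralizer ({(y : G)} : Set G)))
    (hF : ∀ x : T, x * x ≠ 1 → IsConj (x : G) y) :
    #{x : T | x * x ≠ 1} * #{b : T | b * y = y * b} ≤
      #{t : T | t * y = y * t ∧ t * t = 1 ∧ t ≠ 1} * Fintype.card T := by
  classical
  have hzc : ∀ x : T, (x : G) * z = z * x := fun x => mem_centralizer_singleton_iff.1 (R.le x.2)
  set N := ({x : T | x * x ≠ 1} : Finset T) with hN
  set I := ({t : T | t * y = y * t ∧ t * t = 1 ∧ t ≠ 1} : Finset T) with hI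
  let r : T → T → Prop := fun x t => ∃ g : G, g * x * g⁻¹ = y ∧ g * z * g⁻¹ = t
  have c1 : ∀ x ∈ N, #{b : T | b * y = y * b} ≤ #{b : T | b * x = x * b} * #{t ∈ I | r x t} := by
    intro x hx
    obtain ⟨g₀, hg₀⟩ := isConj_iff.1 (hF x (mem_filter.1 hx).2)
    have hz' : (z : G) * z = 1 := congrArg Subtype.val hz2
    obtain ⟨a, ha, hm⟩ := hS.exists_conj_mem (x := g₀ * z * g₀⁻¹)
      ((isPElt_of_mem hT z.2).conj _) (mem_centralizer_singleton_iff.2 (by
        rw [← hg₀]
        calc g₀ * z * g₀⁻¹ * (g₀ * x * g₀⁻¹) = g₀ * (z * x) * g₀⁻¹ := by group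
          _ = _ := by rw [← hzc]; group))
    have ha' := mem_centralizer_singleton_iff.1 ha
    obtain ⟨g, hg1, t, hg2, ht⟩ : ∃ g : G, g * x * g⁻¹ = y ∧ ∃ t : T, g * z * g⁻¹ = t ∧
        t * y = y * t := by
      refine ⟨a * g₀, ?_, ⟨_, hm.1⟩, by group, Subtype.ext (mem_centralizer_singleton_iff.1 hm.2)⟩
      calc a * g₀ * x * (a * g₀)⁻¹ = a * (g₀ * x * g₀⁻¹) * a⁻¹ := by group
        _ = y := by rw [hg₀, ha']; group
    have ht1 : t ≠ 1 := by
      rintro rfl
      refine hz1 (Subtype.ext ?_)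
      calc (z : G) = g⁻¹ * (g * z * g⁻¹) * g := by group
        _ = _ := by rw [hg2]; simp
    have ht2 : t * t = 1 := Subtype.ext (by
      rw [Subgroup.coe_mul, ← hg2]
      calc g * z * g⁻¹ * (g * z * g⁻¹) = g * (z * z) * g⁻¹ := by group
        _ = _ := by rw [hz']; simp)
    refine card_le_mul_card_image_of_maps_to (f := fun b => b * t * b⁻¹) (fun b hb => ?_) _ ?_
    · have hb' : b * y = y * b := (mem_filter.1 hb).2
      have hb2 : (b : G) * y = y * b := congrArg Subtype.val hb'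
      refine mem_filter.2 ⟨mem_filter.2 ⟨mem_univ _, ?_, ?_, ?_⟩, b * g, ?_, ?_⟩
      · calc b * t * b⁻¹ * y = b * t * b⁻¹ * (y * b) * b⁻¹ := by group
          _ = b * (t * y) * b⁻¹ := by rw [← hb']; group
          _ = _ := by rw [ht, ← mul_assoc, hb']; group
      · calc b * t * b⁻¹ * (b * t * b⁻¹) = b * (t * t) * b⁻¹ := by group
          _ = 1 := by rw [ht2]; group
      · intro h
        refine ht1 ?_
        calc t = b⁻¹ * (b * t * b⁻¹) * b := by group
          _ = 1 := by rw [h]; group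
      · calc b * g * x * (b * g)⁻¹ = b * (g * x * g⁻¹) * (b : G)⁻¹ := by group
          _ = y := by rw [hg1, hb2]; group
      · calc b * g * z * (b * g)⁻¹ = b * (g * z * g⁻¹) * (b : G)⁻¹ := by group
          _ = _ := by rw [hg2]; rfl
    intro w _
    rcases ({b ∈ ({b : T | b * y = y * b} : Finset T) | b * t * b⁻¹ = w}).eq_empty_or_nonempty
      with e | ⟨b₀, hb₀⟩
    · simp [e]
    have km : ∀ b : T, b * t * b⁻¹ = w → g⁻¹ * (b₀⁻¹ * b : T) * g ∈
        centralizer ({(z : G)} : Set G) := fun b hb => by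
      have e : ((b₀⁻¹ * b : T) : G) * t = t * (b₀⁻¹ * b : T) := by
        norm_cast
        calc b₀⁻¹ * b * t = b₀⁻¹ * (b * t * b⁻¹) * b := by group
          _ = _ := by rw [hb, ← (mem_filter.1 hb₀).2]; group
      rw [mem_centralizer_singleton_iff]
      calc _ = g⁻¹ * ((b₀⁻¹ * b : T) * (g * z * g⁻¹)) * g := by group
        _ = g⁻¹ * ((g * z * g⁻¹) * (b₀⁻¹ * b : T)) * g := by rw [hg2, e]
        _ = _ := by group
    refine card_le_card_of_injOn (fun b => if h : b * t * b⁻¹ = w then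
      (⟨φ ⟨_, km b h⟩, R.mem _⟩ : T) else 1) (fun b hb => ?_) fun b hb b' hb' e => ?_
    · obtain ⟨hb1, hb2⟩ := mem_filter.1 hb
      have e : ((b₀⁻¹ * b : T) : G) * y = y * (b₀⁻¹ * b : T) := by
        norm_cast
        have e0 := (mem_filter.1 (mem_filter.1 hb₀).1).2
        calc b₀⁻¹ * b * y = b₀⁻¹ * (y * b₀) * b₀⁻¹ * b := by
              rw [mul_assoc, (mem_filter.1 hb1).2]; group
          _ = _ := by rw [← e0]; group
      simp only [dif_pos hb2, coe_filter, mem_univ, true_and, Set.mem_ofPred_eq]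
      apply Subtype.ext
      simp only [Subgroup.coe_mul]
      rw [← R.id ⟨x, R.le x.2⟩ x.2, ← map_mul, ← map_mul]
      refine congrArg φ (Subtype.ext ?_)
      simp only [Subgroup.coe_mul, Subgroup.coe_inv] at e ⊢
      calc _ = g⁻¹ * ((b₀ : G)⁻¹ * ↑b * (g * x * g⁻¹)) * g := by group
        _ = g⁻¹ * ((g * x * g⁻¹) * ((b₀ : G)⁻¹ * ↑b)) * g := by rw [hg1, e]
        _ = _ := by group
    · have hb2 := (mem_filter.1 hb).2
      have hb2' := (mem_filter.1 hb').2
      simp only [dif_pos hb2, dif_pos hb2', Subtype.mk.injEq] at e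
      rw [← inv_mul_eq_one, ← map_inv, ← map_mul, R.eq_one_iff] at e
      have e2 : g⁻¹ * (b⁻¹ * b' : T) * g⁻¹⁻¹ = 1 := by
        refine ((isPElt_of_mem hT (b⁻¹ * b').2).conj g⁻¹).eq_one_of_isPRegular ?_
        convert e using 3
        simp only [Subgroup.coe_mul, Subgroup.coe_inv]
        group
      have e3 : ((b⁻¹ * b' : T) : G) = 1 := by
        calc _ = g * (g⁻¹ * (b⁻¹ * b' : T) * g⁻¹⁻¹) * g⁻¹ := by group
          _ = 1 := by rw [e2]; group
      exact inv_mul_eq_one.1 (Subtype.ext e3)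
  have c2 : ∀ t ∈ I, ∑ x ∈ {x ∈ N | r x t}, #{b : T | b * x = x * b} ≤ Fintype.card T := by
    intro t _
    refine sum_cent_le fun x hx w hw => ?_
    obtain ⟨g, g1, g2⟩ := (mem_filter.1 hx).2
    obtain ⟨h, h1, h2⟩ := (mem_filter.1 hw).2
    have e : h⁻¹ * g * x * (h⁻¹ * g)⁻¹ = w := by
      calc _ = h⁻¹ * (g * x * g⁻¹) * h := by group
        _ = _ := by rw [g1, ← h1]; group
    obtain ⟨a, ha, e2⟩ := R.exists_mem_conj_eq (g := h⁻¹ * g) x.2
      (mem_centralizer_singleton_iff.2 (by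
        calc h⁻¹ * g * z = h⁻¹ * (g * z * g⁻¹) * g := by group
          _ = _ := by rw [g2, ← h2]; group)) (by rw [e]; exact w.2)
    exact ⟨⟨a, ha⟩, Subtype.ext (e2.trans e)⟩
  calc _ = ∑ x ∈ N, #{b : T | b * y = y * b} := by rw [sum_const, smul_eq_mul]
    _ ≤ ∑ x ∈ N, #{b : T | b * x = x * b} * #{t ∈ I | r x t} := sum_le_sum c1
    _ = ∑ x ∈ N, ∑ t ∈ I, if r x t then #{b : T | b * x = x * b} else 0 := by
      refine sum_congr rfl fun x _ => ?_
      rw [← sum_filter, sum_const, smul_eq_mul, mul_comm]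
    _ = ∑ t ∈ I, ∑ x ∈ {x ∈ N | r x t}, #{b : T | b * x = x * b} := by
      rw [sum_comm]
      exact sum_congr rfl fun t _ => (sum_filter _ _).symm
    _ ≤ _ := by
      rw [← smul_eq_mul, ← sum_const]
      exact sum_le_sum c2

/-- One class of `2`-elements of order `> 2` and `2`-nilpotent centralizers: the Sylow
`2`-subgroups have order at most `8`. -/
theorem factorization_le_three {y : G}
    (hy : IsPElt 2 y) (hy1 : y * y ≠ 1) (hF : ∀ a : G, IsPElt 2 a → a * a ≠ 1 → IsConj a y)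
    (hN : ∀ u : G, IsPElt 2 u → u ≠ 1 → HasNormalPComplement 2 (centralizer ({u} : Set G))) :
    (Nat.card G).factorization 2 ≤ 3 := by
  classical
  set z := y * y with hz
  have hzp : IsPElt 2 z := hy.mul_of_commute hy (Commute.refl _)
  have hz2 : z * z = 1 := by
    by_contra h
    have h1 := orderOf_eq_of_isConj (hF z hzp h)
    have h2 : 2 ∣ orderOf y := hy.dvd_orderOf fun e => hy1 (by rw [hz, e, mul_one])
    have h3 := orderOf_pos y
    rw [hz, ← sq, orderOf_pow_of_dvd two_ne_zero h2] at h1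
    omega
  obtain ⟨S, hS⟩ := exists_isSylowIn 2 (centralizer ({y} : Set G))
  have hyz : centralizer ({y} : Set G) ≤ centralizer ({z} : Set G) := fun g hg => by
    rw [mem_centralizer_singleton_iff] at hg ⊢
    rw [hz, ← mul_assoc, hg, mul_assoc, hg, mul_assoc]
  obtain ⟨T, hT, hST⟩ := exists_isSylowIn_ge hS.isPGroup (hS.le.trans hyz)
  have hyS : y ∈ S := hS.mem_of_mem_normalizer hy (mem_centralizer_singleton_iff.2 rfl)
    (centralizer_le_normalizer _ fun g hg => mem_centralizer_singleton_iff.1 (hS.le hg))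
  have hS' : IsSylowIn 2 (T ⊓ centralizer ({y} : Set G)) (centralizer ({y} : Set G)) := by
    rwa [hS.eq_of_le (hT.isPGroup.to_le inf_le_left) inf_le_right (le_inf hST hS.le)]
  have hyT := hST hyS
  have hzT : z ∈ T := mul_mem hyT hyT
  obtain ⟨φ, R⟩ := hT.exists_retr (hN z hzp hy1)
  have := Fintype.ofFinite T
  have hzc : ∀ x : T, (x : G) * z = z * x := fun x => mem_centralizer_singleton_iff.1 (R.le x.2)
  obtain ⟨key, ksq⟩ := card_eq_two_mul_sq (y := (⟨y, hyT⟩ : T)) (z := ⟨z, hzT⟩) rfl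
    (fun e => hy1 (congrArg Subtype.val e)) (Subtype.ext hz2) (fun g => Subtype.ext (hzc g))
    (fun x hx => by
      have hx' : (x : G) * x = z := congrArg Subtype.val hx
      obtain ⟨g, hg⟩ := isConj_iff.1 (hF x (isPElt_of_mem hT.isPGroup x.2) (hx' ▸ hy1)).symm
      obtain ⟨a, ha, e⟩ := R.exists_mem_conj_eq (g := g) hyT (mem_centralizer_singleton_iff.2 (by
        calc g * z = g * y * g⁻¹ * (g * y * g⁻¹) * g := by rw [hz]; group
          _ = _ := by rw [hg, hx'])) (by rw [hg]; exact x.2)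
      exact ⟨⟨a, ha⟩, Subtype.ext (e.trans hg)⟩)
    (count (z := ⟨z, hzT⟩) R hT.isPGroup (fun e => hy1 (congrArg Subtype.val e))
      (Subtype.ext hz2) hS' fun x hx => hF x (isPElt_of_mem hT.isPGroup x.2)
        fun e => hx (Subtype.ext e))
  have hI : ∀ w : T, w * w = 1 → (∀ g, g * w = w * g) → w ≠ 1 → IsConj (w : G) z := by
    intro w w2 wc w1
    obtain ⟨x, rfl⟩ := ksq w w2 wc w1
    have := (hF x (isPElt_of_mem hT.isPGroup x.2) fun e => w1 (Subtype.ext e)).pow 2
    rwa [sq, sq] at this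
  have hTt : IsSylowIn 2 T ⊤ := by
    obtain ⟨P, hP, hTP⟩ := exists_isSylowIn_ge hT.isPGroup (le_top (a := T))
    obtain ⟨⟨w, hw⟩, hw1⟩ := ne_bot_iff_exists_ne_one.1
      (inf_centralizer_ne_bot_of_isPGroup hP.isPGroup hP.isPGroup
        (fun e => hy1 (mem_bot.1 (e ▸ hTP hzT))) le_normalizer)
    obtain ⟨v, hv, ho⟩ := exists_mem_orderOf_eq (dvd_card_of_isPGroup_of_ne_bot
      (hP.isPGroup.to_le (inf_le_left (b := centralizer (P : Set G))))
      (ne_bot_iff_exists_ne_one.2 ⟨⟨w, hw⟩, hw1⟩))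
    have hvT : v ∈ T := hT.mem_of_mem_normalizer (isPElt_of_mem hP.isPGroup hv.1)
      (mem_centralizer_singleton_iff.2 (hv.2 z (hTP hzT)).symm)
      (centralizer_le_normalizer _ fun g hg => hv.2 g (hTP hg))
    obtain ⟨g, hg⟩ := isConj_iff.1 (hI ⟨v, hvT⟩
      (Subtype.ext (show v * v = 1 by rw [← sq, ← ho, pow_orderOf_eq_one]))
      (fun g => Subtype.ext (hv.2 g (hTP g.2))) fun e => by
        rw [show v = 1 from congrArg Subtype.val e] at ho; simp at ho)
    refine hP.of_card_ge hT.isPGroup le_top ?_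
    rw [(hP.card_eq_card (hP.conj_of_mem (mem_top g)))]
    refine hT.card_le (hP.conj_of_mem (mem_top g)).isPGroup ?_
    rintro _ ⟨a, ha, rfl⟩
    rw [mem_centralizer_singleton_iff, ← hg]
    show g * a * g⁻¹ * _ = _ * (g * a * g⁻¹)
    calc g * a * g⁻¹ * (g * v * g⁻¹) = g * (a * v) * g⁻¹ := by group
      _ = _ := by rw [hv.2 a ha]; group
  set U := ({u : T | u * u = 1 ∧ ∀ g, g * u = u * g} : Finset T) with hU
  have hc := hTt.card_eq
  rw [card_top, Nat.card_eq_fintype_card, key] at hc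
  by_contra hd
  have h16 := Nat.pow_le_pow_right two_pos (show 4 ≤ (Nat.card G).factorization 2 by omega)
  have h3 : 2 < #U := by nlinarith
  obtain ⟨u, hu, hu'⟩ := exists_mem_notMem_of_card_lt_card
    (s := ({1, ⟨z, hzT⟩} : Finset T)) (card_le_two.trans_lt h3)
  simp only [mem_insert, mem_singleton, not_or] at hu'
  obtain ⟨hu1, hu2⟩ := (mem_filter.1 hu).2
  obtain ⟨g, hg⟩ := isConj_iff.1 (hI u hu1 hu2 hu'.1).symm
  obtain ⟨n, hn, en⟩ := exists_mem_normalizer_conj_eq_of_mem_centralizer hTt.toSylowTop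
    (x := z) (g := g) (fun a ha => hzc ⟨a, ha⟩)
    (by rw [hg]; exact fun a ha => congrArg Subtype.val (hu2 ⟨a, ha⟩))
  rw [IsSylowIn.coe_toSylowTop] at hn
  set H := normalizer (T : Set G) with hH
  set K := H ⊓ centralizer ({z} : Set G) with hK
  have hK1 : K.relIndex H ≠ 1 := fun e => hu'.2 (Subtype.ext (by
    have := mem_centralizer_singleton_iff.1 (relIndex_eq_one.1 e hn).2
    rw [← hg, ← en, this, mul_inv_cancel_right]))
  obtain ⟨p, hp, hpd⟩ := Nat.exists_prime_and_dvd hK1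
  have := Fact.mk hp
  have hp2 : p ≠ 2 := by
    rintro rfl
    exact (hTt.of_le le_normalizer le_top).not_dvd_relIndex_of_le (le_inf le_normalizer R.le) hpd
  obtain ⟨V, hV⟩ := exists_isSylowIn p H
  obtain ⟨m, hm, hmK⟩ := SetLike.not_le_iff_exists.1 fun h => hV.not_dvd_relIndex_of_le h hpd
  have hmp := isPElt_of_mem hV.isPGroup hm
  obtain ⟨k, hk⟩ := hmp.exists_pow_eq_one
  let σ : MulAut T := T.normalizerMonoidHom ⟨m, hV.le hm⟩
  have hσ : σ ^ p ^ k = 1 := by
    rw [← map_pow, show (⟨m, hV.le hm⟩ : H) ^ p ^ k = 1 from Subtype.ext hk, map_one]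
  have hf : ∀ x, σ x = x → x = 1 := fun x hx => by
    by_contra hx1
    have hx' : m * x * m⁻¹ = x := congrArg Subtype.val hx
    have hmx : m ∈ centralizer ({(x : G)} : Set G) :=
      mem_centralizer_singleton_iff.2 (mul_inv_eq_iff_eq_mul.1 hx')
    have := mem_centralizer_of_hasNormalPComplement
      (hN x (isPElt_of_mem hT.isPGroup x.2) fun e => hx1 (Subtype.ext e))
      (hT.isPGroup.to_le (inf_le_left (b := centralizer ({(x : G)} : Set G)))) inf_le_right hmx
      (inf_normalizer_le_normalizer_inf ⟨hV.le hm, le_normalizer hmx⟩)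
      (hmp.isPRegular_of_ne hp2.symm)
    exact hmK ⟨hV.le hm, mem_centralizer_singleton_iff.2
      (this z ⟨hzT, mem_centralizer_singleton_iff.2 (hzc x).symm⟩).symm⟩
  have c1 := card_modEq_one hσ hf (fun _ => True) trivial fun _ _ => trivial
  have c2 := card_modEq_one hσ hf (fun u => u * u = 1 ∧ ∀ g, g * u = u * g) (by simp)
    fun x hx => ⟨by rw [← map_mul, hx.1, map_one], fun g => by
      rw [← σ.apply_symm_apply g, ← map_mul, hx.2, map_mul]⟩
  rw [filter_true, card_univ, key] at c1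
  have c3 := ((c2.pow 2).mul_left 2).symm.trans c1
  exact hp.ne_one (Nat.dvd_one.1 ((Nat.modEq_iff_dvd' (by norm_num)).1 c3.symm))

end GT.PairCls
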