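import Cfsg.Agent.Lib.Grp.SylowIn
import Cfsg.Agent.Lib.Grp.PGrp

/-!
# `p`-groups of permutations and the permutations that act centrally on each orbit

For a `p`-subgroup `E` of a symmetric group, `orbC E` consists of the permutations that commute
with `E` and preserve its orbits. It is a `p`-group, contains an element of order `p` that moves
all points moved by `E`, and its order is bounded by the number of these points.
-/

set_option autoImplicit false
set_option linter.unusedSectionVars false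

namespace GT

open Finset Equiv

variable {α : Type*} [Fintype α] [DecidableEq α]

open Classical in
/-- The orbit of a point as a finite set. -/
noncomputable def orbF (E : Subgroup (Perm α)) (a : α) : Finset α :=
  univ.filter fun b => ∃ d ∈ E, d a = b

open Classical in
/-- The points moved by some element. -/
noncomputable def mov (E : Subgroup (Perm α)) : Finset α := univ.filter fun a => ∃ d ∈ E, d a ≠ a

variable {E R : Subgroup (Perm α)} {a b : α}

theorem mem_orbF : b ∈ orbF E a ↔ ∃ d ∈ E, d a = b := by simp [orbF]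

theorem mem_mov : a ∈ mov E ↔ ∃ d ∈ E, d a ≠ a := by simp [mov]

theorem self_mem_orbF : a ∈ orbF E a := mem_orbF.2 ⟨1, E.one_mem, rfl⟩

theorem apply_mem_orbF {d : Perm α} (hd : d ∈ E) : d a ∈ orbF E a := mem_orbF.2 ⟨d, hd, rfl⟩

theorem orbF_symm (h : b ∈ orbF E a) : a ∈ orbF E b := by
  obtain ⟨d, hd, rfl⟩ := mem_orbF.1 h
  exact mem_orbF.2 ⟨d⁻¹, E.inv_mem hd, by simp⟩

theorem orbF_trans {c : α} (h : b ∈ orbF E a) (h' : c ∈ orbF E b) : c ∈ orbF E a := by
  obtain ⟨d, hd, rfl⟩ := mem_orbF.1 h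
  obtain ⟨e, he, rfl⟩ := mem_orbF.1 h'
  exact mem_orbF.2 ⟨e * d, E.mul_mem he hd, rfl⟩

theorem orbF_eq_of_mem (h : b ∈ orbF E a) : orbF E b = orbF E a :=
  Finset.Subset.antisymm (fun _ hc => orbF_trans h hc) fun _ hc => orbF_trans (orbF_symm h) hc

theorem apply_mem_orbF_iff {d : Perm α} (hd : d ∈ E) : d b ∈ orbF E a ↔ b ∈ orbF E a :=
  ⟨fun h => orbF_trans h (orbF_symm (apply_mem_orbF hd)), fun h => orbF_trans h (apply_mem_orbF hd)⟩

theorem orbF_eq_singleton (h : a ∉ mov E) : orbF E a = {a} := by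
  refine Finset.eq_singleton_iff_unique_mem.2 ⟨self_mem_orbF, fun b hb => ?_⟩
  obtain ⟨d, hd, rfl⟩ := mem_orbF.1 hb
  by_contra h1
  exact h (mem_mov.2 ⟨d, hd, h1⟩)

theorem one_lt_card_orbF (h : a ∈ mov E) : 1 < (orbF E a).card := by
  obtain ⟨d, hd, h1⟩ := mem_mov.1 h
  exact Finset.one_lt_card.2 ⟨_, apply_mem_orbF hd, _, self_mem_orbF, h1⟩

theorem mem_mov_of_mem_orbF (h : a ∈ mov E) (hb : b ∈ orbF E a) : b ∈ mov E := by
  by_contra h1
  have := one_lt_card_orbF h
  rw [← orbF_eq_of_mem hb, orbF_eq_singleton h1] at this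
  simp at this

theorem card_orbF_eq_index (E : Subgroup (Perm α)) (a : α) :
    (orbF E a).card = (MulAction.stabilizer E a).index := by
  rw [MulAction.index_stabilizer, ← Set.ncard_coe_finset]
  congr 1
  ext b
  rw [Finset.mem_coe, mem_orbF]
  exact ⟨fun ⟨d, hd, h⟩ => ⟨⟨d, hd⟩, h⟩, fun ⟨d, h⟩ => ⟨d, d.2, h⟩⟩

theorem exists_card_orbF {p : ℕ} [Fact p.Prime] (hE : IsPGroup p E) (a : α) :
    ∃ k, (orbF E a).card = p ^ k := by
  rw [card_orbF_eq_index]
  exact hE.index _

/-- The permutations that commute with `E` and preserve its orbits. -/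
def orbC (E : Subgroup (Perm α)) : Subgroup (Perm α) where
  carrier := {y | (∀ d ∈ E, y * d = d * y) ∧ ∀ a, ∃ d ∈ E, y a = d a}
  one_mem' := ⟨fun d _ => by simp, fun a => ⟨1, E.one_mem, rfl⟩⟩
  mul_mem' := by
    rintro x y ⟨hx, hx'⟩ ⟨hy, hy'⟩
    refine ⟨fun d hd => by rw [mul_assoc, hy d hd, ← mul_assoc, hx d hd, mul_assoc], fun a => ?_⟩
    obtain ⟨d, hd, h⟩ := hy' a
    obtain ⟨e, he, h'⟩ := hx' (d a)
    exact ⟨e * d, E.mul_mem he hd, by rw [Perm.mul_apply, h, h', Perm.mul_apply]⟩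
  inv_mem' := by
    rintro x ⟨hx, hx'⟩
    refine ⟨fun d hd => (Commute.inv_left (hx d hd)).eq, fun a => ?_⟩
    obtain ⟨d, hd, h⟩ := hx' (x⁻¹ a)
    refine ⟨d⁻¹, E.inv_mem hd, ?_⟩
    rw [Perm.eq_inv_iff_eq, ← h]
    simp

theorem mem_orbC {y : Perm α} :
    y ∈ orbC E ↔ (∀ d ∈ E, y * d = d * y) ∧ ∀ a, ∃ d ∈ E, y a = d a := Iff.rfl

theorem orbC_apply {y d : Perm α} (hy : y ∈ orbC E) (hd : d ∈ E) (a : α) : y (d a) = d (y a) := by
  rw [← Perm.mul_apply, hy.1 d hd, Perm.mul_apply]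

theorem mem_orbC_of_mem {y : Perm α} (hy : y ∈ E) (h : ∀ d ∈ E, y * d = d * y) : y ∈ orbC E :=
  ⟨h, fun _ => ⟨y, hy, rfl⟩⟩

theorem pow_apply_of_comm {y d : Perm α} (h : y * d = d * y) (ha : y a = d a) (k : ℕ) :
    (y ^ k) a = (d ^ k) a := by
  induction k with
  | zero => rfl
  | succ k ih =>
    rw [pow_succ', Perm.mul_apply, ih, ← Perm.mul_apply, ((show Commute y d from h).pow_right k).eq,
      Perm.mul_apply, ha, pow_succ, Perm.mul_apply]

theorem isPGroup_orbC {p : ℕ} [Fact p.Prime] (hE : IsPGroup p E) : IsPGroup p (orbC E) := by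
  obtain ⟨k, hk⟩ := IsPGroup.iff_card.1 hE
  intro y
  refine ⟨k, Subtype.ext (Equiv.ext fun a => ?_)⟩
  obtain ⟨d, hd, h⟩ := y.2.2 a
  rw [Subgroup.coe_pow, pow_apply_of_comm (y.2.1 d hd) h, ← hk]
  have : (⟨d, hd⟩ : E) ^ Nat.card E = 1 := pow_card_eq_one'
  rw [show d ^ Nat.card E = 1 from congrArg Subtype.val this]
  rfl

theorem orbC_le_normalizer : orbC E ≤ Subgroup.normalizer (E : Set (Perm α)) :=
  le_trans (fun _ hy => Subgroup.mem_centralizer_iff.2 fun d hd => (hy.1 d hd).symm)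
    (Subgroup.centralizer_le_normalizer _)

theorem conj_mem_orbC {g y : Perm α} (hg : g ∈ Subgroup.normalizer (E : Set (Perm α)))
    (hy : y ∈ orbC E) : g * y * g⁻¹ ∈ orbC E := by
  refine ⟨fun d hd => ?_, fun a => ?_⟩
  · have h1 : g⁻¹ * d * g ∈ E := by
      simpa using (Subgroup.mem_normalizer_iff.1 (inv_mem hg) d).1 hd
    have := hy.1 _ h1
    calc g * y * g⁻¹ * d = g * (y * (g⁻¹ * d * g)) * g⁻¹ := by group
      _ = _ := by rw [this]; group
  · obtain ⟨d, hd, h⟩ := hy.2 (g⁻¹ a)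
    exact ⟨g * d * g⁻¹, (Subgroup.mem_normalizer_iff.1 hg d).1 hd, congrArg g h⟩

theorem normalizer_le_normalizer_orbC : Subgroup.normalizer (E : Set (Perm α)) ≤
    Subgroup.normalizer (orbC E : Set (Perm α)) := fun g hg =>
  Subgroup.mem_normalizer_iff.2 fun y => ⟨conj_mem_orbC hg, fun h => by
    simpa [mul_assoc] using conj_mem_orbC (inv_mem hg) h⟩

theorem apply_eq_of_mem_orbF {y : Perm α} (hy : y ∈ orbC E) (ha : y a = a) (hb : b ∈ orbF E a) :
    y b = b := by
  obtain ⟨d, hd, rfl⟩ := mem_orbF.1 hb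
  rw [orbC_apply hy hd, ha]

theorem support_subset_mov {y : Perm α} (hy : y ∈ orbC E) : y.support ⊆ mov E := fun a ha => by
  obtain ⟨d, hd, h⟩ := hy.2 a
  exact mem_mov.2 ⟨d, hd, h ▸ Perm.mem_support.1 ha⟩

/-- An element of order `p` whose support is a given nontrivial orbit. -/
theorem exists_support_eq_orbF {p : ℕ} [hp : Fact p.Prime] (hE : IsPGroup p E) (ha : a ∈ mov E) :
    ∃ r ∈ orbC E, r ^ p = 1 ∧ r.support = orbF E a := by
  classical
  have hinv : ∀ d : E, ∀ x, (d : Perm α) x ∈ orbF E a ↔ x ∈ orbF E a :=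
    fun d x => apply_mem_orbF_iff d.2
  let f : E →* Perm {x // x ∈ orbF E a} :=
    { toFun := fun d => (d : Perm α).subtypePerm (hinv d)
      map_one' := Equiv.ext fun x => rfl
      map_mul' := fun d e => Equiv.ext fun x => rfl }
  have h1 : IsPGroup p f.range := hE.of_surjective _ f.rangeRestrict_surjective
  have h2 : Nontrivial f.range := by
    obtain ⟨d, hd, h⟩ := mem_mov.1 ha
    refine ⟨⟨⟨f ⟨d, hd⟩, _, rfl⟩, 1, fun h3 => h ?_⟩⟩
    exact congrArg Subtype.val (Equiv.congr_fun (congrArg Subtype.val h3) ⟨a, self_mem_orbF⟩)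
  have h3 := h1.center_nontrivial
  have h4 : p ∣ Nat.card (Subgroup.center f.range) := by
    obtain ⟨k, hk0, hk⟩ := (h1.to_subgroup (Subgroup.center f.range)).nontrivial_iff_card.1 h3
    rw [hk]
    exact dvd_pow_self _ hk0.ne'
  obtain ⟨z, hz⟩ := exists_prime_orderOf_dvd_card' p h4
  obtain ⟨d, hd⟩ := z.1.2
  have h5 : ∀ e : E, f e * f d = f d * f e := fun e => by
    have := congrArg Subtype.val (Subgroup.mem_center_iff.1 z.2 ⟨f e, e, rfl⟩)
    rwa [Subgroup.coe_mul, Subgroup.coe_mul, ← hd] at this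
  have h6 : orderOf (f d) = p := by rw [hd, Subgroup.orderOf_coe, Subgroup.orderOf_coe, hz]
  have h7 : Perm.ofSubtype (f d) ∈ orbC E := by
    refine ⟨fun e he => Equiv.ext fun x => ?_, fun x => ?_⟩
    · by_cases hx : x ∈ orbF E a
      · rw [Perm.mul_apply, Perm.mul_apply, Perm.ofSubtype_apply_of_mem _ hx,
          Perm.ofSubtype_apply_of_mem _ ((apply_mem_orbF_iff he).2 hx)]
        exact (congrArg Subtype.val (Equiv.congr_fun (h5 ⟨e, he⟩) ⟨x, hx⟩)).symm
      · rw [Perm.mul_apply, Perm.mul_apply, Perm.ofSubtype_apply_of_not_mem _ hx,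
          Perm.ofSubtype_apply_of_not_mem _ (fun h => hx ((apply_mem_orbF_iff he).1 h))]
    · by_cases hx : x ∈ orbF E a
      · exact ⟨d, d.2, Perm.ofSubtype_apply_of_mem _ hx⟩
      · exact ⟨1, E.one_mem, Perm.ofSubtype_apply_of_not_mem _ hx⟩
  refine ⟨_, h7, by rw [← map_pow, ← h6, pow_orderOf_eq_one, map_one], ?_⟩
  ext x
  rw [Perm.mem_support]
  refine ⟨fun h => by_contra fun hx => h (Perm.ofSubtype_apply_of_not_mem _ hx), fun hx h => ?_⟩
  have h8 : f d = 1 := Equiv.ext fun y => Subtype.ext (by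
    rw [← Perm.ofSubtype_apply_of_mem _ y.2]
    exact apply_eq_of_mem_orbF h7 h (orbF_trans (orbF_symm hx) y.2))
  rw [h8, orderOf_one] at h6
  exact hp.out.ne_one h6.symm

/-- An element of order `p` that moves all points moved by `E`. -/
theorem exists_support_eq_mov {p : ℕ} [hp : Fact p.Prime] (hE : IsPGroup p E) :
    ∃ u ∈ orbC E, u ^ p = 1 ∧ u.support = mov E := by
  classical
  obtain ⟨u, hu, hmax⟩ := Finset.exists_max_image
    (univ.filter fun u : Perm α => u ∈ orbC E ∧ u ^ p = 1) (fun u => u.support.card)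
    ⟨1, by simp⟩
  simp only [mem_filter, mem_univ, true_and] at hu hmax
  refine ⟨u, hu.1, hu.2, Finset.Subset.antisymm (support_subset_mov hu.1) fun a ha => ?_⟩
  by_contra h
  obtain ⟨r, hr, hr1, hr2⟩ := exists_support_eq_orbF hE ha
  have h1 : u.Disjoint r := fun x => by
    by_cases hx : x ∈ orbF E a
    · exact Or.inl (apply_eq_of_mem_orbF hu.1 (Perm.notMem_support.1 h) hx)
    · exact Or.inr (Perm.notMem_support.1 (hr2 ▸ hx))
  have h2 := hmax (u * r) ⟨mul_mem hu.1 hr, by rw [h1.commute.mul_pow, hu.2, hr1, mul_one]⟩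
  rw [h1.card_support_mul, hr2] at h2
  have := one_lt_card_orbF ha
  omega

theorem orbF_subset_of_le_orbC (hR : R ≤ orbC E) (a : α) : orbF R a ⊆ orbF E a := fun b hb => by
  obtain ⟨y, hy, rfl⟩ := mem_orbF.1 hb
  obtain ⟨d, hd, h⟩ := (hR hy).2 a
  exact mem_orbF.2 ⟨d, hd, h.symm⟩

theorem card_orbF_le_of_mem (hR : R ≤ orbC E) (hb : b ∈ orbF E a) :
    (orbF R b).card ≤ (orbF R a).card := by
  obtain ⟨d, hd, rfl⟩ := mem_orbF.1 hb
  refine le_trans (Finset.card_le_card fun c hc => ?_) (Finset.card_image_le (f := d))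
  obtain ⟨y, hy, rfl⟩ := mem_orbF.1 hc
  exact mem_image.2 ⟨y a, apply_mem_orbF hy, (orbC_apply (hR hy) hd a).symm⟩

theorem mul_le_pow_self {p : ℕ} (hp : 2 ≤ p) (k : ℕ) : p * k ≤ p ^ k ∨ k = 0 := by
  rcases k with _ | k
  · exact Or.inr rfl
  · left
    rw [pow_succ']
    exact Nat.mul_le_mul_left _ (Nat.lt_pow_self (by omega))

/-- The order of a subgroup of `orbC E` against the number of points moved by `E`. -/
theorem mul_add_le_card_mov {p : ℕ} [hp : Fact p.Prime] (hE : IsPGroup p E) (hR : R ≤ orbC E)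
    {s : ℕ} (hs : s = 0 ∨ ∃ a ∈ mov E, ∃ j, (orbF R a).card ≤ p ^ j ∧
      p * j + s ≤ (orbF E a).card) :
    p * (Nat.card R).factorization p + s ≤ (mov E).card := by
  classical
  have hRp : IsPGroup p R := (isPGroup_orbC hE).to_le hR
  let S : Setoid α := ⟨fun a b => b ∈ orbF E a,
    ⟨fun _ => self_mem_orbF, orbF_symm, orbF_trans⟩⟩
  let ρ : α → α := fun a => (Quotient.mk S a).out
  have hρ : ∀ a, a ∈ orbF E (ρ a) := fun a => Quotient.mk_out (s := S) a
  have hρ' : ∀ a b, b ∈ orbF E a → ρ a = ρ b := fun a b h => by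
    simp only [ρ]; rw [Quotient.sound (s := S) h]
  let T := (mov E).image ρ
  have hT : ∀ t ∈ T, t ∈ mov E ∧ ρ t = t := fun t ht => by
    obtain ⟨a, ha, rfl⟩ := mem_image.1 ht
    exact ⟨mem_mov_of_mem_orbF ha (orbF_symm (hρ a)), hρ' _ _ (hρ a)⟩
  have h1 : (mov E).card = ∑ t ∈ T, (orbF E t).card := by
    rw [Finset.card_eq_sum_card_fiberwise (f := ρ) (t := T) fun a ha => mem_image_of_mem _ ha]
    refine Finset.sum_congr rfl fun t ht => ?_
    congr 1
    ext b
    rw [mem_filter]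
    exact ⟨fun h => h.2 ▸ hρ b, fun h => ⟨mem_mov_of_mem_orbF (hT t ht).1 h,
      (hρ' _ _ h).symm.trans (hT t ht).2⟩⟩
  choose j hj using exists_card_orbF hRp
  have h2 : Nat.card R ≤ p ^ ∑ t ∈ T, j t := by
    have := Fintype.ofFinite R
    rw [← Finset.prod_pow_eq_pow_sum, ← Finset.prod_congr rfl fun t _ => hj t, ← Finset.card_pi,
      Nat.card_eq_fintype_card, ← Finset.card_univ]
    refine Finset.card_le_card_of_injOn (fun y t _ => (y : Perm α) t) (fun y _ => ?_)
      fun x _ y _ h => Subtype.ext (Equiv.ext fun a => ?_)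
    · exact Finset.mem_coe.2 (Finset.mem_pi.2 fun t _ => apply_mem_orbF y.2)
    · by_cases ha : a ∈ mov E
      · obtain ⟨d, hd, h3⟩ := mem_orbF.1 (hρ a)
        have h4 : (x : Perm α) (ρ a) = (y : Perm α) (ρ a) :=
          congrFun (congrFun h (ρ a)) (mem_image_of_mem _ ha)
        rw [← h3, orbC_apply (hR x.2) hd, orbC_apply (hR y.2) hd, h4]
      · rw [Perm.notMem_support.1 fun h => ha (support_subset_mov (hR x.2) h),
          Perm.notMem_support.1 fun h => ha (support_subset_mov (hR y.2) h)]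
  have h3 : (Nat.card R).factorization p ≤ ∑ t ∈ T, j t := by
    obtain ⟨c, hc⟩ := IsPGroup.iff_card.1 hRp
    rw [hc] at h2 ⊢
    rw [Nat.Prime.factorization_pow hp.out, Finsupp.single_eq_same]
    exact (Nat.pow_le_pow_iff_right hp.out.one_lt).1 h2
  have h4 : ∀ t ∈ T, p * j t ≤ (orbF E t).card := fun t ht => by
    have h5 := Finset.card_le_card (orbF_subset_of_le_orbC hR t)
    rw [hj] at h5
    rcases mul_le_pow_self hp.out.two_le (j t) with h | h
    · exact h.trans h5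
    · rw [h]; simp
  refine le_trans (Nat.add_le_add_right (Nat.mul_le_mul_left p h3) s) ?_
  rw [h1, Finset.mul_sum]
  rcases hs with rfl | ⟨a, ha, i, hi, hs⟩
  · exact Finset.sum_le_sum h4
  · have h5 : ρ a ∈ T := mem_image_of_mem _ ha
    rw [← Finset.add_sum_erase _ _ h5, ← Finset.add_sum_erase _ _ h5]
    have h6 := Finset.sum_le_sum fun t (ht : t ∈ T.erase (ρ a)) => h4 t (mem_of_mem_erase ht)
    have h7 := (card_orbF_le_of_mem hR (orbF_symm (hρ a))).trans hi
    rw [hj, Nat.pow_le_pow_iff_right hp.out.one_lt] at h7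
    have h8 := Nat.mul_le_mul_left p h7
    rw [orbF_eq_of_mem (hρ a)] at hs
    omega

/-- If all orbits have at most `p` points, the group is commutative. -/
theorem le_orbC_of_card_orbF_le {p : ℕ} [hp : Fact p.Prime] (hE : IsPGroup p E)
    (h : ∀ a, (orbF E a).card ≤ p) : E ≤ orbC E := by
  intro y hy
  refine mem_orbC_of_mem hy fun d hd => Equiv.ext fun a => ?_
  have h1 : commutator E ≤ MulAction.stabilizer E a := by
    obtain ⟨k, hk⟩ := exists_card_orbF hE a
    have h2 := h a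
    rw [hk] at h2
    rw [card_orbF_eq_index] at hk
    rcases k with _ | _ | k
    · rw [pow_zero, Subgroup.index_eq_one] at hk
      rw [hk]; exact le_top
    · rw [zero_add, pow_one] at hk
      have := normal_of_index_eq hE hk
      exact commutator_le_of_index_prime (hk ▸ hp.out)
    · have := hp.out.one_lt
      have : p ^ 1 < p ^ (k + 1 + 1) := Nat.pow_lt_pow_right this (by omega)
      simp at this
      omega
  have h2 := h1 (Subgroup.commutator_mem_commutator (Subgroup.mem_top (⟨y, hy⟩ : E)⁻¹)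
    (Subgroup.mem_top (⟨d, hd⟩ : E)⁻¹))
  rw [commutatorElement_def, inv_inv, inv_inv] at h2
  have h3 : (y⁻¹ * d⁻¹ * y * d) a = a := h2
  simp only [Perm.mul_apply] at h3 ⊢
  rwa [Perm.inv_eq_iff_eq, Perm.inv_eq_iff_eq] at h3

/-- If the even permutations of `orbC E` commute with a permutation of odd order centralizing the
`2`-group `E`, this permutation fixes the points moved by `E`. -/
theorem apply_eq_of_forall_commute (hE : IsPGroup 2 E) {σ : Perm α} {m : ℕ} (hm : ¬ 2 ∣ m)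
    (hσ : σ ^ m = 1) (hc : ∀ d ∈ E, σ * d = d * σ)
    (h : ∀ y ∈ orbC E, Perm.sign y = 1 → σ * y = y * σ) (ha : a ∈ mov E) : σ a = a := by
  obtain ⟨k, hk⟩ := IsPGroup.iff_card.1 hE
  have key : ∀ i, (σ ^ 2 ^ i) a ∈ orbF E a → σ a = a := by
    intro i hi
    obtain ⟨d, hd, h1⟩ := mem_orbF.1 hi
    have h2 := pow_apply_of_comm ((show Commute σ d from hc d hd).pow_left _).eq h1.symm (2 ^ k)
    have h3 : (⟨d, hd⟩ : E) ^ Nat.card E = 1 := pow_card_eq_one'
    rw [← hk, show d ^ Nat.card E = 1 from congrArg Subtype.val h3, hk, ← pow_mul,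
      ← pow_add] at h2
    have h4 : (σ ^ 2 ^ (i + k)).support = σ.support := Perm.support_pow_coprime
      (Nat.Coprime.pow_left _ (Nat.Coprime.coprime_dvd_right (orderOf_dvd_of_pow_eq_one hσ)
        ((Nat.Prime.coprime_iff_not_dvd Nat.prime_two).2 hm)))
    rw [← Perm.notMem_support, ← h4, Perm.notMem_support]
    exact h2
  by_cases h1 : σ a ∈ orbF E a
  · exact key 0 (by simpa using h1)
  obtain ⟨r, hr, -, hr2⟩ := exists_support_eq_orbF hE ha
  have hn : σ ∈ Subgroup.normalizer (E : Set (Perm α)) := Subgroup.centralizer_le_normalizer _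
    (Subgroup.mem_centralizer_iff.2 fun d hd => (hc d hd).symm)
  have h2 := h (r * (σ * r * σ⁻¹)) (mul_mem hr (conj_mem_orbC hn hr)) (by
    simp [mul_comm (Perm.sign σ), mul_assoc])
  have h3 : σ⁻¹ a ∉ orbF E a := fun h3 => by
    obtain ⟨d, hd, h4⟩ := mem_orbF.1 h3
    apply h1
    rw [← apply_mem_orbF_iff hd, ← Perm.mul_apply, ← hc d hd, Perm.mul_apply, h4]
    simpa using self_mem_orbF
  have h4 : (r * (σ * r * σ⁻¹)) a ≠ a := by
    rw [← hr2, Perm.notMem_support] at h3
    simp only [Perm.mul_apply, h3]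
    simpa using Perm.mem_support.1 (hr2 ▸ self_mem_orbF)
  refine key 1 (by_contra fun h5 => h4 ?_)
  have h6 : (r * (σ * r * σ⁻¹)) ((σ ^ 2) a) = (σ ^ 2) a := by
    rw [← hr2, Perm.notMem_support] at h1 h5
    simpa [sq, h1] using h5
  rw [← Perm.mul_apply, ← ((show Commute σ _ from h2).pow_left 2).eq, Perm.mul_apply] at h6
  exact (σ ^ 2).injective h6

end GT
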