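import Mathlib

/-!
Sylow `p`-subgroups of symmetric and alternating groups are generated by elements of order `p`.
-/

set_option autoImplicit false

namespace GT.SymSyl

open Equiv

/-- a group generated by elements with `x ^ p = 1` has `x ^ p ∈ G'` for all `x`. -/
theorem pow_mem_commutator_of_closure {K : Type*} [Group K] (p : ℕ)
    (h : Subgroup.closure {x : K | x ^ p = 1} = ⊤) (x : K) : x ^ p ∈ commutator K := by
  have hle : Subgroup.closure {x : K | x ^ p = 1} ≤
      ((powMonoidHom p : Abelianization K →* Abelianization K).comp Abelianization.of).ker := by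
    rw [Subgroup.closure_le]
    intro y hy
    have hy' : y ^ p = 1 := hy
    simp only [SetLike.mem_coe, MonoidHom.mem_ker, MonoidHom.comp_apply, powMonoidHom_apply]
    rw [← map_pow, hy', map_one]
  have hx := hle (h ▸ Subgroup.mem_top x)
  simp only [MonoidHom.mem_ker, MonoidHom.comp_apply, powMonoidHom_apply] at hx
  rw [← map_pow] at hx
  rw [← Abelianization.ker_of]
  exact hx

theorem pow_mem_commutator_of_range {K G : Type*} [Group K] [Group G] (p : ℕ) (ι : K →* G)
    (hι : Function.Injective ι)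
    (h : ι.range ≤ Subgroup.closure {x : G | x ∈ ι.range ∧ x ^ p = 1}) (x : K) :
    x ^ p ∈ commutator K := by
  apply pow_mem_commutator_of_closure
  apply Subgroup.map_injective hι
  rw [MonoidHom.map_closure, ← MonoidHom.range_eq_map]
  apply le_antisymm
  · rw [Subgroup.closure_le]
    rintro _ ⟨y, -, rfl⟩
    exact ⟨y, rfl⟩
  · refine h.trans (Subgroup.closure_mono ?_)
    rintro _ ⟨⟨y, rfl⟩, hy⟩
    refine ⟨y, ?_, rfl⟩
    apply hι
    rw [map_pow, hy, map_one]

/-- `H` is generated by a set of elements with `x ^ p = 1` whose odd members commute. -/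
def Good (p : ℕ) {α : Type*} [Fintype α] [DecidableEq α] (H : Subgroup (Perm α)) : Prop :=
  ∃ S : Set (Perm α), Subgroup.closure S = H ∧ (∀ x ∈ S, x ^ p = 1) ∧
    ∀ x ∈ S, ∀ y ∈ S, Perm.sign x = -1 → Perm.sign y = -1 → Commute x y

theorem Good.map {p : ℕ} {α β : Type*} [Fintype α] [DecidableEq α] [Fintype β] [DecidableEq β]
    {H : Subgroup (Perm α)} (h : Good p H) (f : Perm α →* Perm β)
    (hf : ∀ x, Perm.sign (f x) = Perm.sign x) : Good p (H.map f) := by
  obtain ⟨S, hS, h1, h2⟩ := h
  refine ⟨f '' S, by rw [← MonoidHom.map_closure, hS], ?_, ?_⟩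
  · rintro _ ⟨x, hx, rfl⟩
    rw [← map_pow, h1 x hx, map_one]
  · rintro _ ⟨x, hx, rfl⟩ _ ⟨y, hy, rfl⟩ hx' hy'
    rw [hf] at hx' hy'
    exact (h2 x hx y hy hx' hy').map f

section Wreath

variable {p : ℕ} [Fact p.Prime] {β : Type*} [Fintype β] [DecidableEq β]

/-- the element `(i, a) ↦ (h i, a + c i)` -/
def wel (h : Perm β) (c : β → ZMod p) : Perm (β × ZMod p) :=
  Equiv.prodShear h (fun i => Equiv.addRight (c i))

omit [Fintype β] [DecidableEq β] in
theorem wel_apply (h : Perm β) (c : β → ZMod p) (i : β) (a : ZMod p) :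
    wel h c (i, a) = (h i, a + c i) := rfl

omit [Fintype β] [DecidableEq β] in
theorem wel_mul (h k : Perm β) (c d : β → ZMod p) :
    wel h c * wel k d = wel (h * k) (fun i => d i + c (k i)) := by
  ext ⟨i, a⟩
  · rfl
  · simp [wel_apply, add_assoc]

omit [Fintype β] [DecidableEq β] in
theorem wel_one : wel (1 : Perm β) (0 : β → ZMod p) = 1 := by
  ext ⟨i, a⟩
  · rfl
  · simp [wel_apply]

omit [Fintype β] [DecidableEq β] in
theorem wel_inv (h : Perm β) (c : β → ZMod p) :
    (wel h c)⁻¹ = wel h⁻¹ (fun i => - c (h⁻¹ i)) := by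
  rw [inv_eq_iff_mul_eq_one, wel_mul, mul_inv_cancel, ← wel_one]
  congr 1
  funext i
  simp

omit [Fintype β] [DecidableEq β] in
theorem wel_inj {h k : Perm β} {c d : β → ZMod p} (e : wel h c = wel k d) : h = k ∧ c = d := by
  have := fun i => congrArg (fun g : Perm (β × ZMod p) => g (i, 0)) e
  simp only [wel_apply, zero_add, Prod.mk.injEq] at this
  exact ⟨Equiv.ext fun i => (this i).1, funext fun i => (this i).2⟩

/-- the wreath product `C_p ≀ H` -/
def wr (p : ℕ) [Fact p.Prime] (H : Subgroup (Perm β)) : Subgroup (Perm (β × ZMod p)) where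
  carrier := {g | ∃ h ∈ H, ∃ c, g = wel h c}
  mul_mem' := by
    rintro _ _ ⟨h, hh, c, rfl⟩ ⟨k, hk, d, rfl⟩
    exact ⟨h * k, H.mul_mem hh hk, _, wel_mul h k c d⟩
  one_mem' := ⟨1, H.one_mem, 0, wel_one.symm⟩
  inv_mem' := by
    rintro _ ⟨h, hh, c, rfl⟩
    exact ⟨h⁻¹, H.inv_mem hh, _, wel_inv h c⟩

omit [DecidableEq β] in
theorem card_wr (H : Subgroup (Perm β)) :
    Nat.card (wr p H) = Nat.card H * p ^ Fintype.card β := by
  classical
  have : Nat.card (wr p H) = Nat.card (H × (β → ZMod p)) := by
    symm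
    refine Nat.card_congr (Equiv.ofBijective (fun x => ⟨wel x.1.1 x.2, x.1.1, x.1.2, x.2, rfl⟩) ⟨?_, ?_⟩)
    · rintro ⟨h, c⟩ ⟨k, d⟩ e
      obtain ⟨h1, h2⟩ := wel_inj (congrArg Subtype.val e)
      exact Prod.ext (Subtype.ext h1) h2
    · rintro ⟨_, h, hh, c, rfl⟩
      exact ⟨(⟨h, hh⟩, c), rfl⟩
  rw [this, Nat.card_prod, Nat.card_fun, Nat.card_zmod, Nat.card_eq_fintype_card (α := β)]

/-- the diagonal embedding -/
def diagHom (p : ℕ) [Fact p.Prime] (β : Type*) : Perm β →* Perm (β × ZMod p) where
  toFun h := wel h 0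
  map_one' := wel_one
  map_mul' h k := by
    rw [wel_mul]
    congr 1
    funext i
    simp

theorem sign_diag (h : Perm β) : Perm.sign (diagHom p β h) = Perm.sign h ^ p := by
  have : diagHom p β h = Equiv.prodCongrLeft (fun _ : ZMod p => h) := by
    ext ⟨i, a⟩
    · rfl
    · simp [diagHom, wel_apply]
  rw [this, Perm.sign_prodCongrLeft, Finset.prod_const, Finset.card_univ, ZMod.card]

omit [Fintype β] [DecidableEq β] in
theorem wel_one_pow (c : β → ZMod p) (n : ℕ) : wel (1 : Perm β) c ^ n = wel 1 (n • c) := by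
  induction n with
  | zero => simp [wel_one]
  | succ n ih =>
    rw [pow_succ, ih, wel_mul, mul_one]
    congr 1
    funext i
    simp [add_mul, add_comm]

theorem sign_eq_one_of_pow {α : Type*} [Fintype α] [DecidableEq α] {x : Perm α} {n : ℕ}
    (hn : Odd n) (hx : x ^ n = 1) : Perm.sign x = 1 := by
  rcases Int.units_eq_one_or (Perm.sign x) with h | h
  · exact h
  · have := congrArg Perm.sign hx
    rw [map_pow, h, hn.neg_one_pow, map_one] at this
    exact absurd this (by decide)

theorem Good.wr {H : Subgroup (Perm β)} (h : Good p H) : Good p (wr p H) := by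
  obtain ⟨S, hS, h1, -⟩ := h
  refine ⟨Set.range (wel (1 : Perm β)) ∪ diagHom p β '' S, ?_, ?_, ?_⟩
  · apply le_antisymm
    · rw [Subgroup.closure_le]
      rintro _ (⟨c, rfl⟩ | ⟨x, hx, rfl⟩)
      · exact ⟨1, H.one_mem, c, rfl⟩
      · exact ⟨x, hS ▸ Subgroup.subset_closure hx, 0, rfl⟩
    · rintro _ ⟨h, hh, c, rfl⟩
      have e : wel h c = diagHom p β h * wel 1 c := by
        change _ = wel h 0 * wel 1 c
        rw [wel_mul, mul_one]
        congr 1
        funext i
        simp
      rw [e]
      refine Subgroup.mul_mem _ ?_ (Subgroup.subset_closure (Or.inl ⟨c, rfl⟩))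
      have : diagHom p β h ∈ Subgroup.closure (diagHom p β '' S) := by
        rw [← MonoidHom.map_closure, hS]
        exact ⟨h, hh, rfl⟩
      exact Subgroup.closure_mono Set.subset_union_right this
  · rintro _ (⟨c, rfl⟩ | ⟨x, hx, rfl⟩)
    · rw [wel_one_pow, ← wel_one]
      congr 1
      funext i
      simp
    · rw [← map_pow, h1 x hx, map_one]
  · have hd : ∀ x ∈ S, Perm.sign (diagHom p β x) = 1 := by
      intro x hx
      rw [sign_diag, ← map_pow, h1 x hx, map_one]
    rintro _ (⟨c, rfl⟩ | ⟨x, hx, rfl⟩) _ (⟨d, rfl⟩ | ⟨y, hy, rfl⟩) h2 h3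
    · change _ = _
      rw [wel_mul, wel_mul]
      congr 1
      funext i
      simp [add_comm]
    · rw [hd y hy] at h3
      exact absurd h3 (by decide)
    · rw [hd x hx] at h2
      exact absurd h2 (by decide)
    · rw [hd x hx] at h2
      exact absurd h2 (by decide)

end Wreath

theorem exists_good (p : ℕ) [hp : Fact p.Prime] (n : ℕ) :
    ∀ (α : Type) [Fintype α] [DecidableEq α], Fintype.card α = n →
      ∃ H : Subgroup (Perm α), Nat.card H = p ^ padicValNat p n.factorial ∧ Good p H := by
  induction n using Nat.strong_induction_on with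
  | _ n ih =>
    intro α _ _ hα
    rcases Nat.eq_zero_or_pos n with rfl | hn
    · refine ⟨⊥, by simp, ∅, Subgroup.closure_empty, by simp, by simp⟩
    · have hm : n / p < n := Nat.div_lt_self hn hp.out.one_lt
      obtain ⟨H, hH, hg⟩ := ih (n / p) hm (Fin (n / p)) (Fintype.card_fin _)
      have hle : Fintype.card (Fin (n / p) × ZMod p) ≤ Fintype.card α := by
        rw [Fintype.card_prod, Fintype.card_fin, ZMod.card, hα]
        exact Nat.div_mul_le_self n p
      obtain ⟨e⟩ := Function.Embedding.nonempty_of_card_le hle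
      classical
      let f : (Fin (n / p) × ZMod p) ≃ {x // x ∈ Set.range e} := Equiv.ofInjective e e.injective
      refine ⟨(wr p H).map (Perm.extendDomainHom f), ?_, ?_⟩
      · rw [Subgroup.card_map_of_injective (Perm.extendDomainHom_injective f), card_wr, hH,
          Fintype.card_fin, ← pow_add]
        congr 1
        conv_rhs => rw [← Nat.div_add_mod n p]
        rw [padicValNat_factorial_mul_add _ (Nat.mod_lt n hp.out.pos), padicValNat_factorial_mul]
      · refine hg.wr.map _ fun x => ?_
        exact Perm.sign_extendDomain x f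

theorem good_sylow (p : ℕ) [hp : Fact p.Prime] {α : Type} [Fintype α] [DecidableEq α]
    (P : Sylow p (Perm α)) : Good p (P : Subgroup (Perm α)) := by
  obtain ⟨H, hH, hg⟩ := exists_good p _ α rfl
  have hc : Nat.card H = p ^ (Nat.card (Perm α)).factorization p := by
    rw [hH, Nat.factorization_def _ hp.out, Nat.card_perm, Nat.card_eq_fintype_card]
  obtain ⟨g, hg'⟩ := MulAction.exists_smul_eq (Perm α) (Sylow.ofCard H hc) P
  have : (P : Subgroup (Perm α)) = H.map (MulAut.conj g).toMonoidHom := by
    rw [← hg']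
    rfl
  rw [this]
  refine hg.map _ fun x => ?_
  simp [mul_comm, ← mul_assoc]

theorem Good.le_closure {p : ℕ} {α : Type*} [Fintype α] [DecidableEq α] {H : Subgroup (Perm α)}
    (h : Good p H) : H ≤ Subgroup.closure {x | x ∈ H ∧ x ^ p = 1} := by
  obtain ⟨S, hS, h1, -⟩ := h
  conv_lhs => rw [← hS]
  refine Subgroup.closure_mono fun x hx => ⟨hS ▸ Subgroup.subset_closure hx, h1 x hx⟩

theorem Good.inf_le_closure {p : ℕ} {α : Type*} [Fintype α] [DecidableEq α]
    {H : Subgroup (Perm α)} (h : Good p H) :
    H ⊓ alternatingGroup α ≤ Subgroup.closure {x | x ∈ H ⊓ alternatingGroup α ∧ x ^ p = 1} := by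
  obtain ⟨S, hS, h1, h2⟩ := h
  set N := Subgroup.closure {x | x ∈ H ⊓ alternatingGroup α ∧ x ^ p = 1} with hN
  have hSH : ∀ x ∈ S, x ∈ H := fun x hx => hS ▸ Subgroup.subset_closure hx
  have hNA : N ≤ alternatingGroup α := by
    rw [hN, Subgroup.closure_le]
    exact fun x hx => hx.1.2
  have hconj : ∀ g ∈ H, ∀ x ∈ N, g * x * g⁻¹ ∈ N := by
    intro g hg x hx
    induction hx using Subgroup.closure_induction with
    | mem y hy =>
      refine Subgroup.subset_closure ⟨⟨H.mul_mem (H.mul_mem hg hy.1.1) (H.inv_mem hg), ?_⟩, ?_⟩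
      · exact (inferInstance : (alternatingGroup α).Normal).conj_mem y hy.1.2 g
      · rw [conj_pow, hy.2, mul_one, mul_inv_cancel]
    | one => simp
    | mul y z _ _ hy hz =>
      have : g * (y * z) * g⁻¹ = (g * y * g⁻¹) * (g * z * g⁻¹) := by group
      rw [this]
      exact N.mul_mem hy hz
    | inv y _ hy =>
      have : g * y⁻¹ * g⁻¹ = (g * y * g⁻¹)⁻¹ := by group
      rw [this]
      exact N.inv_mem hy
  have heven : ∀ x ∈ S, Perm.sign x = 1 → x ∈ N := fun x hx hs =>
    Subgroup.subset_closure ⟨⟨hSH x hx, Perm.mem_alternatingGroup.2 hs⟩, h1 x hx⟩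
  by_cases hex : ∃ t ∈ S, Perm.sign t = -1
  · obtain ⟨t, ht, hts⟩ := hex
    have hodd : ∀ x ∈ S, Perm.sign x = -1 → t * x ∈ N := by
      intro x hx hs
      refine Subgroup.subset_closure ⟨⟨H.mul_mem (hSH t ht) (hSH x hx), ?_⟩, ?_⟩
      · refine Perm.mem_alternatingGroup.2 ?_
        rw [map_mul, hts, hs]
        rfl
      · rw [(h2 t ht x hx hts hs).mul_pow, h1 t ht, h1 x hx, mul_one]
    have htt : t * t ∈ N := hodd t ht hts
    have key : ∀ x ∈ H, x ∈ N ∨ t * x ∈ N := by
      intro x hx
      rw [← hS] at hx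
      induction hx using Subgroup.closure_induction with
      | mem y hy =>
        rcases Int.units_eq_one_or (Perm.sign y) with hs | hs
        · exact Or.inl (heven y hy hs)
        · exact Or.inr (hodd y hy hs)
      | one => exact Or.inl N.one_mem
      | mul y z hy hz iy iz =>
        rw [hS] at hy hz
        rcases iy with iy | iy <;> rcases iz with iz | iz
        · exact Or.inl (N.mul_mem iy iz)
        · right
          have : t * (y * z) = (t * y * t⁻¹) * (t * z) := by group
          rw [this]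
          exact N.mul_mem (hconj t (hSH t ht) y iy) iz
        · right
          rw [← mul_assoc]
          exact N.mul_mem iy iz
        · left
          have : y * z = (t * t)⁻¹ * (t * (t * y) * t⁻¹) * (t * z) := by group
          rw [this]
          exact N.mul_mem (N.mul_mem (N.inv_mem htt) (hconj t (hSH t ht) _ iy)) iz
      | inv y hy iy =>
        rcases iy with iy | iy
        · exact Or.inl (N.inv_mem iy)
        · right
          have : t * y⁻¹ = (t * (t * y)⁻¹ * t⁻¹) * (t * t) := by group
          rw [this]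
          exact N.mul_mem (hconj t (hSH t ht) _ (N.inv_mem iy)) htt
    rintro x ⟨hx, hxA⟩
    rcases key x hx with h | h
    · exact h
    · have := Perm.mem_alternatingGroup.1 (hNA h)
      rw [map_mul, hts, Perm.mem_alternatingGroup.1 hxA] at this
      exact absurd this (by decide)
  · refine inf_le_left.trans ?_
    rw [← hS, Subgroup.closure_le]
    intro x hx
    rcases Int.units_eq_one_or (Perm.sign x) with hs | hs
    · exact heven x hx hs
    · exact absurd ⟨x, hx, hs⟩ hex

theorem sym_pow_mem (p : ℕ) [Fact p.Prime] {α : Type} [Fintype α] [DecidableEq α]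
    (P : Sylow p (Perm α)) (x : (P : Subgroup (Perm α))) :
    x ^ p ∈ commutator (P : Subgroup (Perm α)) := by
  refine pow_mem_commutator_of_range p (P : Subgroup (Perm α)).subtype
    (Subgroup.subtype_injective _) ?_ x
  rw [Subgroup.range_subtype]
  exact (good_sylow p P).le_closure

theorem alt_pow_mem (p : ℕ) [Fact p.Prime] {α : Type} [Fintype α] [DecidableEq α]
    (Q : Sylow p (alternatingGroup α)) (x : (Q : Subgroup (alternatingGroup α))) :
    x ^ p ∈ commutator (Q : Subgroup (alternatingGroup α)) := by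
  have hQ : IsPGroup p ((Q : Subgroup (alternatingGroup α)).map (alternatingGroup α).subtype) :=
    Q.isPGroup'.map _
  obtain ⟨P, hP⟩ := hQ.exists_le_sylow
  have hQP : (Q : Subgroup (alternatingGroup α)) =
      (P : Subgroup (Perm α)).comap (alternatingGroup α).subtype := by
    symm
    apply Q.is_maximal'
    · exact P.isPGroup'.comap_of_injective _ (Subgroup.subtype_injective _)
    · exact Subgroup.map_le_iff_le_comap.1 hP
  have hr : ((alternatingGroup α).subtype.comp (Q : Subgroup (alternatingGroup α)).subtype).range =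
      (P : Subgroup (Perm α)) ⊓ alternatingGroup α := by
    rw [MonoidHom.range_comp, Subgroup.range_subtype, hQP, Subgroup.map_comap_eq,
      Subgroup.range_subtype, inf_comm]
  refine pow_mem_commutator_of_range p
    ((alternatingGroup α).subtype.comp (Q : Subgroup (alternatingGroup α)).subtype)
    ((Subgroup.subtype_injective _).comp (Subgroup.subtype_injective _)) ?_ x
  rw [hr]
  exact (good_sylow p P).inf_le_closure

end GT.SymSyl
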