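import Cfsg.Agent.Lib.Grp.ZsigSmall

/-!
# Small Zsigmondy primes, second version
-/

set_option autoImplicit false

namespace GT

open Polynomial

theorem ninety_mul_pow_le (t : ℕ) (ht : 10 ≤ t) : 90 * t ^ 8 ≤ 10 ^ t := by
  induction t, ht using Nat.le_induction with
  | base => norm_num
  | succ t ht ih =>
    have h1 : (t + 1) ^ 2 * 2 ≤ 3 * t ^ 2 := by nlinarith
    have h2 : ((t + 1) ^ 2 * 2) ^ 4 ≤ (3 * t ^ 2) ^ 4 := Nat.pow_le_pow_left h1 4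
    have h3 : ((t + 1) ^ 2 * 2) ^ 4 = 16 * (t + 1) ^ 8 := by ring
    have h4 : (3 * t ^ 2) ^ 4 = 81 * t ^ 8 := by ring
    rw [pow_succ 10]
    omega

theorem small_of_ten_pow_totient_lt {n : ℕ} (hn : 3 ≤ n)
    (h : 10 ^ n.totient < n * (n + 1) ^ 2 * (2 * n + 1)) : n ∈ [3, 4, 6, 8, 10, 12] := by
  have h1 := (le_two_mul_totient_sq n).1
  have h2 : n.totient ≤ 9 := by
    by_contra h2
    have h3 := ninety_mul_pow_le n.totient (by omega)
    set s := n.totient ^ 2 with hs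
    have h4 : n.totient ^ 8 = s ^ 4 := by rw [hs]; ring
    have h5 : 1 ≤ s := Nat.one_le_pow _ _ (by omega)
    have h6 : n * (n + 1) ^ 2 * (2 * n + 1) ≤ (2 * s) * (3 * s) ^ 2 * (5 * s) :=
      Nat.mul_le_mul (Nat.mul_le_mul h1 (Nat.pow_le_pow_left (by omega) 2)) (by omega)
    have h7 : (2 * s) * (3 * s) ^ 2 * (5 * s) = 90 * s ^ 4 := by ring
    omega
  have h3 : n < 163 := by nlinarith
  have h4 : ∀ n ∈ Finset.range 163, 3 ≤ n ∧ 10 ^ n.totient < n * (n + 1) ^ 2 * (2 * n + 1) →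
      n ∈ [3, 4, 6, 8, 10, 12] := by decide +kernel
  exact h4 n (Finset.mem_range.2 h3) ⟨hn, h⟩

theorem eq_of_zsigmondy_small' {a n : ℕ} (ha : a.Prime) (h5 : 11 ≤ a) (hn : 3 ≤ n)
    (h : ∀ r : ℕ, r.Prime → r ∣ a ^ n - 1 → (∀ j, 0 < j → j < n → ¬ r ∣ a ^ j - 1) →
      (r = n + 1 ∧ ¬ r ^ 3 ∣ a ^ n - 1) ∨ (r = 2 * n + 1 ∧ ¬ r ^ 2 ∣ a ^ n - 1)) :
    n = 6 ∧ a = 17 := by
  set N := ((cyclotomic n ℤ).eval (a : ℤ)).natAbs with hN
  have hlt : (a - 1) ^ n.totient < N :=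
    sub_one_pow_totient_lt_natAbs_cyclotomic_eval (by omega) (by omega)
  have hc : ∀ j, ((a ^ j - 1 : ℕ) : ℤ) = (a : ℤ) ^ j - 1 := fun j => by
    rw [Nat.cast_sub (Nat.one_le_pow _ _ ha.pos)]; simp
  have hNd : N ∣ a ^ n - 1 := by
    rw [hN, ← Int.natCast_dvd_natCast, hc, Int.natAbs_dvd]
    simpa using eval_dvd (x := (a : ℤ)) (cyclotomic.dvd_X_pow_sub_one n ℤ)
  have hA : ∀ r : ℕ, r.Prime → r ∣ N →
      ∃ k, r ^ k ∣ n * (n + 1) ^ 2 * (2 * n + 1) ∧ ¬ r ^ (k + 1) ∣ N := by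
    intro r hr hrN
    by_cases hrn : r ∣ n
    · refine ⟨1, ((pow_one r).symm ▸ hrn.mul_right _).mul_right _, fun h2 =>
        not_sq_dvd_cyclotomic_eval (a := a) (by omega) hn hr hrn ?_⟩
      exact_mod_cast Int.natCast_dvd.2 h2
    obtain ⟨k, m, h1, h2, h3, h4⟩ := zsig_aux (a := a) (n := n) (by omega) hr
      (Int.natCast_dvd.2 hrN)
    rcases k with _ | k
    · rw [pow_zero, one_mul] at h1
      subst h1
      rcases h r hr (hrN.trans hNd) fun j hj0 hjn hj => by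
        have := Nat.le_of_dvd hj0 ((h4 j).1 (by rw [← hc]; exact_mod_cast hj))
        omega with ⟨rfl, h7⟩ | ⟨rfl, h7⟩
      · exact ⟨2, (dvd_mul_left _ _).mul_right _, fun h8 => h7 (h8.trans hNd)⟩
      · exact ⟨1, (pow_one (2 * n + 1)).symm ▸ dvd_mul_left _ _, fun h8 => h7 (h8.trans hNd)⟩
    · exact absurd (h1 ▸ (dvd_pow_self r (by omega)).mul_right m) hrn
  have hN0 : N ≠ 0 := by omega
  have hd : N ∣ n * (n + 1) ^ 2 * (2 * n + 1) := by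
    rw [← Nat.factorization_prime_le_iff_dvd hN0 (by positivity)]
    intro r hr
    by_cases hrN : r ∣ N
    · obtain ⟨k, h1, h2⟩ := hA r hr hrN
      have h1 := (hr.pow_dvd_iff_le_factorization (by positivity)).1 h1
      have h2 := mt (hr.pow_dvd_iff_le_factorization hN0).2 h2
      omega
    · rw [Nat.factorization_eq_zero_of_not_dvd hrN]
      exact Nat.zero_le _
  have hle := hlt.trans_le (Nat.le_of_dvd (by positivity) hd)
  have hmem := small_of_ten_pow_totient_lt hn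
    (lt_of_le_of_lt (Nat.pow_le_pow_left (by omega) _) hle)
  have ha62 : a < 63 := by
    by_contra h1
    have h2 := (Nat.pow_le_pow_left (show 62 ≤ a - 1 by omega) _).trans_lt hle
    revert h2
    clear * - hmem
    revert n
    decide +kernel
  have key : ∀ n ∈ [3, 4, 6, 8, 10, 12], ∀ a ∈ List.range 63, 11 ≤ a → a.Prime →
      (a - 1) ^ n.totient < n * (n + 1) ^ 2 * (2 * n + 1) → (n = 6 ∧ a = 17) ∨
      ∃ r ∈ [7, 13, 17, 19, 29, 31, 37, 53, 61, 103, 127, 139, 157, 163, 181, 271, 307, 421, 523,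
        547, 919, 1117, 2411, 7321, 13421, 28393], r ∣ a ^ n - 1 ∧
        (∀ j < n, 0 < j → ¬ r ∣ a ^ j - 1) ∧ (r ≠ n + 1 ∨ r ^ 3 ∣ a ^ n - 1) ∧
        (r ≠ 2 * n + 1 ∨ r ^ 2 ∣ a ^ n - 1) := by decide +kernel
  rcases key n hmem a (List.mem_range.2 ha62) h5 ha hle with h1 | ⟨r, h1, h2, h3, h4⟩
  · exact h1
  have hr : r.Prime := by
    simp only [List.mem_cons, List.not_mem_nil, or_false] at h1
    rcases h1 with rfl | rfl | rfl | rfl | rfl | rfl | rfl | rfl | rfl | rfl | rfl | rfl | rfl |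
      rfl | rfl | rfl | rfl | rfl | rfl | rfl | rfl | rfl | rfl | rfl | rfl | rfl <;> norm_num
  have := h r hr h2 fun j hj0 hj => h3 j hj hj0
  tauto

theorem rank_three_enum {p t u v M : ℕ} (hp : p.Prime) (h23 : 23 ≤ p) (ht : t ∣ p - 1)
    (h10 : 10 ≤ t) (h13 : (p - 1) / t % 2 = 1 → 13 ≤ t) (huv : u + v = p ^ 2 + 1)
    (hM : M ∣ 217728000) (hM' : M ∣ (p ^ 2 - 1) * (p ^ 3 - 1) * (p ^ 4 - 1))
    (hu : t * (p + 1) * u ∣ M) (hv : t * (p + 1) * v ∣ M) : False := by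
  have key : ∀ p ∈ (List.range 353).filter fun p => 23 ≤ p ∧ p + 1 ∣ 217728000 ∧ p.Prime,
      ∀ t ∈ (List.range p).filter fun t => 10 ≤ t ∧ t ∣ p - 1 ∧ ((p - 1) / t % 2 = 1 → 13 ≤ t),
      ∀ a ∈ List.range 11, ∀ b ∈ List.range 6, ∀ c ∈ List.range 4, ∀ d ∈ List.range 2,
      t * (p + 1) * (2 ^ a * 3 ^ b * 5 ^ c * 7 ^ d) ∣
        Nat.gcd 217728000 ((p ^ 2 - 1) * (p ^ 3 - 1) * (p ^ 4 - 1)) →
      ¬ t * (p + 1) * (p ^ 2 + 1 - 2 ^ a * 3 ^ b * 5 ^ c * 7 ^ d) ∣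
        Nat.gcd 217728000 ((p ^ 2 - 1) * (p ^ 3 - 1) * (p ^ 4 - 1)) := by decide +kernel
  have hG := Nat.dvd_gcd hM hM'
  have h1 : p < 353 := by
    by_contra h
    have h2 := Nat.le_of_dvd (by norm_num) (hu.trans hM)
    have h3 := Nat.le_of_dvd (by norm_num) (hv.trans hM)
    have h4 : 10 * 354 * (u + v) ≤ t * (p + 1) * (u + v) :=
      Nat.mul_le_mul_right _ (Nat.mul_le_mul h10 (by omega))
    have h5 : 353 ^ 2 ≤ p ^ 2 := Nat.pow_le_pow_left (by omega) 2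
    rw [mul_add (t * _)] at h4
    omega
  have h2 : u ∣ 2 ^ 10 * 3 ^ 5 * 5 ^ 3 * 7 ^ 1 := ((dvd_mul_left _ _).trans hu).trans hM
  obtain ⟨_, _, h3, hd, rfl⟩ := (Nat.dvd_mul).1 h2
  obtain ⟨_, _, h4, hc, rfl⟩ := (Nat.dvd_mul).1 h3
  obtain ⟨_, _, ha, hb, rfl⟩ := (Nat.dvd_mul).1 h4
  obtain ⟨a, ha, rfl⟩ := (Nat.dvd_prime_pow (by norm_num)).1 ha
  obtain ⟨b, hb, rfl⟩ := (Nat.dvd_prime_pow (by norm_num)).1 hb
  obtain ⟨c, hc, rfl⟩ := (Nat.dvd_prime_pow (by norm_num)).1 hc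
  obtain ⟨d, hd, rfl⟩ := (Nat.dvd_prime_pow (by norm_num)).1 hd
  refine key p ?_ t ?_ a (by simp; omega) b (by simp; omega) c (by simp; omega) d (by simp; omega)
    (hu.trans hG) ?_
  · exact List.mem_filter.2 ⟨List.mem_range.2 h1, decide_eq_true
      ⟨h23, (((dvd_mul_left _ _).mul_right _).trans hu).trans hM, hp⟩⟩
  · have := Nat.le_of_dvd (by omega) ht
    exact List.mem_filter.2 ⟨List.mem_range.2 (by omega), decide_eq_true ⟨h10, ht, h13⟩⟩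
  · rw [← huv, Nat.add_sub_cancel_left]
    exact hv.trans hG

end GT
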